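import Mathlib

/-! Abstract counting for groups acting on a set with each nonidentity element fixing one or two points. -/

set_option autoImplicit false
set_option linter.unusedSimpArgs false
set_option linter.unusedVariables false
set_option linter.unusedSectionVars false

namespace CfsgLib.Dickson

open MulAction

/-- Axioms satisfied by subgroups of `PSL₂` acting on the projective line over an algebraically closed field. -/
structure IsD (L : Type*) [Field L] (p : ℕ) (G X : Type*) [Group G] [MulAction G X] : Prop where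
  prime : p.Prime
  fix1 : ∀ g : G, g ≠ 1 → g ^ p = 1 → ∃ x : X, ∀ y, g • y = y ↔ y = x
  fix2 : ∀ g : G, g ≠ 1 → g ^ p ≠ 1 → ∃ x y : X, x ≠ y ∧ ∀ z, g • z = z ↔ z = x ∨ z = y
  chi : ∀ x : X, ∃ φ : stabilizer G x →* Lˣ, ∀ g, φ g = 1 ↔ (g : G) ^ p = 1
  comm : ∀ (x : X) (g g' : G), g • x = x → g' • x = x → g ^ p = 1 → g' ^ p = 1 → g * g' = g' * g

variable {G X L : Type*} [Group G] [MulAction G X] [Field L] {p : ℕ}

/-- Restriction to subgroups. -/
theorem IsD.sub (h : IsD L p G X) (H : Subgroup G) : IsD L p H X where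
  prime := h.prime
  fix1 := fun g hg hg' => h.fix1 g.1 (fun e => hg (Subtype.ext e)) (congrArg Subtype.val hg')
  fix2 := fun g hg hg' => h.fix2 g.1 (fun e => hg (Subtype.ext e)) (fun e => hg' (Subtype.ext e))
  chi := fun x => by
    obtain ⟨φ, hφ⟩ := h.chi x
    let i : stabilizer H x →* stabilizer G x :=
      { toFun := fun g => ⟨g.1.1, g.2⟩
        map_one' := rfl
        map_mul' := fun _ _ => rfl }
    refine ⟨φ.comp i, fun g => ?_⟩
    have e := hφ (i g)
    constructor
    · intro h1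
      exact Subtype.ext (e.1 h1)
    · intro h1
      exact e.2 (congrArg Subtype.val h1)
  comm := fun x g g' hg hg' h1 h2 => Subtype.ext (h.comm x g.1 g'.1 hg hg' (congrArg Subtype.val h1) (congrArg Subtype.val h2))

/-- The `p`-part of a point stabiliser. -/
def Qs (h : IsD L p G X) (x : X) : Subgroup G where
  carrier := {g | g • x = x ∧ g ^ p = 1}
  one_mem' := ⟨one_smul _ _, one_pow _⟩
  mul_mem' := by
    rintro a b ⟨ha, ha'⟩ ⟨hb, hb'⟩
    refine ⟨by rw [mul_smul, hb, ha], ?_⟩
    rw [(show Commute a b from h.comm x a b ha hb ha' hb').mul_pow, ha', hb', one_mul]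
  inv_mem' := by
    rintro a ⟨ha, ha'⟩
    exact ⟨by rw [inv_smul_eq_iff, ha], by rw [inv_pow, ha', inv_one]⟩

theorem mem_Qs (h : IsD L p G X) {x : X} {g : G} : g ∈ Qs h x ↔ g • x = x ∧ g ^ p = 1 := Iff.rfl

section finite

variable [Finite G] (h : IsD L p G X)
include h

theorem IsD.not_dvd_order (g : G) (h1 : g ≠ 1) (hp : g ^ p ≠ 1) : ¬ p ∣ orderOf g := by
  intro hd
  obtain ⟨n, hn⟩ := hd
  have hpos : 0 < orderOf g := orderOf_pos g
  have hn0 : 0 < n := by
    rcases Nat.eq_zero_or_pos n with rfl | h0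
    · rw [mul_zero] at hn; omega
    · exact h0
  have hlt : n < orderOf g := by
    rw [hn]
    have := h.prime.two_le
    nlinarith
  have hg' : g ^ n ≠ 1 := pow_ne_one_of_lt_orderOf hn0.ne' hlt
  have hg'' : (g ^ n) ^ p = 1 := by
    rw [← pow_mul, mul_comm, ← hn, pow_orderOf_eq_one]
  obtain ⟨x, hx⟩ := h.fix1 _ hg' hg''
  obtain ⟨a, b, hab, hz⟩ := h.fix2 g h1 hp
  have hfa : g • a = a := (hz a).2 (Or.inl rfl)
  have hfb : g • b = b := (hz b).2 (Or.inr rfl)
  have hpw : ∀ y : X, g • y = y → (g ^ n) • y = y := by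
    intro y hy
    have h2 : g ∈ stabilizer G y := hy
    exact (stabilizer G y).pow_mem h2 n
  exact hab (((hx a).1 (hpw a hfa)).trans ((hx b).1 (hpw b hfb)).symm)

theorem IsD.pow_p (g : G) (k : ℕ) (hg : g ^ (p ^ k) = 1) : g ^ p = 1 := by
  by_contra hp
  have h1 : g ≠ 1 := by
    rintro rfl
    exact hp (one_pow _)
  have hd := orderOf_dvd_of_pow_eq_one hg
  obtain ⟨j, hj, hj'⟩ := (Nat.dvd_prime_pow h.prime).1 hd
  rcases Nat.eq_zero_or_pos j with rfl | hj0
  · rw [pow_zero, orderOf_eq_one_iff] at hj'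
    exact h1 hj'
  · apply h.not_dvd_order g h1 hp
    rw [hj']
    exact dvd_pow_self p hj0.ne'

theorem IsD.isPGroup_Qs (x : X) : IsPGroup p (Qs h x) := by
  intro g
  refine ⟨1, ?_⟩
  apply Subtype.ext
  simpa using g.2.2

/-- Any nontrivial `p`-subgroup lies in some `Qs`. -/
theorem IsD.exists_Qs (R : Subgroup G) (hR : IsPGroup p R) (hne : R ≠ ⊥) : ∃ y : X, R ≤ Qs h y := by
  haveI : Fact p.Prime := ⟨h.prime⟩
  haveI : Nontrivial R := (Subgroup.nontrivial_iff_ne_bot R).2 hne
  have := hR.center_nontrivial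
  obtain ⟨z, hz⟩ := exists_ne (1 : Subgroup.center R)
  have hz1 : ((z : R) : G) ≠ 1 := fun e => hz (Subtype.ext (Subtype.ext e))
  have hpw : ∀ r : R, (r : G) ^ p = 1 := by
    intro r
    obtain ⟨k, hk⟩ := hR r
    exact h.pow_p (r : G) k (by simpa using congrArg Subtype.val hk)
  obtain ⟨y, hy⟩ := h.fix1 _ hz1 (hpw z)
  refine ⟨y, fun r hr => ⟨?_, hpw ⟨r, hr⟩⟩⟩
  rw [← hy (r • y)]
  have hc := Subgroup.mem_center_iff.1 z.2 ⟨r, hr⟩
  have hc' : r * ((z : R) : G) = ((z : R) : G) * r := congrArg Subtype.val hc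
  rw [← mul_smul, ← hc', mul_smul, (hy y).2 rfl]

theorem IsD.unique_fix {x y : X} {g : G} (hg : g ∈ Qs h x) (h1 : g ≠ 1) (hy : g • y = y) : y = x := by
  obtain ⟨z, hz⟩ := h.fix1 g h1 hg.2
  rw [(hz y).1 hy, ← (hz x).1 hg.1]

theorem IsD.Qs_le {x y : X} (hne : Qs h x ≠ ⊥) (hle : Qs h x ≤ Qs h y) : y = x := by
  obtain ⟨g, hg, hg1⟩ := (Subgroup.bot_or_exists_ne_one (Qs h x)).resolve_left hne
  exact h.unique_fix hg hg1 (hle hg).1

/-- Nontrivial `Qs` are the Sylow subgroups. -/
def IsD.sylowQ (x : X) (hx : Qs h x ≠ ⊥) : Sylow p G where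
  toSubgroup := Qs h x
  isPGroup' := h.isPGroup_Qs x
  is_maximal' := by
    intro R hR hle
    have hne : R ≠ ⊥ := by
      rintro rfl
      exact hx (le_bot_iff.1 hle)
    obtain ⟨y, hy⟩ := h.exists_Qs R hR hne
    have hyx := h.Qs_le hx (hle.trans hy)
    rw [hyx] at hy
    exact le_antisymm hy hle

theorem IsD.coe_sylowQ (x : X) (hx : Qs h x ≠ ⊥) : (h.sylowQ x hx : Subgroup G) = Qs h x := rfl

/-- Conjugation of `Qs`. -/
theorem IsD.mem_Qs_smul (a g : G) (x : X) : a * g * a⁻¹ ∈ Qs h (a • x) ↔ g ∈ Qs h x := by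
  rw [mem_Qs, mem_Qs]
  constructor
  · rintro ⟨h1, h2⟩
    constructor
    · have : a⁻¹ • ((a * g * a⁻¹) • (a • x)) = a⁻¹ • (a • x) := by rw [h1]
      simpa [mul_smul] using this
    · have h3 : (a * g * a⁻¹) ^ p = a * g ^ p * a⁻¹ := conj_pow
      rw [h3] at h2
      have : g ^ p = a⁻¹ * (a * g ^ p * a⁻¹) * a := by group
      rw [this, h2]
      group
  · rintro ⟨h1, h2⟩
    constructor
    · simp [mul_smul, h1]
    · have h3 : (a * g * a⁻¹) ^ p = a * g ^ p * a⁻¹ := conj_pow
      rw [h3, h2]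
      group

theorem IsD.card_Qs_smul (a : G) (x : X) : Nat.card (Qs h (a • x)) = Nat.card (Qs h x) := by
  refine Nat.card_congr (Equiv.ofBijective (fun g => ⟨a * g.1 * a⁻¹, (h.mem_Qs_smul a g.1 x).2 g.2⟩) ⟨?_, ?_⟩).symm
  · intro g g' e
    have e' : a * g.1 * a⁻¹ = a * g'.1 * a⁻¹ := congrArg Subtype.val e
    apply Subtype.ext
    simpa using e'
  · rintro ⟨g, hg⟩
    refine ⟨⟨a⁻¹ * g * a, (h.mem_Qs_smul a _ x).1 ?_⟩, ?_⟩
    · have : a * (a⁻¹ * g * a) * a⁻¹ = g := by group
      rw [this]; exact hg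
    · apply Subtype.ext
      show a * (a⁻¹ * g * a) * a⁻¹ = g
      group

theorem IsD.card_stab_smul (a : G) (x : X) : Nat.card (stabilizer G (a • x)) = Nat.card (stabilizer G x) := by
  rw [MulAction.stabilizer_smul_eq_stabilizer_map_conj]
  exact Nat.card_congr (Subgroup.equivMapOfInjective _ _ (MulAut.conj a).injective).symm.toEquiv

/-- Points with nontrivial `Qs` are conjugate. -/
theorem IsD.Qs_conj {x y : X} (hx : Qs h x ≠ ⊥) (hy : Qs h y ≠ ⊥) : ∃ a : G, a • x = y := by
  haveI : Fact p.Prime := ⟨h.prime⟩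
  obtain ⟨a, ha⟩ := MulAction.exists_smul_eq G (h.sylowQ x hx) (h.sylowQ y hy)
  refine ⟨a, ?_⟩
  obtain ⟨g, hg, hg1⟩ := (Subgroup.bot_or_exists_ne_one (Qs h x)).resolve_left hx
  have h1 : a * g * a⁻¹ ∈ Qs h y := by
    have e : ((a • h.sylowQ x hx : Sylow p G) : Subgroup G) = Qs h y := by rw [ha]; rfl
    rw [← e, Sylow.coe_subgroup_smul]
    exact Subgroup.smul_mem_pointwise_smul g (MulAut.conj a) _ hg
  have h2 : a * g * a⁻¹ ∈ Qs h (a • x) := (h.mem_Qs_smul a g x).2 hg
  have h3 : a * g * a⁻¹ ≠ 1 := by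
    intro e
    apply hg1
    have : g = a⁻¹ * (a * g * a⁻¹) * a := by group
    rw [this, e]
    group
  exact h.unique_fix h1 h3 h2.1

/-- The points with nontrivial stabiliser. -/
def Yset (G X : Type*) [Group G] [MulAction G X] : Set X := {x | ∃ g : G, g ≠ 1 ∧ g • x = x}

theorem IsD.fix_finite (g : G) (h1 : g ≠ 1) : {x : X | g • x = x}.Finite := by
  by_cases hp : g ^ p = 1
  · obtain ⟨x, hx⟩ := h.fix1 g h1 hp
    apply (Set.finite_singleton x).subset
    intro y hy
    exact (hx y).1 hy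
  · obtain ⟨a, b, -, hz⟩ := h.fix2 g h1 hp
    apply (Set.toFinite {a, b}).subset
    intro y hy
    exact (hz y).1 hy

theorem IsD.Yset_finite : (Yset G X).Finite := by
  have : Yset G X = ⋃ g : {g : G // g ≠ 1}, {x : X | g.1 • x = x} := by
    ext x
    simp [Yset]
  rw [this]
  exact Set.finite_iUnion (fun g => h.fix_finite g.1 g.2)

open Classical in
/-- Points fixed by a nontrivial element: the count. -/
theorem IsD.card_fix (g : G) (h1 : g ≠ 1) (t : Finset X) (ht : ∀ x, g • x = x → x ∈ t) [DecidablePred fun x : X => g • x = x] :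
    (t.filter (fun x => g • x = x)).card = if g ^ p = 1 then 1 else 2 := by
  classical
  split_ifs with hp
  · obtain ⟨x, hx⟩ := h.fix1 g h1 hp
    have : t.filter (fun x => g • x = x) = {x} := by
      ext y
      simp only [Finset.mem_filter, Finset.mem_singleton]
      constructor
      · rintro ⟨-, h2⟩
        exact (hx y).1 h2
      · rintro rfl
        exact ⟨ht _ ((hx y).2 rfl), (hx y).2 rfl⟩
    rw [this, Finset.card_singleton]
  · obtain ⟨a, b, hab, hz⟩ := h.fix2 g h1 hp
    have : t.filter (fun x => g • x = x) = {a, b} := by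
      ext y
      simp only [Finset.mem_filter, Finset.mem_insert, Finset.mem_singleton]
      constructor
      · rintro ⟨-, h2⟩
        exact (hz y).1 h2
      · intro h3
        exact ⟨ht _ ((hz y).2 h3), (hz y).2 h3⟩
    rw [this, Finset.card_pair hab]

/-- The fundamental double counting. -/
theorem IsD.count (t : Finset X) (ht : ∀ x, x ∈ t ↔ x ∈ Yset G X) :
    2 * (Nat.card G - 1) = ∑ x ∈ t, ((Nat.card (stabilizer G x) - 1) + (Nat.card (Qs h x) - 1)) := by
  classical
  haveI : Fintype G := Fintype.ofFinite G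
  let s : Finset G := Finset.univ.filter (fun g => g ≠ 1)
  let s' : Finset G := s.filter (fun g => g ^ p = 1)
  have hs : s.card = Nat.card G - 1 := by
    have : s = Finset.univ.erase 1 := by
      ext g; simp [s]
    rw [this, Finset.card_erase_of_mem (Finset.mem_univ _), Finset.card_univ, Nat.card_eq_fintype_card]
  have h1 := Finset.sum_card_bipartiteAbove_eq_sum_card_bipartiteBelow (s := s) (t := t) (fun g x => g • x = x)
  have h2 := Finset.sum_card_bipartiteAbove_eq_sum_card_bipartiteBelow (s := s') (t := t) (fun g x => g • x = x)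
  have hm : ∀ (g : G), g ∈ s → ∀ x, g • x = x → x ∈ t := by
    intro g hg x hx
    rw [ht]
    exact ⟨g, (Finset.mem_filter.1 hg).2, hx⟩
  have e1 : ∑ g ∈ s, (Finset.bipartiteAbove (fun g x => g • x = x) t g).card = ∑ g ∈ s, if g ^ p = 1 then 1 else 2 := by
    apply Finset.sum_congr rfl
    intro g hg
    exact h.card_fix g (Finset.mem_filter.1 hg).2 t (hm g hg)
  have e2 : ∑ g ∈ s', (Finset.bipartiteAbove (fun g x => g • x = x) t g).card = s'.card := by
    rw [Finset.card_eq_sum_ones]
    apply Finset.sum_congr rfl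
    intro g hg
    have hg' := Finset.mem_filter.1 hg
    rw [show (Finset.bipartiteAbove (fun g x => g • x = x) t g) = t.filter (fun x => g • x = x) from rfl, h.card_fix g (Finset.mem_filter.1 hg'.1).2 t (hm g hg'.1), if_pos hg'.2]
  have e3 : ∑ g ∈ s, (if g ^ p = 1 then 1 else 2) + s'.card = 2 * s.card := by
    rw [Finset.card_filter, ← Finset.sum_add_distrib, Finset.card_eq_sum_ones s, Finset.mul_sum]
    apply Finset.sum_congr rfl
    intro g _
    split_ifs <;> rfl
  have e4 : ∀ x : X, (Finset.bipartiteBelow (fun (g : G) (x : X) => g • x = x) s x).card = Nat.card (stabilizer G x) - 1 := by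
    intro x
    have : (Finset.bipartiteBelow (fun (g : G) (x : X) => g • x = x) s x) = (Finset.univ.filter (fun g : G => g • x = x)).erase 1 := by
      ext g
      simp [Finset.bipartiteBelow, s, and_comm]
    rw [this, Finset.card_erase_of_mem (by simp)]
    congr 1
    haveI : Fintype (stabilizer G x) := Fintype.ofFinite _
    rw [Nat.card_eq_fintype_card]
    exact (Fintype.card_of_subtype _ (by simp [MulAction.mem_stabilizer_iff])).symm
  have e5 : ∀ x : X, (Finset.bipartiteBelow (fun (g : G) (x : X) => g • x = x) s' x).card = Nat.card (Qs h x) - 1 := by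
    intro x
    have : (Finset.bipartiteBelow (fun (g : G) (x : X) => g • x = x) s' x) = (Finset.univ.filter (fun g : G => g ∈ Qs h x)).erase 1 := by
      ext g
      simp [Finset.bipartiteBelow, s, s', mem_Qs]
      tauto
    rw [this, Finset.card_erase_of_mem (by simp [Subgroup.one_mem])]
    congr 1
    haveI : Fintype (Qs h x) := Fintype.ofFinite _
    rw [Nat.card_eq_fintype_card]
    exact (Fintype.card_of_subtype _ (by simp)).symm
  rw [e1] at h1
  rw [e2] at h2
  rw [Finset.sum_add_distrib, ← hs, ← e3]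
  simp only [← e4, ← e5]
  rw [← h1, ← h2]

/-- Nonemptiness of stabilisers' counts. -/
theorem IsD.one_le_card_stab (x : X) : 1 ≤ Nat.card (stabilizer G x) := Nat.card_pos
theorem IsD.one_le_card_Qs (x : X) : 1 ≤ Nat.card (Qs h x) := Nat.card_pos

/-- The orbit sum. -/
theorem IsD.exists_reps : ∃ (r : ℕ) (x : Fin r → X),
    (∀ i, x i ∈ Yset G X) ∧ (∀ i j (a : G), a • x i = x j → i = j) ∧ (∀ y ∈ Yset G X, ∃ i, ∃ a : G, a • x i = y) ∧
    ∑ i, (((Nat.card (stabilizer G (x i)) : ℚ) + (Nat.card (Qs h (x i)) : ℚ) - 2) / (Nat.card (stabilizer G (x i)) : ℚ)) = 2 - 2 / (Nat.card G : ℚ) := by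
  classical
  have hY := h.Yset_finite
  let YS : SubMulAction G X :=
    { carrier := Yset G X
      smul_mem' := by
        rintro a x ⟨g, hg, hgx⟩
        refine ⟨a * g * a⁻¹, ?_, ?_⟩
        · intro e
          apply hg
          have : g = a⁻¹ * (a * g * a⁻¹) * a := by group
          rw [this, e]
          group
        · simp [mul_smul, hgx] }
  haveI : Finite YS := hY
  haveI : Fintype YS := Fintype.ofFinite _
  haveI : Fintype (orbitRel.Quotient G YS) := Fintype.ofFinite _
  let t : Finset X := hY.toFinset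
  have ht : ∀ x, x ∈ t ↔ x ∈ Yset G X := fun x => by simp [t]
  have hcount := h.count t ht
  let f : X → ℚ := fun x => (Nat.card (stabilizer G x) : ℚ) + (Nat.card (Qs h x) : ℚ) - 2
  have hf : ∀ (a : G) x, f (a • x) = f x := by
    intro a x
    simp only [f]
    rw [h.card_stab_smul, h.card_Qs_smul]
  have hG : (0 : ℚ) < Nat.card G := by exact_mod_cast Nat.card_pos
  have hcountQ : (2 : ℚ) * ((Nat.card G : ℚ) - 1) = ∑ x ∈ t, f x := by
    have h1 : 1 ≤ Nat.card G := Nat.card_pos
    have := congrArg (Nat.cast : ℕ → ℚ) hcount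
    rw [Nat.cast_mul, Nat.cast_sum, Nat.cast_sub h1] at this
    push_cast at this
    rw [this]
    apply Finset.sum_congr rfl
    intro x _
    rw [Nat.cast_sub (h.one_le_card_stab x), Nat.cast_sub (h.one_le_card_Qs x)]
    simp only [f, Nat.cast_one]
    ring
  have hsub : ∑ x ∈ t, f x = ∑ y : YS, f (y : X) :=
    Finset.sum_subtype t (fun x => ht x) f
  let E := MulAction.selfEquivSigmaOrbits G YS
  have horb : ∑ y : YS, f (y : X) = ∑ ω : orbitRel.Quotient G YS, ((Nat.card G : ℚ) / (Nat.card (stabilizer G (ω.out : X)) : ℚ)) * f (ω.out : X) := by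
    rw [← Equiv.sum_comp E.symm, Fintype.sum_sigma]
    apply Finset.sum_congr rfl
    intro ω _
    have h1 : ∀ z : orbit G ω.out, f ((E.symm ⟨ω, z⟩ : YS) : X) = f (ω.out : X) := by
      intro z
      obtain ⟨z, a, rfl⟩ := z
      have : ((E.symm ⟨ω, ⟨a • ω.out, ⟨a, rfl⟩⟩⟩ : YS) : X) = a • (ω.out : X) := rfl
      rw [this, hf]
    rw [Finset.sum_congr rfl (fun z _ => h1 z), Finset.sum_const, Finset.card_univ, nsmul_eq_mul]
    congr 1
    have h2 : stabilizer G ω.out = stabilizer G (ω.out : X) := by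
      ext g
      rw [mem_stabilizer_iff, mem_stabilizer_iff, Subtype.ext_iff]
      rfl
    have h3 := Subgroup.card_mul_index (stabilizer G (ω.out : X))
    have h4 : (stabilizer G (ω.out : X)).index = Fintype.card (orbit G ω.out) := by
      rw [← h2, index_stabilizer, Set.ncard_eq_toFinset_card', Fintype.card_eq_nat_card, Set.toFinset_card, Fintype.card_eq_nat_card]
    rw [h4] at h3
    have h5 : (0 : ℚ) < Nat.card (stabilizer G (ω.out : X)) := by exact_mod_cast Nat.card_pos
    rw [eq_div_iff h5.ne', mul_comm]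
    exact_mod_cast h3
  let e := Fintype.equivFin (orbitRel.Quotient G YS)
  refine ⟨_, fun i => ((e.symm i).out : X), ?_, ?_, ?_, ?_⟩
  · intro i
    exact ((e.symm i).out).2
  · intro i j a hij
    apply e.symm.injective
    have h1 : a • (e.symm i).out = (e.symm j).out := Subtype.ext hij
    rw [← Quotient.out_eq' (e.symm i), ← Quotient.out_eq' (e.symm j)]
    apply Quotient.sound'
    exact ⟨a⁻¹, by
      show a⁻¹ • (e.symm j).out = (e.symm i).out
      rw [← h1]
      simp⟩
  · intro y hy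
    let y' : YS := ⟨y, hy⟩
    let ω : orbitRel.Quotient G YS := Quotient.mk'' y'
    have h1 : (orbitRel G YS).r y' ω.out := by
      apply Quotient.exact'
      rw [Quotient.out_eq']
    obtain ⟨a, ha⟩ := h1
    refine ⟨e ω, a, ?_⟩
    have h2 : a • (ω.out : YS) = y' := ha
    show a • ((e.symm (e ω)).out : X) = y
    rw [Equiv.symm_apply_apply]
    exact congrArg Subtype.val h2
  · have h1 : ∑ ω : orbitRel.Quotient G YS, ((Nat.card G : ℚ) / (Nat.card (stabilizer G (ω.out : X)) : ℚ)) * f (ω.out : X) = (Nat.card G : ℚ) * ∑ i, (f (((e.symm i).out : YS) : X) / (Nat.card (stabilizer G (((e.symm i).out : YS) : X)) : ℚ)) := by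
      rw [← Equiv.sum_comp e.symm, Finset.mul_sum]
      apply Finset.sum_congr rfl
      intro i _
      ring
    rw [hsub, horb, h1] at hcountQ
    have h2 : ∑ i, (f (((e.symm i).out : YS) : X) / (Nat.card (stabilizer G (((e.symm i).out : YS) : X)) : ℚ)) = 2 * ((Nat.card G : ℚ) - 1) / (Nat.card G : ℚ) := by
      rw [hcountQ]
      field_simp
    simp only [f] at h2
    rw [h2]
    field_simp

end finite

end CfsgLib.Dickson
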