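import Cfsg.Agent.Lib.ClassGeo.SmallIso
import Cfsg.Agent.Lib.Lead.Dihedral
import Cfsg.Agent.S0494

/-! Recognising `A₄`, `S₄`, `A₅` and dihedral groups. -/

set_option autoImplicit false
set_option linter.unusedSimpArgs false
set_option linter.unusedVariables false
set_option linter.unusedSectionVars false

namespace CfsgLib.Dickson

open Equiv

variable {G : Type*} [Group G]

/-- A Sylow subgroup of prime order. -/
theorem card_sylow_prime [Finite G] (r m : ℕ) [Fact r.Prime] (hG : Nat.card G = r * m) (hrm : ¬ r ∣ m) (P : Sylow r G) :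
    Nat.card P = r := by
  have hr : r.Prime := Fact.out
  have h1 : r ^ 1 ∣ Nat.card P := P.pow_dvd_card_of_pow_dvd_card (by rw [pow_one, hG]; exact dvd_mul_right _ _)
  obtain ⟨j, hj⟩ := IsPGroup.iff_card.1 P.isPGroup'
  have hj' : Nat.card (P : Subgroup G) = r ^ j := hj
  have hd : Nat.card (P : Subgroup G) ∣ Nat.card G := Subgroup.card_subgroup_dvd_card _
  rw [hj', hG] at hd
  rcases j with _ | _ | j
  · change r ^ 1 ∣ Nat.card (P : Subgroup G) at h1
    rw [hj'] at h1
    simp at h1
    exact absurd h1 hr.one_lt.ne'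
  · change Nat.card (P : Subgroup G) = r
    rw [hj']; simp
  · exfalso
    apply hrm
    have : r * r ∣ r * m := by
      refine dvd_trans ?_ hd
      exact ⟨r ^ j, by ring⟩
    exact Nat.dvd_of_mul_dvd_mul_left hr.pos this

/-- A subgroup of prime order is generated by any nontrivial element. -/
theorem eq_zpowers_of_prime [Finite G] (P : Subgroup G) (hP : (Nat.card P).Prime) {g : G} (hg : g ∈ P) (h1 : g ≠ 1) :
    P = Subgroup.zpowers g := by
  have hle : Subgroup.zpowers g ≤ P := (Subgroup.zpowers_le).2 hg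
  have hd : Nat.card (Subgroup.zpowers g) ∣ Nat.card P := Subgroup.card_dvd_of_le hle
  rcases (Nat.dvd_prime hP).1 hd with h | h
  · exfalso
    apply h1
    have := Subgroup.eq_bot_of_card_eq _ h
    simpa using this
  · exact (Subgroup.eq_of_le_of_card_ge hle (by rw [h])).symm

theorem exists_ne_one_of_prime (P : Subgroup G) (hP : (Nat.card P).Prime) : ∃ g ∈ P, g ≠ 1 := by
  rcases Subgroup.bot_or_exists_ne_one P with h | h
  · rw [h] at hP
    simp at hP
    exact absurd hP Nat.not_prime_one
  · exact h

/-- The number of Sylow subgroups and the normalizer. -/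
theorem sylow_count [Finite G] (r m c : ℕ) [Fact r.Prime] (hG : Nat.card G = r * m) (hrm : ¬ r ∣ m) (P : Sylow r G)
    (hc : Nat.card (Sylow r G) = c) (hcpos : 0 < c) : c * Nat.card (Subgroup.normalizer ((P : Subgroup G) : Set G)) = r * m := by
  have h1 : Nat.card (Sylow r G) = (Subgroup.normalizer ((P : Subgroup G) : Set G)).index := P.card_eq_index_normalizer
  rw [← hc, h1, mul_comm, Subgroup.card_mul_index, hG]

/-- The permutation representation on Sylow subgroups with target `Fin c`. -/
noncomputable def sylowPerm (r c : ℕ) [Finite G] (hc : Nat.card (Sylow r G) = c) : G →* Perm (Fin c) :=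
  haveI : Finite (Sylow r G) := inferInstance
  (Equiv.permCongrHom (Finite.equivFinOfCardEq hc)).toMonoidHom.comp (MulAction.toPermHom G (Sylow r G))

theorem sylowPerm_inj (r c : ℕ) [Finite G] (hc : Nat.card (Sylow r G) = c)
    (hker : ∀ g : G, (∀ P : Sylow r G, g ∈ Subgroup.normalizer ((P : Subgroup G) : Set G)) → g = 1) :
    Function.Injective (sylowPerm (G := G) r c hc) := by
  rw [injective_iff_map_eq_one]
  intro g hg
  apply hker
  intro P
  have h1 : (MulAction.toPermHom G (Sylow r G)) g = 1 := by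
    have h2 : (Equiv.permCongrHom (Finite.equivFinOfCardEq hc)) ((MulAction.toPermHom G (Sylow r G)) g) = 1 := hg
    exact (Equiv.permCongrHom (Finite.equivFinOfCardEq hc)).injective (h2.trans (map_one _).symm)
  have h3 : g • P = P := by
    have := congrArg (fun f : Perm (Sylow r G) => f P) h1
    simpa using this
  exact Sylow.smul_eq_iff_mem_normalizer.1 h3

theorem normalizer_conj_of_commute (g a : G) (hg : a * g * a⁻¹ = g) :
    a ∈ Subgroup.normalizer ((Subgroup.zpowers g : Subgroup G) : Set G) := by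
  rw [Subgroup.mem_normalizer_iff]
  intro n
  have key : ∀ k : ℤ, a * g ^ k * a⁻¹ = g ^ k := by
    intro k
    rw [← conj_zpow, hg]
  constructor
  · rintro ⟨k, rfl⟩
    show _ ∈ Subgroup.zpowers g
    have : a * (fun x => g ^ x) k * a⁻¹ = g ^ k := key k
    rw [this]
    exact Subgroup.zpow_mem_zpowers g k
  · intro h
    obtain ⟨k, hk⟩ := h
    have h1 : g ^ k = a * n * a⁻¹ := hk
    have h2 : n = a⁻¹ * (a * n * a⁻¹) * a := by group
    have h3 : n = g ^ k := by
      rw [h2, ← h1]
      have := key k
      have h4 : a⁻¹ * (a * g ^ k * a⁻¹) * a = g ^ k := by group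
      rw [this] at h4
      exact h4
    rw [h3]
    exact Subgroup.zpow_mem_zpowers g k

theorem normalizer_top_of_central (g : G) (hg : ∀ a : G, a * g * a⁻¹ = g) :
    Subgroup.normalizer ((Subgroup.zpowers g : Subgroup G) : Set G) = ⊤ := by
  rw [eq_top_iff]
  intro a _
  exact normalizer_conj_of_commute g a (hg a)

/-- Groups of order 12 without normal cyclic subgroup. -/
theorem iso_A4 [Finite G] (hG : Nat.card G = 12)
    (hn : ∀ g : G, g ≠ 1 → Nat.card (Subgroup.normalizer ((Subgroup.zpowers g : Subgroup G) : Set G)) < 12) :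
    Nonempty (G ≃* alternatingGroup (Fin 4)) := by
  classical
  haveI : Fact (Nat.Prime 3) := ⟨by norm_num⟩
  have hcard3 : ∀ P : Sylow 3 G, Nat.card P = 3 := fun P => card_sylow_prime 3 4 (by simpa using hG) (by norm_num) P
  have hprime : ∀ P : Sylow 3 G, (Nat.card (P : Subgroup G)).Prime := by
    intro P
    have : Nat.card (P : Subgroup G) = 3 := hcard3 P
    rw [this]; norm_num
  obtain ⟨P₀⟩ : Nonempty (Sylow 3 G) := inferInstance
  have hindex : (P₀ : Subgroup G).index = 4 := by
    have h := (P₀ : Subgroup G).card_mul_index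
    have h3 : Nat.card (P₀ : Subgroup G) = 3 := hcard3 P₀
    rw [h3, hG] at h
    omega
  have hc1 : Nat.card (Sylow 3 G) ∣ 4 := hindex ▸ P₀.card_dvd_index
  have hc2 := card_sylow_modEq_one 3 G
  have hcne : Nat.card (Sylow 3 G) ≠ 1 := by
    intro h1
    have h2 : (Subgroup.normalizer ((P₀ : Subgroup G) : Set G)).index = 1 := by
      rw [← h1]; exact P₀.card_eq_index_normalizer.symm
    obtain ⟨g, hg, hg1⟩ := exists_ne_one_of_prime (P₀ : Subgroup G) (hprime P₀)
    have h3 := hn g hg1
    rw [← eq_zpowers_of_prime (P₀ : Subgroup G) (hprime P₀) hg hg1] at h3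
    have h4 := (Subgroup.normalizer ((P₀ : Subgroup G) : Set G)).card_mul_index
    rw [h2, hG] at h4
    omega
  have hc : Nat.card (Sylow 3 G) = 4 := by
    have hle := Nat.le_of_dvd (by norm_num) hc1
    have hmod : Nat.card (Sylow 3 G) % 3 = 1 := hc2
    interval_cases hh : Nat.card (Sylow 3 G) <;> simp_all
  have hNP : ∀ P : Sylow 3 G, Subgroup.normalizer ((P : Subgroup G) : Set G) = (P : Subgroup G) := by
    intro P
    have h1 := sylow_count 3 4 4 (by simpa using hG) (by norm_num) P hc (by norm_num)
    have h2 : Nat.card (Subgroup.normalizer ((P : Subgroup G) : Set G)) = 3 := by omega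
    symm
    apply Subgroup.eq_of_le_of_card_ge Subgroup.le_normalizer
    rw [h2]
    exact (hcard3 P).ge
  have hinj := sylowPerm_inj (G := G) 3 4 hc (by
    intro g hg
    by_contra hg1
    have hall : ∀ P : Sylow 3 G, (P : Subgroup G) = Subgroup.zpowers g := by
      intro P
      have hgP : g ∈ (P : Subgroup G) := by
        have := hg P
        rwa [hNP P] at this
      exact eq_zpowers_of_prime _ (hprime P) hgP hg1
    have hsub : Subsingleton (Sylow 3 G) := ⟨fun P Q => Sylow.ext ((hall P).trans (hall Q).symm)⟩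
    have := Nat.card_of_subsingleton (α := Sylow 3 G) P₀
    omega)
  exact CfsgLib.ClassGeo.iso_alt_of_inj _ hinj (by rw [hG, Fintype.card_fin]; decide)

/-- Groups of order 24 without normal cyclic subgroup. -/
theorem iso_S4 [Finite G] (hG : Nat.card G = 24)
    (hn : ∀ g : G, g ≠ 1 → Nat.card (Subgroup.normalizer ((Subgroup.zpowers g : Subgroup G) : Set G)) < 24) :
    Nonempty (G ≃* Perm (Fin 4)) := by
  classical
  haveI : Fact (Nat.Prime 3) := ⟨by norm_num⟩
  have hcard3 : ∀ P : Sylow 3 G, Nat.card P = 3 := fun P => card_sylow_prime 3 8 (by simpa using hG) (by norm_num) P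
  have hprime : ∀ P : Sylow 3 G, (Nat.card (P : Subgroup G)).Prime := by
    intro P
    have : Nat.card (P : Subgroup G) = 3 := hcard3 P
    rw [this]; norm_num
  obtain ⟨P₀⟩ : Nonempty (Sylow 3 G) := inferInstance
  have hindex : (P₀ : Subgroup G).index = 8 := by
    have h := (P₀ : Subgroup G).card_mul_index
    have h3 : Nat.card (P₀ : Subgroup G) = 3 := hcard3 P₀
    rw [h3, hG] at h
    omega
  have hc1 : Nat.card (Sylow 3 G) ∣ 8 := hindex ▸ P₀.card_dvd_index
  have hc2 := card_sylow_modEq_one 3 G
  have hcne : Nat.card (Sylow 3 G) ≠ 1 := by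
    intro h1
    have h2 : (Subgroup.normalizer ((P₀ : Subgroup G) : Set G)).index = 1 := by
      rw [← h1]; exact P₀.card_eq_index_normalizer.symm
    obtain ⟨g, hg, hg1⟩ := exists_ne_one_of_prime (P₀ : Subgroup G) (hprime P₀)
    have h3 := hn g hg1
    rw [← eq_zpowers_of_prime (P₀ : Subgroup G) (hprime P₀) hg hg1] at h3
    have h4 := (Subgroup.normalizer ((P₀ : Subgroup G) : Set G)).card_mul_index
    rw [h2, hG] at h4
    omega
  have hc : Nat.card (Sylow 3 G) = 4 := by
    have hle := Nat.le_of_dvd (by norm_num) hc1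
    have hmod : Nat.card (Sylow 3 G) % 3 = 1 := hc2
    interval_cases hh : Nat.card (Sylow 3 G) <;> simp_all
  have hNP : ∀ P : Sylow 3 G, Nat.card (Subgroup.normalizer ((P : Subgroup G) : Set G)) = 6 := by
    intro P
    have h1 := sylow_count 3 8 4 (by simpa using hG) (by norm_num) P hc (by norm_num)
    omega
  -- the index two subgroup
  have hidx : ∀ P : Sylow 3 G,
      ((P : Subgroup G).subgroupOf (Subgroup.normalizer ((P : Subgroup G) : Set G))).index = 2 := by
    intro P
    have h1 := ((P : Subgroup G).subgroupOf (Subgroup.normalizer ((P : Subgroup G) : Set G))).card_mul_index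
    have h2 : Nat.card ((P : Subgroup G).subgroupOf (Subgroup.normalizer ((P : Subgroup G) : Set G))) = 3 := by
      rw [Nat.card_congr (Subgroup.subgroupOfEquivOfLe Subgroup.le_normalizer).toEquiv]
      exact hcard3 P
    rw [h2, hNP P] at h1
    omega
  -- the key: kernel elements are involutions
  have hker2 : ∀ g : G, (∀ P : Sylow 3 G, g ∈ Subgroup.normalizer ((P : Subgroup G) : Set G)) → g ^ 2 = 1 := by
    intro g hg
    by_contra hg2
    have hall : ∀ P : Sylow 3 G, (P : Subgroup G) = Subgroup.zpowers (g ^ 2) := by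
      intro P
      have hgP : g ^ 2 ∈ (P : Subgroup G) := by
        have h1 := Subgroup.sq_mem_of_index_two (hidx P) ⟨g, hg P⟩
        exact Subgroup.mem_subgroupOf.1 h1
      exact eq_zpowers_of_prime _ (hprime P) hgP hg2
    have hsub : Subsingleton (Sylow 3 G) := ⟨fun P Q => Sylow.ext ((hall P).trans (hall Q).symm)⟩
    have := Nat.card_of_subsingleton (α := Sylow 3 G) P₀
    omega
  -- elements of `P` squaring to one are trivial
  have hP3 : ∀ (P : Sylow 3 G) (g : G), g ∈ (P : Subgroup G) → g ^ 2 = 1 → g = 1 := by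
    intro P g hgP hg2
    have h3 : g ^ 3 = 1 := by
      have h := pow_card_eq_one' (G := (P : Subgroup G)) (x := ⟨g, hgP⟩)
      rw [show Nat.card (P : Subgroup G) = 3 from hcard3 P] at h
      simpa using congrArg Subtype.val h
    have : g = g ^ 3 * (g ^ 2)⁻¹ := by group
    rw [this, h3, hg2]
    simp
  have hinj := sylowPerm_inj (G := G) 3 4 hc (by
    intro g hg
    by_contra hg1
    have hg2 := hker2 g hg
    have hker_conj : ∀ (a : G) (P : Sylow 3 G), a * g * a⁻¹ ∈ Subgroup.normalizer ((P : Subgroup G) : Set G) := by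
      intro a P
      apply Sylow.smul_eq_iff_mem_normalizer.1
      rw [mul_smul, mul_smul, Sylow.smul_eq_iff_mem_normalizer.2 (hg (a⁻¹ • P)), smul_inv_smul]
    have hcentral : ∀ a : G, a * g * a⁻¹ = g := by
      intro a
      have hg' := hker2 _ (hker_conj a)
      have hg'1 : a * g * a⁻¹ ≠ 1 := by
        intro e
        apply hg1
        have : g = a⁻¹ * (a * g * a⁻¹) * a := by group
        rw [this, e]
        group
      have hprod : g * (a * g * a⁻¹) = 1 := by
        apply hP3 P₀
        · have h1 := (Subgroup.mul_mem_iff_of_index_two (hidx P₀) (a := ⟨g, hg P₀⟩) (b := ⟨a * g * a⁻¹, hker_conj a P₀⟩)).2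
            (by
              constructor
              · intro hh
                exact absurd (hP3 P₀ g (Subgroup.mem_subgroupOf.1 hh) hg2) hg1
              · intro hh
                exact absurd (hP3 P₀ _ (Subgroup.mem_subgroupOf.1 hh) hg') hg'1)
          exact Subgroup.mem_subgroupOf.1 h1
        · exact hker2 _ (fun P => Subgroup.mul_mem _ (hg P) (hker_conj a P))
      have h1 : g⁻¹ = g := by
        rw [inv_eq_iff_mul_eq_one, ← pow_two, hg2]
      calc a * g * a⁻¹ = g⁻¹ := (eq_inv_of_mul_eq_one_right hprod)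
        _ = g := h1
    have h3 := hn g hg1
    have htop : Subgroup.normalizer ((Subgroup.zpowers g : Subgroup G) : Set G) = ⊤ := normalizer_top_of_central g hcentral
    rw [htop, Subgroup.card_top, hG] at h3
    omega)
  exact CfsgLib.ClassGeo.iso_perm_of_inj _ hinj (by rw [hG, Fintype.card_fin]; decide)

/-- Dihedral groups from a cyclic subgroup of index two with involutions outside. -/
theorem dihedral_of [Finite G] (ρ : G) (hidx : (Subgroup.zpowers ρ).index = 2)
    (hout : ∀ g : G, g ∉ Subgroup.zpowers ρ → g ^ 2 = 1) : Nonempty (DihedralGroup (orderOf ρ) ≃* G) := by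
  set C := Subgroup.zpowers ρ with hC
  have hρ : ρ ∈ C := Subgroup.mem_zpowers ρ
  obtain ⟨σ, hσ⟩ : ∃ σ : G, σ ∉ C := by
    by_contra hall
    push Not at hall
    have : C = ⊤ := (Subgroup.eq_top_iff' C).2 hall
    rw [this, Subgroup.index_top] at hidx
    omega
  have hσ2 : σ * σ = 1 := by
    have := hout σ hσ
    rwa [pow_two] at this
  have hmul : σ * ρ ∉ C := by
    intro h
    apply hσ
    have : σ = (σ * ρ) * ρ⁻¹ := by group
    rw [this]
    exact C.mul_mem h (C.inv_mem hρ)
  have hinv : σ * ρ * σ = ρ⁻¹ := by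
    have h1 := hout _ hmul
    rw [pow_two] at h1
    have h2 : (σ * ρ) * σ * ρ = 1 := by
      rw [← h1]; group
    exact eq_inv_of_mul_eq_one_left h2
  refine CfsgLib.Lead.nonempty_mulEquiv_dihedral_of_generators σ ρ _ rfl hσ2 hinv hσ ?_
  rw [eq_top_iff]
  intro g _
  have hcl : C ≤ Subgroup.closure {σ, ρ} := by
    rw [hC, Subgroup.zpowers_le]
    exact Subgroup.subset_closure (by simp)
  have hσcl : σ ∈ Subgroup.closure {σ, ρ} := Subgroup.subset_closure (by simp)
  by_cases hg : g ∈ C
  · exact hcl hg
  · have h1 : σ * g ∈ C := (Subgroup.mul_mem_iff_of_index_two hidx).2 (by tauto)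
    have h2 : g = σ * (σ * g) := by
      rw [← mul_assoc, hσ2, one_mul]
    rw [h2]
    exact Subgroup.mul_mem _ hσcl (hcl h1)

/-- Counting elements of prime order inside a subgroup. -/
theorem card_sylow_union [Fintype G] [DecidableEq G] (r : ℕ) [Fact r.Prime] (K : Subgroup G) [DecidablePred (· ∈ K)]
    (hcard : ∀ P : Sylow r G, Nat.card (P : Subgroup G) = r) (hK : ∀ P : Sylow r G, (P : Subgroup G) ≤ K) :
    Nat.card (Sylow r G) * (r - 1) ≤ (Finset.univ.filter (fun g : G => g ∈ K ∧ g ≠ 1 ∧ g ^ r = 1)).card := by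
  classical
  have hr : r.Prime := Fact.out
  haveI : Fintype (Sylow r G) := Fintype.ofFinite _
  let t : Sylow r G → Finset G := fun P => Finset.univ.filter (fun g : G => g ∈ (P : Subgroup G) ∧ g ≠ 1)
  have hprime : ∀ P : Sylow r G, (Nat.card (P : Subgroup G)).Prime := by
    intro P
    rw [hcard P]
    exact hr
  have htc : ∀ P : Sylow r G, (t P).card = r - 1 := by
    intro P
    have h1 : t P = (Finset.univ.filter (fun g : G => g ∈ (P : Subgroup G))).erase 1 := by
      ext g
      simp [t, and_comm]
    rw [h1, Finset.card_erase_of_mem (by simp [Subgroup.one_mem])]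
    congr 1
    have h2 : (Finset.univ.filter (fun g : G => g ∈ (P : Subgroup G))).card = Nat.card (P : Subgroup G) := by
      rw [Nat.card_eq_fintype_card]
      exact (Fintype.card_of_subtype _ (by simp)).symm
    rw [h2, hcard P]
  have hdisj : ∀ P ∈ (Finset.univ : Finset (Sylow r G)), ∀ Q ∈ (Finset.univ : Finset (Sylow r G)), P ≠ Q → Disjoint (t P) (t Q) := by
    intro P _ Q _ hPQ
    rw [Finset.disjoint_left]
    intro g hgP hgQ
    have hgP' := (Finset.mem_filter.1 hgP).2
    have hgQ' := (Finset.mem_filter.1 hgQ).2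
    apply hPQ
    apply Sylow.ext
    rw [eq_zpowers_of_prime _ (hprime P) hgP'.1 hgP'.2, eq_zpowers_of_prime _ (hprime Q) hgQ'.1 hgQ'.2]
  have hsub : (Finset.univ.biUnion t) ⊆ Finset.univ.filter (fun g : G => g ∈ K ∧ g ≠ 1 ∧ g ^ r = 1) := by
    intro g hg
    obtain ⟨P, -, hgP⟩ := Finset.mem_biUnion.1 hg
    have hgP' := (Finset.mem_filter.1 hgP).2
    refine Finset.mem_filter.2 ⟨Finset.mem_univ _, hK P hgP'.1, hgP'.2, ?_⟩
    have h := pow_card_eq_one' (G := (P : Subgroup G)) (x := ⟨g, hgP'.1⟩)
    rw [hcard P] at h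
    simpa using congrArg Subtype.val h
  have h1 := Finset.card_le_card hsub
  rw [Finset.card_biUnion hdisj] at h1
  rw [Finset.sum_congr rfl (fun P _ => htc P), Finset.sum_const, Finset.card_univ, smul_eq_mul,
    ← Nat.card_eq_fintype_card] at h1
  exact h1

/-- Groups of order 60 in which no normalizer of a cyclic subgroup is large are simple. -/
theorem simple_of_60 [Finite G] (hG : Nat.card G = 60)
    (hn : ∀ g : G, g ≠ 1 → Nat.card (Subgroup.normalizer ((Subgroup.zpowers g : Subgroup G) : Set G)) ≤ 12) :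
    IsSimpleGroup G := by
  classical
  haveI : Fintype G := Fintype.ofFinite G
  haveI : Fact (Nat.Prime 3) := ⟨by norm_num⟩
  haveI : Fact (Nat.Prime 5) := ⟨by norm_num⟩
  have hcard3 : ∀ P : Sylow 3 G, Nat.card (P : Subgroup G) = 3 :=
    fun P => card_sylow_prime 3 20 (by simpa using hG) (by norm_num) P
  have hcard5 : ∀ P : Sylow 5 G, Nat.card (P : Subgroup G) = 5 :=
    fun P => card_sylow_prime 5 12 (by simpa using hG) (by norm_num) P
  have hprime3 : ∀ P : Sylow 3 G, (Nat.card (P : Subgroup G)).Prime := fun P => by rw [hcard3 P]; norm_num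
  have hprime5 : ∀ P : Sylow 5 G, (Nat.card (P : Subgroup G)).Prime := fun P => by rw [hcard5 P]; norm_num
  obtain ⟨P₃⟩ : Nonempty (Sylow 3 G) := inferInstance
  obtain ⟨P₅⟩ : Nonempty (Sylow 5 G) := inferInstance
  have hc3 : Nat.card (Sylow 3 G) = 10 := by
    have hindex : (P₃ : Subgroup G).index = 20 := by
      have h := (P₃ : Subgroup G).card_mul_index
      rw [hcard3 P₃, hG] at h
      omega
    have hc1 : Nat.card (Sylow 3 G) ∣ 20 := hindex ▸ P₃.card_dvd_index
    have hmod : Nat.card (Sylow 3 G) % 3 = 1 := card_sylow_modEq_one 3 G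
    have hge : 5 ≤ Nat.card (Sylow 3 G) := by
      obtain ⟨g, hg, hg1⟩ := exists_ne_one_of_prime (P₃ : Subgroup G) (hprime3 P₃)
      have h3 := hn g hg1
      rw [← eq_zpowers_of_prime (P₃ : Subgroup G) (hprime3 P₃) hg hg1] at h3
      have h4 := (Subgroup.normalizer ((P₃ : Subgroup G) : Set G)).card_mul_index
      have h5 : Nat.card (Sylow 3 G) = (Subgroup.normalizer ((P₃ : Subgroup G) : Set G)).index := P₃.card_eq_index_normalizer
      rw [← h5, hG] at h4
      by_contra hlt
      have : Nat.card (Subgroup.normalizer ((P₃ : Subgroup G) : Set G)) * Nat.card (Sylow 3 G) ≤ 12 * 4 :=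
        Nat.mul_le_mul h3 (by omega)
      omega
    have hle := Nat.le_of_dvd (by norm_num) hc1
    interval_cases hh : Nat.card (Sylow 3 G) <;> omega
  have hc5 : Nat.card (Sylow 5 G) = 6 := by
    have hindex : (P₅ : Subgroup G).index = 12 := by
      have h := (P₅ : Subgroup G).card_mul_index
      rw [hcard5 P₅, hG] at h
      omega
    have hc1 : Nat.card (Sylow 5 G) ∣ 12 := hindex ▸ P₅.card_dvd_index
    have hmod : Nat.card (Sylow 5 G) % 5 = 1 := card_sylow_modEq_one 5 G
    have hge : 5 ≤ Nat.card (Sylow 5 G) := by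
      obtain ⟨g, hg, hg1⟩ := exists_ne_one_of_prime (P₅ : Subgroup G) (hprime5 P₅)
      have h3 := hn g hg1
      rw [← eq_zpowers_of_prime (P₅ : Subgroup G) (hprime5 P₅) hg hg1] at h3
      have h4 := (Subgroup.normalizer ((P₅ : Subgroup G) : Set G)).card_mul_index
      have h5 : Nat.card (Sylow 5 G) = (Subgroup.normalizer ((P₅ : Subgroup G) : Set G)).index := P₅.card_eq_index_normalizer
      rw [← h5, hG] at h4
      by_contra hlt
      have : Nat.card (Subgroup.normalizer ((P₅ : Subgroup G) : Set G)) * Nat.card (Sylow 5 G) ≤ 12 * 4 :=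
        Nat.mul_le_mul h3 (by omega)
      omega
    have hle := Nat.le_of_dvd (by norm_num) hc1
    interval_cases hh : Nat.card (Sylow 5 G) <;> omega
  haveI : Nontrivial G := by
    rw [← Finite.one_lt_card_iff_nontrivial, hG]
    norm_num
  refine ⟨fun K hK => ?_⟩
  by_contra hne
  push Not at hne
  obtain ⟨hbot, htop⟩ := hne
  -- Sylow subgroups in `K`
  have hall : ∀ (r : ℕ) [Fact r.Prime], (∀ P : Sylow r G, Nat.card (P : Subgroup G) = r) → r ∣ Nat.card K →
      ∀ P : Sylow r G, (P : Subgroup G) ≤ K := by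
    intro r _ hcr hdiv P
    have hr : r.Prime := Fact.out
    obtain ⟨x, hx⟩ := exists_prime_orderOf_dvd_card' (G := K) r hdiv
    have hx' : orderOf (x : G) = r := by
      rw [Subgroup.orderOf_coe]
      exact hx
    have hz : IsPGroup r (Subgroup.zpowers (x : G)) := by
      apply IsPGroup.of_card (n := 1)
      rw [Nat.card_zpowers, hx', pow_one]
    obtain ⟨Q, hQ⟩ := hz.exists_le_sylow
    have hx1 : (x : G) ≠ 1 := by
      intro e
      rw [e, orderOf_one] at hx'
      exact hr.one_lt.ne hx'
    have hQeq : (Q : Subgroup G) = Subgroup.zpowers (x : G) :=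
      eq_zpowers_of_prime _ (by rw [hcr Q]; exact hr) (hQ (Subgroup.mem_zpowers _)) hx1
    have hQK : (Q : Subgroup G) ≤ K := by
      rw [hQeq, Subgroup.zpowers_le]
      exact x.2
    obtain ⟨a, ha⟩ := MulAction.exists_smul_eq G Q P
    rw [← ha, Sylow.coe_subgroup_smul]
    rintro _ ⟨y, hy, rfl⟩
    exact hK.conj_mem y (hQK hy) a
  have hm1 : Nat.card K ≠ 1 := by
    intro h
    exact hbot (Subgroup.eq_bot_of_card_eq K h)
  have hm60 : Nat.card K ≠ 60 := by
    intro h
    exact htop (Subgroup.eq_top_of_card_eq K (h.trans hG.symm))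
  have hmd : Nat.card K ∣ 60 := hG ▸ Subgroup.card_subgroup_dvd_card K
  -- the count
  let T : ℕ → Finset G := fun r => Finset.univ.filter (fun g : G => g ∈ K ∧ g ≠ 1 ∧ g ^ r = 1)
  have hT : 1 + (T 3).card + (T 5).card ≤ Nat.card K := by
    have hdisj : Disjoint (T 3) (T 5) := by
      rw [Finset.disjoint_left]
      intro g hg3 hg5
      have h3 := (Finset.mem_filter.1 hg3).2
      have h5 := (Finset.mem_filter.1 hg5).2
      apply h3.2.1
      have h1 : g ^ 2 = 1 := by
        have : g ^ 2 = g ^ 5 * (g ^ 3)⁻¹ := by group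
        rw [this, h3.2.2, h5.2.2]
        simp
      have h2 : g = g ^ 3 * (g ^ 2)⁻¹ := by group
      rw [h2, h3.2.2, h1]
      simp
    have hone : (1 : G) ∉ T 3 ∪ T 5 := by
      simp [T]
    have hsub : insert (1 : G) (T 3 ∪ T 5) ⊆ Finset.univ.filter (fun g : G => g ∈ K) := by
      intro g hg
      rcases Finset.mem_insert.1 hg with rfl | hg
      · simp [Subgroup.one_mem]
      · rcases Finset.mem_union.1 hg with hg | hg
        · exact Finset.mem_filter.2 ⟨Finset.mem_univ _, (Finset.mem_filter.1 hg).2.1⟩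
        · exact Finset.mem_filter.2 ⟨Finset.mem_univ _, (Finset.mem_filter.1 hg).2.1⟩
    have h1 := Finset.card_le_card hsub
    rw [Finset.card_insert_of_notMem hone, Finset.card_union_of_disjoint hdisj] at h1
    have h2 : (Finset.univ.filter (fun g : G => g ∈ K)).card = Nat.card K := by
      rw [Nat.card_eq_fintype_card]
      exact (Fintype.card_of_subtype _ (by simp)).symm
    omega
  have hT3 : 3 ∣ Nat.card K → 20 ≤ (T 3).card := by
    intro h
    have := card_sylow_union 3 K hcard3 (hall 3 hcard3 h)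
    rw [hc3] at this
    simpa using this
  have hT5 : 5 ∣ Nat.card K → 24 ≤ (T 5).card := by
    intro h
    have := card_sylow_union 5 K hcard5 (hall 5 hcard5 h)
    rw [hc5] at this
    simpa using this
  have hmle : Nat.card K ≤ 60 := Nat.le_of_dvd (by norm_num) hmd
  have hsmall : Nat.card K = 2 ∨ Nat.card K = 4 := by
    by_cases h3 : 3 ∣ Nat.card K
    · by_cases h5 : 5 ∣ Nat.card K
      · have a1 := hT3 h3
        have a2 := hT5 h5
        exfalso
        interval_cases hh : Nat.card K <;> omega
      · have a1 := hT3 h3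
        exfalso
        interval_cases hh : Nat.card K <;> omega
    · by_cases h5 : 5 ∣ Nat.card K
      · have a2 := hT5 h5
        exfalso
        interval_cases hh : Nat.card K <;> omega
      · interval_cases hh : Nat.card K <;> omega
  -- small normal subgroups are impossible
  obtain ⟨g, hgK, hg1⟩ := (Subgroup.bot_or_exists_ne_one K).resolve_left hbot
  have hcl : (MulAction.orbit (ConjAct G) g).ncard ≤ 3 := by
    have hsub : MulAction.orbit (ConjAct G) g ⊆ (K : Set G) \ {1} := by
      rintro _ ⟨a, rfl⟩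
      constructor
      · have : a • g = ConjAct.ofConjAct a * g * (ConjAct.ofConjAct a)⁻¹ := ConjAct.smul_def a g
        show a • g ∈ K
        rw [this]
        exact hK.conj_mem g hgK _
      · intro e
        apply hg1
        have e1 : a • g = 1 := e
        have : a • g = ConjAct.ofConjAct a * g * (ConjAct.ofConjAct a)⁻¹ := ConjAct.smul_def a g
        rw [this] at e1
        have : g = (ConjAct.ofConjAct a)⁻¹ * (ConjAct.ofConjAct a * g * (ConjAct.ofConjAct a)⁻¹) * ConjAct.ofConjAct a := by group
        rw [this, e1]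
        group
    have h1 := Set.ncard_le_ncard hsub (Set.toFinite _)
    have h2 : ((K : Set G) \ {1}).ncard = Nat.card K - 1 := by
      rw [Set.ncard_diff_singleton_of_mem (by exact K.one_mem), ← Nat.card_coe_set_eq]
      rfl
    omega
  have h1 := (MulAction.stabilizer (ConjAct G) g).card_mul_index
  rw [MulAction.index_stabilizer] at h1
  have h2 : Nat.card (ConjAct G) = 60 := hG
  rw [h2] at h1
  have h3 : 20 ≤ Nat.card (MulAction.stabilizer (ConjAct G) g) := by
    by_contra hlt
    have : Nat.card (MulAction.stabilizer (ConjAct G) g) * (MulAction.orbit (ConjAct G) g).ncard ≤ 19 * 3 :=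
      Nat.mul_le_mul (by omega) hcl
    omega
  have h4 : Nat.card (MulAction.stabilizer (ConjAct G) g) ≤ Nat.card (Subgroup.normalizer ((Subgroup.zpowers g : Subgroup G) : Set G)) := by
    refine Nat.card_le_card_of_injective (fun a => (⟨ConjAct.ofConjAct a.1, ?_⟩ : Subgroup.normalizer ((Subgroup.zpowers g : Subgroup G) : Set G))) ?_
    · have ha : ConjAct.ofConjAct a.1 * g * (ConjAct.ofConjAct a.1)⁻¹ = g := by
        rw [← ConjAct.smul_def]
        exact a.2
      have hall := normalizer_conj_of_commute g (ConjAct.ofConjAct a.1) ha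
      exact hall
    · intro a b hab
      apply Subtype.ext
      have := congrArg Subtype.val hab
      exact this
  have h5 := hn g hg1
  omega

/-- Groups of order 60 with small normalizers are `A₅`. -/
theorem iso_A5 [Finite G] (hG : Nat.card G = 60)
    (hn : ∀ g : G, g ≠ 1 → Nat.card (Subgroup.normalizer ((Subgroup.zpowers g : Subgroup G) : Set G)) ≤ 12) :
    Nonempty (G ≃* alternatingGroup (Fin 5)) := by
  haveI := simple_of_60 hG hn
  exact Cfsg.Agent.S0494.result hG

end CfsgLib.Dickson
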