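import Mathlib

/-! Numerical lemmas for Dickson's theorem. -/

set_option autoImplicit false
set_option linter.unusedSimpArgs false
set_option linter.unusedVariables false
set_option linter.unusedSectionVars false

namespace CfsgLib.Dickson

/-- One orbit is impossible. -/
theorem kl1 (e h : ℕ) (he : 2 ≤ e) (hle : e ≤ h) (heq : 1 - 1 / (e : ℚ) = 2 - 2 / (h : ℚ)) : False := by
  have h2 : (2 : ℚ) ≤ h := by exact_mod_cast he.trans hle
  have he' : (0 : ℚ) < e := by exact_mod_cast (by omega : 0 < e)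
  have h3 : 2 / (h : ℚ) ≤ 1 := by
    rw [div_le_one (by linarith)]
    exact h2
  have h4 : (0 : ℚ) < 1 / e := by positivity
  linarith

theorem inv_le_of_le {a b : ℕ} (ha : 0 < a) (h : a ≤ b) : 1 / (b : ℚ) ≤ 1 / (a : ℚ) := by
  apply one_div_le_one_div_of_le
  · exact_mod_cast ha
  · exact_mod_cast h

/-- Two orbits: the group fixes a point. -/
theorem kl2 (e₀ e₁ h : ℕ) (h₀ : 2 ≤ e₀) (h₁ : 2 ≤ e₁) (hle₀ : e₀ ≤ h) (hle₁ : e₁ ≤ h)
    (heq : (1 - 1 / (e₀ : ℚ)) + (1 - 1 / (e₁ : ℚ)) = 2 - 2 / (h : ℚ)) : e₀ = h ∧ e₁ = h := by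
  have hp : (0 : ℚ) < h := by exact_mod_cast (by omega : 0 < h)
  have a₀ := inv_le_of_le (by omega) hle₀
  have a₁ := inv_le_of_le (by omega) hle₁
  have e : 1 / (e₀ : ℚ) + 1 / (e₁ : ℚ) = 2 / (h : ℚ) := by linarith
  have e2 : 2 / (h : ℚ) = 1 / h + 1 / h := by ring
  have b₀ : 1 / (e₀ : ℚ) = 1 / h := by linarith
  have b₁ : 1 / (e₁ : ℚ) = 1 / h := by linarith
  have p₀ : (e₀ : ℚ) ≠ 0 := by exact_mod_cast (by omega : e₀ ≠ 0)
  have p₁ : (e₁ : ℚ) ≠ 0 := by exact_mod_cast (by omega : e₁ ≠ 0)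
  constructor
  · have : (e₀ : ℚ) = h := by
      field_simp at b₀
      linarith
    exact_mod_cast this
  · have : (e₁ : ℚ) = h := by
      field_simp at b₁
      linarith
    exact_mod_cast this

/-- Three orbits: the classification of spherical triples. -/
theorem kl3 (e₀ e₁ e₂ h : ℕ) (h₀ : 2 ≤ e₀) (h01 : e₀ ≤ e₁) (h12 : e₁ ≤ e₂) (hh : 0 < h)
    (heq : (1 - 1 / (e₀ : ℚ)) + (1 - 1 / (e₁ : ℚ)) + (1 - 1 / (e₂ : ℚ)) = 2 - 2 / (h : ℚ)) :
    (e₀ = 2 ∧ e₁ = 2 ∧ h = 2 * e₂) ∨ (e₀ = 2 ∧ e₁ = 3 ∧ e₂ = 3 ∧ h = 12) ∨ (e₀ = 2 ∧ e₁ = 3 ∧ e₂ = 4 ∧ h = 24) ∨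
      (e₀ = 2 ∧ e₁ = 3 ∧ e₂ = 5 ∧ h = 60) := by
  have hq : (0 : ℚ) < h := by exact_mod_cast hh
  have hs : 1 / (e₀ : ℚ) + 1 / (e₁ : ℚ) + 1 / (e₂ : ℚ) = 1 + 2 / (h : ℚ) := by linarith
  have h2h : (0 : ℚ) < 2 / h := by positivity
  have he₀ : e₀ = 2 := by
    by_contra hne
    have h3 : 3 ≤ e₀ := by omega
    have c₀ := inv_le_of_le (by norm_num) h3
    have c₁ := inv_le_of_le (by norm_num) (h3.trans h01)
    have c₂ := inv_le_of_le (by norm_num) ((h3.trans h01).trans h12)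
    push_cast at c₀ c₁ c₂
    linarith
  subst he₀
  have he₁ : e₁ ≤ 3 := by
    by_contra hne
    have h3 : 4 ≤ e₁ := by omega
    have c₁ := inv_le_of_le (by norm_num) h3
    have c₂ := inv_le_of_le (by norm_num) (h3.trans h12)
    push_cast at c₁ c₂ hs
    linarith
  have p₂ : (0 : ℚ) < e₂ := by exact_mod_cast (by omega : 0 < e₂)
  obtain h1 | h1 : e₁ = 2 ∨ e₁ = 3 := by omega
  · subst h1
    left
    refine ⟨rfl, rfl, ?_⟩
    push_cast at hs
    have : 1 / (e₂ : ℚ) = 2 / (h : ℚ) := by linarith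
    rw [div_eq_div_iff p₂.ne' hq.ne'] at this
    have h5 : (h : ℚ) = 2 * e₂ := by linarith
    exact_mod_cast h5
  · subst h1
    right
    push_cast at hs
    have h6 : 1 / (e₂ : ℚ) = 1 / 6 + 2 / (h : ℚ) := by linarith
    have h7 : e₂ < 6 := by
      by_contra hne
      have c₂ := inv_le_of_le (by norm_num) (not_lt.1 hne)
      push_cast at c₂
      linarith
    have h8 : e₂ = 3 ∨ e₂ = 4 ∨ e₂ = 5 := by omega
    rcases h8 with rfl | rfl | rfl
    · left
      refine ⟨rfl, rfl, rfl, ?_⟩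
      push_cast at h6
      have : 2 / (h : ℚ) = 1 / 6 := by linarith
      rw [div_eq_div_iff hq.ne' (by norm_num)] at this
      have h5 : (h : ℚ) = 12 := by linarith
      exact_mod_cast h5
    · right; left
      refine ⟨rfl, rfl, rfl, ?_⟩
      push_cast at h6
      have : 2 / (h : ℚ) = 1 / 12 := by linarith
      rw [div_eq_div_iff hq.ne' (by norm_num)] at this
      have h5 : (h : ℚ) = 24 := by linarith
      exact_mod_cast h5
    · right; right
      refine ⟨rfl, rfl, rfl, ?_⟩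
      push_cast at h6
      have : 2 / (h : ℚ) = 1 / 30 := by linarith
      rw [div_eq_div_iff hq.ne' (by norm_num)] at this
      have h5 : (h : ℚ) = 60 := by linarith
      exact_mod_cast h5

/-- The equation with the `p`-orbit alone. -/
theorem kp1 (a k N : ℕ) (ha : 1 ≤ a) (hk : 1 ≤ k) (hN : 1 ≤ N)
    (heq : (((a * k : ℕ) : ℚ) + (a : ℚ) - 2) / ((a * k : ℕ) : ℚ) = 2 - 2 / ((N * (a * k) : ℕ) : ℚ)) : N = 1 := by
  have hak : (0 : ℚ) < ((a * k : ℕ) : ℚ) := by exact_mod_cast Nat.mul_pos ha hk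
  have hN' : (0 : ℚ) < N := by exact_mod_cast hN
  have haQ : (1 : ℚ) ≤ a := by exact_mod_cast ha
  push_cast at heq hak
  field_simp at heq
  have h1 : (N : ℚ) * ((a : ℚ) * k - a + 2) = 2 := by linarith
  have h2 : (a : ℚ) * k - a + 2 = ((a * (k - 1) + 2 : ℕ) : ℚ) := by
    obtain ⟨j, rfl⟩ : ∃ j, k = j + 1 := ⟨k - 1, by omega⟩
    have hj : j + 1 - 1 = j := by omega
    rw [hj]
    push_cast
    ring
  rw [h2] at h1
  have h3 : N * (a * (k - 1) + 2) = 2 := by exact_mod_cast h1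
  by_contra hne
  have : 2 ≤ N := by omega
  nlinarith [Nat.zero_le (a * (k - 1))]

/-- The equation with the `p`-orbit and a second orbit. -/
theorem kp2 (a k N e M : ℕ) (ha : 2 ≤ a) (hk : 1 ≤ k) (hN : 1 ≤ N) (he : 1 ≤ e) (hM : M * e = N * (a * k))
    (heq : (((a * k : ℕ) : ℚ) + (a : ℚ) - 2) / ((a * k : ℕ) : ℚ) + (1 - 1 / (e : ℚ)) = 2 - 2 / ((N * (a * k) : ℕ) : ℚ)) :
    M = 2 + (a - 2) * N := by
  have hak : (0 : ℚ) < ((a * k : ℕ) : ℚ) := by exact_mod_cast Nat.mul_pos (by omega) hk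
  have hN' : (0 : ℚ) < N := by exact_mod_cast hN
  have he' : (0 : ℚ) < e := by exact_mod_cast he
  have hMQ : (M : ℚ) * e = N * (a * k) := by exact_mod_cast hM
  obtain ⟨b, rfl⟩ : ∃ b, a = b + 2 := ⟨a - 2, by omega⟩
  have hfin : ((M : ℚ)) = 2 + (b : ℚ) * N := by
    push_cast at heq hak hMQ
    have hb : (0 : ℚ) < (b : ℚ) + 2 := by positivity
    have hk' : (0 : ℚ) < k := by exact_mod_cast hk
    have e1 : (M : ℚ) = N * (((b : ℚ) + 2) * k) / e := by
      rw [eq_div_iff he'.ne']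
      exact hMQ
    rw [e1]
    field_simp at heq ⊢
    nlinarith [heq]
  have hb : b + 2 - 2 = b := by omega
  rw [hb]
  exact_mod_cast hfin

/-- The Diophantine analysis. -/
theorem dio (a k N e : ℕ) (ha : 2 ≤ a) (hk : k ∣ a - 1) (hk0 : 1 ≤ k) (s : ℕ) (hs : 1 ≤ s) (hNs : N = 1 + s * a)
    (heq : a * k * N = e * (2 + (a - 2) * N)) :
    (a = 2 ∧ k = 1 ∧ e = N) ∨
    (a = 3 ∧ k = 1 ∧ N = 4 ∧ e = 2) ∨ (a = 3 ∧ k = 2 ∧ N = 4 ∧ e = 4) ∨ (a = 3 ∧ k = 2 ∧ N = 10 ∧ e = 5) ∨
    (4 ≤ a ∧ N = a + 1) := by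
  obtain ⟨b, rfl⟩ : ∃ b, a = b + 2 := ⟨a - 2, by omega⟩
  simp only [Nat.add_sub_cancel] at heq
  have hb : b + 2 - 1 = b + 1 := by omega
  rw [hb] at hk
  set D := 2 + b * N with hD
  have hdvd : D ∣ (b + 2) * k * N := ⟨e, by rw [heq, mul_comm]⟩
  -- the key divisibility
  have hkey : D ∣ 2 * ((b + 2) * k) := by
    have h1 : D ∣ (b + 2) * k * (b * N) := by
      have : (b + 2) * k * (b * N) = b * ((b + 2) * k * N) := by ring
      rw [this]
      exact Dvd.dvd.mul_left hdvd b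
    have h2 : D ∣ (b + 2) * k * D := Dvd.intro_left _ rfl
    have h3 : (b + 2) * k * D = 2 * ((b + 2) * k) + (b + 2) * k * (b * N) := by
      rw [hD]; ring
    rw [h3] at h2
    exact (Nat.dvd_add_left h1).1 h2
  have hkle : k ≤ b + 1 := Nat.le_of_dvd (by omega) hk
  rcases Nat.lt_or_ge b 2 with hb2 | hb2
  · interval_cases b
    · -- a = 2
      left
      have hk1 : k = 1 := by
        omega
      subst hk1
      refine ⟨rfl, rfl, ?_⟩
      have hD2 : D = 2 := by
        rw [hD]; simp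
      rw [hD2] at heq
      omega
    · -- a = 3
      right
      have hk12 : k = 1 ∨ k = 2 := by omega
      subst hNs
      simp only [hD] at hkey heq
      have hs3 : 3 * (s + 1) ∣ 2 * (3 * k) := by
        have e1 : 2 + 1 * (1 + s * (1 + 2)) = 3 * (s + 1) := by ring
        rw [e1] at hkey
        exact hkey
      have hs4 : s + 1 ∣ 2 * k := by
        have e2 : 2 * (3 * k) = 3 * (2 * k) := by ring
        rw [e2] at hs3
        exact Nat.dvd_of_mul_dvd_mul_left (by norm_num) hs3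
      rcases hk12 with rfl | rfl
      · left
        have h5 : s + 1 ≤ 2 := Nat.le_of_dvd (by norm_num) hs4
        have h6 : s = 1 := by omega
        subst h6
        refine ⟨rfl, rfl, rfl, ?_⟩
        norm_num at heq
        omega
      · right
        have h5 : s + 1 ≤ 4 := Nat.le_of_dvd (by norm_num) hs4
        have h6 : s = 1 ∨ s = 3 := by
          have : s = 1 ∨ s = 2 ∨ s = 3 := by omega
          rcases this with rfl | rfl | rfl
          · exact Or.inl rfl
          · exfalso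
            norm_num at hs4
          · exact Or.inr rfl
        rcases h6 with rfl | rfl
        · left
          refine ⟨rfl, rfl, rfl, ?_⟩
          norm_num at heq
          omega
        · right; left
          refine ⟨rfl, rfl, rfl, ?_⟩
          norm_num at heq
          omega
  · -- a ≥ 4
    right; right; right; right
    refine ⟨by omega, ?_⟩
    have hDle : D ≤ 2 * ((b + 2) * (b + 1)) := by
      have h1 := Nat.le_of_dvd (by positivity) hkey
      have h2 : (b + 2) * k ≤ (b + 2) * (b + 1) := Nat.mul_le_mul_left _ hkle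
      omega
    -- `s = 1`
    have hs1 : s = 1 := by
      by_contra hne
      have hs2 : 2 ≤ s := by omega
      rcases Nat.lt_or_ge s 3 with h3 | h3
      · have hs' : s = 2 := by omega
        subst hs'
        -- a (2a - 3) ∣ 2 a k
        have e1 : D = (b + 2) * (2 * b + 1) := by
          rw [hD, hNs]
          ring
        rw [e1] at hkey
        have h4 : 2 * b + 1 ∣ 2 * k := by
          have e2 : 2 * ((b + 2) * k) = (b + 2) * (2 * k) := by ring
          rw [e2] at hkey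
          exact Nat.dvd_of_mul_dvd_mul_left (by omega) hkey
        have h5 : 2 * k ∣ 2 * (b + 1) := Nat.mul_dvd_mul_left 2 hk
        have h6 : 2 * b + 1 ∣ 2 * (b + 1) := h4.trans h5
        have h7 : 2 * (b + 1) = (2 * b + 1) + 1 := by ring
        rw [h7] at h6
        have h8 : 2 * b + 1 ∣ 1 := (Nat.dvd_add_right (dvd_refl _)).1 h6
        have h9 := Nat.le_of_dvd (by norm_num) h8
        omega
      · have hNge : 1 + 3 * (b + 2) ≤ N := by
          rw [hNs]
          have := Nat.mul_le_mul_right (b + 2) h3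
          omega
        have h4 : D ≥ 2 + b * (1 + 3 * (b + 2)) := by
          rw [hD]
          have := Nat.mul_le_mul_left b hNge
          omega
        nlinarith
    subst hs1
    omega

end CfsgLib.Dickson
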