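import Cfsg.Agent.Lib.Dickson.Abs
import Cfsg.Agent.Lib.Dickson.Num
import Cfsg.Agent.Lib.Dickson.Ident

/-! The abstract classification of finite groups acting like subgroups of `PSL₂` on the projective line. -/

set_option autoImplicit false
set_option linter.unusedSimpArgs false
set_option linter.unusedVariables false
set_option linter.unusedSectionVars false

namespace CfsgLib.Dickson

open MulAction

/-- Equal-size orbits: divisibility. -/
theorem card_dvd_of_stab {A S : Type*} [Group A] [Finite A] [MulAction A S] [Finite S] (c : ℕ)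
    (hc : ∀ s : S, Nat.card (stabilizer A s) = c) : ∃ t, Nat.card S * c = t * Nat.card A := by
  classical
  haveI : Fintype (orbitRel.Quotient A S) := Fintype.ofFinite _
  refine ⟨Fintype.card (orbitRel.Quotient A S), ?_⟩
  rw [Nat.card_congr (MulAction.selfEquivSigmaOrbits A S), Nat.card_sigma, Finset.sum_mul]
  have : ∀ ω : orbitRel.Quotient A S, Nat.card (orbit A ω.out) * c = Nat.card A := by
    intro ω
    rw [← hc ω.out, mul_comm, ← Subgroup.card_mul_index (stabilizer A ω.out), index_stabilizer]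
    rfl
  rw [Finset.sum_congr rfl (fun ω _ => this ω), Finset.sum_const, Finset.card_univ, smul_eq_mul]

variable {G X L : Type*} [Group G] [MulAction G X] [Field L] {p : ℕ}

section finite

variable [Finite G] (h : IsD L p G X)
include h

theorem IsD.exists_fixed {g : G} (h1 : g ≠ 1) : ∃ y : X, g • y = y := by
  by_cases hp : g ^ p = 1
  · obtain ⟨x, hx⟩ := h.fix1 g h1 hp
    exact ⟨x, (hx x).2 rfl⟩
  · obtain ⟨x, y, -, hz⟩ := h.fix2 g h1 hp
    exact ⟨x, (hz x).2 (Or.inl rfl)⟩

omit [Finite G] h in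
theorem fix_normalizer {g n : G} (hn : n ∈ Subgroup.normalizer ((Subgroup.zpowers g : Subgroup G) : Set G)) {y : X}
    (hy : g • y = y) : g • (n • y) = n • y := by
  have h1 : n⁻¹ * g * n ∈ Subgroup.zpowers g := by
    have := (Subgroup.mem_normalizer_iff.1 (Subgroup.inv_mem _ hn) g).1 (Subgroup.mem_zpowers g)
    simpa using this
  obtain ⟨k, hk⟩ := h1
  have h2 : (n⁻¹ * g * n) • y = y := by
    have hk' : g ^ k = n⁻¹ * g * n := hk
    rw [← hk']
    have hg : g ∈ stabilizer G y := hy
    exact (stabilizer G y).zpow_mem hg k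
  calc g • n • y = n • ((n⁻¹ * g * n) • y) := by simp [mul_smul]
    _ = n • y := by rw [h2]

theorem IsD.fix_ncard_le {g : G} (h1 : g ≠ 1) : {y : X | g • y = y}.ncard ≤ 2 := by
  classical
  by_cases hp : g ^ p = 1
  · obtain ⟨x, hx⟩ := h.fix1 g h1 hp
    have : {y : X | g • y = y} ⊆ {x} := fun y hy => (hx y).1 hy
    have h2 := Set.ncard_le_ncard this (Set.toFinite _)
    rw [Set.ncard_singleton] at h2
    omega
  · obtain ⟨a, b, -, hz⟩ := h.fix2 g h1 hp
    have : {y : X | g • y = y} ⊆ {a, b} := fun y hy => by simpa using (hz y).1 hy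
    have h2 := Set.ncard_le_ncard this (Set.toFinite _)
    have h3 := Set.ncard_insert_le a ({b} : Set X)
    rw [Set.ncard_singleton] at h3
    exact h2.trans h3

theorem IsD.card_normalizer_le {g : G} (h1 : g ≠ 1) (B : ℕ) (hB : ∀ y ∈ Yset G X, Nat.card (stabilizer G y) ≤ B) :
    Nat.card (Subgroup.normalizer ((Subgroup.zpowers g : Subgroup G) : Set G)) ≤ 2 * B := by
  obtain ⟨y₀, hy₀⟩ := h.exists_fixed h1
  set N := Subgroup.normalizer ((Subgroup.zpowers g : Subgroup G) : Set G) with hN
  have hfin : {y : X | g • y = y}.Finite := h.fix_finite g h1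
  have horb : (orbit N y₀).ncard ≤ 2 := by
    refine le_trans (Set.ncard_le_ncard ?_ hfin) (h.fix_ncard_le h1)
    rintro _ ⟨n, rfl⟩
    exact fix_normalizer n.2 hy₀
  have hst : Nat.card (stabilizer N y₀) ≤ B := by
    refine le_trans ?_ (hB y₀ ⟨g, h1, hy₀⟩)
    refine Nat.card_le_card_of_injective (fun a => (⟨(a.1 : G), a.2⟩ : stabilizer G y₀)) ?_
    intro a b hab
    apply Subtype.ext
    apply Subtype.ext
    have h9 := congrArg Subtype.val hab
    exact h9
  have h3 := (stabilizer N y₀).card_mul_index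
  rw [index_stabilizer] at h3
  rw [← h3, mul_comm]
  exact Nat.mul_le_mul horb hst

/-- A stabiliser without `p`-elements is cyclic. -/
theorem IsD.stab_cyclic (x : X) (hQ : Qs h x = ⊥) : IsCyclic (stabilizer G x) := by
  obtain ⟨φ, hφ⟩ := h.chi x
  apply isCyclic_of_subgroup_isDomain ((Units.coeHom L).comp φ)
  rw [injective_iff_map_eq_one]
  intro g hg
  have h1 : φ g = 1 := by
    apply Units.ext
    exact hg
  have h2 := (hφ g).1 h1
  have h3 : (g : G) ∈ Qs h x := ⟨g.2, h2⟩
  rw [hQ, Subgroup.mem_bot] at h3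
  exact Subtype.ext h3

/-- A generator of a stabiliser without `p`-elements. -/
theorem IsD.exists_gen (x : X) (hQ : Qs h x = ⊥) : ∃ ρ : G, Subgroup.zpowers ρ = stabilizer G x := by
  haveI := h.stab_cyclic x hQ
  obtain ⟨ρ, hρ⟩ := IsCyclic.exists_generator (α := stabilizer G x)
  refine ⟨ρ, ?_⟩
  apply le_antisymm
  · rw [Subgroup.zpowers_le]
    exact ρ.2
  · intro g hg
    obtain ⟨k, hk⟩ := hρ ⟨g, hg⟩
    refine ⟨k, ?_⟩
    have := congrArg Subtype.val hk
    simpa using this

/-- The complement of the `p`-part in a stabiliser divides `a - 1`. -/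
theorem IsD.k_dvd (x : X) (k : ℕ) (hk : Nat.card (stabilizer G x) = Nat.card (Qs h x) * k) :
    k ∣ Nat.card (Qs h x) - 1 := by
  classical
  have hfix : ∀ (g : stabilizer G x) (u : G), u ∈ Qs h x → (g : G) * u * (g : G)⁻¹ ∈ Qs h x := by
    intro g u hu
    have := (h.mem_Qs_smul (g : G) u x).2 hu
    have e : (g : G) • x = x := g.2
    rwa [e] at this
  let S := {u : G // u ∈ Qs h x ∧ u ≠ 1}
  letI : MulAction (stabilizer G x) S :=
    { smul := fun g u => ⟨(g : G) * u.1 * (g : G)⁻¹, hfix g u.1 u.2.1, by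
        intro e
        apply u.2.2
        have : u.1 = (g : G)⁻¹ * ((g : G) * u.1 * (g : G)⁻¹) * (g : G) := by group
        rw [this, e]
        group⟩
      one_smul := fun u => by
        apply Subtype.ext
        show ((1 : stabilizer G x) : G) * u.1 * ((1 : stabilizer G x) : G)⁻¹ = u.1
        simp
      mul_smul := fun a b u => by
        apply Subtype.ext
        show ((a * b : stabilizer G x) : G) * u.1 * ((a * b : stabilizer G x) : G)⁻¹ = (a : G) * ((b : G) * u.1 * (b : G)⁻¹) * (a : G)⁻¹
        simp only [Subgroup.coe_mul]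
        group }
  have hS : Nat.card S = Nat.card (Qs h x) - 1 := by
    have h1 : Nat.card S = ((Qs h x : Set G) \ {1}).ncard := by
      rw [← Nat.card_coe_set_eq]
      rfl
    rw [h1, Set.ncard_diff_singleton_of_mem (by exact (Qs h x).one_mem), ← Nat.card_coe_set_eq]
    rfl
  obtain ⟨t, ht⟩ := card_dvd_of_stab (A := stabilizer G x) (S := S) (Nat.card (Qs h x)) (by
    intro u
    apply Nat.card_congr
    refine Equiv.ofBijective (fun g => ⟨g.1.1, ?_⟩) ⟨?_, ?_⟩
    · -- commuting elements of the stabiliser lie in `Qs`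
      have hg : (g.1 : G) * u.1 * (g.1 : G)⁻¹ = u.1 := congrArg Subtype.val g.2
      refine ⟨g.1.2, ?_⟩
      by_contra hp
      have hg1 : (g.1 : G) ≠ 1 := by
        intro e
        apply hp
        rw [e, one_pow]
      obtain ⟨a, b, hab, hz⟩ := h.fix2 (g.1 : G) hg1 hp
      have hcomm : (g.1 : G) * u.1 = u.1 * (g.1 : G) := by
        have := hg
        rw [mul_inv_eq_iff_eq_mul] at this
        exact this
      have hfu : ∀ z : X, (g.1 : G) • z = z → (g.1 : G) • (u.1 • z) = u.1 • z := by
        intro z hzz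
        rw [← mul_smul, hcomm, mul_smul, hzz]
      have hxa : x = a ∨ x = b := (hz x).1 g.1.2
      have hux : u.1 • x = x := u.2.1.1
      -- the second fixed point
      obtain ⟨y, hyne, hy⟩ : ∃ y : X, y ≠ x ∧ (g.1 : G) • y = y := by
        rcases hxa with e | e
        · exact ⟨b, by rw [e]; exact hab.symm, (hz b).2 (Or.inr rfl)⟩
        · exact ⟨a, by rw [e]; exact hab, (hz a).2 (Or.inl rfl)⟩
      have huy : u.1 • y = y := by
        have h2 := (hz (u.1 • y)).1 (hfu y hy)
        have h3 := (hz y).1 hy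
        have hne : u.1 • y ≠ x := by
          intro e
          apply hyne
          have : y = u.1⁻¹ • (u.1 • y) := by simp
          rw [this, e, inv_smul_eq_iff, hux]
        rcases hxa with e | e <;> rcases h2 with h2 | h2 <;> rcases h3 with h3 | h3 <;> simp_all
      exact hyne (h.unique_fix u.2.1 u.2.2 huy)
    · intro a b hab
      apply Subtype.ext
      apply Subtype.ext
      have h9 := congrArg Subtype.val hab
      exact h9
    · rintro ⟨q, hq⟩
      refine ⟨⟨⟨q, hq.1⟩, ?_⟩, rfl⟩
      apply Subtype.ext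
      show q * u.1 * q⁻¹ = u.1
      rw [mul_inv_eq_iff_eq_mul]
      exact h.comm x q u.1 hq.1 u.2.1.1 hq.2 u.2.1.2)
  rw [hS, hk] at ht
  have hpos : 0 < Nat.card (Qs h x) := Nat.card_pos
  refine ⟨t, ?_⟩
  have : (Nat.card (Qs h x) - 1) * Nat.card (Qs h x) = (k * t) * Nat.card (Qs h x) := by
    rw [ht]; ring
  exact Nat.eq_of_mul_eq_mul_right hpos this

/-- The free action of `Qs` on the rest of its orbit. -/
theorem IsD.card_dvd_orbit (x : X) : Nat.card (Qs h x) ∣ (orbit G x).ncard - 1 := by
  classical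
  have hmem : ∀ (q : Qs h x) (y : X), y ∈ orbit G x ∧ y ≠ x → (q : G) • y ∈ orbit G x ∧ (q : G) • y ≠ x := by
    rintro q y ⟨⟨b, rfl⟩, hy⟩
    refine ⟨⟨q * b, by simp [mul_smul]⟩, ?_⟩
    intro e
    apply hy
    have h1 : (q : G) • x = x := q.2.1
    rw [smul_eq_iff_eq_inv_smul] at e
    exact e.trans (inv_smul_eq_iff.2 h1.symm)
  let S := {y : X // y ∈ orbit G x ∧ y ≠ x}
  letI : MulAction (Qs h x) S :=
    { smul := fun q y => ⟨(q : G) • y.1, hmem q y.1 y.2⟩
      one_smul := fun y => by
        apply Subtype.ext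
        show ((1 : Qs h x) : G) • y.1 = y.1
        simp
      mul_smul := fun a b y => by
        apply Subtype.ext
        show ((a * b : Qs h x) : G) • y.1 = (a : G) • (b : G) • y.1
        simp [mul_smul] }
  have hfinO : (orbit G x).Finite := Set.finite_range _
  haveI : Finite (orbit G x) := hfinO.to_subtype
  haveI : Finite S := by
    apply Finite.of_injective (fun y : S => (⟨y.1, y.2.1⟩ : orbit G x))
    intro a b hab
    apply Subtype.ext
    have h9 := congrArg Subtype.val hab
    exact h9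
  have hS : Nat.card S = (orbit G x).ncard - 1 := by
    have h1 : Nat.card S = (orbit G x \ {x}).ncard := by
      rw [← Nat.card_coe_set_eq]
      rfl
    rw [h1, Set.ncard_diff_singleton_of_mem (mem_orbit_self x)]
  obtain ⟨t, ht⟩ := card_dvd_of_stab (A := Qs h x) (S := S) 1 (by
    intro y
    rw [Nat.card_eq_one_iff_unique]
    refine ⟨⟨?_⟩, ⟨⟨1, one_mem _⟩⟩⟩
    have key : ∀ a : stabilizer (Qs h x) y, a = 1 := by
      intro a
      apply Subtype.ext
      apply Subtype.ext
      by_contra hne
      have h2 : ((a.1 : Qs h x) : G) • y.1 = y.1 := congrArg Subtype.val a.2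
      exact y.2.2 (h.unique_fix a.1.2 hne h2)
    intro a b
    rw [key a, key b])
  rw [hS, mul_one] at ht
  rw [ht]
  exact Dvd.intro_left t rfl

/-- A free action with the right count is transitive. -/
theorem IsD.trans_of_count (x : X) (hN : (orbit G x).ncard = Nat.card (Qs h x) + 1) {y z : X}
    (hy : y ∈ orbit G x) (hyx : y ≠ x) (hz : z ∈ orbit G x) (hzx : z ≠ x) : ∃ u ∈ Qs h x, u • y = z := by
  classical
  have hmem : ∀ (q : Qs h x) (y : X), y ∈ orbit G x ∧ y ≠ x → (q : G) • y ∈ orbit G x ∧ (q : G) • y ≠ x := by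
    rintro q y ⟨⟨b, rfl⟩, hy⟩
    refine ⟨⟨q * b, by simp [mul_smul]⟩, ?_⟩
    intro e
    apply hy
    have h1 : (q : G) • x = x := q.2.1
    rw [smul_eq_iff_eq_inv_smul] at e
    exact e.trans (inv_smul_eq_iff.2 h1.symm)
  let S := {y : X // y ∈ orbit G x ∧ y ≠ x}
  have hfinO : (orbit G x).Finite := Set.finite_range _
  haveI : Finite (orbit G x) := hfinO.to_subtype
  haveI : Finite S := by
    apply Finite.of_injective (fun y : S => (⟨y.1, y.2.1⟩ : orbit G x))
    intro a b hab
    apply Subtype.ext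
    have h9 := congrArg Subtype.val hab
    exact h9
  have hS : Nat.card S = Nat.card (Qs h x) := by
    have h1 : Nat.card S = (orbit G x \ {x}).ncard := by
      rw [← Nat.card_coe_set_eq]
      rfl
    rw [h1, Set.ncard_diff_singleton_of_mem (mem_orbit_self x), hN]
    simp
  let f : Qs h x → S := fun q => ⟨(q : G) • y, hmem q y ⟨hy, hyx⟩⟩
  have hf : Function.Injective f := by
    intro a b hab
    have h1 : (a : G) • y = (b : G) • y := congrArg Subtype.val hab
    by_contra hne
    have h2 : ((b⁻¹ * a : Qs h x) : G) • y = y := by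
      simp only [Subgroup.coe_mul, Subgroup.coe_inv, mul_smul]
      rw [h1, inv_smul_smul]
    have hne' : ((b⁻¹ * a : Qs h x) : G) ≠ 1 := by
      intro e
      apply hne
      have : b⁻¹ * a = 1 := Subtype.ext e
      exact (inv_mul_eq_one.1 this).symm
    exact hyx (h.unique_fix (b⁻¹ * a).2 hne' h2)
  have hbij : Function.Bijective f := hf.bijective_of_nat_card_le hS.le
  obtain ⟨u, hu⟩ := hbij.2 ⟨z, hz, hzx⟩
  exact ⟨u, u.2, congrArg Subtype.val hu⟩

end finite

end CfsgLib.Dickson
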