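import Cfsg.Agent.Lib.Dickson.Tori

/-! Applications of Dickson's theorem: order bounds. -/

set_option autoImplicit false
set_option linter.unusedSimpArgs false
set_option linter.unusedVariables false
set_option linter.unusedSectionVars false
set_option linter.style.haveILetI false

namespace CfsgLib.Dickson

open Matrix CfsgLib.H9.SL2Cl MulAction
open CfsgLib.H9.PSL2 (pr pr_surj pr_eq_iff pr_eq_one_iff pr_zS pr_mul pr_pow pr_one)

theorem card_A4' : Nat.card (alternatingGroup (Fin 4)) = 12 := by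
  rw [Nat.card_eq_fintype_card]
  decide

theorem card_S4' : Nat.card (Equiv.Perm (Fin 4)) = 24 := by
  rw [Nat.card_eq_fintype_card, Fintype.card_perm]
  rfl

theorem card_A5' : Nat.card (alternatingGroup (Fin 5)) = 60 := by
  rw [Nat.card_eq_fintype_card]
  decide

/-- Order of `PSL₂`, over any finite field. -/
theorem card_PSL2_nat (K : Type*) [Field K] [Finite K] :
    Nat.card (PSL2 K) * Nat.gcd 2 (Nat.card K - 1) = (Nat.card K + 1) * (Nat.card K * (Nat.card K - 1)) := by
  classical
  haveI : Fintype K := Fintype.ofFinite K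
  exact card_PSL2 (Nat.card_eq_fintype_card.symm)

/-- Order of `PGL₂`, over any finite field. -/
theorem card_PGL2_nat (K : Type*) [Field K] [Finite K] :
    Nat.card (Matrix.ProjGenLinGroup (Fin 2) K) = (Nat.card K + 1) * (Nat.card K * (Nat.card K - 1)) := by
  classical
  haveI : Fintype K := Fintype.ofFinite K
  rw [CfsgLib.ClassGeo.card_PGL_eq_card_SL]
  exact card_SL2_field K _ rfl

theorem gcd_two_le (n : ℕ) : Nat.gcd 2 n ≤ 2 := Nat.gcd_le_left _ (by norm_num)

theorem gcd_two_pos (n : ℕ) : 0 < Nat.gcd 2 n := Nat.gcd_pos_of_pos_left _ (by norm_num)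

variable {F : Type*} [Field F] [Fintype F] {q : ℕ} (hF : Fintype.card F = q)

include hF in
theorem two_le_q : 2 ≤ q := by
  rw [← hF]
  exact Fintype.one_lt_card

/-- Generic order bound coming out of `Good` for a proper subgroup. -/
theorem index_bound_of_card (H : Subgroup (PSL2 F)) (hc : Nat.card H * Nat.gcd 2 (q - 1) ≤ q * (q - 1)) (hF : Fintype.card F = q) :
    q + 1 ≤ H.index := by
  have h1 := card_PSL2 hF
  have h2 := H.card_mul_index
  have hq := two_le_q hF
  have hd := gcd_two_pos (q - 1)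
  have hpos : 0 < q * (q - 1) := Nat.mul_pos (by omega) (by omega)
  by_contra hlt
  push Not at hlt
  have h3 : H.index ≤ q := by omega
  have h4 : (q + 1) * (q * (q - 1)) = H.index * (Nat.card H * Nat.gcd 2 (q - 1)) := by
    rw [← h1, ← h2]
    ring
  have h5 : H.index * (Nat.card H * Nat.gcd 2 (q - 1)) ≤ q * (q * (q - 1)) := Nat.mul_le_mul h3 hc
  rw [← h4] at h5
  have : (q + 1) * (q * (q - 1)) = q * (q * (q - 1)) + q * (q - 1) := by ring
  omega

/-- An order-theoretic property of `Good`, for a proper subgroup. -/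
theorem good_index_bound (p : ℕ) [Fact p.Prime] [CharP F p] (hF : Fintype.card F = q)
    (hq : q ∉ ({2, 3, 5, 7, 9, 11} : Finset ℕ)) (H : Subgroup (PSL2 F)) (hH : H ≠ ⊤) : q + 1 ≤ H.index := by
  classical
  haveI : Finite (PSL2 F) := inferInstance
  have hq2 := two_le_q hF
  simp only [Finset.mem_insert, Finset.mem_singleton, not_or] at hq
  obtain ⟨h2, h3, h5, h7, h9, h11⟩ := hq
  have hq4 : 4 ≤ q := by omega
  have hdd := gcd_two_le (q - 1)
  have hd0 := gcd_two_pos (q - 1)
  have hG := card_PSL2 hF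
  have hmono : 4 ≤ q → q + 1 ≤ q * (q - 1) := by
    intro hh
    obtain ⟨r, rfl⟩ : ∃ r, q = r + 1 := ⟨q - 1, by omega⟩
    simp only [Nat.add_sub_cancel]
    nlinarith
  have htop : Nat.card H ≠ Nat.card (PSL2 F) := by
    intro e
    apply hH
    exact Subgroup.eq_top_of_card_eq _ e
  have hdvd : Nat.card H ∣ Nat.card (PSL2 F) := Subgroup.card_subgroup_dvd_card H
  have hevenq : ∀ r, q = r → r % 2 = 0 → Nat.gcd 2 (q - 1) = 1 := by
    intro r hr hh
    subst hr
    have : Nat.Coprime 2 (q - 1) := by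
      rw [Nat.coprime_two_left, Nat.odd_iff]
      omega
    exact this
  have hqq : ∀ c : ℕ, c ≤ 30 → (q < 13 → c * Nat.gcd 2 (q - 1) ≤ q * (q - 1)) → c * Nat.gcd 2 (q - 1) ≤ q * (q - 1) := by
    intro c hc hh
    by_cases h13 : q < 13
    · exact hh h13
    · push Not at h13
      have : q * (q - 1) ≥ 13 * 12 := Nat.mul_le_mul h13 (by omega)
      have : c * Nat.gcd 2 (q - 1) ≤ 30 * 2 := Nat.mul_le_mul hc hdd
      omega
  -- the element bound
  have hord : ∀ ρ : PSL2 F, ρ ≠ 1 → ρ ^ p ≠ 1 → orderOf ρ * Nat.gcd 2 (q - 1) ≤ q + 1 := by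
    intro ρ h1 h2
    have hd1 : Nat.gcd 2 (q - 1) ∣ q - 1 := Nat.gcd_dvd_right _ _
    have hd2 : Nat.gcd 2 (q - 1) ∣ q + 1 := by
      have : q + 1 = (q - 1) + 2 := by omega
      rw [this]
      exact dvd_add hd1 (Nat.gcd_dvd_left _ _)
    rcases order_dvd hF p ρ h1 h2 with h | h
    · have h4 := Nat.le_of_dvd (Nat.div_pos (Nat.le_of_dvd (by omega) hd1) hd0) h
      have := Nat.mul_le_mul_right (Nat.gcd 2 (q - 1)) h4
      rw [Nat.div_mul_cancel hd1] at this
      omega
    · have h4 := Nat.le_of_dvd (Nat.div_pos (Nat.le_of_dvd (by omega) hd2) hd0) h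
      have := Nat.mul_le_mul_right (Nat.gcd 2 (q - 1)) h4
      rwa [Nat.div_mul_cancel hd2] at this
  rcases dickson p H with ⟨ρ, hρ, h1, h2⟩ | ⟨ρ, hρ, h1, h2, -, -, hc, -⟩ | ⟨x, ⟨g, hg, hg1, hg2⟩, hfix⟩ | ⟨-, e⟩ | ⟨-, e⟩ | ⟨-, e⟩ | ⟨K, τ, hτ, t, hK3, hmem, hK⟩
  · apply index_bound_of_card H _ hF
    have hcH : Nat.card H = orderOf ρ := by rw [h2, Nat.card_zpowers]
    rw [hcH]
    by_cases hρ1 : ρ = 1
    · rw [hρ1, orderOf_one, one_mul]
      have := hmono hq4
      omega
    · have := hord ρ hρ1 (h1.resolve_left hρ1)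
      have := hmono hq4
      omega
  · apply index_bound_of_card H _ hF
    rw [hc]
    have h3 := hord ρ h1 h2
    have h4 : 2 * orderOf ρ * Nat.gcd 2 (q - 1) ≤ 2 * (q + 1) := by
      rw [mul_assoc]
      exact Nat.mul_le_mul_left _ h3
    have h5 : 2 * (q + 1) ≤ q * (q - 1) := by
      obtain ⟨r, rfl⟩ : ∃ r, q = r + 1 := ⟨q - 1, by omega⟩
      simp only [Nat.add_sub_cancel]
      nlinarith
    omega
  · have hrat : IsRat x := rat_fix p g hg1 hg2 x (hfix g hg)
    have hle : H ≤ stabilizer (PSL2 F) x := fun a ha => hfix a ha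
    have h4 := Subgroup.index_dvd_of_le hle
    rw [index_stab_rat hF hrat] at h4
    exact Nat.le_of_dvd (Nat.pos_of_ne_zero Subgroup.index_ne_zero_of_finite) h4
  · apply index_bound_of_card H _ hF
    have hc : Nat.card H = 12 := by
      rw [Nat.card_congr e.some.toEquiv]
      exact card_A4'
    rw [hc]
    apply hqq 12 (by norm_num)
    intro h13
    have hev : q % 2 = 0 := by
      by_contra hodd
      interval_cases q <;> omega
    rw [hevenq q rfl hev, mul_one]
    have : 4 * 3 ≤ q * (q - 1) := Nat.mul_le_mul hq4 (by omega)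
    omega
  · apply index_bound_of_card H _ hF
    have hc : Nat.card H = 24 := by
      rw [Nat.card_congr e.some.toEquiv]
      exact card_S4'
    rw [hc] at hdvd ⊢
    apply hqq 24 (by norm_num)
    intro h13
    have hev : q % 2 = 0 := by
      by_contra hodd
      interval_cases q <;> omega
    rw [hevenq q rfl hev, mul_one]
    rcases Nat.lt_or_ge q 6 with h6 | h6
    · exfalso
      have hq5 : q = 4 := by omega
      subst hq5
      rw [hevenq 4 rfl (by norm_num)] at hG
      have hG' : Nat.card (PSL2 F) = 60 := by simpa using hG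
      rw [hG'] at hdvd
      omega
    · have : 6 * 5 ≤ q * (q - 1) := Nat.mul_le_mul h6 (by omega)
      omega
  · apply index_bound_of_card H _ hF
    have hc : Nat.card H = 60 := by
      rw [Nat.card_congr e.some.toEquiv]
      exact card_A5'
    rw [hc] at hdvd htop ⊢
    by_cases h13 : q < 13
    · have hev : q % 2 = 0 := by
        by_contra hodd
        interval_cases q <;> omega
      rw [hevenq q rfl hev, mul_one]
      rw [hevenq q rfl hev, mul_one] at hG
      have hG' : Nat.card (PSL2 F) = (q + 1) * (q * (q - 1)) := hG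
      rw [hG'] at hdvd htop
      interval_cases q <;> omega
    · push Not at h13
      have : q * (q - 1) ≥ 13 * 12 := Nat.mul_le_mul h13 (by omega)
      have : 60 * Nat.gcd 2 (q - 1) ≤ 60 * 2 := Nat.mul_le_mul_left _ hdd
      omega
  · apply index_bound_of_card H _ hF
    obtain ⟨m, hm⟩ := exists_degree K
    rw [hF] at hm
    set a := Nat.card K with ha
    have hcK : Nat.card H ≤ (a + 1) * (a * (a - 1)) := by
      rcases hK with e | e
      · rw [Nat.card_congr e.some.toEquiv]
        have h7 := card_PSL2_nat K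
        rw [← ha] at h7
        rw [← h7]
        exact Nat.le_mul_of_pos_right _ (gcd_two_pos _)
      · rw [Nat.card_congr e.some.toEquiv, card_PGL2_nat, ← ha]
    rcases m with _ | _ | m
    · simp at hm
      omega
    · exfalso
      simp at hm
      have hge : Nat.card (PSL2 F) ≤ Nat.card H := by
        rcases hK with e | e
        · rw [Nat.card_congr e.some.toEquiv]
          have h7 := card_PSL2_nat K
          rw [← ha, hm] at h7
          have h8 := Nat.eq_of_mul_eq_mul_right hd0 (h7.trans hG.symm)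
          exact h8.ge
        · rw [Nat.card_congr e.some.toEquiv, card_PGL2_nat, ← ha, hm, ← hG]
          exact Nat.le_mul_of_pos_right _ hd0
      exact htop (le_antisymm (Nat.le_of_dvd Nat.card_pos hdvd) hge)
    · have ha2 : a ^ 2 ≤ q := by
        rw [← hm]
        exact Nat.pow_le_pow_right (by omega) (by omega)
      have h1 : Nat.card H * Nat.gcd 2 (q - 1) ≤ (a + 1) * (a * (a - 1)) * 2 := Nat.mul_le_mul hcK hdd
      have h2 : a ^ 2 * (a ^ 2 - 1) ≤ q * (q - 1) := Nat.mul_le_mul ha2 (by omega)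
      have h3 : (a + 1) * (a * (a - 1)) * 2 ≤ a ^ 2 * (a ^ 2 - 1) := by
        obtain ⟨r, hr⟩ : ∃ r, a = r + 3 := ⟨a - 3, by omega⟩
        rw [hr]
        have e1 : r + 3 - 1 = r + 2 := by omega
        have e2 : (r + 3) ^ 2 - 1 = (r + 2) * (r + 4) := by
          have : (r + 3) ^ 2 = (r + 2) * (r + 4) + 1 := by ring
          omega
        rw [e1, e2]
        nlinarith [Nat.zero_le r, Nat.zero_le (r * r), Nat.zero_le (r * r * r), Nat.zero_le (r * r * r * r)]
      omega

/-- Order of the stabiliser of a rational point. -/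
theorem card_stab_rat (hF : Fintype.card F = q) {x : XF F} (hx : IsRat x) :
    Nat.card (stabilizer (PSL2 F) x) * Nat.gcd 2 (q - 1) = q * (q - 1) := by
  have h1 := card_PSL2 hF
  have h2 := (stabilizer (PSL2 F) x).card_mul_index
  rw [index_stab_rat hF hx] at h2
  have hq := two_le_q hF
  rw [← h2] at h1
  have h3 : (q + 1) * (Nat.card (stabilizer (PSL2 F) x) * Nat.gcd 2 (q - 1)) = (q + 1) * (q * (q - 1)) := by
    rw [← h1]
    ring
  exact Nat.eq_of_mul_eq_mul_left (by omega) h3

/-- A cyclic subgroup cannot be isomorphic to a noncommutative group. -/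
theorem not_zpowers_of_equiv {G Γ : Type*} [Group G] [Group Γ] (H : Subgroup G) (e : H ≃* Γ) (a b : Γ) (hab : a * b ≠ b * a)
    (ρ : G) (h : H = Subgroup.zpowers ρ) : False := by
  apply hab
  subst h
  obtain ⟨a', rfl⟩ := e.surjective a
  obtain ⟨b', rfl⟩ := e.surjective b
  rw [← map_mul, ← map_mul]
  congr 1
  obtain ⟨g₁, i, hi⟩ := a'
  obtain ⟨g₂, j, hj⟩ := b'
  apply Subtype.ext
  show g₁ * g₂ = g₂ * g₁
  have hi' : ρ ^ i = g₁ := hi
  have hj' : ρ ^ j = g₂ := hj
  rw [← hi', ← hj']
  exact ((Commute.refl ρ).zpow_zpow i j).eq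

/-- The size of the subfield groups. -/
theorem card_subfield_cases (H : Subgroup (PSL2 F)) (K : Subfield F)
    (hK : Nonempty (H ≃* PSL2 K) ∨ Nonempty (H ≃* Matrix.ProjGenLinGroup (Fin 2) K)) :
    (Nat.card H * Nat.gcd 2 (Nat.card K - 1) = (Nat.card K + 1) * (Nat.card K * (Nat.card K - 1))) ∨
      Nat.card H = (Nat.card K + 1) * (Nat.card K * (Nat.card K - 1)) := by
  rcases hK with e | e
  · left
    rw [Nat.card_congr e.some.toEquiv]
    exact card_PSL2_nat K
  · right
    rw [Nat.card_congr e.some.toEquiv]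
    exact card_PGL2_nat K

end CfsgLib.Dickson
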