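import Cfsg.Agent.Lib.Dickson.Abs2

/-! The abstract classification of finite groups acting like subgroups of `PSL₂` on the projective line. -/

set_option autoImplicit false
set_option linter.unusedSimpArgs false
set_option linter.unusedVariables false
set_option linter.unusedSectionVars false

namespace CfsgLib.Dickson

open MulAction

variable {G X L : Type*} [Group G] [MulAction G X] [Field L] {p : ℕ}

/-- The two-transitive outcome. -/
structure TwoTrans (h : IsD L p G X) (a k : ℕ) : Prop where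
  a3 : 3 ≤ a
  k1 : 1 ≤ k
  kdvd : k ∣ a - 1
  card : Nat.card G = (a + 1) * (a * k)
  ex : ∃ x : X, Qs h x ≠ ⊥
  cardQ : ∀ x : X, Qs h x ≠ ⊥ → Nat.card (Qs h x) = a
  orb : ∀ x : X, Qs h x ≠ ⊥ → (orbit G x).ncard = a + 1
  stab : ∀ x : X, Qs h x ≠ ⊥ → Nat.card (stabilizer G x) = a * k

/-- The list of outcomes. -/
def Outcome (h : IsD L p G X) : Prop :=
  (∃ ρ : G, (ρ = 1 ∨ ρ ^ p ≠ 1) ∧ ∀ g : G, g ∈ Subgroup.zpowers ρ) ∨
  (∃ ρ : G, ρ ≠ 1 ∧ ρ ^ p ≠ 1 ∧ (Subgroup.zpowers ρ).index = 2 ∧ (∀ g : G, g ∉ Subgroup.zpowers ρ → g ^ 2 = 1) ∧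
    Nonempty (DihedralGroup (orderOf ρ) ≃* G)) ∨
  (∃ x : X, Qs h x ≠ ⊥ ∧ ∀ g : G, g • x = x) ∨
  ((∀ g : G, g ≠ 1 → g ^ p ≠ 1) ∧ Nonempty (G ≃* alternatingGroup (Fin 4))) ∨
  ((∀ g : G, g ≠ 1 → g ^ p ≠ 1) ∧ Nonempty (G ≃* Equiv.Perm (Fin 4))) ∨
  (((∀ g : G, g ≠ 1 → g ^ p ≠ 1) ∨ p = 3) ∧ Nonempty (G ≃* alternatingGroup (Fin 5))) ∨
  ∃ a k, TwoTrans h a k

section finite

variable [Finite G] (h : IsD L p G X)
include h

omit h [Finite G] in
theorem two_le_stab [Finite G] {x : X} (hx : x ∈ Yset G X) : 2 ≤ Nat.card (stabilizer G x) := by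
  obtain ⟨g, hg, hgx⟩ := hx
  have h1 : stabilizer G x ≠ ⊥ := by
    intro e
    have : g ∈ stabilizer G x := hgx
    rw [e, Subgroup.mem_bot] at this
    exact hg this
  exact (Subgroup.one_lt_card_iff_ne_bot _).2 h1

theorem IsD.two_le_Qs {x : X} (hx : Qs h x ≠ ⊥) : 2 ≤ Nat.card (Qs h x) :=
  (Subgroup.one_lt_card_iff_ne_bot _).2 hx

/-- A dihedral outcome from a stabiliser of index two. -/
theorem IsD.dih_outcome (x : X) (hQ : Qs h x = ⊥) (hidx : (stabilizer G x).index = 2) (hne : Nat.card (stabilizer G x) ≠ 1)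
    (hout : ∀ g : G, g ∉ stabilizer G x → g ^ 2 = 1) : ∃ ρ : G, ρ ≠ 1 ∧ ρ ^ p ≠ 1 ∧ (Subgroup.zpowers ρ).index = 2 ∧ (∀ g : G, g ∉ Subgroup.zpowers ρ → g ^ 2 = 1) ∧ Nonempty (DihedralGroup (orderOf ρ) ≃* G) := by
  obtain ⟨ρ, hρ⟩ := h.exists_gen x hQ
  have hρ1 : ρ ≠ 1 := by
    rintro rfl
    apply hne
    rw [← hρ, Subgroup.zpowers_one_eq_bot, Subgroup.card_bot]
  refine ⟨ρ, hρ1, ?_, by rw [hρ]; exact hidx, by rw [hρ]; exact hout, ?_⟩
  · intro hp
    have : ρ ∈ Qs h x := by
      refine ⟨?_, hp⟩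
      have h1 : ρ ∈ stabilizer G x := by
        rw [← hρ]
        exact Subgroup.mem_zpowers ρ
      exact h1
    rw [hQ, Subgroup.mem_bot] at this
    exact hρ1 this
  · apply dihedral_of
    · rw [hρ]
      exact hidx
    · rw [hρ]
      exact hout

/-- Stabilisers of points of `Y` are bounded when those of representatives are. -/
theorem stab_bound {r : ℕ} {x : Fin r → X} (hcover : ∀ y ∈ Yset G X, ∃ i, ∃ a : G, a • x i = y) (B : ℕ)
    (hB : ∀ i, Nat.card (stabilizer G (x i)) ≤ B) : ∀ y ∈ Yset G X, Nat.card (stabilizer G y) ≤ B := by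
  intro y hy
  obtain ⟨i, a, rfl⟩ := hcover y hy
  rw [h.card_stab_smul]
  exact hB i

/-- The case without `p`-elements. -/
theorem IsD.classify_nop (hno : ∀ g : G, g ≠ 1 → g ^ p ≠ 1) : Outcome h := by
  have hQ : ∀ y : X, Qs h y = ⊥ := by
    intro y
    rw [eq_bot_iff]
    intro g hg
    by_contra hne
    exact hno g hne hg.2
  obtain ⟨r, x, hY, hsep, hcover, hsum⟩ := h.exists_reps
  set e : Fin r → ℕ := fun i => Nat.card (stabilizer G (x i)) with he
  set h₀ : ℕ := Nat.card G with hh₀
  have he2 : ∀ i, 2 ≤ e i := fun i => two_le_stab (hY i)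
  have hele : ∀ i, e i ≤ h₀ := fun i => Subgroup.card_le_card_group _
  have hposN : 0 < h₀ := Nat.card_pos
  have hpos : (0 : ℚ) < h₀ := by exact_mod_cast hposN
  have hterm : ∀ i, (((Nat.card (stabilizer G (x i)) : ℚ) + (Nat.card (Qs h (x i)) : ℚ) - 2) / (Nat.card (stabilizer G (x i)) : ℚ)) = 1 - 1 / (e i : ℚ) := by
    intro i
    rw [hQ, Subgroup.card_bot]
    have : (e i : ℚ) ≠ 0 := by
      have := he2 i
      exact_mod_cast (by omega : e i ≠ 0)
    show ((e i : ℚ) + ((1 : ℕ) : ℚ) - 2) / (e i : ℚ) = 1 - 1 / (e i : ℚ)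
    field_simp
    push_cast
    ring
  have hsum' : ∑ i, (1 - 1 / (e i : ℚ)) = 2 - 2 / (h₀ : ℚ) := by
    rw [← hsum]
    exact Finset.sum_congr rfl (fun i _ => (hterm i).symm)
  have hr : r < 4 := by
    have hge : ∑ i : Fin r, (1 / 2 : ℚ) ≤ ∑ i, (1 - 1 / (e i : ℚ)) := by
      apply Finset.sum_le_sum
      intro i _
      have := inv_le_of_le (by norm_num) (he2 i)
      push_cast at this
      linarith
    rw [hsum', Finset.sum_const, Finset.card_univ, Fintype.card_fin, nsmul_eq_mul] at hge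
    have h2 : (0 : ℚ) < 2 / h₀ := by positivity
    have h3 : (r : ℚ) < 4 := by linarith
    exact_mod_cast h3
  have hstab_top : ∀ (y : X), Nat.card (stabilizer G y) = h₀ → ∀ g : G, g ∈ stabilizer G y := by
    intro y hy g
    rw [Subgroup.eq_top_of_card_eq _ hy]
    trivial
  interval_cases r
  · -- `r = 0`: the trivial group
    simp only [Finset.univ_eq_empty, Finset.sum_empty] at hsum'
    have h1 : (h₀ : ℚ) = 1 := by
      field_simp at hsum'
      linarith
    have h2 : h₀ = 1 := by exact_mod_cast h1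
    left
    refine ⟨1, Or.inl rfl, fun g => ?_⟩
    have : Subsingleton G := (Nat.card_eq_one_iff_unique.1 h2).1
    rw [Subsingleton.elim g 1]
    exact Subgroup.one_mem _
  · -- `r = 1`: impossible
    exfalso
    refine kl1 (e 0) h₀ (he2 0) (hele 0) ?_
    have := hsum'
    rw [Fin.sum_univ_one] at this
    exact this
  · -- `r = 2`: a fixed point
    obtain ⟨h0, -⟩ := kl2 (e 0) (e 1) h₀ (he2 0) (he2 1) (hele 0) (hele 1) (by rw [Fin.sum_univ_two] at hsum'; exact hsum')
    obtain ⟨ρ, hρ⟩ := h.exists_gen (x 0) (hQ _)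
    left
    refine ⟨ρ, ?_, fun g => ?_⟩
    · by_cases hρ1 : ρ = 1
      · exact Or.inl hρ1
      · exact Or.inr (hno ρ hρ1)
    · rw [hρ]
      exact hstab_top _ h0 g
  · -- `r = 3`
    let σ := Tuple.sort e
    have hm : Monotone (e ∘ σ) := Tuple.monotone_sort e
    have hs : ∑ i, (1 - 1 / (e (σ i) : ℚ)) = 2 - 2 / (h₀ : ℚ) := by
      rw [Equiv.sum_comp σ (fun i => 1 - 1 / (e i : ℚ))]
      exact hsum'
    rw [Fin.sum_univ_three] at hs
    have hm01 : e (σ 0) ≤ e (σ 1) := hm (by decide)
    have hm12 : e (σ 1) ≤ e (σ 2) := hm (by decide)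
    have hall : ∀ (P : ℕ → Prop), P (e (σ 0)) → P (e (σ 1)) → P (e (σ 2)) → ∀ i, P (e i) := by
      intro P h0 h1 h2 i
      obtain ⟨j, rfl⟩ := σ.surjective i
      fin_cases j
      · exact h0
      · exact h1
      · exact h2
    rcases kl3 (e (σ 0)) (e (σ 1)) (e (σ 2)) h₀ (he2 _) hm01 hm12 hposN hs with ⟨a, b, c⟩ | ⟨a, b, c, d⟩ | ⟨a, b, c, d⟩ | ⟨a, b, c, d⟩
    · -- dihedral
      right; left
      have hCcard : Nat.card (stabilizer G (x (σ 2))) * 2 = h₀ := by
        show e (σ 2) * 2 = h₀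
        omega
      have hidx : (stabilizer G (x (σ 2))).index = 2 := by
        have h1 : Nat.card (stabilizer G (x (σ 2))) * (stabilizer G (x (σ 2))).index = h₀ := (stabilizer G (x (σ 2))).card_mul_index
        rw [← hCcard] at h1
        have hp : 0 < Nat.card (stabilizer G (x (σ 2))) := Nat.card_pos
        exact Nat.eq_of_mul_eq_mul_left hp h1
      refine h.dih_outcome (x (σ 2)) (hQ _) hidx (by
        have := he2 (σ 2)
        show e (σ 2) ≠ 1
        omega) ?_
      intro g hg
      have hg1 : g ≠ 1 := by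
        rintro rfl
        exact hg (Subgroup.one_mem _)
      obtain ⟨y, hy⟩ := h.exists_fixed hg1
      obtain ⟨i, c', rfl⟩ := hcover y ⟨g, hg1, hy⟩
      obtain ⟨j, rfl⟩ := σ.surjective i
      have hcase : ∀ j' : Fin 3, (j' = 0 ∨ j' = 1) ∨ j' = 2 := by decide
      rcases hcase j with hj | rfl
      · -- stabiliser of order two
        have hcard : Nat.card (stabilizer G (c' • x (σ j))) = 2 := by
          rw [h.card_stab_smul]
          rcases hj with rfl | rfl
          · exact a
          · exact b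
        have h1 := pow_card_eq_one' (G := stabilizer G (c' • x (σ j))) (x := ⟨g, hy⟩)
        rw [hcard] at h1
        simpa using congrArg Subtype.val h1
      · exfalso
        have hnormal : (stabilizer G (x (σ 2))).Normal := Subgroup.normal_of_index_eq_two hidx
        apply hg
        have h1 : c'⁻¹ * g * c' ∈ stabilizer G (x (σ 2)) := by
          show (c'⁻¹ * g * c') • x (σ 2) = x (σ 2)
          rw [mul_smul, mul_smul, hy, inv_smul_smul]
        have h2 := hnormal.conj_mem _ h1 c'
        have h3 : c' * (c'⁻¹ * g * c') * c'⁻¹ = g := by group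
        rwa [h3] at h2
    · -- `A₄`
      right; right; right; left
      have hB := stab_bound h hcover 3 (by
        apply hall (fun n => n ≤ 3) <;> omega)
      exact ⟨hno, iso_A4 d (fun g hg => lt_of_le_of_lt (h.card_normalizer_le hg 3 hB) (by norm_num))⟩
    · -- `S₄`
      right; right; right; right; left
      have hB := stab_bound h hcover 4 (by
        apply hall (fun n => n ≤ 4) <;> omega)
      exact ⟨hno, iso_S4 d (fun g hg => lt_of_le_of_lt (h.card_normalizer_le hg 4 hB) (by norm_num))⟩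
    · -- `A₅`
      right; right; right; right; right; left
      have hB := stab_bound h hcover 5 (by
        apply hall (fun n => n ≤ 5) <;> omega)
      exact ⟨Or.inl hno, iso_A5 d (fun g hg => le_trans (h.card_normalizer_le hg 5 hB) (by norm_num))⟩

/-- The case with `p`-elements. -/
theorem IsD.classify_p {g₀ : G} (h₁ : g₀ ≠ 1) (h₂ : g₀ ^ p = 1) : Outcome h := by
  obtain ⟨x₀, hx₀⟩ := h.fix1 g₀ h₁ h₂
  have hg₀x : g₀ • x₀ = x₀ := (hx₀ x₀).2 rfl
  have hQ0 : Qs h x₀ ≠ ⊥ := by
    intro e
    have : g₀ ∈ Qs h x₀ := ⟨hg₀x, h₂⟩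
    rw [e, Subgroup.mem_bot] at this
    exact h₁ this
  obtain ⟨r, x, hY, hsep, hcover, hsum⟩ := h.exists_reps
  obtain ⟨i₀, b, hb⟩ := hcover x₀ ⟨g₀, h₁, hg₀x⟩
  have hQi0 : Qs h (x i₀) ≠ ⊥ := by
    intro e
    apply hQ0
    rw [← hb]
    have h1 := h.card_Qs_smul b (x i₀)
    rw [e, Subgroup.card_bot] at h1
    exact Subgroup.eq_bot_of_card_eq _ h1
  have hQj : ∀ j, j ≠ i₀ → Qs h (x j) = ⊥ := by
    intro j hj
    by_contra hne
    obtain ⟨c, hc⟩ := h.Qs_conj hQi0 hne
    exact hj (hsep _ _ c hc).symm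
  set e : Fin r → ℕ := fun i => Nat.card (stabilizer G (x i)) with he
  set h₀ : ℕ := Nat.card G with hh₀
  have he2 : ∀ i, 2 ≤ e i := fun i => two_le_stab (hY i)
  have hposN : 0 < h₀ := Nat.card_pos
  have hpos : (0 : ℚ) < h₀ := by exact_mod_cast hposN
  set a : ℕ := Nat.card (Qs h (x i₀)) with ha
  have ha2 : 2 ≤ a := h.two_le_Qs hQi0
  have hQle : Qs h (x i₀) ≤ stabilizer G (x i₀) := fun g hg => hg.1
  obtain ⟨k, hk⟩ : a ∣ e i₀ := Subgroup.card_dvd_of_le hQle
  have hk1 : 1 ≤ k := by
    rcases Nat.eq_zero_or_pos k with rfl | h9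
    · have := he2 i₀
      rw [hk, mul_zero] at this
      omega
    · exact h9
  set N : ℕ := (stabilizer G (x i₀)).index with hN
  have hcardN : h₀ = N * (a * k) := by
    have h1 : Nat.card (stabilizer G (x i₀)) * N = h₀ := (stabilizer G (x i₀)).card_mul_index
    have h2 : Nat.card (stabilizer G (x i₀)) = a * k := hk
    rw [h2] at h1
    rw [← h1, mul_comm]
  have hN1 : 1 ≤ N := by
    rcases Nat.eq_zero_or_pos N with h9 | h9
    · rw [h9, zero_mul] at hcardN
      omega
    · exact h9
  have htop : N = 1 → Outcome h := by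
    intro hN1'
    right; right; left
    refine ⟨x i₀, hQi0, fun g => ?_⟩
    have : stabilizer G (x i₀) = ⊤ := Subgroup.index_eq_one.1 hN1'
    have hg : g ∈ stabilizer G (x i₀) := by rw [this]; trivial
    exact hg
  -- split the sum
  classical
  set t : Fin r → ℚ := fun i => ((Nat.card (stabilizer G (x i)) : ℚ) + (Nat.card (Qs h (x i)) : ℚ) - 2) / (Nat.card (stabilizer G (x i)) : ℚ) with ht
  have hsplit := Finset.add_sum_erase Finset.univ t (Finset.mem_univ i₀)
  rw [hsum] at hsplit
  set s := Finset.univ.erase i₀ with hs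
  have htj : ∀ j ∈ s, t j = 1 - 1 / (e j : ℚ) := by
    intro j hj
    have hj' : j ≠ i₀ := Finset.ne_of_mem_erase hj
    simp only [ht]
    rw [hQj j hj', Subgroup.card_bot]
    have : (e j : ℚ) ≠ 0 := by
      have := he2 j
      exact_mod_cast (by omega : e j ≠ 0)
    show ((e j : ℚ) + ((1 : ℕ) : ℚ) - 2) / (e j : ℚ) = 1 - 1 / (e j : ℚ)
    field_simp
    push_cast
    ring
  have hti0 : t i₀ = (((a * k : ℕ) : ℚ) + (a : ℚ) - 2) / ((a * k : ℕ) : ℚ) := by
    have h2 : Nat.card (stabilizer G (x i₀)) = a * k := hk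
    simp only [ht]
    rw [h2]
  have ht0 : 1 ≤ t i₀ := by
    rw [hti0, le_div_iff₀ (by exact_mod_cast Nat.mul_pos (by omega) hk1)]
    have : (2 : ℚ) ≤ a := by exact_mod_cast ha2
    linarith
  have hscard : s.card < 2 := by
    have hge : ∑ j ∈ s, (1 / 2 : ℚ) ≤ ∑ j ∈ s, t j := by
      apply Finset.sum_le_sum
      intro j hj
      rw [htj j hj]
      have := inv_le_of_le (by norm_num) (he2 j)
      push_cast at this
      linarith
    rw [Finset.sum_const, nsmul_eq_mul] at hge
    have h2 : (0 : ℚ) < 2 / h₀ := by positivity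
    have h3 : (s.card : ℚ) < 2 := by linarith
    exact_mod_cast h3
  have hs01 : s.card = 0 ∨ s.card = 1 := by omega
  rcases hs01 with h0 | h1
  · -- one orbit only
    apply htop
    rw [Finset.card_eq_zero] at h0
    rw [h0, Finset.sum_empty, add_zero, hti0] at hsplit
    apply kp1 a k N (by omega) hk1 hN1
    rw [hsplit, ← hcardN]
  · -- two orbits
    obtain ⟨j, hj⟩ := Finset.card_eq_one.1 h1
    have hjs : j ∈ s := by rw [hj]; exact Finset.mem_singleton_self j
    have hj' : j ≠ i₀ := Finset.ne_of_mem_erase hjs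
    rw [hj, Finset.sum_singleton, htj j hjs, hti0] at hsplit
    set M : ℕ := (stabilizer G (x j)).index with hM
    have hcardM : M * e j = N * (a * k) := by
      have h2 : e j * M = h₀ := (stabilizer G (x j)).card_mul_index
      rw [mul_comm, h2, hcardN]
    have hMeq : M = 2 + (a - 2) * N := by
      apply kp2 a k N (e j) M ha2 hk1 hN1 (by have := he2 j; omega) hcardM
      rw [hsplit, ← hcardN]
    by_cases hN2 : N = 1
    · exact htop hN2
    have horb : ∀ y : X, (orbit G y).ncard = (stabilizer G y).index := fun y => (index_stabilizer G y).symm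
    have hdvd : a ∣ N - 1 := by
      have := h.card_dvd_orbit (x i₀)
      rw [horb] at this
      exact this
    obtain ⟨s', hs'⟩ := hdvd
    have hs'1 : 1 ≤ s' := by
      rcases Nat.eq_zero_or_pos s' with rfl | h9
      · rw [mul_zero] at hs'
        omega
      · exact h9
    have hNs : N = 1 + s' * a := by
      rw [mul_comm s' a, ← hs']
      omega
    have hkdvd : k ∣ a - 1 := h.k_dvd (x i₀) k hk
    have heq : a * k * N = e j * (2 + (a - 2) * N) := by
      rw [← hMeq, mul_comm (e j), hcardM]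
      ring
    -- bounds for normalizers
    have hreps : ∀ (B : ℕ), e i₀ ≤ B → e j ≤ B → ∀ y ∈ Yset G X, Nat.card (stabilizer G y) ≤ B := by
      intro B h1 h2
      apply stab_bound h hcover B
      intro i
      by_cases hi : i = i₀
      · rw [hi]
        exact h1
      · have : i ∈ s := Finset.mem_erase.2 ⟨hi, Finset.mem_univ _⟩
        rw [hj, Finset.mem_singleton] at this
        rw [this]
        exact h2
    -- the two-transitive outcome
    have hTT : 3 ≤ a → N = a + 1 → Outcome h := by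
      intro ha3 hNa
      right; right; right; right; right; right
      refine ⟨a, k, ⟨ha3, hk1, hkdvd, ?_, ⟨x i₀, hQi0⟩, ?_, ?_, ?_⟩⟩
      · rw [← hNa]
        exact hcardN
      · intro y hy
        obtain ⟨c, hc⟩ := h.Qs_conj hQi0 hy
        rw [← hc, h.card_Qs_smul]
      · intro y hy
        obtain ⟨c, hc⟩ := h.Qs_conj hQi0 hy
        rw [← hc, orbit_smul, horb, ← hN, hNa]
      · intro y hy
        obtain ⟨c, hc⟩ := h.Qs_conj hQi0 hy
        rw [← hc, h.card_stab_smul]
        exact hk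
    rcases dio a k N (e j) ha2 hkdvd hk1 s' hs'1 hNs heq with ⟨ha', hk', hej⟩ | ⟨ha', hk', hN', hej⟩ | ⟨ha', hk', hN', hej⟩ | ⟨ha', hk', hN', hej⟩ | ⟨ha', hN'⟩
    · -- dihedral
      right; left
      have hp2 : p = 2 := by
        haveI : Fact p.Prime := ⟨h.prime⟩
        have h1 : IsPGroup p (Qs h (x i₀)) := h.isPGroup_Qs _
        obtain ⟨n, hn⟩ := IsPGroup.iff_card.1 h1
        have h2 : p ^ n = 2 := by
          rw [← hn]
          exact ha'
        have h3 := (Nat.prime_two.eq_one_or_self_of_dvd p (by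
          rw [← h2]
          apply dvd_pow_self
          rintro rfl
          simp at h2))
        rcases h3 with h3 | h3
        · exact absurd h3 h.prime.ne_one
        · exact h3
      have hidx : (stabilizer G (x j)).index = 2 := by
        rw [← hM, hMeq, ha']
        norm_num
      refine h.dih_outcome (x j) (hQj j hj') hidx (by
        have := he2 j
        show e j ≠ 1
        omega) ?_
      intro g hg
      have hg1 : g ≠ 1 := by
        rintro rfl
        exact hg (Subgroup.one_mem _)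
      by_contra hg2
      have hg2' : g ^ p ≠ 1 := by
        rw [hp2]
        exact hg2
      have hnd := h.not_dvd_order g hg1 hg2'
      rw [hp2] at hnd
      have hodd : orderOf g % 2 = 1 := by omega
      have hsq : g ^ 2 ∈ stabilizer G (x j) := Subgroup.sq_mem_of_index_two hidx g
      apply hg
      obtain ⟨m, hm⟩ : ∃ m, orderOf g = 2 * m + 1 := ⟨orderOf g / 2, by omega⟩
      have h3 : g = (g ^ 2) ^ (m + 1) := by
        have h4 : g ^ (2 * m + 1) = 1 := by
          rw [← hm]
          exact pow_orderOf_eq_one g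
        rw [← pow_mul]
        have h5 : 2 * (m + 1) = (2 * m + 1) + 1 := by ring
        rw [h5, pow_succ, h4, one_mul]
      rw [h3]
      exact Subgroup.pow_mem _ hsq _
    · exact hTT (by omega) (by omega)
    · exact hTT (by omega) (by omega)
    · -- `A₅` in characteristic three
      right; right; right; right; right; left
      have hcard60 : Nat.card G = 60 := by
        rw [← hh₀, hcardN, hN', ha', hk']
      have hei : e i₀ = 6 := by
        rw [hk, ha', hk']
      have hB := hreps 6 (by omega) (by omega)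
      have hp3 : p = 3 := by
        haveI : Fact p.Prime := ⟨h.prime⟩
        have h1 : IsPGroup p (Qs h (x i₀)) := h.isPGroup_Qs _
        obtain ⟨n, hn⟩ := IsPGroup.iff_card.1 h1
        have h2 : p ^ n = 3 := by
          rw [← hn]
          exact ha'
        have h3 := (Nat.prime_three.eq_one_or_self_of_dvd p (by
          rw [← h2]
          apply dvd_pow_self
          rintro rfl
          simp at h2))
        rcases h3 with h3 | h3
        · exact absurd h3 h.prime.ne_one
        · exact h3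
      exact ⟨Or.inr hp3, iso_A5 hcard60 (fun g hg => le_trans (h.card_normalizer_le hg 6 hB) (by norm_num))⟩
    · exact hTT (by omega) hN'

/-- The orbit structure when `p`-elements exist. -/
theorem IsD.orbit_struct {x₀ : X} (hQ0 : Qs h x₀ ≠ ⊥) :
    (∀ y z : X, y ∈ Yset G X → z ∈ Yset G X → Qs h y = ⊥ → Qs h z = ⊥ → ∃ a : G, a • y = z) ∧
    ((stabilizer G x₀).index ≠ 1 → ∃ y ∈ Yset G X, Qs h y = ⊥ ∧
      (stabilizer G y).index = 2 + (Nat.card (Qs h x₀) - 2) * (stabilizer G x₀).index) := by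
  obtain ⟨r, x, hY, hsep, hcover, hsum⟩ := h.exists_reps
  have hx₀Y : x₀ ∈ Yset G X := by
    obtain ⟨g, hg, hg1⟩ := (Subgroup.bot_or_exists_ne_one _).resolve_left hQ0
    exact ⟨g, hg1, hg.1⟩
  obtain ⟨i₀, b, hb⟩ := hcover x₀ hx₀Y
  have hQi0 : Qs h (x i₀) ≠ ⊥ := by
    intro e
    apply hQ0
    rw [← hb]
    have h1 := h.card_Qs_smul b (x i₀)
    rw [e, Subgroup.card_bot] at h1
    exact Subgroup.eq_bot_of_card_eq _ h1
  have hQj : ∀ j, j ≠ i₀ → Qs h (x j) = ⊥ := by
    intro j hj
    by_contra hne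
    obtain ⟨c, hc⟩ := h.Qs_conj hQi0 hne
    exact hj (hsep _ _ c hc).symm
  set e : Fin r → ℕ := fun i => Nat.card (stabilizer G (x i)) with he
  set h₀ : ℕ := Nat.card G with hh₀
  have he2 : ∀ i, 2 ≤ e i := fun i => two_le_stab (hY i)
  have hposN : 0 < h₀ := Nat.card_pos
  have hpos : (0 : ℚ) < h₀ := by exact_mod_cast hposN
  set a : ℕ := Nat.card (Qs h (x i₀)) with ha
  have hax : Nat.card (Qs h x₀) = a := by
    rw [← hb, h.card_Qs_smul]
  have ha2 : 2 ≤ a := h.two_le_Qs hQi0
  have hQle : Qs h (x i₀) ≤ stabilizer G (x i₀) := fun g hg => hg.1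
  obtain ⟨k, hk⟩ : a ∣ e i₀ := Subgroup.card_dvd_of_le hQle
  have hk1 : 1 ≤ k := by
    rcases Nat.eq_zero_or_pos k with rfl | h9
    · have := he2 i₀
      rw [hk, mul_zero] at this
      omega
    · exact h9
  set N : ℕ := (stabilizer G (x i₀)).index with hN
  have hNx : (stabilizer G x₀).index = N := by
    rw [← hb, index_stabilizer, orbit_smul, ← index_stabilizer]
  have hcardN : h₀ = N * (a * k) := by
    have h1 : Nat.card (stabilizer G (x i₀)) * N = h₀ := (stabilizer G (x i₀)).card_mul_index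
    have h2 : Nat.card (stabilizer G (x i₀)) = a * k := hk
    rw [h2] at h1
    rw [← h1, mul_comm]
  have hN1 : 1 ≤ N := by
    rcases Nat.eq_zero_or_pos N with h9 | h9
    · rw [h9, zero_mul] at hcardN
      omega
    · exact h9
  classical
  set t : Fin r → ℚ := fun i => ((Nat.card (stabilizer G (x i)) : ℚ) + (Nat.card (Qs h (x i)) : ℚ) - 2) / (Nat.card (stabilizer G (x i)) : ℚ) with ht
  have hsplit := Finset.add_sum_erase Finset.univ t (Finset.mem_univ i₀)
  rw [hsum] at hsplit
  set s := Finset.univ.erase i₀ with hs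
  have htj : ∀ j ∈ s, t j = 1 - 1 / (e j : ℚ) := by
    intro j hj
    have hj' : j ≠ i₀ := Finset.ne_of_mem_erase hj
    simp only [ht]
    rw [hQj j hj', Subgroup.card_bot]
    have : (e j : ℚ) ≠ 0 := by
      have := he2 j
      exact_mod_cast (by omega : e j ≠ 0)
    show ((e j : ℚ) + ((1 : ℕ) : ℚ) - 2) / (e j : ℚ) = 1 - 1 / (e j : ℚ)
    field_simp
    push_cast
    ring
  have hti0 : t i₀ = (((a * k : ℕ) : ℚ) + (a : ℚ) - 2) / ((a * k : ℕ) : ℚ) := by
    have h2 : Nat.card (stabilizer G (x i₀)) = a * k := hk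
    simp only [ht]
    rw [h2]
  have ht0 : 1 ≤ t i₀ := by
    rw [hti0, le_div_iff₀ (by exact_mod_cast Nat.mul_pos (by omega) hk1)]
    have : (2 : ℚ) ≤ a := by exact_mod_cast ha2
    linarith
  have hscard : s.card < 2 := by
    have hge : ∑ j ∈ s, (1 / 2 : ℚ) ≤ ∑ j ∈ s, t j := by
      apply Finset.sum_le_sum
      intro j hj
      rw [htj j hj]
      have := inv_le_of_le (by norm_num) (he2 j)
      push_cast at this
      linarith
    rw [Finset.sum_const, nsmul_eq_mul] at hge
    have h2 : (0 : ℚ) < 2 / h₀ := by positivity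
    have h3 : (s.card : ℚ) < 2 := by linarith
    exact_mod_cast h3
  constructor
  · intro y z hy hz hQy hQz
    obtain ⟨i, c, hc⟩ := hcover y hy
    obtain ⟨j, c', hc'⟩ := hcover z hz
    have hi : i ≠ i₀ := by
      rintro rfl
      apply hQi0
      have h1 := h.card_Qs_smul c (x i)
      rw [hc, hQy, Subgroup.card_bot] at h1
      exact Subgroup.eq_bot_of_card_eq _ h1.symm
    have hj : j ≠ i₀ := by
      rintro rfl
      apply hQi0
      have h1 := h.card_Qs_smul c' (x j)
      rw [hc', hQz, Subgroup.card_bot] at h1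
      exact Subgroup.eq_bot_of_card_eq _ h1.symm
    have hij : i = j := by
      by_contra hne
      have h1 : ({i, j} : Finset (Fin r)) ⊆ s := by
        intro l hl
        rw [Finset.mem_insert, Finset.mem_singleton] at hl
        rcases hl with rfl | rfl
        · exact Finset.mem_erase.2 ⟨hi, Finset.mem_univ _⟩
        · exact Finset.mem_erase.2 ⟨hj, Finset.mem_univ _⟩
      have h2 := Finset.card_le_card h1
      rw [Finset.card_pair hne] at h2
      omega
    subst hij
    refine ⟨c' * c⁻¹, ?_⟩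
    rw [mul_smul, ← hc, inv_smul_smul, hc']
  · intro hN2
    rw [hNx] at hN2 ⊢
    have hs01 : s.card = 0 ∨ s.card = 1 := by omega
    rcases hs01 with h0 | h1
    · exfalso
      apply hN2
      rw [Finset.card_eq_zero] at h0
      rw [h0, Finset.sum_empty, add_zero, hti0] at hsplit
      apply kp1 a k N (by omega) hk1 hN1
      rw [hsplit, ← hcardN]
    · obtain ⟨j, hj⟩ := Finset.card_eq_one.1 h1
      have hjs : j ∈ s := by rw [hj]; exact Finset.mem_singleton_self j
      have hj' : j ≠ i₀ := Finset.ne_of_mem_erase hjs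
      rw [hj, Finset.sum_singleton, htj j hjs, hti0] at hsplit
      set M : ℕ := (stabilizer G (x j)).index with hM
      have hcardM : M * e j = N * (a * k) := by
        have h2 : e j * M = h₀ := (stabilizer G (x j)).card_mul_index
        rw [mul_comm, h2, hcardN]
      have hMeq : M = 2 + (a - 2) * N := by
        apply kp2 a k N (e j) M ha2 hk1 hN1 (by have := he2 j; omega) hcardM
        rw [hsplit, ← hcardN]
      refine ⟨x j, hY j, hQj j hj', ?_⟩
      rw [hax]
      exact hMeq

/-- The abstract classification. -/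
theorem IsD.classify : Outcome h := by
  by_cases hno : ∀ g : G, g ≠ 1 → g ^ p ≠ 1
  · exact h.classify_nop hno
  · push Not at hno
    obtain ⟨g, h1, h2⟩ := hno
    exact h.classify_p h1 h2

end finite

end CfsgLib.Dickson
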