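import Cfsg.Agent.Lib.Dickson.PairMax

/-! The shape of maximal subgroups of `PSL₂`. -/

set_option autoImplicit false
set_option linter.unusedSimpArgs false
set_option linter.unusedVariables false
set_option linter.unusedSectionVars false
set_option linter.style.haveILetI false

namespace CfsgLib.Dickson

open Matrix CfsgLib.H9.SL2Cl MulAction
open CfsgLib.H9.PSL2 (pr pr_surj pr_eq_iff pr_eq_one_iff pr_zS pr_mul pr_pow pr_one)
open CfsgLib.H9.BorelChar (zS zS_00 zS_01 zS_10 zS_11 zS_central zS_sq)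

variable {F : Type*} [Field F] [Fintype F] {q : ℕ} (hF : Fintype.card F = q)
variable (p : ℕ) [Fact p.Prime] [CharP F p]

include p in
/-- A subgroup normalising a semisimple element preserves its fixed points. -/
theorem norm_le {x y : XF F} (hxy : x ≠ y) {ρ' : PSL2 F} (h1 : ρ' ≠ 1) (hx : ρ' • x = x) (hy : ρ' • y = y)
    (H : Subgroup (PSL2 F)) (hnorm : ∀ g ∈ H, g * ρ' * g⁻¹ ∈ Subgroup.zpowers ρ') : H ≤ pairStab x y := by
  intro g hg
  set r := g * ρ' * g⁻¹ with hr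
  have hr1 : r ≠ 1 := by
    intro e
    apply h1
    have : ρ' = g⁻¹ * r * g := by rw [hr]; group
    rw [this, e]
    group
  have hrm := hnorm g hg
  have hrx : r • x = x := fix_of_mem_zpowers hx hrm
  have hry : r • y = y := fix_of_mem_zpowers hy hrm
  have hfr := fix_pair p hxy hr1 hrx hry
  have hg1 : r • (g • x) = g • x := by
    rw [hr]
    simp [mul_smul, hx]
  have hg2 : r • (g • y) = g • y := by
    rw [hr]
    simp [mul_smul, hy]
  have hinj : g • x ≠ g • y := fun e => hxy (MulAction.injective g e)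
  rcases (hfr _).1 hg1 with h3 | h3 <;> rcases (hfr _).1 hg2 with h4 | h4
  · exact absurd (h3.trans h4.symm) hinj
  · exact Or.inl ⟨h3, h4⟩
  · exact Or.inr ⟨h3, h4⟩
  · exact absurd (h3.trans h4.symm) hinj

include hF p in
/-- The normaliser of a torus is proper. -/
theorem pairStab_ne_top (hq : 3 ≤ q) {x y : XF F} (hxy : x ≠ y) (g : PSL2 F) (hg : g ≠ 1) (hgx : g • x = x) (hgy : g • y = y) :
    pairStab x y ≠ ⊤ := by
  intro e
  -- every element would permute the two points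
  obtain ⟨ρ, w, hρ, hw1, hw2, hk⟩ := torus_data hF p hxy g hg hgx hgy
  obtain ⟨hDc, -⟩ := pair_main hxy w hw1 hw2 ρ hρ
  rw [e, Subgroup.card_top] at hDc
  have hG := card_PSL2 hF
  rw [hDc] at hG
  have hkle : orderOf ρ * Nat.gcd 2 (q - 1) ≤ q + 1 := by
    rcases hk with ⟨h, -⟩ | ⟨h, -⟩ <;> omega
  have h4 : (q + 1) * (q * (q - 1)) ≤ 2 * (q + 1) := by
    rw [← hG, mul_assoc]
    exact Nat.mul_le_mul_left _ hkle
  have h5 : q * (q - 1) ≤ 2 := by
    exact Nat.le_of_mul_le_mul_left (show (q + 1) * (q * (q - 1)) ≤ (q + 1) * 2 by rw [mul_comm (q + 1) 2]; exact h4) (by omega)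
  have : 3 * 2 ≤ q * (q - 1) := Nat.mul_le_mul hq (by omega)
  omega

/-- Data for the normaliser of a torus. -/
structure PairData (p : ℕ) (q : ℕ) (x y : XF F) : Prop where
  ne : x ≠ y
  data : ∃ ρ w : PSL2 F, Subgroup.zpowers ρ = ptStab x y ∧ w • x = y ∧ w • y = x ∧
      (orderOf ρ * Nat.gcd 2 (q - 1) = q - 1 ∧ IsRat x ∨ orderOf ρ * Nat.gcd 2 (q - 1) = q + 1 ∧ ¬ IsRat x)

include hF p in
/-- The shape of a maximal subgroup. -/
theorem coatom_cases (hq : 3 ≤ q) (M : Subgroup (PSL2 F)) (hM : IsCoatom M) :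
    (∃ x : XF F, IsRat x ∧ M = stabilizer (PSL2 F) x) ∨
    (∃ x y : XF F, PairData p q x y ∧ M = pairStab x y) ∨
    ((∀ g ∈ M, g ≠ 1 → g ^ p ≠ 1) ∧ Nonempty (M ≃* alternatingGroup (Fin 4))) ∨
    ((∀ g ∈ M, g ≠ 1 → g ^ p ≠ 1) ∧ Nonempty (M ≃* Equiv.Perm (Fin 4))) ∨
    (((∀ g ∈ M, g ≠ 1 → g ^ p ≠ 1) ∨ p = 3) ∧ Nonempty (M ≃* alternatingGroup (Fin 5))) ∨
    ∃ (K : Subfield F) (τ : F) (hτ : τ ≠ 0) (t : PSL2 F), 3 ≤ Nat.card K ∧ (∀ g : SL2 K, t * pr (theta K τ hτ g) * t⁻¹ ∈ M) ∧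
      (Nonempty (M ≃* PSL2 K) ∨ Nonempty (M ≃* Matrix.ProjGenLinGroup (Fin 2) K)) := by
  classical
  have h₀ := isD_F (F := F) p
  have hmax : ∀ H : Subgroup (PSL2 F), M ≤ H → H ≠ ⊤ → M = H := by
    intro H hle hH
    by_contra hne
    exact hH (hM.2 H (lt_of_le_of_ne hle hne))
  have hstab : stabilizer (PSL2 F) (ptI (AC F)) ≠ ⊤ := by
    intro e
    have := index_stab_ptI hF
    rw [e, Subgroup.index_top] at this
    omega
  have hsemi : ∀ ρ' : PSL2 F, ρ' ≠ 1 → ρ' ^ p ≠ 1 → (∀ g ∈ M, g * ρ' * g⁻¹ ∈ Subgroup.zpowers ρ') →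
      ∃ x y : XF F, PairData p q x y ∧ M = pairStab x y := by
    intro ρ' h1 h2 hnorm
    obtain ⟨x, y, hxy, hz⟩ := h₀.fix2 ρ' h1 h2
    have hx : ρ' • x = x := (hz x).2 (Or.inl rfl)
    have hy : ρ' • y = y := (hz y).2 (Or.inr rfl)
    refine ⟨x, y, ⟨hxy, torus_data hF p hxy ρ' h1 hx hy⟩, ?_⟩
    exact hmax _ (norm_le p hxy h1 hx hy M hnorm) (pairStab_ne_top hF p hq hxy ρ' h1 hx hy)
  rcases dickson p M with ⟨ρ', h3, h4, h5⟩ | ⟨ρ', h3, h4, h5, h6, h8, -, -⟩ | ⟨z, ⟨g, hg, hg1, hg2⟩, hfix⟩ | h | h | h | ⟨K, τ, hτ, t, hK3, hmem, hK⟩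
  · by_cases h1 : ρ' = 1
    · left
      refine ⟨ptI (AC F), isRat_ptI, hmax _ ?_ hstab⟩
      rw [h5, h1]
      simp
    · right; left
      apply hsemi ρ' h1 (h4.resolve_left h1)
      intro g hg
      rw [h5] at hg
      rw [commute_of_zpowers hg (Subgroup.mem_zpowers ρ')]
      simp
  · right; left
    exact hsemi ρ' h4 h5 h8
  · left
    have hrat : IsRat z := rat_fix p g hg1 hg2 z (hfix g hg)
    refine ⟨z, hrat, hmax _ (fun a ha => hfix a ha) ?_⟩
    intro e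
    have := index_stab_rat hF hrat
    rw [e, Subgroup.index_top] at this
    omega
  · exact Or.inr (Or.inr (Or.inl h))
  · exact Or.inr (Or.inr (Or.inr (Or.inl h)))
  · exact Or.inr (Or.inr (Or.inr (Or.inr (Or.inl h))))
  · exact Or.inr (Or.inr (Or.inr (Or.inr (Or.inr ⟨K, τ, hτ, t, hK3, hmem, hK⟩))))

include p in
/-- An intermediate field of prescribed degree. -/
theorem exists_intermediate (K : Subfield F) (b c : ℕ) (hb : b ≠ 0) (hm : Nat.card K ^ (b * c) = Fintype.card F) :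
    ∃ K₁ : Subfield F, K ≤ K₁ ∧ Nat.card K₁ = Nat.card K ^ b := by
  classical
  haveI : CharP K p := (RingHom.charP_iff K.subtype K.subtype.injective p).2 inferInstance
  haveI : NeZero b := ⟨hb⟩
  haveI : Finite K := inferInstance
  have h1 : Module.finrank K (FiniteField.Extension K p b) = b := FiniteField.finrank_extension K p b
  haveI : Module.Finite K F := Module.Finite.of_finite
  have h2 : Nat.card F = Nat.card K ^ Module.finrank K F := Module.natCard_eq_pow_finrank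
  have h3 : Module.finrank K F = b * c := by
    apply Nat.pow_right_injective (Finite.one_lt_card : 2 ≤ Nat.card K)
    show Nat.card K ^ _ = Nat.card K ^ _
    rw [← h2, hm, Nat.card_eq_fintype_card]
  obtain ⟨f⟩ := FiniteField.nonempty_algHom_of_finrank_dvd (F := K) (K := FiniteField.Extension K p b) (L := F) (by
    rw [h1, h3]
    exact Dvd.intro _ rfl)
  refine ⟨f.toRingHom.fieldRange, ?_, ?_⟩
  · intro κ hκ
    refine ⟨algebraMap K _ ⟨κ, hκ⟩, ?_⟩
    exact f.commutes _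
  · have e : FiniteField.Extension K p b ≃+* f.toRingHom.fieldRange := f.toRingHom.rangeRestrictFieldEquiv
    rw [← Nat.card_congr e.toEquiv]
    exact FiniteField.natCard_extension K p b

/-- Extending the embedding to a larger subfield. -/
theorem theta_extend (K K₁ : Subfield F) (h : K ≤ K₁) (τ : F) (hτ : τ ≠ 0) (g : SL2 K) :
    ∃ g₁ : SL2 K₁, theta K₁ τ hτ g₁ = theta K τ hτ g := by
  refine ⟨SpecialLinearGroup.map (Subfield.inclusion h) g, ?_⟩
  apply sl_ext <;> rfl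

/-- The conjugated twisted embedding. -/
noncomputable def thetaC (K : Subfield F) (τ : F) (hτ : τ ≠ 0) (t : PSL2 F) : PSL2 K →* PSL2 F :=
  (MulAut.conj t).toMonoidHom.comp (thetaP K τ hτ)

omit [Fintype F] in
theorem thetaC_pr (K : Subfield F) (τ : F) (hτ : τ ≠ 0) (t : PSL2 F) (g : SL2 K) :
    thetaC K τ hτ t (pr g) = t * pr (theta K τ hτ g) * t⁻¹ := rfl

omit [Fintype F] in
theorem thetaC_inj (K : Subfield F) (τ : F) (hτ : τ ≠ 0) (t : PSL2 F) : Function.Injective (thetaC K τ hτ t) :=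
  (MulAut.conj t).injective.comp (thetaP_inj K τ hτ)

omit [Fintype F] in
theorem thetaC_le (K : Subfield F) (τ : F) (hτ : τ ≠ 0) (t : PSL2 F) (M : Subgroup (PSL2 F))
    (hmem : ∀ g : SL2 K, t * pr (theta K τ hτ g) * t⁻¹ ∈ M) : (thetaC K τ hτ t).range ≤ M := by
  rintro _ ⟨c, rfl⟩
  obtain ⟨N, rfl⟩ := pr_surj c
  exact hmem N

theorem thetaC_extend (K K₁ : Subfield F) (h : K ≤ K₁) (τ : F) (hτ : τ ≠ 0) (t : PSL2 F) :
    (thetaC K τ hτ t).range ≤ (thetaC K₁ τ hτ t).range := by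
  rintro _ ⟨c, rfl⟩
  obtain ⟨N, rfl⟩ := pr_surj c
  obtain ⟨N₁, hN⟩ := theta_extend K K₁ h τ hτ N
  refine ⟨pr N₁, ?_⟩
  rw [thetaC_pr, thetaC_pr, hN]

omit [Fintype F] in
theorem card_thetaC (K : Subfield F) (τ : F) (hτ : τ ≠ 0) (t : PSL2 F) : Nat.card (thetaC K τ hτ t).range = Nat.card (PSL2 K) :=
  (Nat.card_congr (MonoidHom.ofInjective (thetaC_inj K τ hτ t)).toEquiv).symm

end CfsgLib.Dickson
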