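import Cfsg.Agent.Lib.Dickson.Proj

/-! `PSL₂` over a finite field acting on the projective line over the algebraic closure. -/

set_option autoImplicit false
set_option linter.unusedSimpArgs false
set_option linter.unusedVariables false
set_option linter.unusedSectionVars false
set_option linter.style.haveILetI false

namespace CfsgLib.Dickson

open Matrix CfsgLib.H9.SL2Cl
open CfsgLib.H9.PSL2 (pr pr_surj pr_eq_iff pr_eq_one_iff pr_zS pr_mul pr_pow pr_one)
open CfsgLib.H9.BorelChar (zS zS_00 zS_01 zS_10 zS_11 zS_central zS_sq)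
open scoped LinearAlgebra.Projectivization

section comap

variable {G H X L : Type*} [Group G] [Group H] [MulAction G X] [Field L] {p : ℕ}

/-- Pull back the axioms along an injective homomorphism. -/
theorem IsD.comap (h : IsD L p G X) (f : H →* G) (hf : Function.Injective f) :
    @IsD L _ p H X _ (MulAction.compHom X f) := by
  letI : MulAction H X := MulAction.compHom X f
  have hsm : ∀ (g : H) (x : X), g • x = f g • x := fun _ _ => rfl
  have hne : ∀ g : H, g ≠ 1 → f g ≠ 1 := fun g hg e => hg (hf (e.trans (map_one f).symm))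
  have hpw : ∀ (g : H) (n : ℕ), g ^ n = 1 ↔ f g ^ n = 1 := by
    intro g n
    rw [← map_pow]
    constructor
    · intro e
      rw [e, map_one]
    · intro e
      exact hf (e.trans (map_one f).symm)
  refine ⟨h.prime, ?_, ?_, ?_, ?_⟩
  · intro g h1 h2
    exact h.fix1 (f g) (hne g h1) ((hpw g p).1 h2)
  · intro g h1 h2
    exact h.fix2 (f g) (hne g h1) (fun e => h2 ((hpw g p).2 e))
  · intro x
    obtain ⟨φ, hφ⟩ := h.chi x
    let i : MulAction.stabilizer H x →* MulAction.stabilizer G x :=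
      { toFun := fun g => ⟨f g.1, g.2⟩
        map_one' := by
          apply Subtype.ext
          simp
        map_mul' := by
          intro a b
          apply Subtype.ext
          simp }
    refine ⟨φ.comp i, fun g => ?_⟩
    rw [hpw]
    exact hφ (i g)
  · intro x g g' hg hg' h1 h2
    apply hf
    rw [map_mul, map_mul]
    exact h.comm x (f g) (f g') hg hg' ((hpw g p).1 h1) ((hpw g' p).1 h2)

end comap

variable {F L : Type*} [Field F] [Field L]

/-- Base change for `PSL₂`. -/
noncomputable def toPL (f : F →+* L) : PSL2 F →* PSL2 L :=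
  QuotientGroup.map _ _ (SpecialLinearGroup.map f) (by
    intro z hz
    rw [Subgroup.mem_comap]
    rw [CfsgLib.H9.PSL2.mem_center_iff] at hz ⊢
    rcases hz with rfl | rfl
    · left
      simp
    · right
      have key : ∀ i j, (SpecialLinearGroup.map f (zS F)).1 i j = f ((zS F).1 i j) := fun _ _ => rfl
      apply sl_ext <;> rw [key] <;> simp)

theorem toPL_pr (f : F →+* L) (M : SL2 F) : toPL f (pr M) = pr (SpecialLinearGroup.map f M) := rfl

theorem map_ent (f : F →+* L) (M : SL2 F) (i j : Fin 2) : (SpecialLinearGroup.map f M).1 i j = f (M.1 i j) := rfl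

theorem toPL_inj (f : F →+* L) : Function.Injective (toPL f) := by
  rw [injective_iff_map_eq_one]
  intro g hg
  obtain ⟨M, rfl⟩ := pr_surj g
  rw [toPL_pr, pr_eq_one_iff] at hg
  rw [pr_eq_one_iff]
  rcases hg with hg | hg
  · left
    apply sl_ext
    all_goals
      apply f.injective
      rw [← map_ent, hg]
      simp
  · right
    apply sl_ext
    all_goals
      apply f.injective
      rw [← map_ent, hg]
      simp

/-- The algebraic closure. -/
abbrev AC (F : Type*) [Field F] := AlgebraicClosure F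

/-- The embedding of the base field. -/
noncomputable abbrev emb (F : Type*) [Field F] : F →+* AC F := algebraMap F (AC F)

/-- The projective line over the algebraic closure. -/
abbrev XF (F : Type*) [Field F] := PL (AC F)

/-- The action of `PSL₂` of a field on the line over the closure. -/
noncomputable instance actXF : MulAction (PSL2 F) (XF F) := MulAction.compHom _ (toPL (emb F))

theorem smul_XF (g : PSL2 F) (x : XF F) : g • x = toPL (emb F) g • x := rfl

theorem pr_smul_XF (M : SL2 F) (x : XF F) : pr M • x = pr (SpecialLinearGroup.map (emb F) M) • x := rfl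

theorem isD_F (p : ℕ) [Fact p.Prime] [CharP F p] : IsD (AC F) p (PSL2 F) (XF F) := by
  haveI : CharP (AC F) p := charP_of_injective_algebraMap (algebraMap F (AC F)).injective p
  exact (isD_PSL (L := AC F) p).comap (toPL (emb F)) (toPL_inj (emb F))

/-- Powers of a triangular element with `t² ≠ 1`. -/
theorem pow_one_of (N : SL2 L) (h10 : N.1 1 0 = 0) (ht : N.1 0 0 ^ 2 ≠ 1) (n : ℕ) (hn : N.1 0 0 ^ (2 * n) = 1) : pr N ^ n = 1 := by
  have hdet := det_eq N
  rw [h10, mul_zero, sub_zero] at hdet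
  set t := N.1 0 0 with ht'
  have ht0 : t ≠ 0 := by
    intro e
    rw [e] at hdet
    simp at hdet
  have h11 : N.1 1 1 = t⁻¹ := by
    field_simp
    linear_combination hdet
  have hne : t - t⁻¹ ≠ 0 := by
    intro e
    apply ht
    have h2 : t = t⁻¹ := sub_eq_zero.1 e
    field_simp at h2
    exact h2
  obtain ⟨a1, a2, a3⟩ := upper_pow N h10 n
  have hc : ∀ m : ℕ, (t - t⁻¹) * (N ^ m).1 0 1 = N.1 0 1 * (t ^ m - t⁻¹ ^ m) := by
    intro m
    induction m with
    | zero => simp
    | succ m ih =>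
      rw [pow_succ, mul_01, (upper_pow N h10 m).2.1, h11, pow_succ, pow_succ]
      have e1 : (t - t⁻¹) * (t ^ m * N.1 0 1 + (N ^ m).1 0 1 * t⁻¹) =
        (t - t⁻¹) * t ^ m * N.1 0 1 + ((t - t⁻¹) * (N ^ m).1 0 1) * t⁻¹ := by ring
      rw [e1, ih]
      ring
  have hu : t ^ n = t⁻¹ ^ n := by
    have h1 : t ^ n * t ^ n = 1 := by
      rw [← pow_add, ← two_mul, hn]
    rw [inv_pow]
    exact eq_inv_of_mul_eq_one_left h1
  rw [← pr_pow]
  apply pr_eq_one_of_scalar _ a1
  · have := hc n
    rw [hu, sub_self, mul_zero] at this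
    exact (mul_eq_zero.1 this).resolve_left hne
  · rw [a2, a3, h11, hu]

/-- Elements without `p`-power behaviour have order dividing `(q ± 1)/d`. -/
theorem order_dvd [Fintype F] {q : ℕ} (hF : Fintype.card F = q) (p : ℕ) [Fact p.Prime] [CharP F p]
    (g : PSL2 F) (h1 : g ≠ 1) (h2 : g ^ p ≠ 1) :
    orderOf g ∣ (q - 1) / Nat.gcd 2 (q - 1) ∨ orderOf g ∣ (q + 1) / Nat.gcd 2 (q - 1) := by
  classical
  haveI hCL : CharP (AC F) p := charP_of_injective_algebraMap (algebraMap F (AC F)).injective p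
  have hp : p.Prime := Fact.out
  obtain ⟨n, -, hn⟩ := FiniteField.card F p
  have hq : q = p ^ (n : ℕ) := hF ▸ hn
  obtain ⟨M, rfl⟩ := pr_surj g
  set M' := SpecialLinearGroup.map (emb F) M with hM'
  have hto : toPL (emb F) (pr M) = pr M' := rfl
  have hb : pr M' ^ p ≠ 1 := by
    intro e
    apply h2
    apply toPL_inj (emb F)
    rw [map_pow, hto, e, map_one]
  obtain ⟨x, hx⟩ := exists_fixed_pt (pr M')
  obtain ⟨T, hT⟩ := exists_T x
  set N := T⁻¹ * M' * T with hN
  have hfix : pr N • ptI (AC F) = ptI (AC F) := by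
    have e : pr N = (pr T)⁻¹ * pr M' * pr T := rfl
    rw [e, mul_smul, mul_smul, hT, hx, ← hT, inv_smul_smul]
  have h10 : N.1 1 0 = 0 := (fix_inf_iff N).1 hfix
  have hcj : pr M' = pr T * pr N * (pr T)⁻¹ := by
    have e : pr N = (pr T)⁻¹ * pr M' * pr T := rfl
    rw [e]
    group
  have ht : N.1 0 0 ^ 2 ≠ 1 := fun e => hb ((conj_pow_iff _ T N hcj p).2 ((pr_pow_p_iff p N h10).2 e))
  have htr : N.1 0 0 + N.1 1 1 = emb F (M.1 0 0 + M.1 1 1) := by
    have e1 : Matrix.trace N.1 = Matrix.trace M'.1 := by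
      have e : N.1 = T⁻¹.1 * M'.1 * T.1 := rfl
      rw [e, Matrix.trace_mul_comm, ← Matrix.mul_assoc, ← Matrix.SpecialLinearGroup.coe_mul T, mul_inv_cancel]
      simp
    rw [Matrix.trace_fin_two, Matrix.trace_fin_two] at e1
    rw [e1, map_add]
    rfl
  have hdet := det_eq N
  rw [h10, mul_zero, sub_zero] at hdet
  set t := N.1 0 0 with ht'
  have ht0 : t ≠ 0 := by
    intro e
    rw [e] at hdet
    simp at hdet
  have h11 : N.1 1 1 = t⁻¹ := by
    field_simp
    linear_combination hdet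
  rw [h11] at htr
  have hfrob : (t + t⁻¹) ^ q = t + t⁻¹ := by
    rw [htr, ← map_pow, ← hF, FiniteField.pow_card]
  have hq1 : 1 ≤ q := by
    rw [← hF]
    exact Fintype.card_pos
  have hsplit : t ^ q + (t ^ q)⁻¹ = t + t⁻¹ := by
    conv_rhs => rw [← hfrob]
    rw [hq, add_pow_char_pow, inv_pow]
  set u := t ^ q with hu
  have hu0 : u ≠ 0 := pow_ne_zero _ ht0
  have hprod : (u - t) * (u - t⁻¹) = 0 := by
    have e1 : (u - t) * (u - t⁻¹) = u ^ 2 - u * (t + t⁻¹) + t * t⁻¹ := by ring
    rw [e1, ← hsplit, mul_inv_cancel₀ ht0]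
    field_simp
    ring
  have hdvd2 : Nat.gcd 2 (q - 1) ∣ 2 := Nat.gcd_dvd_left _ _
  have hdvdm : Nat.gcd 2 (q - 1) ∣ q - 1 := Nat.gcd_dvd_right _ _
  have hdvdp : Nat.gcd 2 (q - 1) ∣ q + 1 := by
    have : q + 1 = (q - 1) + 2 := by omega
    rw [this]
    exact dvd_add hdvdm hdvd2
  have key : ∀ m : ℕ, Nat.gcd 2 (q - 1) ∣ m → t ^ m = 1 → orderOf (pr M) ∣ m / Nat.gcd 2 (q - 1) := by
    intro m hm htm
    apply orderOf_dvd_of_pow_eq_one
    apply toPL_inj (emb F)
    rw [map_pow, hto, map_one, conj_pow_iff _ T N hcj]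
    apply pow_one_of N h10 ht
    obtain ⟨m', rfl⟩ := hm
    rw [Nat.mul_div_cancel_left _ (Nat.gcd_pos_of_pos_left _ (by norm_num))]
    obtain ⟨c, hc⟩ := hdvd2
    have e2 : 2 * m' = c * (Nat.gcd 2 (q - 1) * m') := by
      nth_rw 1 [hc]
      ring
    rw [e2, mul_comm c, pow_mul, htm, one_pow]
  rcases mul_eq_zero.1 hprod with e | e
  · left
    apply key _ hdvdm
    have e3 : t ^ q = t := sub_eq_zero.1 e
    have e4 : t ^ (q - 1) * t = t := by
      rw [← pow_succ, Nat.sub_add_cancel hq1, e3]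
    exact mul_right_cancel₀ ht0 (e4.trans (one_mul t).symm)
  · right
    apply key _ hdvdp
    have e3 : t ^ q = t⁻¹ := sub_eq_zero.1 e
    rw [pow_succ, e3, inv_mul_cancel₀ ht0]

/-- Rational points. -/
def IsRat (x : XF F) : Prop := x = ptI (AC F) ∨ ∃ α : F, x = ptA (emb F α)

theorem smul_ptA_eq (M : SL2 L) (α β : L) (h : M.1 1 0 * α + M.1 1 1 ≠ 0) (hβ : M.1 0 0 * α + M.1 0 1 = β * (M.1 1 0 * α + M.1 1 1)) :
    pr M • ptA α = ptA β := by
  rw [pr_smul, ptA, smul_mk2 M _, ptA, mk_eq_iff2]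
  simp only [Matrix.cons_val_zero, Matrix.cons_val_one, mul_one]
  linear_combination hβ

theorem smul_ptA_inf (M : SL2 L) (α : L) (h : M.1 1 0 * α + M.1 1 1 = 0) :
    pr M • ptA α = ptI L := by
  rw [pr_smul, ptA, smul_mk2 M _, ptI, mk_eq_iff2]
  simp [h]

/-- The fixed point of a `p`-element is rational. -/
theorem rat_fix (p : ℕ) [Fact p.Prime] [CharP F p] (g : PSL2 F) (h1 : g ≠ 1) (h2 : g ^ p = 1) (x : XF F)
    (hx : g • x = x) : IsRat x := by
  haveI hCL : CharP (AC F) p := charP_of_injective_algebraMap (algebraMap F (AC F)).injective p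
  obtain ⟨z, hz⟩ := (isD_F (F := F) p).fix1 g h1 h2
  have hxz : x = z := (hz x).1 hx
  subst hxz
  obtain ⟨M, rfl⟩ := pr_surj g
  set M' := SpecialLinearGroup.map (emb F) M with hM'
  have hto : toPL (emb F) (pr M) = pr M' := rfl
  have hb : pr M' ^ p = 1 := by
    rw [← hto, ← map_pow, h2, map_one]
  obtain ⟨T, hT⟩ := exists_T x
  have hx' : pr M' • x = x := hx
  set N := T⁻¹ * M' * T with hN
  have hfix : pr N • ptI (AC F) = ptI (AC F) := by
    have e : pr N = (pr T)⁻¹ * pr M' * pr T := rfl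
    rw [e, mul_smul, mul_smul, hT, hx', ← hT, inv_smul_smul]
  have h10 : N.1 1 0 = 0 := (fix_inf_iff N).1 hfix
  have hcj : pr M' = pr T * pr N * (pr T)⁻¹ := by
    have e : pr N = (pr T)⁻¹ * pr M' * pr T := rfl
    rw [e]
    group
  have ht : N.1 0 0 ^ 2 = 1 := (pr_pow_p_iff p N h10).1 ((conj_pow_iff _ T N hcj p).1 hb)
  have htr : N.1 0 0 + N.1 1 1 = emb F (M.1 0 0 + M.1 1 1) := by
    have e1 : Matrix.trace N.1 = Matrix.trace M'.1 := by
      have e : N.1 = T⁻¹.1 * M'.1 * T.1 := rfl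
      rw [e, Matrix.trace_mul_comm, ← Matrix.mul_assoc, ← Matrix.SpecialLinearGroup.coe_mul T, mul_inv_cancel]
      simp
    rw [Matrix.trace_fin_two, Matrix.trace_fin_two] at e1
    rw [e1, map_add]
    rfl
  have hdet := det_eq N
  rw [h10, mul_zero, sub_zero] at hdet
  have h11 : N.1 1 1 = N.1 0 0 := by
    have h3 : N.1 0 0 * (N.1 1 1 - N.1 0 0) = 0 := by linear_combination hdet - ht
    have h2 : N.1 0 0 ≠ 0 := by
      intro h3
      rw [h3] at hdet
      simp at hdet
    exact sub_eq_zero.1 ((mul_eq_zero.1 h3).resolve_left h2)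
  rw [h11] at htr
  obtain ⟨ε, hε, hεt⟩ : ∃ ε : F, ε ^ 2 = 1 ∧ emb F ε = N.1 0 0 := by
    rcases sq_eq_one_cases ht with e | e
    · exact ⟨1, by simp, by rw [e, map_one]⟩
    · exact ⟨-1, by simp, by rw [e, map_neg, map_one]⟩
  have htrF : M.1 0 0 + M.1 1 1 = 2 * ε := by
    apply (emb F).injective
    rw [← htr, map_mul, hεt, map_ofNat]
    ring
  have hdetM := det_eq M
  by_cases hc : M.1 1 0 = 0
  · left
    have : pr M' • ptI (AC F) = ptI (AC F) := by
      rw [fix_inf_iff]
      rw [hM', map_ent, hc, map_zero]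
    exact ((hz _).1 this).symm
  · right
    refine ⟨(M.1 0 0 - ε) / M.1 1 0, ?_⟩
    have : pr M' • ptA (emb F ((M.1 0 0 - ε) / M.1 1 0)) = ptA (emb F ((M.1 0 0 - ε) / M.1 1 0)) := by
      rw [fix_ptA_iff, hM', map_ent, map_ent, map_ent, map_ent, ← map_mul, ← map_add, ← map_mul, ← map_add, ← map_mul]
      congr 1
      have hd : M.1 1 1 = 2 * ε - M.1 0 0 := by rw [← htrF]; ring
      field_simp
      rw [hd] at hdetM ⊢
      linear_combination (-1 : F) * hdetM + hε
    exact ((hz _).1 this).symm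

/-- Elements fixing `∞` and of order `p` are unipotent. -/
theorem Qs_form (p : ℕ) [Fact p.Prime] [CharP F p] (g : PSL2 F) (h1 : g • ptI (AC F) = ptI (AC F)) (h2 : g ^ p = 1) :
    ∃ α : F, g = pr (U α) := by
  haveI hCL : CharP (AC F) p := charP_of_injective_algebraMap (algebraMap F (AC F)).injective p
  obtain ⟨M, rfl⟩ := pr_surj g
  set M' := SpecialLinearGroup.map (emb F) M with hM'
  have hto : toPL (emb F) (pr M) = pr M' := rfl
  have hb : pr M' ^ p = 1 := by
    rw [← hto, ← map_pow, h2, map_one]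
  have h10' : M'.1 1 0 = 0 := (fix_inf_iff M').1 h1
  have h10 : M.1 1 0 = 0 := by
    apply (emb F).injective
    rw [map_zero, ← h10']
    rfl
  have ht : M'.1 0 0 ^ 2 = 1 := (pr_pow_p_iff p M' h10').1 hb
  have ht' : M.1 0 0 ^ 2 = 1 := by
    apply (emb F).injective
    rw [map_pow, map_one, ← ht]
    rfl
  have hdet := det_eq M
  rw [h10, mul_zero, sub_zero] at hdet
  have h11 : M.1 1 1 = M.1 0 0 := by
    have h3 : M.1 0 0 * (M.1 1 1 - M.1 0 0) = 0 := by linear_combination hdet - ht'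
    have h2 : M.1 0 0 ≠ 0 := by
      intro h3
      rw [h3] at hdet
      simp at hdet
    exact sub_eq_zero.1 ((mul_eq_zero.1 h3).resolve_left h2)
  rcases sq_eq_one_cases ht' with e | e
  · refine ⟨M.1 0 1, ?_⟩
    congr 1
    apply sl_ext <;> simp [U, e, h10, h11]
  · refine ⟨-M.1 0 1, ?_⟩
    rw [pr_eq_iff]
    right
    apply sl_ext <;> simp [U, e, h10, h11, mul_00, mul_01, mul_10, mul_11]

theorem U_fix_inf (α : F) : pr (U α) • ptI (AC F) = ptI (AC F) := by
  rw [pr_smul_XF, fix_inf_iff]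
  show emb F ((U α).1 1 0) = 0
  simp [U]

theorem U_pow (p : ℕ) [Fact p.Prime] [CharP F p] (α : F) : pr (U α) ^ p = 1 := by
  haveI hCL : CharP (AC F) p := charP_of_injective_algebraMap (algebraMap F (AC F)).injective p
  apply toPL_inj (emb F)
  rw [map_pow, map_one, toPL_pr, pr_pow_p_iff]
  · show (emb F ((U α).1 0 0)) ^ 2 = 1
    simp [U]
  · show emb F ((U α).1 1 0) = 0
    simp [U]

theorem U_smul_ptA (α β : F) : pr (U α) • ptA (emb F β) = ptA (emb F (α + β)) := by
  rw [pr_smul_XF]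
  apply smul_ptA_eq
  · show emb F ((U α).1 1 0) * emb F β + emb F ((U α).1 1 1) ≠ 0
    simp [U]
  · show emb F ((U α).1 0 0) * emb F β + emb F ((U α).1 0 1) = emb F (α + β) * (emb F ((U α).1 1 0) * emb F β + emb F ((U α).1 1 1))
    simp [U, add_comm]

end CfsgLib.Dickson
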