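import Cfsg.Agent.Lib.Dickson.FieldPart

/-! The two-transitive case of Dickson's theorem. -/

set_option autoImplicit false
set_option linter.unusedSimpArgs false
set_option linter.unusedVariables false
set_option linter.unusedSectionVars false
set_option linter.style.haveILetI false

namespace CfsgLib.Dickson

open Matrix CfsgLib.H9.SL2Cl MulAction
open CfsgLib.H9.PSL2 (pr pr_surj pr_eq_iff pr_eq_one_iff pr_zS pr_mul pr_pow pr_one)
open CfsgLib.H9.BorelChar (zS zS_00 zS_01 zS_10 zS_11 zS_central zS_sq)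

variable {F : Type*} [Field F]

/-- The preimage of a subgroup of `PSL₂` in `SL₂`. -/
def hatH (H : Subgroup (PSL2 F)) : Subgroup (SL2 F) := H.comap (QuotientGroup.mk' _)

theorem mem_hatH (H : Subgroup (PSL2 F)) (M : SL2 F) : M ∈ hatH H ↔ pr M ∈ H := Iff.rfl

/-- The origin. -/
noncomputable def pt0 (F : Type*) [Field F] : XF F := ptA (emb F 0)

theorem pt0_ne : pt0 F ≠ ptI (AC F) := (ptI_ne _).symm

theorem smul_ptI_iff {L : Type*} [Field L] (M : SL2 L) (β : L) : pr M • ptI L = ptA β ↔ M.1 0 0 = β * M.1 1 0 := by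
  rw [pr_smul, ptI, smul_mk2 M _, ptA, mk_eq_iff2]
  simp only [Matrix.cons_val_zero, Matrix.cons_val_one]
  simp [mul_comm]

theorem smul_ptA_inf_iff {L : Type*} [Field L] (M : SL2 L) (α : L) : pr M • ptA α = ptI L ↔ M.1 1 0 * α + M.1 1 1 = 0 := by
  rw [pr_smul, ptA, smul_mk2 M _, ptI, mk_eq_iff2]
  simp only [Matrix.cons_val_zero, Matrix.cons_val_one]
  simp [eq_comm]

section two

variable (p : ℕ) [Fact p.Prime] [CharP F p] [Finite F] (H : Subgroup (PSL2 F))

variable {p H} in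
/-- The orbit of `∞` is described by the additive group. -/
theorem hat_or [Finite (PSL2 F)]
    (hcount : (orbit H (ptI (AC F))).ncard = Nat.card (Qs ((isD_F (F := F) p).sub H) (ptI (AC F))) + 1)
    (hmem0 : pt0 F ∈ orbit H (ptI (AC F))) :
    ∀ M ∈ hatH H, M.1 1 0 ≠ 0 → U (M.1 0 0 / M.1 1 0) ∈ hatH H := by
  intro M hM hne
  have hsm : pr M • ptI (AC F) = ptA (emb F (M.1 0 0 / M.1 1 0)) := by
    rw [pr_smul_XF, smul_ptI_iff]
    show emb F (M.1 0 0) = emb F (M.1 0 0 / M.1 1 0) * emb F (M.1 1 0)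
    rw [← map_mul, div_mul_cancel₀ _ hne]
  have hy : ptA (emb F (M.1 0 0 / M.1 1 0)) ∈ orbit H (ptI (AC F)) := ⟨⟨pr M, hM⟩, hsm⟩
  obtain ⟨u, hu, hu2⟩ := ((isD_F (F := F) p).sub H).trans_of_count (ptI (AC F)) hcount hmem0 pt0_ne hy (ptI_ne _).symm
  obtain ⟨α, hα⟩ := Qs_form p (u : PSL2 F) hu.1 (by
    have := hu.2
    simpa using congrArg Subtype.val this)
  have h3 : (u : PSL2 F) • pt0 F = ptA (emb F (M.1 0 0 / M.1 1 0)) := hu2
  rw [hα, pt0, U_smul_ptA, add_zero, ptA_inj] at h3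
  have h4 : α = M.1 0 0 / M.1 1 0 := (emb F).injective h3
  rw [mem_hatH, ← h4, ← hα]
  exact u.2

variable {p H} in
/-- The swap. -/
theorem hat_swap [Finite (PSL2 F)]
    (hcount0 : (orbit H (pt0 F)).ncard = Nat.card (Qs ((isD_F (F := F) p).sub H) (pt0 F)) + 1)
    (hmem0 : pt0 F ∈ orbit H (ptI (AC F))) :
    ∃ (x : F) (hx : x ≠ 0), Wx x hx ∈ hatH H := by
  obtain ⟨c, hc⟩ := hmem0
  have hc' : c • ptI (AC F) = pt0 F := hc
  have hy : c • pt0 F ∈ orbit H (pt0 F) := ⟨c, rfl⟩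
  have hyne : c • pt0 F ≠ pt0 F := by
    intro e
    apply pt0_ne (F := F)
    exact MulAction.injective c (e.trans hc'.symm)
  have hI : ptI (AC F) ∈ orbit H (pt0 F) := ⟨c⁻¹, by
    show c⁻¹ • pt0 F = ptI (AC F)
    rw [inv_smul_eq_iff, hc']⟩
  obtain ⟨u, hu, hu2⟩ := ((isD_F (F := F) p).sub H).trans_of_count (pt0 F) hcount0 hy hyne hI (pt0_ne).symm
  have hw1 : (u * c) • ptI (AC F) = pt0 F := by
    rw [mul_smul, hc']
    exact hu.1
  have hw2 : (u * c) • pt0 F = ptI (AC F) := by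
    rw [mul_smul]
    exact hu2
  obtain ⟨W, hW⟩ := pr_surj ((u * c : H) : PSL2 F)
  have hW1 : pr W • ptI (AC F) = pt0 F := by
    rw [hW]
    exact hw1
  have hW2 : pr W • pt0 F = ptI (AC F) := by
    rw [hW]
    exact hw2
  rw [pr_smul_XF, pt0, smul_ptI_iff] at hW1
  rw [pr_smul_XF, pt0, smul_ptA_inf_iff] at hW2
  have h00 : W.1 0 0 = 0 := by
    apply (emb F).injective
    rw [map_zero]
    have : emb F (W.1 0 0) = emb F 0 * emb F (W.1 1 0) := hW1
    simpa using this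
  have h11 : W.1 1 1 = 0 := by
    apply (emb F).injective
    rw [map_zero]
    have : emb F (W.1 1 0) * emb F 0 + emb F (W.1 1 1) = 0 := hW2
    simpa using this
  have hdet := det_eq W
  rw [h00, zero_mul, zero_sub] at hdet
  have hx : W.1 0 1 ≠ 0 := by
    intro e
    rw [e] at hdet
    simp at hdet
  refine ⟨W.1 0 1, hx, ?_⟩
  have e : Wx (W.1 0 1) hx = W := by
    apply sl_ext <;> simp [Wx, h00, h11]
    field_simp
    linear_combination hdet
  rw [e, mem_hatH, hW]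
  exact (u * c).2

theorem pr_U_inj {α β : F} (h : pr (U α) = pr (U β)) : α = β := by
  rw [pr_eq_iff] at h
  rcases h with h | h
  · have := congrArg (fun g : SL2 F => g.1 0 1) h
    simpa [U] using this
  · have h1 := congrArg (fun g : SL2 F => g.1 0 1) h
    have h0 := congrArg (fun g : SL2 F => g.1 0 0) h
    simp [U, mul_00, mul_01] at h1 h0
    rw [h1]
    have h2 : (-1 : F) = 1 := h0.symm
    calc -β = (-1) * β := by ring
      _ = 1 * β := by rw [h2]
      _ = β := one_mul β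

/-- The subfield of the two-transitive case. -/
theorem E_subfield (p : ℕ) [Fact p.Prime] [CharP F p] [Finite F] [Finite (PSL2 F)] (H : Subgroup (PSL2 F)) (a k : ℕ)
    (hTT : TwoTrans ((isD_F (F := F) p).sub H) a k)
    (hI : Qs ((isD_F (F := F) p).sub H) (ptI (AC F)) ≠ ⊥) (hO : Qs ((isD_F (F := F) p).sub H) (pt0 F) ≠ ⊥) :
    ∃ (K : Subfield F) (τ : F), τ ≠ 0 ∧ (∀ κ, κ ∈ K ↔ U (τ * κ) ∈ hatH H) ∧
      (∀ κ ∈ K, CfsgLib.H9.SL2Cl.L (κ / τ) ∈ hatH H) ∧ Nat.card K = a := by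
  set h := (isD_F (F := F) p).sub H with hh
  obtain ⟨c, hc⟩ := h.Qs_conj hI hO
  have hmem0 : pt0 F ∈ orbit H (ptI (AC F)) := ⟨c, hc⟩
  have hcount : (orbit H (ptI (AC F))).ncard = Nat.card (Qs h (ptI (AC F))) + 1 := by
    rw [hTT.orb _ hI, hTT.cardQ _ hI]
  have hcount0 : (orbit H (pt0 F)).ncard = Nat.card (Qs h (pt0 F)) + 1 := by
    rw [hTT.orb _ hO, hTT.cardQ _ hO]
  have hor := hat_or (p := p) hcount hmem0
  obtain ⟨x, hx, hw⟩ := hat_swap (p := p) hcount0 hmem0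
  have hne : ∃ α, α ≠ 0 ∧ U α ∈ hatH H := by
    obtain ⟨u, hu, hu1⟩ := (Subgroup.bot_or_exists_ne_one _).resolve_left hI
    obtain ⟨α, hα⟩ := Qs_form p (u : PSL2 F) hu.1 (by
      have := hu.2
      simpa using congrArg Subtype.val this)
    refine ⟨α, ?_, ?_⟩
    · rintro rfl
      apply hu1
      apply Subtype.ext
      rw [hα, U_zero]
      rfl
    · rw [mem_hatH, ← hα]
      exact u.2
  obtain ⟨K, τ, hτ, hK, hL⟩ := exists_subfield (hatH H) hne hor x hx hw
  refine ⟨K, τ, hτ, hK, hL, ?_⟩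
  rw [← hTT.cardQ _ hI]
  refine Nat.card_congr (Equiv.ofBijective (fun κ : K => (⟨⟨pr (U (τ * κ)), (hK κ).1 κ.2⟩, ⟨U_fix_inf _, ?_⟩⟩ : Qs h (ptI (AC F)))) ⟨?_, ?_⟩)
  · apply Subtype.ext
    exact U_pow p _
  · intro κ κ' he
    have h1 : pr (U (τ * κ)) = pr (U (τ * κ')) := congrArg (fun y : Qs h (ptI (AC F)) => ((y : H) : PSL2 F)) he
    have h2 := pr_U_inj h1
    exact Subtype.ext (mul_left_cancel₀ hτ h2)
  · rintro ⟨u, hu⟩
    obtain ⟨α, hα⟩ := Qs_form p (u : PSL2 F) hu.1 (by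
      have := hu.2
      simpa using congrArg Subtype.val this)
    have hmem : U α ∈ hatH H := by
      rw [mem_hatH, ← hα]
      exact u.2
    have e : τ * (α / τ) = α := by
      field_simp
    refine ⟨⟨α / τ, (hK _).2 (by rwa [e])⟩, ?_⟩
    apply Subtype.ext
    apply Subtype.ext
    show pr (U (τ * (α / τ))) = (u : PSL2 F)
    rw [e, hα]

/-- Numerics of the last step. -/
theorem num_case (a k P d hH : ℕ) (ha : 2 ≤ a) (hd : d = 1 ∨ d = 2) (hP : (a + 1) * (a * (a - 1)) = P * d)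
    (hk : k ∣ a - 1) (hk1 : 1 ≤ k) (hHc : hH = (a + 1) * (a * k)) (hdvd : P ∣ hH) :
    P = hH ∨ (k = a - 1 ∧ d = 2) := by
  obtain ⟨j, hj⟩ := hk
  have hdpos : 0 < d := by omega
  have ha0 : 0 < (a + 1) * a := by positivity
  have h1 : (a - 1) ∣ k * d := by
    have h2 : P * d ∣ hH * d := Nat.mul_dvd_mul_right hdvd d
    rw [← hP, hHc] at h2
    have e1 : (a + 1) * (a * (a - 1)) = (a + 1) * a * (a - 1) := by ring
    have e2 : (a + 1) * (a * k) * d = (a + 1) * a * (k * d) := by ring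
    rw [e1, e2] at h2
    exact Nat.dvd_of_mul_dvd_mul_left ha0 h2
  have hjd : j ∣ d := by
    rw [hj] at h1
    exact Nat.dvd_of_mul_dvd_mul_left hk1 h1
  have hfin : j = d → P = hH := by
    intro hjd'
    rw [hjd'] at hj
    rw [hj] at hP
    rw [hHc]
    have e3 : (a + 1) * (a * (k * d)) = ((a + 1) * (a * k)) * d := by ring
    rw [e3] at hP
    exact (Nat.eq_of_mul_eq_mul_right hdpos hP).symm
  rcases hd with rfl | rfl
  · left
    exact hfin (Nat.dvd_one.1 hjd)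
  · have : j = 1 ∨ j = 2 := (Nat.dvd_prime Nat.prime_two).1 hjd
    rcases this with rfl | rfl
    · right
      exact ⟨by rw [hj, mul_one], rfl⟩
    · left
      exact hfin rfl

/-- The order of `SL₂`. -/
theorem card_SL2_field (K : Type*) [Field K] [Finite K] (a : ℕ) (ha : Nat.card K = a) :
    Nat.card (SL2 K) = (a + 1) * (a * (a - 1)) := by
  classical
  haveI : Fintype K := Fintype.ofFinite K
  have h1 : Fintype.card K = a := by rw [← Nat.card_eq_fintype_card, ha]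
  have h2 := CfsgLib.ClassGeo.q_sub_one_mul_card_SL h1 2 (by norm_num)
  rw [Fin.prod_univ_two] at h2
  have ha2 : 2 ≤ a := by
    rw [← h1]
    exact Fintype.one_lt_card
  obtain ⟨b, rfl⟩ : ∃ b, a = b + 1 := ⟨a - 1, by omega⟩
  simp only [Nat.add_sub_cancel, Fin.val_zero, Fin.val_one, pow_zero, pow_one] at h2 ⊢
  have e1 : (b + 1) ^ 2 - 1 = b * (b + 2) := by
    have : (b + 1) ^ 2 = b * (b + 2) + 1 := by ring
    omega
  have e2 : (b + 1) ^ 2 - (b + 1) = (b + 1) * b := by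
    have : (b + 1) ^ 2 = (b + 1) * b + (b + 1) := by ring
    omega
  rw [e1, e2] at h2
  have hb : 0 < b := by omega
  have h3 : b * Nat.card (SL2 K) = b * ((b + 1 + 1) * ((b + 1) * b)) := by
    rw [h2]
    ring
  exact Nat.eq_of_mul_eq_mul_left hb h3

/-- The `PSL₂` case. -/
theorem E_psl [Finite F] [Finite (PSL2 F)] (H : Subgroup (PSL2 F)) (K : Subfield F) (τ : F) (hτ : τ ≠ 0)
    (hmem : ∀ g : SL2 K, theta K τ hτ g ∈ hatH H) (hcard : Nat.card (PSL2 K) = Nat.card H) :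
    Nonempty (H ≃* PSL2 K) := by
  have hle : (thetaP K τ hτ).range ≤ H := by
    rintro _ ⟨g, rfl⟩
    obtain ⟨M, rfl⟩ := pr_surj g
    rw [thetaP_pr]
    exact hmem M
  have heq : (thetaP K τ hτ).range = H := by
    apply Subgroup.eq_of_le_of_card_ge hle
    rw [← hcard]
    exact (Nat.card_congr (MonoidHom.ofInjective (thetaP_inj K τ hτ)).toEquiv).le
  refine ⟨((MonoidHom.ofInjective (thetaP_inj K τ hτ)).trans (MulEquiv.subgroupCongr heq)).symm⟩

end two

end CfsgLib.Dickson
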