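import Cfsg.Agent.Lib.Dickson.EPart

/-! The two-transitive case of Dickson's theorem: the `PGL₂` case. -/

set_option autoImplicit false
set_option linter.unusedSimpArgs false
set_option linter.unusedVariables false
set_option linter.unusedSectionVars false
set_option linter.style.haveILetI false

namespace CfsgLib.Dickson

open Matrix CfsgLib.H9.SL2Cl MulAction
open CfsgLib.H9.PSL2 (pr pr_surj pr_eq_iff pr_eq_one_iff pr_zS pr_mul pr_pow pr_one)
open CfsgLib.H9.BorelChar (zS zS_00 zS_01 zS_10 zS_11 zS_central zS_sq)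

variable {F : Type*} [Field F]

theorem fix_inf_F (M : SL2 F) : pr M • ptI (AC F) = ptI (AC F) ↔ M.1 1 0 = 0 := by
  rw [pr_smul_XF, fix_inf_iff]
  show emb F (M.1 1 0) = 0 ↔ _
  exact map_eq_zero _

theorem pr_pow_p_iff_F (p : ℕ) [Fact p.Prime] [CharP F p] (M : SL2 F) (h : M.1 1 0 = 0) : pr M ^ p = 1 ↔ M.1 0 0 ^ 2 = 1 := by
  haveI hCL : CharP (AC F) p := charP_of_injective_algebraMap (algebraMap F (AC F)).injective p
  constructor
  · intro h1
    have h2 : pr (SpecialLinearGroup.map (emb F) M) ^ p = 1 := by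
      rw [← toPL_pr, ← map_pow, h1, map_one]
    rw [pr_pow_p_iff] at h2
    · apply (emb F).injective
      rw [map_pow, map_one]
      exact h2
    · show emb F (M.1 1 0) = 0
      rw [h, map_zero]
  · intro h1
    apply toPL_inj (emb F)
    rw [map_pow, map_one, toPL_pr, pr_pow_p_iff]
    · show emb F (M.1 0 0) ^ 2 = 1
      rw [← map_pow, h1, map_one]
    · show emb F (M.1 1 0) = 0
      rw [h, map_zero]

theorem diag_of_stab (Hh : Subgroup (SL2 F)) (hor : ∀ h ∈ Hh, h.1 1 0 ≠ 0 → U (h.1 0 0 / h.1 1 0) ∈ Hh)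
    (x : F) (hx : x ≠ 0) (hw : Wx x hx ∈ Hh) (M : SL2 F) (hM : M ∈ Hh) (h10 : M.1 1 0 = 0) :
    ∃ ht : M.1 0 0 ≠ 0, D (M.1 0 0) ht ∈ Hh := by
  have hdet := det_eq M
  rw [h10, mul_zero, sub_zero] at hdet
  have h0 : M.1 0 0 ≠ 0 := by
    intro e
    rw [e] at hdet
    simp at hdet
  have h1 : M.1 1 1 ≠ 0 := by
    intro e
    rw [e] at hdet
    simp at hdet
  refine ⟨h0, ?_⟩
  have hN : M * Wx x hx ∈ Hh := Hh.mul_mem hM hw
  have h2 := hor _ hN (by
    rw [mul_10]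
    simp [Wx, h10, h1, hx])
  have e : D (M.1 0 0) h0 = U (-((M * Wx x hx).1 0 0 / (M * Wx x hx).1 1 0)) * M := by
    have hm11 : M.1 1 1 = (M.1 0 0)⁻¹ := by
      field_simp
      linear_combination hdet
    apply sl_ext
    · simp [D, U, mul_00, mul_10, Wx, h10]
    · simp [D, U, mul_00, mul_01, mul_10, mul_11, Wx, h10]
      rw [hm11]
      field_simp
      ring
    · simp [D, U, mul_10, h10]
    · simp [D, U, mul_11, h10, hm11]
  rw [e]
  refine Hh.mul_mem ?_ hM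
  rw [← U_inv]
  exact Hh.inv_mem h2

theorem sq_mem (Hh : Subgroup (SL2 F)) (K : Subfield F) (τ : F) (hK : ∀ κ, κ ∈ K ↔ U (τ * κ) ∈ Hh) (t : F) (ht : t ≠ 0)
    (hD : D t ht ∈ Hh) : t ^ 2 ∈ K := by
  rw [hK]
  have h1 : U (τ * 1) ∈ Hh := (hK 1).1 K.one_mem
  have e : D t ht * U (τ * 1) = U (τ * t ^ 2) * D t ht := by
    apply sl_ext <;> simp [D, U, mul_00, mul_01, mul_10, mul_11]
    field_simp
  have e2 : U (τ * t ^ 2) = D t ht * U (τ * 1) * (D t ht)⁻¹ := by
    rw [e]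
    group
  rw [e2]
  exact Hh.mul_mem (Hh.mul_mem hD h1) (Hh.inv_mem hD)

/-- The character on the stabiliser of `∞`. -/
noncomputable def PhiS (H : Subgroup (PSL2 F)) : stabilizer H (ptI (AC F)) →* F where
  toFun g := fval ((g : H) : PSL2 F)
  map_one' := by
    have : (((1 : stabilizer H (ptI (AC F))) : H) : PSL2 F) = pr 1 := rfl
    rw [this, fval_pr]
    simp
  map_mul' := by
    rintro ⟨g, hg⟩ ⟨g', hg'⟩
    obtain ⟨M, hM⟩ := pr_surj (g : PSL2 F)
    obtain ⟨M', hM'⟩ := pr_surj (g' : PSL2 F)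
    have hg1 : (g : PSL2 F) • ptI (AC F) = ptI (AC F) := hg
    have hg2 : (g' : PSL2 F) • ptI (AC F) = ptI (AC F) := hg'
    rw [← hM, fix_inf_F] at hg1
    rw [← hM', fix_inf_F] at hg2
    show fval ((g : PSL2 F) * (g' : PSL2 F)) = fval (g : PSL2 F) * fval (g' : PSL2 F)
    rw [← hM, ← hM', ← pr_mul, fval_pr, fval_pr, fval_pr, mul_00, hg2]
    ring

theorem sqrt_diag (p : ℕ) [Fact p.Prime] [CharP F p] [Finite F] [Finite (PSL2 F)] (H : Subgroup (PSL2 F)) (a k : ℕ)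
    (hTT : TwoTrans ((isD_F (F := F) p).sub H) a k)
    (hI : Qs ((isD_F (F := F) p).sub H) (ptI (AC F)) ≠ ⊥) (K : Subfield F) (τ : F) (hK : ∀ κ, κ ∈ K ↔ U (τ * κ) ∈ hatH H)
    (hk : k = a - 1) (hcardK : Nat.card K = a)
    (hor : ∀ h ∈ hatH H, h.1 1 0 ≠ 0 → U (h.1 0 0 / h.1 1 0) ∈ hatH H) (x : F) (hx : x ≠ 0) (hw : Wx x hx ∈ hatH H) :
    ∀ ν : F, ν ∈ K → ν ≠ 0 → ∃ (t : F) (ht : t ≠ 0), t ^ 2 = ν ∧ D t ht ∈ hatH H := by
  classical
  set h := (isD_F (F := F) p).sub H with hh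
  let Φ : stabilizer H (ptI (AC F)) →* Fˣ := (PhiS H).toHomUnits
  have hΦ : ∀ g : stabilizer H (ptI (AC F)), ∀ M : SL2 F, pr M = ((g : H) : PSL2 F) → ((Φ g : Fˣ) : F) = M.1 0 0 ^ 2 := by
    intro g M hM
    show fval ((g : H) : PSL2 F) = _
    rw [← hM, fval_pr]
  have hten : ∀ g : stabilizer H (ptI (AC F)), ∀ M : SL2 F, pr M = ((g : H) : PSL2 F) → M.1 1 0 = 0 := by
    intro g M hM
    have h1 : ((g : H) : PSL2 F) • ptI (AC F) = ptI (AC F) := g.2
    rwa [← hM, fix_inf_F] at h1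
  -- the kernel
  have hker : Nat.card Φ.ker = a := by
    rw [← hTT.cardQ _ hI]
    refine Nat.card_congr (Equiv.ofBijective (fun g => (⟨(g.1 : H), g.1.2, ?_⟩ : Qs h (ptI (AC F)))) ⟨?_, ?_⟩)
    · obtain ⟨M, hM⟩ := pr_surj (((g.1 : stabilizer H (ptI (AC F))) : H) : PSL2 F)
      have h1 := hΦ g.1 M hM
      have h2 : Φ g.1 = 1 := g.2
      rw [h2] at h1
      apply Subtype.ext
      show ((g.1 : H) : PSL2 F) ^ p = 1
      rw [← hM, pr_pow_p_iff_F p M (hten g.1 M hM)]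
      simpa using h1.symm
    · intro g g' he
      apply Subtype.ext
      apply Subtype.ext
      have := congrArg (fun y : Qs h (ptI (AC F)) => (y : H)) he
      exact this
    · rintro ⟨u, hu⟩
      refine ⟨⟨⟨u, hu.1⟩, ?_⟩, rfl⟩
      rw [MonoidHom.mem_ker]
      obtain ⟨M, hM⟩ := pr_surj (u : PSL2 F)
      apply Units.ext
      rw [hΦ ⟨u, hu.1⟩ M hM, Units.val_one]
      have h2 := hu.2
      have h3 : (u : PSL2 F) ^ p = 1 := by simpa using congrArg Subtype.val h2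
      rwa [← hM, pr_pow_p_iff_F p M (hten ⟨u, hu.1⟩ M hM)] at h3
  have hrange : Nat.card Φ.range = a - 1 := by
    have h1 := Φ.ker.card_mul_index
    rw [Subgroup.index_ker, hker] at h1
    have h2 : Nat.card (stabilizer H (ptI (AC F))) = a * k := hTT.stab _ hI
    rw [h2, hk] at h1
    have ha : 0 < a := by
      have := hTT.a3
      omega
    exact Nat.eq_of_mul_eq_mul_left ha h1
  haveI : Fintype K := Fintype.ofFinite K
  let i : Kˣ →* Fˣ := Units.map (K.subtype : K →* F)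
  have hi : Function.Injective i := by
    intro u v huv
    apply Units.ext
    apply Subtype.ext
    exact congrArg (fun w : Fˣ => (w : F)) huv
  have hK' : Nat.card i.range = a - 1 := by
    rw [Nat.card_congr (MonoidHom.ofInjective hi).toEquiv.symm]
    exact CfsgLib.ClassGeo.card_units_of_card (by rw [← Nat.card_eq_fintype_card, hcardK])
  have hle : Φ.range ≤ i.range := by
    rintro _ ⟨g, rfl⟩
    obtain ⟨M, hM⟩ := pr_surj ((g : H) : PSL2 F)
    have hmem : M ∈ hatH H := by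
      rw [mem_hatH, hM]
      exact (g : H).2
    obtain ⟨ht, hD⟩ := diag_of_stab (hatH H) hor x hx hw M hmem (hten g M hM)
    have hsq := sq_mem (hatH H) K τ hK _ ht hD
    have hne : (⟨M.1 0 0 ^ 2, hsq⟩ : K) ≠ 0 := by
      intro e
      have := congrArg Subtype.val e
      exact pow_ne_zero 2 ht this
    refine ⟨Units.mk0 _ hne, ?_⟩
    apply Units.ext
    rw [hΦ g M hM]
    rfl
  have heq : Φ.range = i.range := Subgroup.eq_of_le_of_card_ge hle (by rw [hrange, hK'])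
  intro ν hν hν0
  have hne : (⟨ν, hν⟩ : K) ≠ 0 := fun e => hν0 (congrArg Subtype.val e)
  have h1 : i (Units.mk0 _ hne) ∈ Φ.range := by
    rw [heq]
    exact ⟨_, rfl⟩
  obtain ⟨g, hg⟩ := h1
  obtain ⟨M, hM⟩ := pr_surj ((g : H) : PSL2 F)
  have hmem : M ∈ hatH H := by
    rw [mem_hatH, hM]
    exact (g : H).2
  obtain ⟨ht, hD⟩ := diag_of_stab (hatH H) hor x hx hw M hmem (hten g M hM)
  refine ⟨M.1 0 0, ht, ?_, hD⟩
  rw [← hΦ g M hM, hg]
  rfl

/-- The diagonal element of `GL₂`. -/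
noncomputable def Dτ (τ : F) (hτ : τ ≠ 0) : GL (Fin 2) F :=
  Matrix.GeneralLinearGroup.mkOfDetNeZero !![τ, 0; 0, 1] (by simp [Matrix.det_fin_two, hτ])

/-- The twisted embedding of `PGL₂`. -/
noncomputable def psiP (K : Subfield F) (τ : F) (hτ : τ ≠ 0) :
    Matrix.ProjGenLinGroup (Fin 2) K →* Matrix.ProjGenLinGroup (Fin 2) F :=
  (MulAut.conj (Matrix.ProjGenLinGroup.mk (Dτ τ hτ))).toMonoidHom.comp (Matrix.ProjGenLinGroup.map (K.subtype))

theorem pgl_map_inj (K : Subfield F) : Function.Injective (Matrix.ProjGenLinGroup.map (n := Fin 2) K.subtype) := by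
  rw [injective_iff_map_eq_one]
  intro g hg
  induction g using Matrix.ProjGenLinGroup.induction_on with | mk g =>
  rw [Matrix.ProjGenLinGroup.map_mk, Matrix.ProjGenLinGroup.mk_eq_one, Matrix.GeneralLinearGroup.center_eq_range_scalar] at hg
  obtain ⟨u, hu⟩ := hg
  have hent : ∀ i j, ((Matrix.GeneralLinearGroup.map K.subtype g : GL (Fin 2) F) : Matrix (Fin 2) (Fin 2) F) i j = ((g : Matrix (Fin 2) (Fin 2) K) i j : F) := fun _ _ => rfl
  have hent2 : ∀ i j, ((Matrix.GeneralLinearGroup.scalar (Fin 2) u : GL (Fin 2) F) : Matrix (Fin 2) (Fin 2) F) i j = if i = j then (u : F) else 0 := by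
    intro i j
    simp [Matrix.scalar_apply, Matrix.diagonal_apply]
  have h : ∀ i j, ((g : Matrix (Fin 2) (Fin 2) K) i j : F) = if i = j then (u : F) else 0 := by
    intro i j
    rw [← hent, ← hu, ← hent2]
  have h00 := h 0 0
  simp only [if_true] at h00
  have hne : (g : Matrix (Fin 2) (Fin 2) K) 0 0 ≠ 0 := by
    intro e
    rw [e] at h00
    exact u.ne_zero h00.symm
  have : g = Matrix.GeneralLinearGroup.scalar (Fin 2) (Units.mk0 _ hne) := by
    apply Units.ext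
    ext i j
    rw [h i j]
    by_cases hij : i = j
    · subst hij
      simp [Matrix.scalar_apply, h00]
    · simp [hij, Matrix.scalar_apply, Matrix.diagonal_apply]
  rw [this]
  exact Matrix.ProjGenLinGroup.mk_scalar _

theorem psiP_inj (K : Subfield F) (τ : F) (hτ : τ ≠ 0) : Function.Injective (psiP K τ hτ) := by
  intro a b hab
  apply pgl_map_inj K
  exact (MulAut.conj (Matrix.ProjGenLinGroup.mk (Dτ τ hτ))).injective hab

/-- Elements of `PGL₂` of the subfield come from the subgroup. -/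
theorem psi_range (H : Subgroup (PSL2 F)) (K : Subfield F) (τ : F) (hτ : τ ≠ 0)
    (hmem : ∀ g : SL2 K, theta K τ hτ g ∈ hatH H)
    (hs : ∀ ν : F, ν ∈ K → ν ≠ 0 → ∃ (t : F) (ht : t ≠ 0), t ^ 2 = ν ∧ D t ht ∈ hatH H) :
    (psiP K τ hτ).range ≤ H.map ProjectiveSpecialLinearGroup.toPGL := by
  rintro _ ⟨g, rfl⟩
  induction g using Matrix.ProjGenLinGroup.induction_on with | mk g =>
  -- the determinant
  set M : Matrix (Fin 2) (Fin 2) K := (g : Matrix (Fin 2) (Fin 2) K) with hM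
  have hdetK : M.det ≠ 0 := by
    have := g.isUnit.map (Matrix.detMonoidHom (n := Fin 2) (R := K))
    exact (this.ne_zero)
  set ν : K := M.det with hν
  have hνF : (ν : F) ≠ 0 := fun e => hdetK (Subtype.ext e)
  obtain ⟨t, ht, ht2, hD⟩ := hs (ν : F) ν.2 hνF
  have hνdet : ν = M 0 0 * M 1 1 - M 0 1 * M 1 0 := Matrix.det_fin_two M
  have hνdetF : (ν : F) = (M 0 0 : F) * (M 1 1 : F) - (M 0 1 : F) * (M 1 0 : F) := by
    rw [hνdet]
    simp
  let g₁ : SL2 K := mk (M 0 0 / ν) (M 0 1) (M 1 0 / ν) (M 1 1) (by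
    rw [hν] at hdetK ⊢
    rw [← sub_eq_zero] 
    have : M 0 0 / M.det * M 1 1 - M 0 1 * (M 1 0 / M.det) - 1 = (M 0 0 * M 1 1 - M 0 1 * M 1 0 - M.det) / M.det := by
      field_simp
    rw [this]
    rw [Matrix.det_fin_two M]
    simp)
  refine ⟨pr (theta K τ hτ g₁ * D t ht), ?_, ?_⟩
  · exact (mem_hatH H _).1 ((hatH H).mul_mem (hmem g₁) hD)
  · have e1 : psiP K τ hτ (Matrix.ProjGenLinGroup.mk g) =
        Matrix.ProjGenLinGroup.mk (Dτ τ hτ) * Matrix.ProjGenLinGroup.mk (Matrix.GeneralLinearGroup.map K.subtype g) * (Matrix.ProjGenLinGroup.mk (Dτ τ hτ))⁻¹ := rfl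
    rw [e1, eq_mul_inv_iff_mul_eq, ← map_mul]
    show Matrix.ProjGenLinGroup.mk (SpecialLinearGroup.toGL (theta K τ hτ g₁ * D t ht)) * Matrix.ProjGenLinGroup.mk (Dτ τ hτ) = _
    rw [← map_mul, Matrix.ProjGenLinGroup.mk_eq_mk_iff]
    refine ⟨Units.mk0 t ht, ?_⟩
    apply Units.ext
    have hF : ∀ i j, (M i j : F) = ((Matrix.GeneralLinearGroup.map K.subtype g : GL (Fin 2) F) : Matrix (Fin 2) (Fin 2) F) i j := fun _ _ => rfl
    ext i j
    have hν' : (ν : F) = t ^ 2 := ht2.symm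
    have hk1 : ((g₁.1 0 0 : K) : F) = (M 0 0 : F) / (ν : F) := by
      show ((M 0 0 / ν : K) : F) = _
      simp
    have hk2 : ((g₁.1 1 0 : K) : F) = (M 1 0 : F) / (ν : F) := by
      show ((M 1 0 / ν : K) : F) = _
      simp
    have hk3 : ((g₁.1 0 1 : K) : F) = (M 0 1 : F) := rfl
    have hk4 : ((g₁.1 1 1 : K) : F) = (M 1 1 : F) := rfl
    have hentries : ∀ i j, ((SpecialLinearGroup.toGL (theta K τ hτ g₁ * D t ht) * Dτ τ hτ * Matrix.GeneralLinearGroup.scalar (Fin 2) (Units.mk0 t ht) : GL (Fin 2) F) : Matrix (Fin 2) (Fin 2) F) i j =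
        (((theta K τ hτ g₁ * D t ht).1 * !![τ, 0; 0, 1] * Matrix.scalar (Fin 2) t)) i j := fun _ _ => rfl
    have hentries2 : ∀ i j, ((Dτ τ hτ * Matrix.GeneralLinearGroup.map K.subtype g : GL (Fin 2) F) : Matrix (Fin 2) (Fin 2) F) i j =
        (!![τ, 0; 0, 1] * ((Matrix.GeneralLinearGroup.map K.subtype g : GL (Fin 2) F) : Matrix (Fin 2) (Fin 2) F)) i j := fun _ _ => rfl
    rw [hentries, hentries2]
    have key1 : ∀ (A : Matrix (Fin 2) (Fin 2) F) (i j : Fin 2), (A * !![τ, 0; 0, 1] * Matrix.scalar (Fin 2) t) i j = A i j * (if j = 0 then τ else 1) * t := by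
      intro A i j
      fin_cases j <;> simp [Matrix.mul_apply, Fin.sum_univ_two, Matrix.scalar_apply, Matrix.diagonal_apply]
    have key2 : ∀ (B : Matrix (Fin 2) (Fin 2) F) (i j : Fin 2), (!![τ, 0; 0, 1] * B) i j = (if i = 0 then τ else 1) * B i j := by
      intro B i j
      fin_cases i <;> simp [Matrix.mul_apply, Fin.sum_univ_two]
    rw [key1, key2, ← hF]
    have hX00 : (theta K τ hτ g₁ * D t ht).1 0 0 = (M 0 0 : F) / (ν : F) * t := by
      rw [mul_00, theta_00, hk1]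
      simp [D]
    have hX01 : (theta K τ hτ g₁ * D t ht).1 0 1 = τ * (M 0 1 : F) * t⁻¹ := by
      rw [mul_01, theta_01, hk3]
      simp [D]
    have hX10 : (theta K τ hτ g₁ * D t ht).1 1 0 = (M 1 0 : F) / (ν : F) / τ * t := by
      rw [mul_10, theta_10, hk2]
      simp [D]
    have hX11 : (theta K τ hτ g₁ * D t ht).1 1 1 = (M 1 1 : F) * t⁻¹ := by
      rw [mul_11, theta_11, hk4]
      simp [D]
    fin_cases i <;> fin_cases j
    · simp only [Fin.zero_eta, Fin.isValue, if_true, hX00, hν']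
      field_simp
    · simp only [Fin.zero_eta, Fin.mk_one, Fin.isValue, one_ne_zero, if_false, if_true, hX01]
      field_simp
    · simp only [Fin.zero_eta, Fin.mk_one, Fin.isValue, one_ne_zero, if_false, if_true, hX10, hν']
      field_simp
    · simp only [Fin.mk_one, Fin.isValue, one_ne_zero, if_false, hX11]
      field_simp

/-- The `PGL₂` case. -/
theorem E_pgl [Finite F] [Finite (PSL2 F)] (H : Subgroup (PSL2 F)) (K : Subfield F) (τ : F) (hτ : τ ≠ 0)
    (hmem : ∀ g : SL2 K, theta K τ hτ g ∈ hatH H)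
    (hs : ∀ ν : F, ν ∈ K → ν ≠ 0 → ∃ (t : F) (ht : t ≠ 0), t ^ 2 = ν ∧ D t ht ∈ hatH H)
    (hcard : Nat.card (Matrix.ProjGenLinGroup (Fin 2) K) = Nat.card H) :
    Nonempty (H ≃* Matrix.ProjGenLinGroup (Fin 2) K) := by
  classical
  haveI : Finite (Matrix.ProjGenLinGroup (Fin 2) F) := by
    have := Matrix.ProjGenLinGroup.mk_surjective (n := Fin 2) (R := F)
    exact Finite.of_surjective _ this
  have hJ := ProjectiveSpecialLinearGroup.toPGL_injective (n := Fin 2) (R := F)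
  have hle := psi_range H K τ hτ hmem hs
  have heq : (psiP K τ hτ).range = H.map ProjectiveSpecialLinearGroup.toPGL := by
    apply Subgroup.eq_of_le_of_card_ge hle
    rw [Nat.card_congr (Subgroup.equivMapOfInjective H _ hJ).toEquiv.symm, ← hcard]
    exact (Nat.card_congr (MonoidHom.ofInjective (psiP_inj K τ hτ)).toEquiv).le
  exact ⟨(Subgroup.equivMapOfInjective H _ hJ).trans
    ((MulEquiv.subgroupCongr heq.symm).trans (MonoidHom.ofInjective (psiP_inj K τ hτ)).symm)⟩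

/-- The full result in the two-transitive case. -/
theorem E_main (p : ℕ) [Fact p.Prime] [CharP F p] [Finite F] [Finite (PSL2 F)] (H : Subgroup (PSL2 F)) (a k : ℕ)
    (hTT : TwoTrans ((isD_F (F := F) p).sub H) a k)
    (hI : Qs ((isD_F (F := F) p).sub H) (ptI (AC F)) ≠ ⊥) (hO : Qs ((isD_F (F := F) p).sub H) (pt0 F) ≠ ⊥) :
    ∃ (K : Subfield F) (τ : F) (hτ : τ ≠ 0), Nat.card K = a ∧ (∀ g : SL2 K, theta K τ hτ g ∈ hatH H) ∧
      (∀ κ, κ ∈ K ↔ U (τ * κ) ∈ hatH H) ∧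
      (Nonempty (H ≃* PSL2 K) ∨ Nonempty (H ≃* Matrix.ProjGenLinGroup (Fin 2) K)) := by
  classical
  obtain ⟨K, τ, hτ, hK, hL, hcardK⟩ := E_subfield p H a k hTT hI hO
  have hmem : ∀ g : SL2 K, theta K τ hτ g ∈ hatH H := theta_mem (hatH H) K τ hτ (fun κ hκ => (hK κ).1 hκ) hL
  refine ⟨K, τ, hτ, hcardK, hmem, hK, ?_⟩
  haveI : Fintype K := Fintype.ofFinite K
  have hFK : Fintype.card K = a := by rw [← Nat.card_eq_fintype_card, hcardK]
  have hSL := card_SL2_field K a hcardK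
  have hPSL := CfsgLib.ClassGeo.card_PSL_mul hFK 2 (by norm_num)
  have hPGL := CfsgLib.ClassGeo.card_PGL_eq_card_SL (F := K) 2
  rw [hSL] at hPSL
  have hle : (thetaP K τ hτ).range ≤ H := by
    rintro _ ⟨g, rfl⟩
    obtain ⟨M, rfl⟩ := pr_surj g
    rw [thetaP_pr]
    exact hmem M
  have hdvd : Nat.card (PSL2 K) ∣ Nat.card H := by
    rw [Nat.card_congr (MonoidHom.ofInjective (thetaP_inj K τ hτ)).toEquiv]
    exact Subgroup.card_dvd_of_le hle
  have ha3 := hTT.a3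
  have hd : Nat.gcd 2 (a - 1) = 1 ∨ Nat.gcd 2 (a - 1) = 2 := (Nat.dvd_prime Nat.prime_two).1 (Nat.gcd_dvd_left _ _)
  rcases num_case a k (Nat.card (PSL2 K)) _ (Nat.card H) (by omega) hd hPSL hTT.kdvd hTT.k1 hTT.card hdvd with h1 | ⟨h1, h2⟩
  · left
    exact E_psl H K τ hτ hmem h1
  · right
    -- data from `hat_or` etc.
    set h := (isD_F (F := F) p).sub H with hh
    obtain ⟨c, hc⟩ := h.Qs_conj hI hO
    have hmem0 : pt0 F ∈ orbit H (ptI (AC F)) := ⟨c, hc⟩
    have hcount : (orbit H (ptI (AC F))).ncard = Nat.card (Qs h (ptI (AC F))) + 1 := by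
      rw [hTT.orb _ hI, hTT.cardQ _ hI]
    have hcount0 : (orbit H (pt0 F)).ncard = Nat.card (Qs h (pt0 F)) + 1 := by
      rw [hTT.orb _ hO, hTT.cardQ _ hO]
    have hor := hat_or (p := p) hcount hmem0
    obtain ⟨x, hx, hw⟩ := hat_swap (p := p) hcount0 hmem0
    have hs := sqrt_diag p H a k hTT hI K τ hK h1 hcardK hor x hx hw
    apply E_pgl H K τ hτ hmem hs
    rw [hPGL, hSL, hTT.card, h1]

end CfsgLib.Dickson
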