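import Cfsg.Agent.Lib.Dickson.Concrete
import Cfsg.Agent.Lib.ClassGeo.SLGen
import Cfsg.Agent.Lib.ClassGeo.Basic

/-! The subfield hidden in a subgroup of `SL₂` acting two-transitively on an orbit. -/

set_option autoImplicit false
set_option linter.unusedSimpArgs false
set_option linter.unusedVariables false
set_option linter.unusedSectionVars false
set_option linter.style.haveILetI false

namespace CfsgLib.Dickson

open Matrix CfsgLib.H9.SL2Cl
open CfsgLib.H9.PSL2 (pr pr_surj pr_eq_iff pr_eq_one_iff pr_zS pr_mul pr_pow pr_one)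
open CfsgLib.H9.BorelChar (zS zS_00 zS_01 zS_10 zS_11 zS_central zS_sq)

variable {F : Type*} [Field F]

/-- The swap. -/
def Wx (x : F) (hx : x ≠ 0) : SL2 F := mk 0 x (-x⁻¹) 0 (by field_simp; ring)

theorem U_add (α β : F) : U α * U β = U (α + β) := by
  apply sl_ext <;> simp [U, mul_00, mul_01, mul_10, mul_11, add_comm]

theorem U_zero : U (0 : F) = 1 := by
  apply sl_ext <;> simp [U]

theorem U_inv (α : F) : (U α)⁻¹ = U (-α) := by
  apply inv_eq_of_mul_eq_one_right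
  rw [U_add, add_neg_cancel, U_zero]

theorem exists_subfield [Finite F] (Hh : Subgroup (SL2 F)) (hne : ∃ α, α ≠ 0 ∧ U α ∈ Hh)
    (hor : ∀ h ∈ Hh, h.1 1 0 ≠ 0 → U (h.1 0 0 / h.1 1 0) ∈ Hh) (x : F) (hx : x ≠ 0) (hw : Wx x hx ∈ Hh) :
    ∃ (K : Subfield F) (τ : F), τ ≠ 0 ∧ (∀ κ, κ ∈ K ↔ U (τ * κ) ∈ Hh) ∧ ∀ κ ∈ K, CfsgLib.H9.SL2Cl.L (κ / τ) ∈ Hh := by
  classical
  have hAadd : ∀ α β, U α ∈ Hh → U β ∈ Hh → U (α + β) ∈ Hh := by
    intro α β h1 h2
    rw [← U_add]
    exact Hh.mul_mem h1 h2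
  have hAneg : ∀ α, U α ∈ Hh → U (-α) ∈ Hh := by
    intro α h1
    rw [← U_inv]
    exact Hh.inv_mem h1
  have hA0 : U (0 : F) ∈ Hh := by
    rw [U_zero]
    exact Hh.one_mem
  have hL : ∀ α, U α ∈ Hh → L (α / x ^ 2) ∈ Hh := by
    intro α h1
    have e : Wx x hx * U (-α) = L (α / x ^ 2) * Wx x hx := by
      apply sl_ext <;> simp [Wx, U, L, mul_00, mul_01, mul_10, mul_11]
      · field_simp
    have e2 : L (α / x ^ 2) = Wx x hx * U (-α) * (Wx x hx)⁻¹ := by
      rw [e]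
      group
    rw [e2]
    exact Hh.mul_mem (Hh.mul_mem hw (hAneg α h1)) (Hh.inv_mem hw)
  have hstar : ∀ α, α ≠ 0 → U α ∈ Hh → U (x ^ 2 / α) ∈ Hh := by
    intro α hα h1
    have h2 := hor _ (hL α h1) (by
      simp only [L, mk_10]
      exact div_ne_zero hα (pow_ne_zero _ hx))
    simp only [L, mk_10, mk_00] at h2
    have e : 1 / (α / x ^ 2) = x ^ 2 / α := by
      field_simp
    rwa [e] at h2
  have hD : ∀ c, ∀ hc : c ≠ 0, U c ∈ Hh → D (c / x) (div_ne_zero hc hx) ∈ Hh := by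
    intro c hc h1
    have hL2 : L (-(1 / c)) ∈ Hh := by
      have h2 := hL _ (hAneg _ (hstar c hc h1))
      have e : -(x ^ 2 / c) / x ^ 2 = -(1 / c) := by
        field_simp
      rwa [e] at h2
    have hn : U c * L (-(1 / c)) * U c ∈ Hh := Hh.mul_mem (Hh.mul_mem h1 hL2) h1
    have e : D (c / x) (div_ne_zero hc hx) * Wx x hx = U c * L (-(1 / c)) * U c := by
      apply sl_ext <;> simp [D, Wx, U, L, mul_00, mul_01, mul_10, mul_11] <;> field_simp <;> ring
    have e2 : D (c / x) (div_ne_zero hc hx) = U c * L (-(1 / c)) * U c * (Wx x hx)⁻¹ := by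
      rw [← e]
      group
    rw [e2]
    exact Hh.mul_mem hn (Hh.inv_mem hw)
  have hact : ∀ c α, c ≠ 0 → U c ∈ Hh → U α ∈ Hh → U ((c / x) ^ 2 * α) ∈ Hh := by
    intro c α hc h1 h2
    have e : D (c / x) (div_ne_zero hc hx) * U α = U ((c / x) ^ 2 * α) * D (c / x) (div_ne_zero hc hx) := by
      apply sl_ext <;> simp [D, U, mul_00, mul_01, mul_10, mul_11] <;> field_simp
    have e2 : U ((c / x) ^ 2 * α) = D (c / x) (div_ne_zero hc hx) * U α * (D (c / x) (div_ne_zero hc hx))⁻¹ := by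
      rw [e]
      group
    rw [e2]
    exact Hh.mul_mem (Hh.mul_mem (hD c hc h1) h2) (Hh.inv_mem (hD c hc h1))
  obtain ⟨τ, hτ, hτA⟩ := hne
  let K₀ : Set F := {κ | U (τ * κ) ∈ Hh}
  have hK : ∀ κ, κ ∈ K₀ ↔ U (τ * κ) ∈ Hh := fun κ => Iff.rfl
  have hone : (1 : F) ∈ K₀ := by
    rw [hK, mul_one]
    exact hτA
  have hzero : (0 : F) ∈ K₀ := by
    rw [hK, mul_zero]
    exact hA0
  have hadd : ∀ a b, a ∈ K₀ → b ∈ K₀ → a + b ∈ K₀ := by
    intro a b ha hb
    rw [hK, mul_add]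
    exact hAadd _ _ ha hb
  have hneg : ∀ a, a ∈ K₀ → -a ∈ K₀ := by
    intro a ha
    rw [hK, mul_neg]
    exact hAneg _ ha
  set μ : F := (τ / x) ^ 2 with hμ
  have hμ0 : μ ≠ 0 := pow_ne_zero _ (div_ne_zero hτ hx)
  have hm1 : ∀ κ σ, κ ≠ 0 → κ ∈ K₀ → σ ∈ K₀ → μ * κ ^ 2 * σ ∈ K₀ := by
    intro κ σ hκ h1 h2
    have h3 := hact (τ * κ) (τ * σ) (mul_ne_zero hτ hκ) h1 h2
    rw [hK]
    have e : (τ * κ / x) ^ 2 * (τ * σ) = τ * (μ * κ ^ 2 * σ) := by
      rw [hμ]
      field_simp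
    rwa [e] at h3
  have hm2 : ∀ σ, σ ∈ K₀ → μ * σ ∈ K₀ := by
    intro σ h
    have := hm1 1 σ one_ne_zero hone h
    simpa using this
  have hm3 : ∀ σ, σ ∈ K₀ → μ⁻¹ * σ ∈ K₀ := by
    intro σ h
    let f : K₀ → K₀ := fun s => ⟨μ * s.1, hm2 s.1 s.2⟩
    have hf : Function.Injective f := by
      intro a b hab
      apply Subtype.ext
      have h1 : μ * a.1 = μ * b.1 := congrArg Subtype.val hab
      exact mul_left_cancel₀ hμ0 h1
    obtain ⟨s, hs⟩ := (Finite.injective_iff_surjective.1 hf) ⟨σ, h⟩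
    have h1 : μ * s.1 = σ := congrArg Subtype.val hs
    rw [← h1, inv_mul_cancel_left₀ hμ0]
    exact s.2
  have hsq : ∀ κ σ, κ ∈ K₀ → σ ∈ K₀ → κ ^ 2 * σ ∈ K₀ := by
    intro κ σ h1 h2
    by_cases hκ : κ = 0
    · rw [hκ]
      simpa using hzero
    · have := hm3 _ (hm1 κ σ hκ h1 h2)
      have e : μ⁻¹ * (μ * κ ^ 2 * σ) = κ ^ 2 * σ := by
        field_simp
      rwa [e] at this
  have hinv : ∀ κ, κ ∈ K₀ → κ⁻¹ ∈ K₀ := by
    intro κ h1
    by_cases hκ : κ = 0
    · rw [hκ, _root_.inv_zero]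
      exact hzero
    · have h2 := hstar (τ * κ) (mul_ne_zero hτ hκ) h1
      have h3 : μ⁻¹ * κ⁻¹ ∈ K₀ := by
        rw [hK]
        have e : τ * (μ⁻¹ * κ⁻¹) = x ^ 2 / (τ * κ) := by
          rw [hμ]
          field_simp
        rwa [e]
      have h4 := hm2 _ h3
      have e : μ * (μ⁻¹ * κ⁻¹) = κ⁻¹ := by
        field_simp
      rwa [e] at h4
  have hmul : ∀ a b, a ∈ K₀ → b ∈ K₀ → a * b ∈ K₀ := by
    intro a b ha hb
    by_cases h2 : (2 : F) = 0
    · -- characteristic two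
      let f : K₀ → K₀ := fun s => ⟨s.1 ^ 2, by
        have := hsq s.1 1 s.2 hone
        simpa using this⟩
      have hf : Function.Injective f := by
        intro s t hst
        apply Subtype.ext
        have h1 : s.1 ^ 2 = t.1 ^ 2 := congrArg Subtype.val hst
        have h3 : (s.1 - t.1) ^ 2 = 0 := by
          have e : (s.1 - t.1) ^ 2 = s.1 ^ 2 + t.1 ^ 2 - 2 * (s.1 * t.1) := by ring
          rw [e, h2, h1]
          have e' : t.1 ^ 2 + t.1 ^ 2 = 2 * t.1 ^ 2 := by ring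
          rw [e', h2]
          ring
        exact sub_eq_zero.1 (pow_eq_zero_iff (two_ne_zero) |>.1 h3)
      obtain ⟨s, hs⟩ := (Finite.injective_iff_surjective.1 hf) ⟨a, ha⟩
      have h1 : s.1 ^ 2 = a := congrArg Subtype.val hs
      rw [← h1]
      exact hsq s.1 b s.2 hb
    · -- odd characteristic
      have hy : (a + b) ^ 2 * 1 + -(a ^ 2 * 1) + -(b ^ 2 * 1) ∈ K₀ :=
        hadd _ _ (hadd _ _ (hsq _ _ (hadd _ _ ha hb) hone) (hneg _ (hsq _ _ ha hone))) (hneg _ (hsq _ _ hb hone))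
      have h2i : (2 : F)⁻¹ ∈ K₀ := by
        apply hinv
        have : (2 : F) = 1 + 1 := by norm_num
        rw [this]
        exact hadd _ _ hone hone
      have h3 := hsq _ _ h2i (hadd _ _ hy hy)
      have e : (2 : F)⁻¹ ^ 2 * ((a + b) ^ 2 * 1 + -(a ^ 2 * 1) + -(b ^ 2 * 1) + ((a + b) ^ 2 * 1 + -(a ^ 2 * 1) + -(b ^ 2 * 1))) = a * b := by
        field_simp
        ring
      rwa [e] at h3
  let K : Subfield F :=
    { carrier := K₀
      mul_mem' := fun {a b} ha hb => hmul a b ha hb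
      one_mem' := hone
      add_mem' := fun {a b} ha hb => hadd a b ha hb
      zero_mem' := hzero
      neg_mem' := fun {a} ha => hneg a ha
      inv_mem' := fun a ha => hinv a ha }
  refine ⟨K, τ, hτ, fun κ => Iff.rfl, fun κ hκ => ?_⟩
  have h1 : μ⁻¹ * κ ∈ K₀ := hm3 κ hκ
  have h2 := hL _ ((hK _).1 h1)
  have e : τ * (μ⁻¹ * κ) / x ^ 2 = κ / τ := by
    rw [hμ]
    field_simp
  rwa [e] at h2

/-- The twist of `SL₂`. -/
noncomputable def twist (τ : F) (hτ : τ ≠ 0) : SL2 F →* SL2 F where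
  toFun g := mk (g.1 0 0) (τ * g.1 0 1) (g.1 1 0 / τ) (g.1 1 1) (by
    have := det_eq g
    field_simp
    linear_combination this)
  map_one' := by
    apply sl_ext <;> simp
  map_mul' := by
    intro a b
    apply sl_ext <;> simp [mul_00, mul_01, mul_10, mul_11] <;> field_simp

@[simp] theorem twist_00 (τ : F) (hτ : τ ≠ 0) (g : SL2 F) : (twist τ hτ g).1 0 0 = g.1 0 0 := rfl
@[simp] theorem twist_01 (τ : F) (hτ : τ ≠ 0) (g : SL2 F) : (twist τ hτ g).1 0 1 = τ * g.1 0 1 := rfl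
@[simp] theorem twist_10 (τ : F) (hτ : τ ≠ 0) (g : SL2 F) : (twist τ hτ g).1 1 0 = g.1 1 0 / τ := rfl
@[simp] theorem twist_11 (τ : F) (hτ : τ ≠ 0) (g : SL2 F) : (twist τ hτ g).1 1 1 = g.1 1 1 := rfl

/-- The twisted embedding of `SL₂` of a subfield. -/
noncomputable def theta (K : Subfield F) (τ : F) (hτ : τ ≠ 0) : SL2 K →* SL2 F :=
  (twist τ hτ).comp (SpecialLinearGroup.map K.subtype)

@[simp] theorem theta_00 (K : Subfield F) (τ : F) (hτ : τ ≠ 0) (g : SL2 K) : (theta K τ hτ g).1 0 0 = (g.1 0 0 : F) := rfl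
@[simp] theorem theta_01 (K : Subfield F) (τ : F) (hτ : τ ≠ 0) (g : SL2 K) : (theta K τ hτ g).1 0 1 = τ * (g.1 0 1 : F) := rfl
@[simp] theorem theta_10 (K : Subfield F) (τ : F) (hτ : τ ≠ 0) (g : SL2 K) : (theta K τ hτ g).1 1 0 = (g.1 1 0 : F) / τ := rfl
@[simp] theorem theta_11 (K : Subfield F) (τ : F) (hτ : τ ≠ 0) (g : SL2 K) : (theta K τ hτ g).1 1 1 = (g.1 1 1 : F) := rfl

theorem theta_inj (K : Subfield F) (τ : F) (hτ : τ ≠ 0) : Function.Injective (theta K τ hτ) := by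
  intro a b hab
  apply sl_ext
  · apply Subtype.ext
    have := congrArg (fun g : SL2 F => g.1 0 0) hab
    simpa using this
  · apply Subtype.ext
    have := congrArg (fun g : SL2 F => g.1 0 1) hab
    simpa [hτ] using this
  · apply Subtype.ext
    have := congrArg (fun g : SL2 F => g.1 1 0) hab
    simpa [hτ] using this
  · apply Subtype.ext
    have := congrArg (fun g : SL2 F => g.1 1 1) hab
    simpa using this

theorem theta_zS (K : Subfield F) (τ : F) (hτ : τ ≠ 0) : theta K τ hτ (zS K) = zS F := by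
  apply sl_ext <;> simp

/-- The twisted embedding of `PSL₂` of a subfield. -/
noncomputable def thetaP (K : Subfield F) (τ : F) (hτ : τ ≠ 0) : PSL2 K →* PSL2 F :=
  QuotientGroup.map _ _ (theta K τ hτ) (by
    intro z hz
    rw [Subgroup.mem_comap]
    rw [CfsgLib.H9.PSL2.mem_center_iff] at hz ⊢
    rcases hz with rfl | rfl
    · left
      simp
    · right
      exact theta_zS K τ hτ)

theorem thetaP_pr (K : Subfield F) (τ : F) (hτ : τ ≠ 0) (g : SL2 K) : thetaP K τ hτ (pr g) = pr (theta K τ hτ g) := rfl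

theorem thetaP_inj (K : Subfield F) (τ : F) (hτ : τ ≠ 0) : Function.Injective (thetaP K τ hτ) := by
  rw [injective_iff_map_eq_one]
  intro g hg
  obtain ⟨M, rfl⟩ := pr_surj g
  rw [thetaP_pr, pr_eq_one_iff] at hg
  rw [pr_eq_one_iff]
  rcases hg with hg | hg
  · left
    apply theta_inj K τ hτ
    rw [hg, map_one]
  · right
    apply theta_inj K τ hτ
    rw [hg, theta_zS]

/-- The image of the twisted embedding lies in the subgroup. -/
theorem theta_mem (Hh : Subgroup (SL2 F)) (K : Subfield F) (τ : F) (hτ : τ ≠ 0)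
    (hU : ∀ κ, κ ∈ K → U (τ * κ) ∈ Hh) (hL : ∀ κ ∈ K, CfsgLib.H9.SL2Cl.L (κ / τ) ∈ Hh) (g : SL2 K) :
    theta K τ hτ g ∈ Hh := by
  induction g using CfsgLib.ClassGeo.SL_transvection_induction with
  | htransvec i j hij a =>
    have hcases : (i = 0 ∧ j = 1) ∨ (i = 1 ∧ j = 0) := by
      fin_cases i <;> fin_cases j <;> simp at hij ⊢
    rcases hcases with ⟨rfl, rfl⟩ | ⟨rfl, rfl⟩
    · have e : theta K τ hτ (Matrix.SpecialLinearGroup.transvection hij a) = U (τ * (a : F)) := by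
        apply sl_ext <;> simp [U, Matrix.SpecialLinearGroup.transvection_coe, Matrix.one_apply, Matrix.single]
      rw [e]
      exact hU _ a.2
    · have e : theta K τ hτ (Matrix.SpecialLinearGroup.transvection hij a) = CfsgLib.H9.SL2Cl.L ((a : F) / τ) := by
        apply sl_ext <;> simp [CfsgLib.H9.SL2Cl.L, Matrix.SpecialLinearGroup.transvection_coe, Matrix.one_apply, Matrix.single]
      rw [e]
      exact hL _ a.2
  | hmul A B hA hB =>
    rw [map_mul]
    exact Hh.mul_mem hA hB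

end CfsgLib.Dickson
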