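import Mathlib

/-! Certified Knuth-Bendix completion: homomorphisms out of finite groups from relations. -/

set_option autoImplicit false
set_option linter.unusedSimpArgs false
set_option linter.unusedVariables false
set_option linter.unusedSectionVars false

namespace CfsgLib.Present

abbrev Word (n : ℕ) := List (Fin n)

abbrev RR (n : ℕ) := List (Word n × Word n)

section Comp

variable {n : ℕ}

def headStep : RR n → Word n → Option (Word n)
  | [], _ => none
  | r :: R, w => if r.1.isPrefixOf w then some (r.2 ++ w.drop r.1.length) else headStep R w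

def step1 (R : RR n) : Word n → Option (Word n)
  | [] => none
  | a :: w =>
    match headStep R (a :: w) with
    | some w' => some w'
    | none => (step1 R w).map (fun v => a :: v)

def nf (R : RR n) : ℕ → Word n → Word n
  | 0, w => w
  | f + 1, w =>
    match step1 R w with
    | none => w
    | some w' => nf R f w'

def fuelKB : ℕ := 1000

/-- One completion step, from an overlap certificate `(i, j, k, b)`. -/
def extendKB (R : RR n) (c : ℕ × ℕ × ℕ × Bool) : RR n :=
  match R[c.1]?, R[c.2.1]? with
  | some (l1, r1), some (l2, r2) =>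
    let k := c.2.2.1
    let p := l1.take (l1.length - k)
    let s := l1.drop (l1.length - k)
    let t := l2.drop k
    if s == l2.take k then
      let a := nf R fuelKB (r1 ++ t)
      let b := nf R fuelKB (p ++ r2)
      if c.2.2.2 then R ++ [(a, b)] else R ++ [(b, a)]
    else R
  | _, _ => R

def runKB (R : RR n) (cs : List (ℕ × ℕ × ℕ × Bool)) : RR n := cs.foldl extendKB R

def closedT (R : RR n) (T : List (Word n)) : Bool :=
  T.contains [] && T.all (fun w => (List.finRange n).all (fun a => T.contains (nf R fuelKB (w ++ [a]))))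

end Comp

section Sound

variable {n : ℕ} {G : Type*} [Group G] (g : Fin n → G)

def ev : Word n → G
  | [] => 1
  | a :: w => g a * ev w

@[simp] theorem ev_nil : ev g [] = 1 := rfl

@[simp] theorem ev_cons (a : Fin n) (w : Word n) : ev g (a :: w) = g a * ev g w := rfl

theorem ev_append (u v : Word n) : ev g (u ++ v) = ev g u * ev g v := by
  induction u with
  | nil => simp
  | cons a u ih => simp [ih, mul_assoc]

def Valid (R : RR n) : Prop := ∀ r ∈ R, ev g r.1 = ev g r.2

theorem headStep_sound {R : RR n} (hR : Valid g R) (w w' : Word n) (h : headStep R w = some w') : ev g w' = ev g w := by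
  induction R with
  | nil => simp [headStep] at h
  | cons r R ih =>
    simp only [headStep] at h
    split_ifs at h with h1
    · have h2 : r.1 <+: w := List.isPrefixOf_iff_prefix.1 h1
      obtain ⟨t, rfl⟩ := h2
      simp only [Option.some.injEq] at h
      subst h
      rw [List.drop_left, ev_append, ev_append, hR r (by simp)]
    · exact ih (fun r' hr' => hR r' (List.mem_cons_of_mem _ hr')) h

theorem step1_sound {R : RR n} (hR : Valid g R) (w w' : Word n) (h : step1 R w = some w') : ev g w' = ev g w := by
  induction w generalizing w' with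
  | nil => simp [step1] at h
  | cons a w ih =>
    simp only [step1] at h
    split at h
    · rename_i v hv
      simp only [Option.some.injEq] at h
      subst h
      exact headStep_sound g hR _ _ hv
    · rcases hs : step1 R w with _ | v
      · simp [hs] at h
      · simp [hs] at h
        subst h
        simp [ih v hs]

theorem nf_sound {R : RR n} (hR : Valid g R) (f : ℕ) (w : Word n) : ev g (nf R f w) = ev g w := by
  induction f generalizing w with
  | zero => rfl
  | succ f ih =>
    simp only [nf]
    rcases hs : step1 R w with _ | v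
    · rfl
    · simp only
      rw [ih, step1_sound g hR _ _ hs]

theorem extendKB_valid {R : RR n} (hR : Valid g R) (c : ℕ × ℕ × ℕ × Bool) : Valid g (extendKB R c) := by
  unfold extendKB
  rcases h1 : R[c.1]? with _ | ⟨l1, r1⟩
  · exact hR
  rcases h2 : R[c.2.1]? with _ | ⟨l2, r2⟩
  · exact hR
  simp only
  have hm1 : (l1, r1) ∈ R := List.mem_of_getElem? h1
  have hm2 : (l2, r2) ∈ R := List.mem_of_getElem? h2
  have e1 : ev g l1 = ev g r1 := hR _ hm1
  have e2 : ev g l2 = ev g r2 := hR _ hm2
  split_ifs with hs hb
  all_goals first | exact hR | skip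
  all_goals
    have hs' : List.drop (l1.length - c.2.2.1) l1 = List.take c.2.2.1 l2 := by
      simpa using hs
    have key : ev g (r1 ++ List.drop c.2.2.1 l2) = ev g (List.take (l1.length - c.2.2.1) l1 ++ r2) := by
      rw [ev_append, ev_append, ← e1, ← e2]
      conv_lhs => rw [← List.take_append_drop (l1.length - c.2.2.1) l1, ev_append, hs', mul_assoc, ← ev_append, List.take_append_drop]
    intro r hr
    rw [List.mem_append] at hr
    rcases hr with hr | hr
    · exact hR r hr
    · simp only [List.mem_singleton] at hr
      subst hr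
      simp only [nf_sound g hR]
      first | exact key | exact key.symm

theorem runKB_valid {R : RR n} (hR : Valid g R) (cs : List (ℕ × ℕ × ℕ × Bool)) : Valid g (runKB R cs) := by
  unfold runKB
  induction cs generalizing R with
  | nil => exact hR
  | cons c cs ih => exact ih (extendKB_valid g hR c)

end Sound

section Main

variable {n : ℕ} {G : Type*} [Group G] (g : Fin n → G)

theorem ev_mem_closure (w : Word n) : ev g w ∈ Subgroup.closure (Set.range g) := by
  induction w with
  | nil => exact Subgroup.one_mem _
  | cons a w ih => exact Subgroup.mul_mem _ (Subgroup.subset_closure ⟨a, rfl⟩) ih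

theorem closure_sub {R : RR n} (hR : Valid g R) {T : List (Word n)} (hT : closedT R T = true)
    (inv : Fin n → Fin n) (hinv : ∀ i, (g i)⁻¹ = g (inv i)) (h : G) (hh : h ∈ Subgroup.closure (Set.range g)) :
    ∃ w ∈ T, ev g w = h := by
  simp only [closedT, Bool.and_eq_true, List.all_eq_true, List.contains_iff_mem, List.mem_finRange, forall_const] at hT
  obtain ⟨h0, hc⟩ := hT
  have hstep : ∀ (w : Word n), w ∈ T → ∀ a : Fin n, ∃ w' ∈ T, ev g w' = ev g w * g a := by
    intro w hw a
    refine ⟨_, hc w hw a, ?_⟩
    rw [nf_sound g hR, ev_append]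
    simp
  induction hh using Subgroup.closure_induction_right with
  | one => exact ⟨[], h0, rfl⟩
  | mul_right x hx y hy ih =>
    obtain ⟨a, rfl⟩ := hy
    obtain ⟨w, hw, rfl⟩ := ih
    exact hstep w hw a
  | mul_inv_cancel x hx y hy ih =>
    obtain ⟨a, rfl⟩ := hy
    obtain ⟨w, hw, rfl⟩ := ih
    rw [hinv]
    exact hstep w hw _

theorem card_closure_le {R : RR n} (hR : Valid g R) {T : List (Word n)} (hT : closedT R T = true)
    (inv : Fin n → Fin n) (hinv : ∀ i, (g i)⁻¹ = g (inv i)) :
    Finite (Subgroup.closure (Set.range g)) ∧ Nat.card (Subgroup.closure (Set.range g)) ≤ T.length := by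
  classical
  have hsub : ((Subgroup.closure (Set.range g) : Subgroup G) : Set G) ⊆ ((T.toFinset.image (ev g) : Finset G) : Set G) := by
    intro h hh
    obtain ⟨w, hw, rfl⟩ := closure_sub g hR hT inv hinv h hh
    simp only [Finset.coe_image, List.coe_toFinset]
    exact ⟨w, hw, rfl⟩
  have hfin : ((Subgroup.closure (Set.range g) : Subgroup G) : Set G).Finite := (Finset.finite_toSet _).subset hsub
  refine ⟨hfin.to_subtype, ?_⟩
  have h1 : Nat.card (Subgroup.closure (Set.range g)) = ((Subgroup.closure (Set.range g) : Subgroup G) : Set G).ncard :=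
    Nat.card_coe_set_eq _
  rw [h1]
  calc _ ≤ ((T.toFinset.image (ev g) : Finset G) : Set G).ncard := Set.ncard_le_ncard hsub (Finset.finite_toSet _)
    _ = (T.toFinset.image (ev g)).card := Set.ncard_coe_finset _
    _ ≤ T.toFinset.card := Finset.card_image_le
    _ ≤ T.length := List.toFinset_card_le _

/-- A homomorphism out of a finite group, from a certified completion. -/
theorem exists_hom_of_cert {Γ : Type*} [Group Γ] [Finite Γ] (g₀ : Fin n → Γ) {R₀ : RR n} {cs : List (ℕ × ℕ × ℕ × Bool)}
    {T : List (Word n)} (hT : closedT (runKB R₀ cs) T = true) (hlen : T.length ≤ Nat.card Γ)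
    (hsurj : ∀ γ : Γ, ∃ w ∈ T, ev g₀ w = γ)
    (inv : Fin n → Fin n) (hinv₀ : ∀ i, (g₀ i)⁻¹ = g₀ (inv i)) (hinv : ∀ i, (g i)⁻¹ = g (inv i))
    (hR₀ : Valid g₀ R₀) (hR : Valid g R₀) :
    ∃ φ : Γ →* G, ∀ i, φ (g₀ i) = g i := by
  classical
  let e : Fin n → Γ × G := fun i => (g₀ i, g i)
  have hev : ∀ w, ev e w = (ev g₀ w, ev g w) := by
    intro w
    induction w with
    | nil => rfl
    | cons a w ih => simp [ih, e]
  have hRe : Valid e R₀ := by
    intro r hr
    rw [hev, hev, hR₀ r hr, hR r hr]
  have hRf := runKB_valid e hRe cs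
  obtain ⟨hfin, hcard⟩ := card_closure_le e hRf hT inv (by
    intro i
    simp [e, hinv₀, hinv])
  set D := Subgroup.closure (Set.range e) with hD
  let π : D →* Γ := (MonoidHom.fst Γ G).comp D.subtype
  have hπs : Function.Surjective π := by
    intro γ
    obtain ⟨w, -, rfl⟩ := hsurj γ
    refine ⟨⟨ev e w, ev_mem_closure e w⟩, ?_⟩
    show (ev e w).1 = _
    rw [hev]
  have hπb : Function.Bijective π := hπs.bijective_of_nat_card_le (hcard.trans hlen)
  let E : D ≃* Γ := MulEquiv.ofBijective π hπb
  refine ⟨((MonoidHom.snd Γ G).comp D.subtype).comp E.symm.toMonoidHom, fun i => ?_⟩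
  have h1 : E ⟨e i, Subgroup.subset_closure ⟨i, rfl⟩⟩ = g₀ i := rfl
  have h2 : E.symm (g₀ i) = ⟨e i, Subgroup.subset_closure ⟨i, rfl⟩⟩ := by
    rw [← h1, E.symm_apply_apply]
  show ((E.symm (g₀ i) : D) : Γ × G).2 = g i
  rw [h2]

end Main

end CfsgLib.Present
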