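import Cfsg.Agent.Lib.Dickson.EPart2

/-! Dickson's classification of the subgroups of `PSL₂` over a finite field. -/

set_option autoImplicit false
set_option linter.unusedSimpArgs false
set_option linter.unusedVariables false
set_option linter.unusedSectionVars false
set_option linter.style.haveILetI false

namespace CfsgLib.Dickson

open Matrix CfsgLib.H9.SL2Cl MulAction
open CfsgLib.H9.PSL2 (pr pr_surj pr_eq_iff pr_eq_one_iff pr_zS pr_mul pr_pow pr_one)
open CfsgLib.H9.BorelChar (zS zS_00 zS_01 zS_10 zS_11 zS_central zS_sq)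

variable {F : Type*} [Field F]

/-- Moving two rational points to `∞` and `0`. -/
theorem exists_T_pair {x y : XF F} (hx : IsRat x) (hy : IsRat y) (hxy : x ≠ y) :
    ∃ T : SL2 F, pr T • ptI (AC F) = x ∧ pr T • pt0 F = y := by
  rcases hx with rfl | ⟨α, rfl⟩
  · rcases hy with rfl | ⟨β, rfl⟩
    · exact absurd rfl hxy
    · refine ⟨U β, U_fix_inf β, ?_⟩
      rw [pt0, U_smul_ptA, add_zero]
  · rcases hy with rfl | ⟨β, rfl⟩
    · refine ⟨mk α (-1) 1 0 (by ring), ?_, ?_⟩
      · rw [pr_smul_XF, smul_ptI_iff]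
        show emb F α = emb F α * emb F 1
        simp
      · rw [pr_smul_XF, pt0, smul_ptA_inf_iff]
        show emb F 1 * emb F 0 + emb F 0 = 0
        simp
    · have hne : α - β ≠ 0 := by
        intro e
        apply hxy
        rw [sub_eq_zero.1 e]
      refine ⟨mk α (β / (α - β)) 1 (1 / (α - β)) (by field_simp), ?_, ?_⟩
      · rw [pr_smul_XF, smul_ptI_iff]
        show emb F α = emb F α * emb F 1
        simp
      · rw [pr_smul_XF, pt0]
        apply smul_ptA_eq
        · show emb F 1 * emb F 0 + emb F (1 / (α - β)) ≠ 0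
          simp [hne, sub_eq_zero, ← map_sub]
        · show emb F α * emb F 0 + emb F (β / (α - β)) = emb F β * (emb F 1 * emb F 0 + emb F (1 / (α - β)))
          simp only [map_zero, mul_zero, zero_add, map_one, one_mul, ← map_mul]
          congr 1
          field_simp

/-- The conclusion of Dickson's theorem. -/
def Good (p : ℕ) (H : Subgroup (PSL2 F)) : Prop :=
  (∃ ρ ∈ H, (ρ = 1 ∨ ρ ^ p ≠ 1) ∧ H = Subgroup.zpowers ρ) ∨
  (∃ ρ ∈ H, ρ ≠ 1 ∧ ρ ^ p ≠ 1 ∧ (∀ g ∈ H, g ∉ Subgroup.zpowers ρ → g ^ 2 = 1) ∧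
    (∀ g ∈ H, g * ρ * g⁻¹ ∈ Subgroup.zpowers ρ) ∧ Nat.card H = 2 * orderOf ρ ∧
    Nonempty (DihedralGroup (orderOf ρ) ≃* H)) ∨
  (∃ x : XF F, (∃ g ∈ H, g ≠ 1 ∧ g ^ p = 1) ∧ ∀ g ∈ H, g • x = x) ∨
  ((∀ g ∈ H, g ≠ 1 → g ^ p ≠ 1) ∧ Nonempty (H ≃* alternatingGroup (Fin 4))) ∨
  ((∀ g ∈ H, g ≠ 1 → g ^ p ≠ 1) ∧ Nonempty (H ≃* Equiv.Perm (Fin 4))) ∨
  (((∀ g ∈ H, g ≠ 1 → g ^ p ≠ 1) ∨ p = 3) ∧ Nonempty (H ≃* alternatingGroup (Fin 5))) ∨
  ∃ (K : Subfield F) (τ : F) (hτ : τ ≠ 0) (t : PSL2 F), 3 ≤ Nat.card K ∧ (∀ g : SL2 K, t * pr (theta K τ hτ g) * t⁻¹ ∈ H) ∧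
    (Nonempty (H ≃* PSL2 K) ∨ Nonempty (H ≃* Matrix.ProjGenLinGroup (Fin 2) K))

/-- The conjugate subgroup. -/
noncomputable def conjH (t : PSL2 F) (H : Subgroup (PSL2 F)) : Subgroup (PSL2 F) :=
  H.map (MulAut.conj t⁻¹).toMonoidHom

theorem mem_conjH (t : PSL2 F) (H : Subgroup (PSL2 F)) (g : PSL2 F) : g ∈ conjH t H ↔ t * g * t⁻¹ ∈ H := by
  constructor
  · rintro ⟨a, ha, rfl⟩
    have : t * ((MulAut.conj t⁻¹).toMonoidHom a) * t⁻¹ = a := by
      simp [MulAut.conj_apply]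
      group
    rw [this]
    exact ha
  · intro h
    refine ⟨_, h, ?_⟩
    simp [MulAut.conj_apply]
    group

/-- The isomorphism with the conjugate. -/
noncomputable def conjEquiv (t : PSL2 F) (H : Subgroup (PSL2 F)) : H ≃* conjH t H :=
  (MulAut.conj t⁻¹).subgroupMap H

theorem conjEquiv_coe (t : PSL2 F) (H : Subgroup (PSL2 F)) (g : H) : ((conjEquiv t H g : conjH t H) : PSL2 F) = t⁻¹ * g * t := by
  show (MulAut.conj t⁻¹) (g : PSL2 F) = _
  simp [MulAut.conj_apply]

/-- Goodness passes from conjugates. -/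
theorem good_of_conj (p : ℕ) (t : PSL2 F) (H : Subgroup (PSL2 F)) (h : Good p (conjH t H)) : Good p H := by
  have he := conjEquiv t H
  have hconj : ∀ a : PSL2 F, a ∈ H → t⁻¹ * a * t ∈ conjH t H := by
    intro a ha
    rw [mem_conjH]
    have : t * (t⁻¹ * a * t) * t⁻¹ = a := by group
    rwa [this]
  have hne : ∀ a : PSL2 F, a ≠ 1 → t⁻¹ * a * t ≠ 1 := by
    intro a ha e
    apply ha
    have : a = t * (t⁻¹ * a * t) * t⁻¹ := by group
    rw [this, e]
    group
  have hpw : ∀ (a : PSL2 F) (n : ℕ), (t⁻¹ * a * t) ^ n = t⁻¹ * a ^ n * t := by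
    intro a n
    have := conj_pow (a := t⁻¹) (b := a) (i := n)
    rwa [inv_inv] at this
  have hno : (∀ g ∈ conjH t H, g ≠ 1 → g ^ p ≠ 1) → ∀ g ∈ H, g ≠ 1 → g ^ p ≠ 1 := by
    intro h0 g hg hg1 e
    apply h0 _ (hconj g hg) (hne g hg1)
    rw [hpw, e]
    group
  have hz : ∀ (ρ a : PSL2 F), a ∈ Subgroup.zpowers (t * ρ * t⁻¹) ↔ t⁻¹ * a * t ∈ Subgroup.zpowers ρ := by
    intro ρ a
    simp only [Subgroup.mem_zpowers_iff]
    constructor
    · rintro ⟨k, rfl⟩
      refine ⟨k, ?_⟩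
      rw [conj_zpow]
      group
    · rintro ⟨k, hk⟩
      refine ⟨k, ?_⟩
      rw [conj_zpow, hk]
      group
  rcases h with ⟨ρ, hρ, h1, h2⟩ | ⟨ρ, hρ, h1, h2, h3, h4, h5, ⟨e⟩⟩ | ⟨x, ⟨g, hg, hg1, hg2⟩, hfix⟩ | ⟨h0, e⟩ | ⟨h0, e⟩ | ⟨h0, e⟩ | ⟨K, τ, hτ, t', hK3, hmem, e⟩
  · left
    have hρ' := (mem_conjH t H ρ).1 hρ
    refine ⟨t * ρ * t⁻¹, hρ', ?_, ?_⟩
    · rcases h1 with rfl | h1
      · left
        group
      · right
        rw [conj_pow]
        intro e
        apply h1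
        have : ρ ^ p = t⁻¹ * (t * ρ ^ p * t⁻¹) * t := by group
        rw [this, e]
        group
    · ext a
      rw [hz, ← h2, mem_conjH]
      have : t * (t⁻¹ * a * t) * t⁻¹ = a := by group
      rw [this]
  · right; left
    have hρ' := (mem_conjH t H ρ).1 hρ
    have hρ1 : t * ρ * t⁻¹ ≠ 1 := by
      intro e
      apply h1
      have : ρ = t⁻¹ * (t * ρ * t⁻¹) * t := by group
      rw [this, e]
      group
    have hord : orderOf (t * ρ * t⁻¹) = orderOf ρ := by
      have : t * ρ * t⁻¹ = MulAut.conj t ρ := rfl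
      rw [this]
      exact MulEquiv.orderOf_eq _ _
    refine ⟨t * ρ * t⁻¹, hρ', hρ1, ?_, ?_, ?_, ?_, ?_⟩
    · rw [conj_pow]
      intro e
      apply h2
      have : ρ ^ p = t⁻¹ * (t * ρ ^ p * t⁻¹) * t := by group
      rw [this, e]
      group
    · intro a ha hna
      have h6 := h3 _ (hconj a ha) (fun hh => hna ((hz ρ a).2 hh))
      rw [hpw] at h6
      have : a ^ 2 = t * (t⁻¹ * a ^ 2 * t) * t⁻¹ := by group
      rw [this, h6]
      group
    · intro a ha
      rw [hz]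
      have h7 := h4 _ (hconj a ha)
      have e1 : t⁻¹ * (a * (t * ρ * t⁻¹) * a⁻¹) * t = t⁻¹ * a * t * ρ * (t⁻¹ * a * t)⁻¹ := by group
      rw [e1]
      exact h7
    · rw [hord, Nat.card_congr he.toEquiv, h5]
    · rw [hord]
      exact ⟨e.trans he.symm⟩
  · right; right; left
    refine ⟨t • x, ⟨t * g * t⁻¹, (mem_conjH t H g).1 hg, ?_, ?_⟩, ?_⟩
    · intro e
      apply hg1
      have : g = t⁻¹ * (t * g * t⁻¹) * t := by group
      rw [this, e]
      group
    · rw [conj_pow, hg2]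
      group
    · intro a ha
      have h4 := hfix _ (hconj a ha)
      rw [mul_smul, mul_smul, inv_smul_eq_iff] at h4
      exact h4
  · right; right; right; left
    exact ⟨hno h0, ⟨he.trans e.some⟩⟩
  · right; right; right; right; left
    exact ⟨hno h0, ⟨he.trans e.some⟩⟩
  · right; right; right; right; right; left
    exact ⟨h0.imp_left hno, ⟨he.trans e.some⟩⟩
  · right; right; right; right; right; right
    refine ⟨K, τ, hτ, t * t', hK3, ?_, ?_⟩
    · intro g
      have := (mem_conjH t H _).1 (hmem g)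
      have e1 : t * t' * pr (theta K τ hτ g) * (t * t')⁻¹ = t * (t' * pr (theta K τ hτ g) * t'⁻¹) * t⁻¹ := by group
      rw [e1]
      exact this
    · rcases e with e | e
      · exact Or.inl ⟨he.trans e.some⟩
      · exact Or.inr ⟨he.trans e.some⟩

/-- The non-two-transitive outcomes. -/
theorem good_of_outcome (p : ℕ) [Fact p.Prime] [CharP F p] [Finite F] [Finite (PSL2 F)] (H : Subgroup (PSL2 F))
    (h : (∃ ρ : H, (ρ = 1 ∨ ρ ^ p ≠ 1) ∧ ∀ g : H, g ∈ Subgroup.zpowers ρ) ∨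
      (∃ ρ : H, ρ ≠ 1 ∧ ρ ^ p ≠ 1 ∧ (Subgroup.zpowers ρ).index = 2 ∧ (∀ g : H, g ∉ Subgroup.zpowers ρ → g ^ 2 = 1) ∧
        Nonempty (DihedralGroup (orderOf ρ) ≃* H)) ∨
      (∃ x : XF F, Qs ((isD_F (F := F) p).sub H) x ≠ ⊥ ∧ ∀ g : H, g • x = x) ∨
      ((∀ g : H, g ≠ 1 → g ^ p ≠ 1) ∧ Nonempty (H ≃* alternatingGroup (Fin 4))) ∨
      ((∀ g : H, g ≠ 1 → g ^ p ≠ 1) ∧ Nonempty (H ≃* Equiv.Perm (Fin 4))) ∨
      (((∀ g : H, g ≠ 1 → g ^ p ≠ 1) ∨ p = 3) ∧ Nonempty (H ≃* alternatingGroup (Fin 5)))) : Good p H := by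
  have hno : (∀ g : H, g ≠ 1 → g ^ p ≠ 1) → ∀ g ∈ H, g ≠ 1 → g ^ p ≠ 1 := by
    intro h0 g hg hg1 e
    apply h0 ⟨g, hg⟩ (fun e' => hg1 (congrArg Subtype.val e'))
    apply Subtype.ext
    simpa using e
  rcases h with ⟨ρ, h1, h2⟩ | ⟨ρ, h1, h2, h3, h4, ⟨e⟩⟩ | ⟨x, hQ, hx⟩ | ⟨h0, e⟩ | ⟨h0, e⟩ | ⟨h0, e⟩
  · left
    refine ⟨ρ, ρ.2, ?_, ?_⟩
    · rcases h1 with rfl | h1
      · left
        rfl
      · right
        intro e
        apply h1
        apply Subtype.ext
        simpa using e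
    · ext g
      constructor
      · intro hg
        obtain ⟨k, hk⟩ := h2 ⟨g, hg⟩
        refine ⟨k, ?_⟩
        have := congrArg Subtype.val hk
        simpa using this
      · intro hg
        obtain ⟨k, rfl⟩ := hg
        exact H.zpow_mem ρ.2 k
  · right; left
    have hord : orderOf ((ρ : H) : PSL2 F) = orderOf ρ := Subgroup.orderOf_coe ρ
    have hz : ∀ g : H, g ∈ Subgroup.zpowers ρ ↔ (g : PSL2 F) ∈ Subgroup.zpowers (ρ : PSL2 F) := by
      intro g
      simp only [Subgroup.mem_zpowers_iff]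
      constructor
      · rintro ⟨k, rfl⟩
        exact ⟨k, by simp⟩
      · rintro ⟨k, hk⟩
        refine ⟨k, Subtype.ext ?_⟩
        simpa using hk
    refine ⟨ρ, ρ.2, fun e' => h1 (Subtype.ext e'), ?_, ?_, ?_, ?_, ?_⟩
    · intro e'
      apply h2
      apply Subtype.ext
      simpa using e'
    · intro g hg hgn
      have h5 := h4 ⟨g, hg⟩ (fun hh => hgn ((hz _).1 hh))
      simpa using congrArg Subtype.val h5
    · intro g hg
      have hn : (Subgroup.zpowers ρ).Normal := Subgroup.normal_of_index_eq_two h3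
      have h5 := hn.conj_mem ρ (Subgroup.mem_zpowers ρ) ⟨g, hg⟩
      exact (hz _).1 h5
    · have h6 := (Subgroup.zpowers ρ).card_mul_index
      rw [h3, Nat.card_zpowers] at h6
      rw [hord, ← h6, mul_comm]
    · rw [hord]
      exact ⟨e⟩
  · right; right; left
    obtain ⟨g, hg, hg1⟩ := (Subgroup.bot_or_exists_ne_one _).resolve_left hQ
    refine ⟨x, ⟨g, g.2, fun e => hg1 (Subtype.ext e), ?_⟩, fun a ha => hx ⟨a, ha⟩⟩
    have := hg.2
    simpa using congrArg Subtype.val this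
  · exact Or.inr (Or.inr (Or.inr (Or.inl ⟨hno h0, e⟩)))
  · exact Or.inr (Or.inr (Or.inr (Or.inr (Or.inl ⟨hno h0, e⟩))))
  · exact Or.inr (Or.inr (Or.inr (Or.inr (Or.inr (Or.inl ⟨h0.imp_left hno, e⟩)))))

theorem isRat_of_Qs (p : ℕ) [Fact p.Prime] [CharP F p] [Finite F] [Finite (PSL2 F)] (H : Subgroup (PSL2 F)) (x : XF F)
    (hQ : Qs ((isD_F (F := F) p).sub H) x ≠ ⊥) : IsRat x := by
  obtain ⟨g, hg, hg1⟩ := (Subgroup.bot_or_exists_ne_one _).resolve_left hQ
  exact rat_fix p (g : PSL2 F) (fun e => hg1 (Subtype.ext e)) (by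
    have := hg.2
    simpa using congrArg Subtype.val this) x hg.1

/-- Dickson's theorem. -/
theorem dickson (p : ℕ) [Fact p.Prime] [CharP F p] [Finite F] [Finite (PSL2 F)] (H : Subgroup (PSL2 F)) : Good p H := by
  set h := (isD_F (F := F) p).sub H with hh
  rcases h.classify with h1 | h1 | h1 | h1 | h1 | h1 | ⟨a, k, hTT⟩
  · exact good_of_outcome p H (Or.inl h1)
  · exact good_of_outcome p H (Or.inr (Or.inl h1))
  · exact good_of_outcome p H (Or.inr (Or.inr (Or.inl h1)))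
  · exact good_of_outcome p H (Or.inr (Or.inr (Or.inr (Or.inl h1))))
  · exact good_of_outcome p H (Or.inr (Or.inr (Or.inr (Or.inr (Or.inl h1)))))
  · exact good_of_outcome p H (Or.inr (Or.inr (Or.inr (Or.inr (Or.inr h1)))))
  · -- the two-transitive case
    obtain ⟨x₀, hx₀⟩ := hTT.ex
    have horb := hTT.orb x₀ hx₀
    have ha3 := hTT.a3
    obtain ⟨y₀, hy₀, hne⟩ : ∃ y ∈ orbit H x₀, y ≠ x₀ := by
      by_contra hall
      push Not at hall
      have hsub : orbit H x₀ ⊆ {x₀} := fun y hy => hall y hy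
      have := Set.ncard_le_ncard hsub (Set.toFinite _)
      rw [Set.ncard_singleton] at this
      omega
    obtain ⟨c, hc⟩ := hy₀
    have hc' : c • x₀ = y₀ := hc
    have hQy : Qs h y₀ ≠ ⊥ := by
      intro e
      apply hx₀
      have h2 := h.card_Qs_smul c x₀
      rw [hc', e, Subgroup.card_bot] at h2
      exact Subgroup.eq_bot_of_card_eq _ h2.symm
    obtain ⟨T, hT1, hT2⟩ := exists_T_pair (isRat_of_Qs p H x₀ hx₀) (isRat_of_Qs p H y₀ hQy) hne.symm
    apply good_of_conj p (pr T) H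
    set H' := conjH (pr T) H with hH'
    set h' := (isD_F (F := F) p).sub H' with hh'
    -- transport nontrivial `Qs`
    have htrans : ∀ (z w : XF F), pr T • w = z → Qs h z ≠ ⊥ → Qs h' w ≠ ⊥ := by
      intro z w hzw hz
      obtain ⟨g, hg, hg1⟩ := (Subgroup.bot_or_exists_ne_one _).resolve_left hz
      intro e
      have hmem : (pr T)⁻¹ * (g : PSL2 F) * pr T ∈ H' := by
        rw [hH', mem_conjH]
        have : pr T * ((pr T)⁻¹ * (g : PSL2 F) * pr T) * (pr T)⁻¹ = g := by group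
        rw [this]
        exact g.2
      have h3 : (⟨_, hmem⟩ : H') ∈ Qs h' w := by
        constructor
        · show ((pr T)⁻¹ * (g : PSL2 F) * pr T) • w = w
          rw [mul_smul, mul_smul, hzw, inv_smul_eq_iff, ← hzw]
          have := hg.1
          rw [hzw]
          exact hg.1
        · apply Subtype.ext
          show ((pr T)⁻¹ * (g : PSL2 F) * pr T) ^ p = 1
          have h4 : (g : PSL2 F) ^ p = 1 := by
            have := hg.2
            simpa using congrArg Subtype.val this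
          have h5 : (pr T)⁻¹ * (g : PSL2 F) * pr T = (pr T)⁻¹ * (g : PSL2 F) * ((pr T)⁻¹)⁻¹ := by
            rw [inv_inv]
          rw [h5, conj_pow, h4]
          group
      rw [e, Subgroup.mem_bot] at h3
      apply hg1
      apply Subtype.ext
      have h6 : (pr T)⁻¹ * (g : PSL2 F) * pr T = 1 := congrArg Subtype.val h3
      have h7 : (g : PSL2 F) = pr T * ((pr T)⁻¹ * (g : PSL2 F) * pr T) * (pr T)⁻¹ := by group
      rw [h7, h6]
      simp
    have hI' := htrans x₀ _ hT1 hx₀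
    have hO' := htrans y₀ _ hT2 hQy
    rcases h'.classify with h1 | h1 | h1 | h1 | h1 | h1 | ⟨a', k', hTT'⟩
    · exact good_of_outcome p H' (Or.inl h1)
    · exact good_of_outcome p H' (Or.inr (Or.inl h1))
    · exact good_of_outcome p H' (Or.inr (Or.inr (Or.inl h1)))
    · exact good_of_outcome p H' (Or.inr (Or.inr (Or.inr (Or.inl h1))))
    · exact good_of_outcome p H' (Or.inr (Or.inr (Or.inr (Or.inr (Or.inl h1)))))
    · exact good_of_outcome p H' (Or.inr (Or.inr (Or.inr (Or.inr (Or.inr h1)))))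
    · obtain ⟨K, τ, hτ, hc, h3, -, h5⟩ := E_main p H' a' k' hTT' hI' hO'
      refine Or.inr (Or.inr (Or.inr (Or.inr (Or.inr (Or.inr ⟨K, τ, hτ, 1, ?_, ?_, h5⟩)))))
      · rw [hc]
        exact hTT'.a3
      · intro g
        simpa using (mem_hatH H' _).1 (h3 g)

/-- `PSL₂` of isomorphic fields. -/
theorem psl_equiv {R S : Type*} [Field R] [Field S] (e : R ≃+* S) : Nonempty (PSL2 R ≃* PSL2 S) := by
  let φ : SL2 R →* SL2 S := SpecialLinearGroup.map e.toRingHom
  let ψ : SL2 S →* SL2 R := SpecialLinearGroup.map e.symm.toRingHom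
  have h1 : ∀ g, ψ (φ g) = g := by
    intro g
    ext i j
    simp [φ, ψ]
  have h2 : ∀ g, φ (ψ g) = g := by
    intro g
    ext i j
    simp [φ, ψ]
  let E : SL2 R ≃* SL2 S :=
    { toFun := φ, invFun := ψ, left_inv := h1, right_inv := h2, map_mul' := φ.map_mul }
  have hc : (Subgroup.center (SL2 R)).map E.toMonoidHom = Subgroup.center (SL2 S) := by
    ext z
    rw [Subgroup.mem_map]
    constructor
    · rintro ⟨a, ha, rfl⟩
      rw [Subgroup.mem_center_iff] at ha ⊢
      intro b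
      obtain ⟨b', rfl⟩ := E.surjective b
      show E b' * E a = E a * E b'
      rw [← map_mul, ← map_mul, ha]
    · intro hz
      refine ⟨E.symm z, ?_, E.apply_symm_apply z⟩
      rw [Subgroup.mem_center_iff] at hz ⊢
      intro b
      apply E.injective
      rw [map_mul, map_mul, E.apply_symm_apply, hz]
  exact ⟨QuotientGroup.congr _ _ E hc⟩

/-- `PGL₂` of isomorphic fields. -/
theorem pgl_equiv {R S : Type*} [Field R] [Field S] (e : R ≃+* S) :
    Nonempty (Matrix.ProjGenLinGroup (Fin 2) R ≃* Matrix.ProjGenLinGroup (Fin 2) S) := by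
  let φ := Matrix.ProjGenLinGroup.map (n := Fin 2) e.toRingHom
  let ψ := Matrix.ProjGenLinGroup.map (n := Fin 2) e.symm.toRingHom
  have h1 : ∀ g, ψ (φ g) = g := by
    intro g
    have : (ψ.comp φ) = MonoidHom.id _ := by
      show (Matrix.ProjGenLinGroup.map (n := Fin 2) e.symm.toRingHom).comp (Matrix.ProjGenLinGroup.map (n := Fin 2) e.toRingHom) = _
      rw [← Matrix.ProjGenLinGroup.map_comp, ← Matrix.ProjGenLinGroup.map_id]
      congr 1
      ext x
      simp
    exact congrArg (fun f => f g) this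
  have h2 : ∀ g, φ (ψ g) = g := by
    intro g
    have : (φ.comp ψ) = MonoidHom.id _ := by
      show (Matrix.ProjGenLinGroup.map (n := Fin 2) e.toRingHom).comp (Matrix.ProjGenLinGroup.map (n := Fin 2) e.symm.toRingHom) = _
      rw [← Matrix.ProjGenLinGroup.map_comp, ← Matrix.ProjGenLinGroup.map_id]
      congr 1
      ext x
      simp
    exact congrArg (fun f => f g) this
  exact ⟨{ toFun := φ, invFun := ψ, left_inv := h1, right_inv := h2, map_mul' := φ.map_mul }⟩

/-- A model of a finite field in `Type`. -/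
theorem exists_type0 (K : Type*) [Field K] [Finite K] :
    ∃ (K₀ : Type) (_ : Field K₀) (_ : Fintype K₀), Fintype.card K₀ = Nat.card K ∧ Nonempty (K ≃+* K₀) := by
  classical
  haveI : Fintype K := Fintype.ofFinite K
  obtain ⟨p, hc⟩ := CharP.exists K
  obtain ⟨n, hp, hn⟩ := FiniteField.card K p
  haveI : Fact p.Prime := ⟨hp⟩
  haveI : Fintype (GaloisField p n) := Fintype.ofFinite _
  have h1 : Fintype.card (GaloisField p n) = Nat.card K := by
    rw [← Nat.card_eq_fintype_card, GaloisField.card p n n.ne_zero, Nat.card_eq_fintype_card, hn]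
  refine ⟨GaloisField p n, inferInstance, inferInstance, h1, ⟨?_⟩⟩
  apply FiniteField.ringEquivOfCardEq
  rw [h1, Nat.card_eq_fintype_card]

/-- The degree. -/
theorem exists_degree [Fintype F] (K : Subfield F) : ∃ m : ℕ, Nat.card K ^ m = Fintype.card F := by
  haveI : Finite K := inferInstance
  haveI : Module.Finite K F := Module.Finite.of_finite
  refine ⟨Module.finrank K F, ?_⟩
  rw [← Module.natCard_eq_pow_finrank (K := K) (V := F), Nat.card_eq_fintype_card]

end CfsgLib.Dickson
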