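import Cfsg.Agent.Lib.Dickson.Special

/-! Overgroups of subfield subgroups of `PSL₂`. -/

set_option autoImplicit false
set_option linter.unusedSimpArgs false
set_option linter.unusedVariables false
set_option linter.unusedSectionVars false
set_option linter.style.haveILetI false

namespace CfsgLib.Dickson

open Matrix CfsgLib.H9.SL2Cl MulAction
open CfsgLib.H9.PSL2 (pr pr_surj pr_eq_iff pr_eq_one_iff pr_zS pr_mul pr_pow pr_one)
open CfsgLib.H9.BorelChar (zS zS_00 zS_01 zS_10 zS_11 zS_central zS_sq)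

variable {F : Type*} [Field F]

theorem gcd_two_of_odd (a : ℕ) (h : a % 2 = 1) : Nat.gcd 2 (a - 1) = 2 := Nat.gcd_eq_left (by omega)

theorem gcd_two_of_even (a : ℕ) (h : a % 2 = 0) (h1 : 1 ≤ a) : Nat.gcd 2 (a - 1) = 1 := by
  have : Nat.Coprime 2 (a - 1) := by
    rw [Nat.coprime_two_left, Nat.odd_iff]
    omega
  exact this

/-- Embedding of finite fields from cardinalities. -/
theorem exists_embed (K : Type*) [Field K] [Finite K] [Finite F] (m : ℕ) (hm : Nat.card K ^ m = Nat.card F) :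
    Nonempty (K →+* F) := by
  classical
  haveI : Fintype K := Fintype.ofFinite K
  haveI : Fintype F := Fintype.ofFinite F
  obtain ⟨p, hc⟩ := CharP.exists F
  obtain ⟨n, hp, hn⟩ := FiniteField.card F p
  haveI : Fact p.Prime := ⟨hp⟩
  obtain ⟨r, hc'⟩ := CharP.exists K
  obtain ⟨n', hr, hn'⟩ := FiniteField.card K r
  rw [Nat.card_eq_fintype_card, Nat.card_eq_fintype_card, hn, hn'] at hm
  have hm0 : m ≠ 0 := by
    rintro rfl
    rw [pow_zero] at hm
    have : 2 ≤ p ^ (n : ℕ) := by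
      calc 2 ≤ p := hp.two_le
        _ ≤ p ^ (n : ℕ) := Nat.le_self_pow n.ne_zero p
    omega
  have hrp : r = p := by
    have h1 : r ∣ p ^ (n : ℕ) := by
      rw [← hm]
      exact Dvd.dvd.trans (dvd_pow_self _ n'.ne_zero) (dvd_pow_self _ hm0)
    exact (Nat.prime_dvd_prime_iff_eq hr hp).1 (hr.dvd_of_dvd_pow h1)
  subst hrp
  letI : Algebra (ZMod r) K := ZMod.algebra K r
  letI : Algebra (ZMod r) F := ZMod.algebra F r
  have h1 := Module.natCard_eq_pow_finrank (K := ZMod r) (V := K)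
  have h2 := Module.natCard_eq_pow_finrank (K := ZMod r) (V := F)
  rw [Nat.card_zmod, Nat.card_eq_fintype_card, hn'] at h1
  rw [Nat.card_zmod, Nat.card_eq_fintype_card, hn] at h2
  have h3 : (n' : ℕ) = Module.finrank (ZMod r) K := Nat.pow_right_injective hr.two_le h1
  have h4 : (n : ℕ) = Module.finrank (ZMod r) F := Nat.pow_right_injective hr.two_le h2
  have h5 : (n : ℕ) = (n' : ℕ) * m := by
    rw [← pow_mul] at hm
    exact (Nat.pow_right_injective hr.two_le hm).symm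
  obtain ⟨f⟩ := FiniteField.nonempty_algHom_of_finrank_dvd (F := ZMod r) (K := K) (L := F) (by
    rw [← h3, ← h4, h5]
    exact Dvd.intro _ rfl)
  exact ⟨f.toRingHom⟩

/-- A subfield isomorphic to a given finite field. -/
theorem exists_subfield_iso (K : Type*) [Field K] [Finite K] [Finite F] (m : ℕ) (hm : Nat.card K ^ m = Nat.card F) :
    ∃ K₀ : Subfield F, Nat.card K₀ = Nat.card K ∧ Nonempty (K ≃+* K₀) := by
  obtain ⟨f⟩ := exists_embed (F := F) K m hm
  let e : K ≃+* f.fieldRange := f.rangeRestrictFieldEquiv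
  exact ⟨f.fieldRange, (Nat.card_congr e.toEquiv).symm, ⟨e⟩⟩

theorem exists_degree_le [Finite F] (K₀ K₁ : Subfield F) (h : K₀ ≤ K₁) : ∃ s : ℕ, Nat.card K₀ ^ s = Nat.card K₁ := by
  letI : Algebra K₀ K₁ := (Subfield.inclusion h).toAlgebra
  haveI : Module.Finite K₀ K₁ := Module.Finite.of_finite
  exact ⟨Module.finrank K₀ K₁, (Module.natCard_eq_pow_finrank (K := K₀) (V := K₁)).symm⟩

theorem L_eq_conj (c : F) : L c = Wx (1 : F) one_ne_zero * U (-c) * (Wx (1 : F) one_ne_zero)⁻¹ := by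
  rw [eq_mul_inv_iff_mul_eq]
  apply sl_ext <;> simp [Wx, U, L, mul_00, mul_01, mul_10, mul_11]

theorem pr_L_pow (p : ℕ) [Fact p.Prime] [CharP F p] (c : F) : pr (L c) ^ p = 1 := by
  rw [L_eq_conj, pr_mul, pr_mul]
  have h1 : (pr (Wx (1 : F) one_ne_zero * 1))⁻¹ = pr ((Wx (1 : F) one_ne_zero)⁻¹) := by
    rw [mul_one]
    rfl
  have h2 : pr ((Wx (1 : F) one_ne_zero)⁻¹) = (pr (Wx (1 : F) one_ne_zero))⁻¹ := rfl
  rw [h2, conj_pow, U_pow]
  simp

theorem pr_L_ne_one (c : F) (hc : c ≠ 0) : pr (L c) ≠ 1 := by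
  intro h
  rcases (pr_eq_one_iff _).1 h with h | h
  · have := congrArg (fun M : SL2 F => M.1 1 0) h
    simp [L] at this
    exact hc this
  · have := congrArg (fun M : SL2 F => M.1 1 0) h
    simp [L, zS_10] at this
    exact hc this

theorem pr_L_fix (c : F) : pr (L c) • pt0 F = pt0 F := by
  rw [pr_smul_XF, pt0]
  apply smul_ptA_eq
  · show emb F c * emb F 0 + emb F 1 ≠ 0
    simp
  · show emb F 1 * emb F 0 + emb F 0 = emb F 0 * (emb F c * emb F 0 + emb F 1)
    simp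

/-- Elements of `U` in a subfield, twisted by one. -/
theorem theta1_U (K : Subfield F) (κ : K) : theta K 1 one_ne_zero (U κ) = U (κ : F) := by
  apply sl_ext <;> simp [U]

theorem theta1_L (K : Subfield F) (κ : K) : theta K 1 one_ne_zero (L κ) = L (κ : F) := by
  apply sl_ext <;> simp [L]

/-- The overgroups of a subgroup containing `SL₂` of a subfield. -/
theorem subfield_over (p : ℕ) [Fact p.Prime] [CharP F p] [Finite F] (H : Subgroup (PSL2 F)) (K₀ : Subfield F)
    (hU : ∀ κ ∈ K₀, pr (U κ) ∈ H) (hL : pr (L (1 : F)) ∈ H) (h3 : 3 ≤ Nat.card K₀) :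
    (p = 3 ∧ Nonempty (H ≃* alternatingGroup (Fin 5))) ∨
      ∃ K : Subfield F, K₀ ≤ K ∧ (Nonempty (H ≃* PSL2 K) ∨ Nonempty (H ≃* Matrix.ProjGenLinGroup (Fin 2) K)) := by
  classical
  haveI : Fintype F := Fintype.ofFinite F
  haveI : Finite (PSL2 F) := inferInstance
  have hp : p.Prime := Fact.out
  have h10 : (1 : F) ≠ 0 := one_ne_zero
  set h := (isD_F (F := F) p).sub H with hh
  let u : H := ⟨pr (U (1 : F)), hU 1 K₀.one_mem⟩
  let l : H := ⟨pr (L (1 : F)), hL⟩
  have hu1 : u ≠ 1 := fun e => pr_U_ne_one p h10 (congrArg Subtype.val e)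
  have hl1 : l ≠ 1 := fun e => pr_L_ne_one 1 h10 (congrArg Subtype.val e)
  have hup : u ^ p = 1 := Subtype.ext (U_pow p 1)
  have hlp : l ^ p = 1 := Subtype.ext (pr_L_pow p 1)
  have huI : u • ptI (AC F) = ptI (AC F) := U_fix_inf 1
  have hlO : l • pt0 F = pt0 F := pr_L_fix 1
  have hfixu : ∀ y : XF F, u • y = y → y = ptI (AC F) := by
    obtain ⟨x, hx⟩ := h.fix1 u hu1 hup
    intro y hy
    rw [(hx y).1 hy, ← (hx _).1 huI]
  have hfixl : ∀ y : XF F, l • y = y → y = pt0 F := by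
    obtain ⟨x, hx⟩ := h.fix1 l hl1 hlp
    intro y hy
    rw [(hx y).1 hy, ← (hx _).1 hlO]
  have hne := pt0_ne (F := F)
  have hnofix : ∀ x : XF F, u • x = x → l • x = x → False := by
    intro x h1 h2
    exact hne ((hfixl x h2).symm.trans (hfixu x h1))
  have hnocomm : u * l ≠ l * u := by
    intro e
    apply hnofix (ptI (AC F)) huI
    apply hfixu
    rw [← mul_smul, e, mul_smul, huI]
  have hnop : ¬ ∀ g : H, g ≠ 1 → g ^ p ≠ 1 := fun h0 => h0 u hu1 hup
  have hI : Qs h (ptI (AC F)) ≠ ⊥ := by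
    intro e
    have : u ∈ Qs h (ptI (AC F)) := ⟨huI, hup⟩
    rw [e, Subgroup.mem_bot] at this
    exact hu1 this
  have hO : Qs h (pt0 F) ≠ ⊥ := by
    intro e
    have : l ∈ Qs h (pt0 F) := ⟨hlO, hlp⟩
    rw [e, Subgroup.mem_bot] at this
    exact hl1 this
  rcases h.classify with ⟨ρ, -, h2⟩ | ⟨ρ, h1, h2, h3', -, -⟩ | ⟨x, -, hx⟩ | ⟨h0, -⟩ | ⟨h0, -⟩ | ⟨h0, e⟩ | ⟨a, k, hTT⟩
  · exfalso
    apply hnocomm
    obtain ⟨i, hi⟩ := h2 u
    obtain ⟨j, hj⟩ := h2 l
    have hi' : ρ ^ i = u := hi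
    have hj' : ρ ^ j = l := hj
    rw [← hi', ← hj']
    exact ((Commute.refl ρ).zpow_zpow i j).eq
  · exfalso
    have hnot : ∀ g : H, g ≠ 1 → g ^ p = 1 → g ∉ Subgroup.zpowers ρ := by
      intro g h4 h5 h6
      have h7 : orderOf g = p := orderOf_eq_prime h5 h4
      have h8 := orderOf_dvd_of_mem_zpowers h6
      rw [h7] at h8
      exact h.not_dvd_order ρ h1 h2 h8
    -- a third element of the subfield
    obtain ⟨κ, hκ0, hκ1⟩ : ∃ κ : K₀, κ ≠ 0 ∧ κ ≠ -1 := by
      by_contra hall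
      push Not at hall
      have hsub : (Set.univ : Set K₀) ⊆ {0, -1} := by
        intro x _
        by_cases hx : x = 0
        · exact Or.inl hx
        · exact Or.inr (hall x hx)
      have h5 := Set.ncard_le_ncard hsub (Set.toFinite _)
      rw [Set.ncard_univ] at h5
      have h6 := Set.ncard_insert_le (0 : K₀) ({-1} : Set K₀)
      rw [Set.ncard_singleton] at h6
      omega
    have hκF : (κ : F) ≠ 0 := fun e => hκ0 (Subtype.ext e)
    have hκF' : 1 + (κ : F) ≠ 0 := by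
      intro e
      apply hκ1
      apply Subtype.ext
      show (κ : F) = -1
      linear_combination e
    let v : H := ⟨pr (U (κ : F)), hU _ κ.2⟩
    have hv1 : v ≠ 1 := fun e => pr_U_ne_one p hκF (congrArg Subtype.val e)
    have hvp : v ^ p = 1 := Subtype.ext (U_pow p _)
    have huv : u * v = ⟨pr (U (1 + (κ : F))), hU _ (K₀.add_mem K₀.one_mem κ.2)⟩ := by
      apply Subtype.ext
      show pr (U (1 : F)) * pr (U (κ : F)) = pr (U (1 + (κ : F)))
      rw [← pr_mul, U_add]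
    have huv1 : u * v ≠ 1 := by
      rw [huv]
      exact fun e => pr_U_ne_one p hκF' (congrArg Subtype.val e)
    have huvp : (u * v) ^ p = 1 := by
      rw [huv]
      exact Subtype.ext (U_pow p _)
    have h6 := Subgroup.mul_mem_iff_of_index_two h3' (a := u) (b := v)
    have h7 := hnot _ huv1 huvp
    have h8 := hnot _ hu1 hup
    have h9 := hnot _ hv1 hvp
    tauto
  · exfalso
    exact hnofix x (hx u) (hx l)
  · exact absurd h0 hnop
  · exact absurd h0 hnop
  · left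
    exact ⟨h0.resolve_left hnop, e⟩
  · right
    obtain ⟨K, τ, hτ, hc, -, hK, h5⟩ := E_main p H a k hTT hI hO
    refine ⟨K, ?_, h5⟩
    have hτK : τ ∈ K := by
      have h6 : τ⁻¹ ∈ K := by
        rw [hK, mul_inv_cancel₀ hτ, mem_hatH]
        exact hU 1 K₀.one_mem
      have := K.inv_mem h6
      rwa [inv_inv] at this
    intro κ hκ
    have h6 : κ / τ ∈ K := by
      rw [hK, mul_div_cancel₀ _ hτ, mem_hatH]
      exact hU κ hκ
    have h7 := K.mul_mem hτK h6
    rwa [mul_div_cancel₀ _ hτ] at h7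

/-- The sum `∑ c ^ i` has the parity of its length, for odd `c`. -/
theorem geom_parity (c : ℕ) (hc : c % 2 = 1) (r : ℕ) : (∑ i ∈ Finset.range r, c ^ i) % 2 = r % 2 := by
  induction r with
  | zero => simp
  | succ r ih =>
    rw [Finset.sum_range_succ]
    have : c ^ r % 2 = 1 := by
      rw [Nat.pow_mod, hc]
      simp
    omega

/-- Parity obstruction for `PGL₂` in `PSL₂`. -/
theorem pgl_parity (a r : ℕ) (ha : a % 2 = 1) (ha3 : 3 ≤ a) (hr : r % 2 = 1) :
    ¬ (a + 1) * (a * (a - 1)) * 2 ∣ (a ^ r + 1) * (a ^ r * (a ^ r - 1)) := by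
  intro h
  set b := a ^ 2 - 1 with hb
  have hb1 : a ^ 2 = b + 1 := by
    have : 1 ≤ a ^ 2 := Nat.one_le_pow _ _ (by omega)
    omega
  have hgeo := geom_sum_mul_add b r
  rw [← hb1] at hgeo
  set S := ∑ i ∈ Finset.range r, (a ^ 2) ^ i with hS
  have hSodd : S % 2 = 1 := by
    rw [hS, geom_parity _ (by rw [Nat.pow_mod, ha]) r, hr]
  have hq1 : 1 ≤ a ^ r := Nat.one_le_pow _ _ (by omega)
  have e1 : (a ^ r + 1) * (a ^ r * (a ^ r - 1)) = a ^ r * S * b := by
    have h2 : (a ^ r + 1) * (a ^ r - 1) = S * b := by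
      obtain ⟨t, ht⟩ : ∃ t, a ^ r = t + 1 := ⟨a ^ r - 1, by omega⟩
      have h3 : (a ^ 2) ^ r = (a ^ r) ^ 2 := by rw [← pow_mul, ← pow_mul, mul_comm]
      rw [h3, ht] at hgeo
      rw [ht]
      simp only [Nat.add_sub_cancel]
      nlinarith
    calc _ = a ^ r * ((a ^ r + 1) * (a ^ r - 1)) := by ring
      _ = _ := by rw [h2]; ring
  have e2 : (a + 1) * (a * (a - 1)) * 2 = 2 * a * b := by
    have h2 : (a + 1) * (a - 1) = b := by
      obtain ⟨t, ht⟩ : ∃ t, a = t + 1 := ⟨a - 1, by omega⟩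
      rw [hb, ht]
      simp only [Nat.add_sub_cancel]
      have : (t + 1) ^ 2 = (t + 1 + 1) * t + 1 := by ring
      omega
    calc _ = 2 * a * ((a + 1) * (a - 1)) := by ring
      _ = _ := by rw [h2]
  rw [e1, e2] at h
  have hb0 : 0 < b := by
    have : 3 * 3 ≤ a ^ 2 := by nlinarith
    omega
  have h3 : 2 * a ∣ a ^ r * S := Nat.dvd_of_mul_dvd_mul_right hb0 h
  have h4 : 2 ∣ a ^ r * S := Dvd.dvd.trans (Dvd.intro _ rfl) h3
  have h5 : (a ^ r * S) % 2 = 1 := by
    rw [Nat.mul_mod, Nat.pow_mod, ha, hSodd]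
    simp
  omega

end CfsgLib.Dickson
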