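import Cfsg.Agent.Lib.Dickson.Tori2

/-! Maximality of the normalisers of tori in `PSL₂`. -/

set_option autoImplicit false
set_option linter.unusedSimpArgs false
set_option linter.unusedVariables false
set_option linter.unusedSectionVars false
set_option linter.style.haveILetI false

namespace CfsgLib.Dickson

open Matrix CfsgLib.H9.SL2Cl MulAction
open CfsgLib.H9.PSL2 (pr pr_surj pr_eq_iff pr_eq_one_iff pr_zS pr_mul pr_pow pr_one)
open CfsgLib.H9.BorelChar (zS zS_00 zS_01 zS_10 zS_11 zS_central zS_sq)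

variable {F : Type*} [Field F] [Fintype F] {q : ℕ} (hF : Fintype.card F = q)
variable (p : ℕ) [Fact p.Prime] [CharP F p]

theorem fix_zpow {g : PSL2 F} {z : XF F} (h : g • z = z) (i : ℤ) : (g ^ i) • z = z := by
  have : g ∈ stabilizer (PSL2 F) z := h
  exact (stabilizer (PSL2 F) z).zpow_mem this i

theorem fix_of_mem_zpowers {g h : PSL2 F} {z : XF F} (hz : g • z = z) (hh : h ∈ Subgroup.zpowers g) : h • z = z := by
  obtain ⟨i, hi⟩ := hh
  have hi' : g ^ i = h := hi
  rw [← hi']
  exact fix_zpow hz i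

theorem commute_of_zpowers {G : Type*} [Group G] {ρ a b : G} (ha : a ∈ Subgroup.zpowers ρ) (hb : b ∈ Subgroup.zpowers ρ) : a * b = b * a := by
  obtain ⟨i, hi⟩ := ha
  obtain ⟨j, hj⟩ := hb
  have hi' : ρ ^ i = a := hi
  have hj' : ρ ^ j = b := hj
  rw [← hi', ← hj']
  exact ((Commute.refl ρ).zpow_zpow i j).eq

include p in
/-- A dihedral overgroup of the torus normaliser lies in it. -/
theorem dihedral_le {x y : XF F} (hxy : x ≠ y) {ρ : PSL2 F} (hρ1 : ρ ≠ 1) (hρ2 : ρ ^ 2 ≠ 1) (hρx : ρ • x = x) (hρy : ρ • y = y)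
    (H : Subgroup (PSL2 F)) (hρH : ρ ∈ H) (ρ' : PSL2 F) (h1 : ρ' ≠ 1) (h2 : ρ' ^ p ≠ 1)
    (hout : ∀ g ∈ H, g ∉ Subgroup.zpowers ρ' → g ^ 2 = 1) (hnorm : ∀ g ∈ H, g * ρ' * g⁻¹ ∈ Subgroup.zpowers ρ') :
    H ≤ pairStab x y := by
  have h₀ := isD_F (F := F) p
  have hmem : ρ ∈ Subgroup.zpowers ρ' := by
    by_contra hn
    exact hρ2 (hout ρ hρH hn)
  obtain ⟨u, v, huv, hz⟩ := h₀.fix2 ρ' h1 h2
  have hfix := fix_pair p hxy hρ1 hρx hρy
  have hu := (hfix u).1 (fix_of_mem_zpowers ((hz u).2 (Or.inl rfl)) hmem)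
  have hv := (hfix v).1 (fix_of_mem_zpowers ((hz v).2 (Or.inr rfl)) hmem)
  have hxf : ρ' • x = x := by
    rw [hz]
    grind
  have hyf : ρ' • y = y := by
    rw [hz]
    grind
  intro g hg
  set r := g * ρ' * g⁻¹ with hr
  have hr1 : r ≠ 1 := by
    intro e
    apply h1
    have : ρ' = g⁻¹ * r * g := by rw [hr]; group
    rw [this, e]
    group
  have hrm := hnorm g hg
  have hrx : r • x = x := fix_of_mem_zpowers hxf hrm
  have hry : r • y = y := fix_of_mem_zpowers hyf hrm
  have hfr := fix_pair p hxy hr1 hrx hry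
  have hg1 : r • (g • x) = g • x := by
    rw [hr]
    simp [mul_smul, hxf]
  have hg2 : r • (g • y) = g • y := by
    rw [hr]
    simp [mul_smul, hyf]
  have hinj : g • x ≠ g • y := fun e => hxy (MulAction.injective g e)
  rcases (hfr _).1 hg1 with h3 | h3 <;> rcases (hfr _).1 hg2 with h4 | h4
  · exact absurd (h3.trans h4.symm) hinj
  · exact Or.inl ⟨h3, h4⟩
  · exact Or.inr ⟨h3, h4⟩
  · exact absurd (h3.trans h4.symm) hinj

include hF p in
/-- A bound from a subfield overgroup. -/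
theorem E_bound (H : Subgroup (PSL2 F)) (K : Subfield F) (τ : F) (hτ : τ ≠ 0) (t : PSL2 F)
    (hmem : ∀ g : SL2 K, t * pr (theta K τ hτ g) * t⁻¹ ∈ H)
    (hK : Nonempty (H ≃* PSL2 K) ∨ Nonempty (H ≃* Matrix.ProjGenLinGroup (Fin 2) K))
    (ρ : PSL2 F) (hρ : ρ ∈ H) (hρ2 : ρ ^ 2 ≠ 1) (hρp : (ρ ^ 2) ^ p ≠ 1)
    (hodd : Nat.card K % 2 = 0 → orderOf ρ % 2 = 1) : orderOf ρ ≤ Nat.card K + 1 := by
  classical
  haveI : Fintype K := Fintype.ofFinite K
  haveI : CharP K p := (RingHom.charP_iff K.subtype K.subtype.injective p).2 inferInstance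
  set a := Nat.card K with ha
  have hFK : Fintype.card K = a := by rw [ha, Nat.card_eq_fintype_card]
  have ha2 : 2 ≤ a := two_le_q hFK
  let Θ : PSL2 K →* PSL2 F := (MulAut.conj t).toMonoidHom.comp (thetaP K τ hτ)
  have hΘ : Function.Injective Θ := (MulAut.conj t).injective.comp (thetaP_inj K τ hτ)
  have hΘm : ∀ c, Θ c ∈ H := by
    intro c
    obtain ⟨M, rfl⟩ := pr_surj c
    exact hmem M
  set J := Θ.range with hJ
  have hJH : J ≤ H := by
    rintro _ ⟨c, rfl⟩
    exact hΘm c
  have hcJ : Nat.card J = Nat.card (PSL2 K) := (Nat.card_congr (MonoidHom.ofInjective hΘ).toEquiv).symm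
  have hPK := card_PSL2_nat K
  rw [← ha] at hPK
  have hd : Nat.gcd 2 (a - 1) = 1 ∨ Nat.gcd 2 (a - 1) = 2 := (Nat.dvd_prime Nat.prime_two).1 (Nat.gcd_dvd_left _ _)
  have hsq : ρ ^ 2 ∈ J := by
    have hcases : H ≤ J ∨ (J.subgroupOf H).index = 2 := by
      rcases hK with e | e
      · left
        apply (Subgroup.eq_of_le_of_card_ge hJH _).ge
        rw [hcJ, Nat.card_congr e.some.toEquiv]
      · have hcH : Nat.card H = (a + 1) * (a * (a - 1)) := by
          rw [Nat.card_congr e.some.toEquiv, card_PGL2_nat, ← ha]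
        rcases hd with h1 | h1
        · left
          apply (Subgroup.eq_of_le_of_card_ge hJH _).ge
          rw [hcJ, hcH, ← hPK, h1, mul_one]
        · right
          have h2 := (J.subgroupOf H).card_mul_index
          have h3 : Nat.card (J.subgroupOf H) = Nat.card J :=
            Nat.card_congr (Subgroup.subgroupOfEquivOfLe hJH).toEquiv
          rw [h3, hcJ, hcH, ← hPK, h1] at h2
          have h4 : 0 < Nat.card (PSL2 K) := Nat.card_pos
          exact Nat.eq_of_mul_eq_mul_left h4 h2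
    rcases hcases with h1 | h1
    · exact h1 (H.pow_mem hρ 2)
    · have h2 := Subgroup.sq_mem_of_index_two h1 (⟨ρ, hρ⟩ : H)
      have h3 : (⟨ρ, hρ⟩ : H) ^ 2 ∈ J.subgroupOf H := h2
      rw [Subgroup.mem_subgroupOf] at h3
      simpa using h3
  obtain ⟨c, hc⟩ := hsq
  have hord : orderOf c = orderOf (ρ ^ 2) := by
    rw [← hc]
    exact (orderOf_injective Θ hΘ c).symm
  have hc1 : c ≠ 1 := by
    rintro rfl
    apply hρ2
    rw [← hc, map_one]
  have hcp : c ^ p ≠ 1 := by
    intro e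
    apply hρp
    rw [← hc, ← map_pow, e, map_one]
  have hpos : Nat.gcd 2 (a - 1) ∣ a + 1 := by
    have : a + 1 = (a - 1) + 2 := by omega
    rw [this]
    exact dvd_add (Nat.gcd_dvd_right _ _) (Nat.gcd_dvd_left _ _)
  have hbound : orderOf c * Nat.gcd 2 (a - 1) ≤ a + 1 := by
    rcases order_dvd hFK p c hc1 hcp with h | h
    · have h1 : Nat.gcd 2 (a - 1) ∣ a - 1 := Nat.gcd_dvd_right _ _
      have h4 := Nat.le_of_dvd (Nat.div_pos (Nat.le_of_dvd (by omega) h1) (gcd_two_pos _)) h
      have := Nat.mul_le_mul_right (Nat.gcd 2 (a - 1)) h4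
      rw [Nat.div_mul_cancel h1] at this
      omega
    · have h1 : Nat.gcd 2 (a - 1) ∣ a + 1 := hpos
      have h4 := Nat.le_of_dvd (Nat.div_pos (Nat.le_of_dvd (by omega) h1) (gcd_two_pos _)) h
      have := Nat.mul_le_mul_right (Nat.gcd 2 (a - 1)) h4
      rwa [Nat.div_mul_cancel h1] at this
  rw [hord] at hbound
  have horder : orderOf (ρ ^ 2) = orderOf ρ / Nat.gcd (orderOf ρ) 2 := orderOf_pow ρ
  rw [horder] at hbound
  have hk0 : 0 < orderOf ρ := orderOf_pos ρ
  have hdk : Nat.gcd (orderOf ρ) 2 = 1 ∨ Nat.gcd (orderOf ρ) 2 = 2 := (Nat.dvd_prime Nat.prime_two).1 (Nat.gcd_dvd_right _ _)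
  rcases hd with h1 | h1
  · have hae : a % 2 = 0 := by
      by_contra hh
      rw [gcd_two_of_odd a (by omega)] at h1
      omega
    have h2 := hodd hae
    have h3 : Nat.gcd (orderOf ρ) 2 = 1 := by
      have : Nat.Coprime (orderOf ρ) 2 := by
        rw [Nat.coprime_two_right]
        exact Nat.odd_iff.2 h2
      exact this
    rw [h1, h3, Nat.div_one, mul_one] at hbound
    exact hbound
  · rw [h1] at hbound
    rcases hdk with h2 | h2
    · rw [h2, Nat.div_one] at hbound
      omega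
    · rw [h2] at hbound
      have h3 : 2 ∣ orderOf ρ := Nat.gcd_eq_right_iff_dvd.1 h2
      have := Nat.div_mul_cancel h3
      omega

theorem orderOf_equiv {Γ : Type*} [Group Γ] (H : Subgroup (PSL2 F)) (e : H ≃* Γ) {ρ : PSL2 F} (hρ : ρ ∈ H) :
    orderOf (e ⟨ρ, hρ⟩) = orderOf ρ := by
  rw [MulEquiv.orderOf_eq, Subgroup.orderOf_mk]

theorem pow_equiv {Γ : Type*} [Group Γ] (H : Subgroup (PSL2 F)) (e : H ≃* Γ) {g : Γ} {n : ℕ} (h : g ^ n = 1) :
    (((e.symm g : H) : PSL2 F)) ^ n = 1 := by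
  have : (e.symm g) ^ n = 1 := by
    rw [← map_pow, h, map_one]
  simpa using congrArg Subtype.val this

theorem ne_one_equiv {Γ : Type*} [Group Γ] (H : Subgroup (PSL2 F)) (e : H ≃* Γ) {g : Γ} (h : g ≠ 1) :
    (((e.symm g : H) : PSL2 F)) ≠ 1 := by
  intro h1
  apply h
  have : e.symm g = 1 := Subtype.ext h1
  simpa using this

include hF p in
/-- The normaliser of a torus is maximal, apart from small exceptions. -/
theorem pair_coatom {x y : XF F} (hxy : x ≠ y) (ρ w : PSL2 F) (hρ : Subgroup.zpowers ρ = ptStab x y)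
    (hw1 : w • x = y) (hw2 : w • y = x) (hk3 : 3 ≤ orderOf ρ)
    (hk : orderOf ρ * Nat.gcd 2 (q - 1) = q - 1 ∨ orderOf ρ * Nat.gcd 2 (q - 1) = q + 1)
    (h2 : q ≠ 2) (h7 : q ≠ 7) (h9 : q ≠ 9) (h11 : q = 11 → orderOf ρ ≠ 5) : IsCoatom (pairStab x y) := by
  classical
  have hpp : p.Prime := Fact.out
  have hq2 := two_le_q hF
  have hq3 : 3 ≤ q := by omega
  have hG := card_PSL2 hF
  have hd0 := gcd_two_pos (q - 1)
  have hdd := gcd_two_le (q - 1)
  obtain ⟨hDc, hDe⟩ := pair_main hxy w hw1 hw2 ρ hρ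
  have hρm : ρ ∈ ptStab x y := by
    rw [← hρ]
    exact Subgroup.mem_zpowers ρ
  have hρ1 : ρ ≠ 1 := by
    intro e
    rw [e, orderOf_one] at hk3
    omega
  have hρ2 : ρ ^ 2 ≠ 1 := by
    intro e
    have := Nat.le_of_dvd (by norm_num) (orderOf_dvd_of_pow_eq_one e)
    omega
  have hρ2m : ρ ^ 2 ∈ ptStab x y := (ptStab x y).pow_mem hρm 2
  have hρ2p : (ρ ^ 2) ^ p ≠ 1 := ptStab_no_p p hxy hρ2m hρ2
  have hρp : ρ ^ p ≠ 1 := ptStab_no_p p hxy hρm hρ1
  have hkle : orderOf ρ * Nat.gcd 2 (q - 1) ≤ q + 1 := by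
    rcases hk with h | h <;> omega
  have hqeven : q % 2 = 0 → orderOf ρ % 2 = 1 := by
    intro h
    rw [gcd_two_of_even q h (by omega), mul_one] at hk
    rcases hk with h3 | h3 <;> omega
  have hqodd : q % 2 = 1 → orderOf ρ * 2 = q - 1 ∨ orderOf ρ * 2 = q + 1 := by
    intro h
    rwa [gcd_two_of_odd q h] at hk
  have hρD : ρ ∈ pairStab x y := Or.inl hρm
  have hwD : w ∈ pairStab x y := Or.inr ⟨hw1, hw2⟩
  have hinv := swap_inverts hxy w ρ hw1 hw2 hρm.1 hρm.2
  have hfixρ := fix_pair p hxy hρ1 hρm.1 hρm.2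
  -- odd characteristic from `p ≠ 2`
  have hqo : p ≠ 2 → q % 2 = 1 := by
    intro hp2
    obtain ⟨n, -, hn⟩ := FiniteField.card F p
    rw [hF] at hn
    rw [hn]
    exact Nat.odd_iff.1 (Odd.pow (hpp.odd_of_ne_two hp2))
  apply coatom_of
  · intro e
    have h3 : Nat.card (PSL2 F) = 2 * orderOf ρ := by
      rw [← hDc, e, Subgroup.card_top]
    rw [h3] at hG
    have h4 : (q + 1) * (q * (q - 1)) ≤ 2 * (q + 1) := by
      rw [← hG, mul_assoc]
      exact Nat.mul_le_mul_left _ hkle
    have h5 : q * (q - 1) ≤ 2 := by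
      have := Nat.le_of_mul_le_mul_left (show (q + 1) * (q * (q - 1)) ≤ (q + 1) * 2 by rw [mul_comm (q + 1) 2]; exact h4) (by omega)
      exact this
    have : 3 * 2 ≤ q * (q - 1) := Nat.mul_le_mul hq3 (by omega)
    omega
  · intro H hle hH
    have hρH := hle hρD
    have hwH := hle hwD
    have hdvd : Nat.card H * Nat.gcd 2 (q - 1) ∣ (q + 1) * (q * (q - 1)) := card_dvd_num hF H
    rcases dickson p H with ⟨ρ', h3, h4, h5⟩ | ⟨ρ', h3, h4, h5, h6, h8, -, -⟩ | ⟨z, -, hfix⟩ | ⟨h0, e⟩ | ⟨h0, e⟩ | ⟨h0, e⟩ | ⟨K, τ, hτ, t, hK3, hmem, hK⟩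
    · exfalso
      rw [h5] at hρH hwH
      have h6 : w * ρ * w⁻¹ = ρ := by
        rw [commute_of_zpowers hwH hρH]
        group
      rw [hinv] at h6
      apply hρ2
      rw [sq]
      nth_rewrite 1 [← h6]
      group
    · exact dihedral_le p hxy hρ1 hρ2 hρm.1 hρm.2 H hρH ρ' h4 h5 h6 h8
    · exfalso
      rcases (hfixρ z).1 (hfix ρ hρH) with rfl | rfl
      · exact hxy ((hfix w hwH).symm.trans hw1)
      · exact hxy ((hfix w hwH).symm.trans hw2).symm
    · exfalso
      obtain ⟨e⟩ := e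
      have horb : ∀ γ : alternatingGroup (Fin 4), γ ^ 2 = 1 ∨ γ ^ 3 = 1 := by decide +kernel
      have hinvA : ∀ a b : alternatingGroup (Fin 4), a ^ 3 = 1 → a ≠ 1 → b * a * b⁻¹ ≠ a⁻¹ := by decide +kernel
      set ρ₁ := e ⟨ρ, hρH⟩ with hρ₁
      set w₁ := e ⟨w, hwH⟩ with hw₁
      have ho : orderOf ρ₁ = orderOf ρ := orderOf_equiv H e hρH
      have h3 : ρ₁ ^ 3 = 1 := by
        rcases horb ρ₁ with h | h
        · exfalso
          have h6 := orderOf_dvd_of_pow_eq_one h
          rw [ho] at h6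
          have := Nat.le_of_dvd (by norm_num) h6
          omega
        · exact h
      have h4 : ρ₁ ≠ 1 := by
        intro h
        rw [h, orderOf_one] at ho
        omega
      apply hinvA ρ₁ w₁ h3 h4
      have h5 : (⟨w, hwH⟩ : H) * ⟨ρ, hρH⟩ * (⟨w, hwH⟩ : H)⁻¹ = (⟨ρ, hρH⟩ : H)⁻¹ := Subtype.ext hinv
      rw [hρ₁, hw₁, ← map_inv, ← map_inv, ← map_mul, ← map_mul, h5]
    · exfalso
      obtain ⟨e⟩ := e
      have horb : ∀ γ : Equiv.Perm (Fin 4), γ ^ 3 = 1 ∨ γ ^ 4 = 1 := by decide +kernel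
      have ho := orderOf_equiv H e hρH
      have hp2 : p ≠ 2 := by
        rintro rfl
        exact h0 _ (e.symm CfsgLib.Present.xS4).2 (ne_one_equiv H e (by decide +kernel)) (pow_equiv H e (by decide +kernel))
      have hq1 := hqo hp2
      have hcases : orderOf ρ = 3 ∨ orderOf ρ = 4 := by
        rcases horb (e ⟨ρ, hρH⟩) with h | h
        · have := orderOf_dvd_of_pow_eq_one h
          rw [ho] at this
          exact Or.inl ((Nat.dvd_prime (by norm_num)).1 this |>.resolve_left (by omega))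
        · have := orderOf_dvd_of_pow_eq_one h
          rw [ho] at this
          have h4 : orderOf ρ ≤ 4 := Nat.le_of_dvd (by norm_num) this
          interval_cases (orderOf ρ) <;> omega
      have hq5 : q = 5 := by
        have := hqodd hq1
        rcases hcases with h | h <;> rw [h] at this <;> omega
      subst hq5
      rw [Nat.card_congr e.toEquiv, card_S4'] at hdvd
      rw [gcd_two_of_odd 5 (by norm_num)] at hdvd
      revert hdvd
      decide
    · exfalso
      obtain ⟨e⟩ := e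
      have horb : ∀ γ : alternatingGroup (Fin 5), γ ^ 2 = 1 ∨ γ ^ 3 = 1 ∨ γ ^ 5 = 1 := by decide +kernel
      have ho := orderOf_equiv H e hρH
      have hp2 : p ≠ 2 := by
        rintro rfl
        rcases h0 with h0 | h0
        · exact h0 _ (e.symm CfsgLib.Present.xA5).2 (ne_one_equiv H e (by decide +kernel)) (pow_equiv H e CfsgLib.Present.relA5.1)
        · omega
      have hq1 := hqo hp2
      have hcases : orderOf ρ = 3 ∨ orderOf ρ = 5 := by
        rcases horb (e ⟨ρ, hρH⟩) with h | h | h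
        · have := orderOf_dvd_of_pow_eq_one h
          rw [ho] at this
          have := Nat.le_of_dvd (by norm_num) this
          omega
        · have := orderOf_dvd_of_pow_eq_one h
          rw [ho] at this
          exact Or.inl ((Nat.dvd_prime (by norm_num)).1 this |>.resolve_left (by omega))
        · have := orderOf_dvd_of_pow_eq_one h
          rw [ho] at this
          exact Or.inr ((Nat.dvd_prime (by norm_num)).1 this |>.resolve_left (by omega))
      have hq5 : q = 5 := by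
        have h3 := hqodd hq1
        have h11' : ¬ (q = 11 ∧ orderOf ρ = 5) := fun h => h11 h.1 h.2
        rcases hcases with h | h <;> rw [h] at h3 <;> rw [h] at h11' <;> omega
      subst hq5
      apply hH
      apply Subgroup.eq_top_of_le_card
      rw [Nat.card_congr e.toEquiv, card_A5']
      rw [gcd_two_of_odd 5 (by norm_num)] at hG
      omega
    · exfalso
      apply hH
      obtain ⟨m, hm⟩ := exists_degree K
      rw [hF] at hm
      set a := Nat.card K with ha
      have hkb : orderOf ρ ≤ a + 1 := by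
        apply E_bound hF p H K τ hτ t hmem hK ρ hρH hρ2 hρ2p
        intro h3
        apply hqeven
        rw [← hm, Nat.pow_mod, h3]
        have hm0 : m ≠ 0 := by
          rintro rfl
          simp at hm
          omega
        simp [hm0]
      rcases m with _ | _ | m
      · simp at hm
        omega
      · exact subfield_full hF H K hK (by rw [← ha, ← hm, zero_add, pow_one])
      · exfalso
        have ha2 : a ^ 2 ≤ q := by
          rw [← hm]
          exact Nat.pow_le_pow_right (by omega) (by omega)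
        have hk1 : q - 1 ≤ orderOf ρ * Nat.gcd 2 (q - 1) := by
          rcases hk with h | h <;> omega
        rcases Nat.mod_two_eq_zero_or_one q with h3 | h3
        · rw [gcd_two_of_even q h3 (by omega), mul_one] at hk1
          have : 3 * a ≤ a ^ 2 := by nlinarith
          omega
        · rw [gcd_two_of_odd q h3] at hk1
          have h4 : a < 4 := by
            by_contra hh
            push Not at hh
            have : 4 * a ≤ a ^ 2 := by nlinarith
            omega
          have h5 : a = 3 := by omega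
          rw [h5] at ha2 hm hkb
          have h6 : q ≤ 9 := by omega
          have h8 : 9 ≤ q := by omega
          omega

end CfsgLib.Dickson
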