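import Cfsg.Agent.Lib.Dickson.Classify
import Cfsg.Agent.Lib.H9.PSL2Tools

/-! `PSL₂` over an algebraically closed field acting on the projective line. -/

set_option autoImplicit false
set_option linter.unusedSimpArgs false
set_option linter.unusedVariables false
set_option linter.unusedSectionVars false
set_option linter.style.haveILetI false

namespace CfsgLib.Dickson

open Matrix CfsgLib.H9.SL2Cl
open CfsgLib.H9.PSL2 (pr pr_surj pr_eq_iff pr_eq_one_iff pr_zS pr_mul pr_pow pr_one)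
open CfsgLib.H9.BorelChar (zS zS_00 zS_01 zS_10 zS_11 zS_central zS_sq)
open scoped LinearAlgebra.Projectivization

variable {L : Type*} [Field L]

/-- The projective line. -/
abbrev PL (L : Type*) [Field L] := ℙ L (Fin 2 → L)

abbrev PSL2 (L : Type*) [Field L] := ProjectiveSpecialLinearGroup (Fin 2) L

/-- The point `∞`. -/
noncomputable def ptI (L : Type*) [Field L] : PL L := Projectivization.mk L ![1, 0] (by simp)

/-- The point `α`. -/
noncomputable def ptA (α : L) : PL L := Projectivization.mk L ![α, 1] (by simp)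

theorem mk_eq_iff2 {u w : Fin 2 → L} (hu : u ≠ 0) (hw : w ≠ 0) :
    Projectivization.mk L u hu = Projectivization.mk L w hw ↔ u 0 * w 1 = u 1 * w 0 := by
  rw [Projectivization.mk_eq_mk_iff']
  constructor
  · rintro ⟨a, rfl⟩
    simp only [Pi.smul_apply, smul_eq_mul]
    ring
  · intro h
    by_cases h0 : w 0 = 0
    · have h1 : w 1 ≠ 0 := by
        intro h1
        apply hw
        ext i
        fin_cases i
        · exact h0
        · exact h1
      refine ⟨u 1 / w 1, ?_⟩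
      ext i
      fin_cases i
      · simp only [Pi.smul_apply, smul_eq_mul, Fin.zero_eta, h0, mul_zero]
        rw [h0, mul_zero] at h
        exact ((mul_eq_zero.1 h).resolve_right h1).symm
      · simp only [Pi.smul_apply, smul_eq_mul, Fin.mk_one]
        field_simp
    · refine ⟨u 0 / w 0, ?_⟩
      ext i
      fin_cases i
      · simp only [Pi.smul_apply, smul_eq_mul, Fin.zero_eta]
        field_simp
      · simp only [Pi.smul_apply, smul_eq_mul, Fin.mk_one]
        field_simp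
        linear_combination h

theorem smul_vec (M : SL2 L) (v : Fin 2 → L) : M • v = ![M.1 0 0 * v 0 + M.1 0 1 * v 1, M.1 1 0 * v 0 + M.1 1 1 * v 1] := by
  rw [Matrix.SpecialLinearGroup.smul_def]
  ext i
  fin_cases i <;> simp [Matrix.mulVec, dotProduct, Fin.sum_univ_two]

theorem pt_cases (x : PL L) : x = ptI L ∨ ∃ α : L, x = ptA α := by
  induction x using Projectivization.ind with | _ v hv =>
  by_cases h1 : v 1 = 0
  · left
    rw [ptI, mk_eq_iff2]
    simp [h1]
  · right
    refine ⟨v 0 / v 1, ?_⟩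
    rw [ptA, mk_eq_iff2]
    simp only [Matrix.cons_val_zero, Matrix.cons_val_one]
    field_simp

theorem ptI_ne (α : L) : ptI L ≠ ptA α := by
  rw [ptI, ptA, Ne, mk_eq_iff2]
  simp

theorem ptA_inj {α β : L} : ptA α = ptA β ↔ α = β := by
  rw [ptA, ptA, mk_eq_iff2]
  simp

theorem pr_smul (M : SL2 L) (x : PL L) : pr M • x = M • x := rfl

theorem ne_zero_aux (M : SL2 L) {v : Fin 2 → L} (hv : v ≠ 0) :
    ![M.1 0 0 * v 0 + M.1 0 1 * v 1, M.1 1 0 * v 0 + M.1 1 1 * v 1] ≠ 0 := by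
  rw [← smul_vec]
  exact (smul_ne_zero_iff_ne M).2 hv

theorem smul_mk2 (M : SL2 L) {v : Fin 2 → L} (hv : v ≠ 0) :
    M • Projectivization.mk L v hv = Projectivization.mk L ![M.1 0 0 * v 0 + M.1 0 1 * v 1, M.1 1 0 * v 0 + M.1 1 1 * v 1] (ne_zero_aux M hv) := by
  rw [Projectivization.smul_mk]
  congr 1
  exact smul_vec M v

theorem fix_inf_iff (M : SL2 L) : pr M • ptI L = ptI L ↔ M.1 1 0 = 0 := by
  rw [pr_smul, ptI, smul_mk2 M _, mk_eq_iff2]
  simp [eq_comm]

theorem fix_ptA_iff (M : SL2 L) (α : L) : pr M • ptA α = ptA α ↔ M.1 0 0 * α + M.1 0 1 = α * (M.1 1 0 * α + M.1 1 1) := by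
  rw [pr_smul, ptA, smul_mk2 M _, mk_eq_iff2]
  simp only [Matrix.cons_val_zero, Matrix.cons_val_one]
  constructor
  · intro h
    linear_combination h
  · intro h
    linear_combination h

theorem smul_ptI (M : SL2 L) (α : L) (h : M.1 1 0 ≠ 0) (hα : M.1 0 0 = α * M.1 1 0) : pr M • ptI L = ptA α := by
  rw [pr_smul, ptI, smul_mk2 M _, ptA, mk_eq_iff2]
  simp [hα, mul_comm]

/-- Powers of triangular elements. -/
theorem upper_pow (M : SL2 L) (h : M.1 1 0 = 0) (n : ℕ) :
    (M ^ n).1 1 0 = 0 ∧ (M ^ n).1 0 0 = M.1 0 0 ^ n ∧ (M ^ n).1 1 1 = M.1 1 1 ^ n := by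
  induction n with
  | zero => simp
  | succ n ih =>
    obtain ⟨h1, h2, h3⟩ := ih
    rw [pow_succ, mul_10, mul_00, mul_11, h, h1, h2, h3]
    simp [pow_succ]

theorem sq_eq_one_cases {x : L} (h : x ^ 2 = 1) : x = 1 ∨ x = -1 := CfsgLib.H9.PSL2.sq_one h

/-- The matrices `u I` with `u² = 1` are trivial in `PSL₂`. -/
theorem pr_eq_one_of_scalar (M : SL2 L) (h10 : M.1 1 0 = 0) (h01 : M.1 0 1 = 0) (h : M.1 0 0 = M.1 1 1) : pr M = 1 := by
  have hdet := det_eq M
  rw [h10, h01, h] at hdet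
  have h2 : M.1 1 1 ^ 2 = 1 := by
    linear_combination hdet
  rw [pr_eq_one_iff]
  rcases sq_eq_one_cases h2 with h3 | h3
  · left
    apply sl_ext <;> simp [h10, h01, h, h3]
  · right
    apply sl_ext <;> simp [h10, h01, h, h3]

theorem frob_sq (p : ℕ) [Fact p.Prime] [CharP L p] {t : L} (h : (t ^ p) ^ 2 = 1) : t ^ 2 = 1 := by
  have h1 : (t ^ 2 - 1) ^ p = 0 := by
    rw [sub_pow_char, one_pow, ← pow_mul, mul_comm, pow_mul, h, sub_self]
  have h2 := pow_eq_zero_iff (Fact.out : p.Prime).ne_zero |>.1 h1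
  exact sub_eq_zero.1 h2

/-- Which triangular elements have `p`-th power one. -/
theorem pr_pow_p_iff (p : ℕ) [Fact p.Prime] [CharP L p] (M : SL2 L) (h : M.1 1 0 = 0) :
    pr M ^ p = 1 ↔ M.1 0 0 ^ 2 = 1 := by
  have hdet := det_eq M
  rw [h, mul_zero, sub_zero] at hdet
  constructor
  · intro h1
    rw [← pr_pow, pr_eq_one_iff] at h1
    obtain ⟨-, h2, -⟩ := upper_pow M h p
    apply frob_sq p
    rcases h1 with h1 | h1
    · rw [← h2, h1]
      simp
    · rw [← h2, h1]
      simp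
  · intro h1
    have h11 : M.1 1 1 = M.1 0 0 := by
      have : M.1 0 0 * (M.1 1 1 - M.1 0 0) = 0 := by linear_combination hdet - h1
      have h2 : M.1 0 0 ≠ 0 := by
        intro h3
        rw [h3] at hdet
        simp at hdet
      exact sub_eq_zero.1 ((mul_eq_zero.1 this).resolve_left h2)
    have hpow : ∀ n : ℕ, (M ^ (n + 1)).1 0 1 = ((n + 1 : ℕ) : L) * M.1 0 0 ^ n * M.1 0 1 := by
      intro n
      induction n with
      | zero => simp
      | succ n ih =>
        rw [pow_succ, mul_01, ih, (upper_pow M h (n + 1)).2.1, h11]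
        push_cast
        ring
    obtain ⟨a1, a2, a3⟩ := upper_pow M h p
    rw [← pr_pow]
    apply pr_eq_one_of_scalar _ a1
    · obtain ⟨n, hn⟩ : ∃ n, p = n + 1 := ⟨p - 1, by have := (Fact.out : p.Prime).pos; omega⟩
      have h5 := hpow n
      rw [← hn, CharP.cast_eq_zero, zero_mul, zero_mul] at h5
      rw [hn]
      rw [hn] at h5
      exact h5
    · rw [a2, a3, h11]

/-- A nontrivial element with `t² = 1` fixes only `∞`. -/
theorem fix_inf1 (M : SL2 L) (h : M.1 1 0 = 0) (ht : M.1 0 0 ^ 2 = 1) (hne : pr M ≠ 1) (y : PL L) :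
    pr M • y = y ↔ y = ptI L := by
  have hdet := det_eq M
  rw [h, mul_zero, sub_zero] at hdet
  have h11 : M.1 1 1 = M.1 0 0 := by
    have : M.1 0 0 * (M.1 1 1 - M.1 0 0) = 0 := by linear_combination hdet - ht
    have h2 : M.1 0 0 ≠ 0 := by
      intro h3
      rw [h3] at hdet
      simp at hdet
    exact sub_eq_zero.1 ((mul_eq_zero.1 this).resolve_left h2)
  have hs : M.1 0 1 ≠ 0 := by
    intro hs
    exact hne (pr_eq_one_of_scalar M h hs h11.symm)
  constructor
  · intro hy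
    rcases pt_cases y with rfl | ⟨α, rfl⟩
    · rfl
    · exfalso
      rw [fix_ptA_iff, h, h11] at hy
      apply hs
      linear_combination hy
  · rintro rfl
    exact (fix_inf_iff M).2 h

/-- An element with `t² ≠ 1` fixes exactly two points. -/
theorem fix_inf2 (M : SL2 L) (h : M.1 1 0 = 0) (ht : M.1 0 0 ^ 2 ≠ 1) :
    ∃ α : L, ∀ z : PL L, pr M • z = z ↔ z = ptI L ∨ z = ptA α := by
  have hdet := det_eq M
  rw [h, mul_zero, sub_zero] at hdet
  have hne : M.1 1 1 - M.1 0 0 ≠ 0 := by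
    intro h1
    apply ht
    have h2 : M.1 1 1 = M.1 0 0 := sub_eq_zero.1 h1
    rw [h2] at hdet
    linear_combination hdet
  refine ⟨M.1 0 1 / (M.1 1 1 - M.1 0 0), fun z => ?_⟩
  constructor
  · intro hz
    rcases pt_cases z with rfl | ⟨α, rfl⟩
    · exact Or.inl rfl
    · right
      rw [fix_ptA_iff, h] at hz
      rw [ptA_inj, eq_div_iff hne]
      linear_combination -hz
  · rintro (rfl | rfl)
    · exact (fix_inf_iff M).2 h
    · rw [fix_ptA_iff, h]
      field_simp
      ring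

/-- Transitivity on the projective line. -/
theorem exists_T (x : PL L) : ∃ T : SL2 L, pr T • ptI L = x := by
  rcases pt_cases x with rfl | ⟨α, rfl⟩
  · exact ⟨1, by simp [pr_one]⟩
  · by_cases hα : α = 0
    · subst hα
      refine ⟨mk 0 (-1) 1 0 (by ring), ?_⟩
      apply smul_ptI
      · simp
      · simp
    · refine ⟨mk α 0 1 α⁻¹ (by field_simp; ring), ?_⟩
      apply smul_ptI
      · simp
      · simp

/-- Fixed points exist over algebraically closed fields. -/
theorem exists_eigen [IsAlgClosed L] (M : SL2 L) : ∃ (t : L) (v : Fin 2 → L), v ≠ 0 ∧ M • v = t • v := by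
  obtain ⟨t, ht⟩ := IsAlgClosed.exists_root (Polynomial.X ^ 2 - Polynomial.C (M.1 0 0 + M.1 1 1) * Polynomial.X + 1 : Polynomial L) (by
    have : (Polynomial.X ^ 2 - Polynomial.C (M.1 0 0 + M.1 1 1) * Polynomial.X + 1 : Polynomial L) =
        Polynomial.C 1 * Polynomial.X ^ 2 + Polynomial.C (-(M.1 0 0 + M.1 1 1)) * Polynomial.X + Polynomial.C 1 := by
      simp
      ring
    rw [this, Polynomial.degree_quadratic (one_ne_zero)]
    norm_num)
  have ht' : t ^ 2 - (M.1 0 0 + M.1 1 1) * t + 1 = 0 := by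
    simpa [Polynomial.IsRoot] using ht
  have hdet := det_eq M
  have hd : (M.1 - t • (1 : Matrix (Fin 2) (Fin 2) L)).det = 0 := by
    rw [Matrix.det_fin_two]
    simp
    linear_combination ht' + hdet
  obtain ⟨v, hv, hv0⟩ := Matrix.exists_mulVec_eq_zero_iff.2 hd
  refine ⟨t, v, hv, ?_⟩
  rw [Matrix.sub_mulVec, sub_eq_zero] at hv0
  have h5 : M • v = M.1 *ᵥ v := Matrix.SpecialLinearGroup.smul_def M v
  rw [h5, hv0]
  simp [Matrix.smul_mulVec]

theorem exists_fixed_pt [IsAlgClosed L] (g : PSL2 L) : ∃ x : PL L, g • x = x := by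
  obtain ⟨M, rfl⟩ := pr_surj g
  obtain ⟨t, v, hv, h⟩ := exists_eigen M
  refine ⟨Projectivization.mk L v hv, ?_⟩
  rw [pr_smul, Projectivization.smul_mk, Projectivization.mk_eq_mk_iff']
  have ht : t ≠ 0 := by
    rintro rfl
    rw [zero_smul] at h
    exact hv ((smul_eq_zero_iff_eq M).1 h)
  exact ⟨t, h.symm⟩

/-- Conjugating a point to `∞`. -/
theorem exists_conj (g : PSL2 L) (x : PL L) (hx : g • x = x) :
    ∃ T M : SL2 L, pr T • ptI L = x ∧ M.1 1 0 = 0 ∧ g = pr T * pr M * (pr T)⁻¹ := by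
  obtain ⟨T, hT⟩ := exists_T x
  obtain ⟨M, hM⟩ := pr_surj ((pr T)⁻¹ * g * pr T)
  refine ⟨T, M, hT, ?_, ?_⟩
  · rw [← fix_inf_iff, hM, mul_smul, mul_smul, hT, hx, ← hT, inv_smul_smul]
  · rw [hM]
    group

theorem exists_conj' (g : PSL2 L) (T : SL2 L) (x : PL L) (hT : pr T • ptI L = x) (hx : g • x = x) :
    ∃ M : SL2 L, M.1 1 0 = 0 ∧ g = pr T * pr M * (pr T)⁻¹ := by
  obtain ⟨M, hM⟩ := pr_surj ((pr T)⁻¹ * g * pr T)
  refine ⟨M, ?_, ?_⟩
  · rw [← fix_inf_iff, hM, mul_smul, mul_smul, hT, hx, ← hT, inv_smul_smul]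
  · rw [hM]
    group

theorem conj_fix_iff (g : PSL2 L) (T M : SL2 L) (hg : g = pr T * pr M * (pr T)⁻¹) (y : PL L) :
    g • y = y ↔ pr M • ((pr T)⁻¹ • y) = (pr T)⁻¹ • y := by
  rw [hg, mul_smul, mul_smul, ← eq_inv_smul_iff (g := pr T)]

theorem conj_pow_iff (g : PSL2 L) (T M : SL2 L) (hg : g = pr T * pr M * (pr T)⁻¹) (n : ℕ) :
    g ^ n = 1 ↔ pr M ^ n = 1 := by
  rw [hg, conj_pow]
  constructor
  · intro h
    have : pr M ^ n = (pr T)⁻¹ * (pr T * pr M ^ n * (pr T)⁻¹) * pr T := by group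
    rw [this, h]
    group
  · intro h
    rw [h]
    group

theorem conj_ne_one (g : PSL2 L) (T M : SL2 L) (hg : g = pr T * pr M * (pr T)⁻¹) (h1 : g ≠ 1) : pr M ≠ 1 := by
  intro h
  apply h1
  rw [hg, h]
  group

/-- The value of the character. -/
noncomputable def fval (g : PSL2 L) : L := ((Classical.choose (pr_surj g)).1 0 0) ^ 2

theorem fval_pr (M : SL2 L) : fval (pr M) = M.1 0 0 ^ 2 := by
  have h := Classical.choose_spec (pr_surj (pr M))
  rw [pr_eq_iff] at h
  rw [fval]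
  rcases h with h | h
  · rw [h]
  · rw [h, mul_00]
    simp

/-- The character on the stabiliser of `∞`. -/
noncomputable def chiI : MulAction.stabilizer (PSL2 L) (ptI L) →* L where
  toFun g := fval (g : PSL2 L)
  map_one' := by
    have : ((1 : MulAction.stabilizer (PSL2 L) (ptI L)) : PSL2 L) = pr 1 := rfl
    rw [this, fval_pr]
    simp
  map_mul' := by
    rintro ⟨g, hg⟩ ⟨g', hg'⟩
    obtain ⟨M, rfl⟩ := pr_surj g
    obtain ⟨M', rfl⟩ := pr_surj g'
    have h1 : M.1 1 0 = 0 := (fix_inf_iff M).1 hg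
    have h2 : M'.1 1 0 = 0 := (fix_inf_iff M').1 hg'
    show fval (pr M * pr M') = fval (pr M) * fval (pr M')
    rw [← pr_mul, fval_pr, fval_pr, fval_pr, mul_00, h2]
    ring

/-- `PSL₂` over an algebraically closed field satisfies the axioms. -/
theorem isD_PSL [IsAlgClosed L] (p : ℕ) [hp : Fact p.Prime] [CharP L p] : IsD L p (PSL2 L) (PL L) where
  prime := hp.out
  fix1 := by
    intro g h1 h2
    obtain ⟨x, hx⟩ := exists_fixed_pt g
    obtain ⟨T, M, hT, hM, hg⟩ := exists_conj g x hx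
    have h3 := (pr_pow_p_iff p M hM).1 ((conj_pow_iff g T M hg p).1 h2)
    refine ⟨x, fun y => ?_⟩
    rw [conj_fix_iff g T M hg, fix_inf1 M hM h3 (conj_ne_one g T M hg h1), inv_smul_eq_iff, hT]
  fix2 := by
    intro g h1 h2
    obtain ⟨x, hx⟩ := exists_fixed_pt g
    obtain ⟨T, M, hT, hM, hg⟩ := exists_conj g x hx
    have h3 : M.1 0 0 ^ 2 ≠ 1 := fun e => h2 ((conj_pow_iff g T M hg p).2 ((pr_pow_p_iff p M hM).2 e))
    obtain ⟨α, hα⟩ := fix_inf2 M hM h3
    refine ⟨x, pr T • ptA α, ?_, fun z => ?_⟩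
    · rw [← hT]
      intro e
      exact ptI_ne α (MulAction.injective (pr T) e)
    · rw [conj_fix_iff g T M hg, hα, inv_smul_eq_iff, inv_smul_eq_iff, hT]
  chi := by
    intro x
    obtain ⟨T, hT⟩ := exists_T x
    let c : MulAction.stabilizer (PSL2 L) x →* MulAction.stabilizer (PSL2 L) (ptI L) :=
      { toFun := fun g => ⟨(pr T)⁻¹ * g.1 * pr T, by
          rw [MulAction.mem_stabilizer_iff, mul_smul, mul_smul, hT, g.2, ← hT, inv_smul_smul]⟩
        map_one' := by
          apply Subtype.ext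
          simp
        map_mul' := by
          intro a b
          apply Subtype.ext
          show (pr T)⁻¹ * (a.1 * b.1) * pr T = ((pr T)⁻¹ * a.1 * pr T) * ((pr T)⁻¹ * b.1 * pr T)
          group }
    refine ⟨(chiI.comp c).toHomUnits, fun g => ?_⟩
    obtain ⟨M, hM, hg⟩ := exists_conj' g.1 T x hT g.2
    have hc : ((c g : MulAction.stabilizer (PSL2 L) (ptI L)) : PSL2 L) = pr M := by
      show (pr T)⁻¹ * g.1 * pr T = pr M
      rw [hg]
      group
    have h1 : chiI (c g) = M.1 0 0 ^ 2 := by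
      show fval ((c g : MulAction.stabilizer (PSL2 L) (ptI L)) : PSL2 L) = _
      rw [hc, fval_pr]
    rw [conj_pow_iff g.1 T M hg, pr_pow_p_iff p M hM, ← h1, Units.ext_iff]
    rfl
  comm := by
    intro x g g' hg hg' h1 h2
    obtain ⟨T, hT⟩ := exists_T x
    obtain ⟨M, hM, hgM⟩ := exists_conj' g T x hT hg
    obtain ⟨M', hM', hgM'⟩ := exists_conj' g' T x hT hg'
    have ht := (pr_pow_p_iff p M hM).1 ((conj_pow_iff g T M hgM p).1 h1)
    have ht' := (pr_pow_p_iff p M' hM').1 ((conj_pow_iff g' T M' hgM' p).1 h2)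
    have hval : ∀ N : SL2 L, N.1 1 0 = 0 → N.1 0 0 ^ 2 = 1 → N.1 1 1 = N.1 0 0 := by
      intro N h10 h3
      have hdet := det_eq N
      rw [h10, mul_zero, sub_zero] at hdet
      have : N.1 0 0 * (N.1 1 1 - N.1 0 0) = 0 := by linear_combination hdet - h3
      have h2 : N.1 0 0 ≠ 0 := by
        intro h3
        rw [h3] at hdet
        simp at hdet
      exact sub_eq_zero.1 ((mul_eq_zero.1 this).resolve_left h2)
    have hcomm : M * M' = M' * M := by
      apply sl_ext
      · rw [mul_00, mul_00, hM, hM']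
        ring
      · rw [mul_01, mul_01, hval M hM ht, hval M' hM' ht']
        ring
      · rw [mul_10, mul_10, hM, hM']
        ring
      · rw [mul_11, mul_11, hM, hM']
        ring
    rw [hgM, hgM']
    have h3 : pr M * pr M' = pr M' * pr M := by
      rw [← pr_mul, ← pr_mul, hcomm]
    calc pr T * pr M * (pr T)⁻¹ * (pr T * pr M' * (pr T)⁻¹) = pr T * (pr M * pr M') * (pr T)⁻¹ := by group
      _ = pr T * (pr M' * pr M) * (pr T)⁻¹ := by rw [h3]
      _ = pr T * pr M' * (pr T)⁻¹ * (pr T * pr M * (pr T)⁻¹) := by group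

end CfsgLib.Dickson
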