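import Cfsg.Agent.Lib.Dickson.Triple

/-! Overgroups of `A₄`, `S₄`, `A₅` in `PSL₂`. -/

set_option autoImplicit false
set_option linter.unusedSimpArgs false
set_option linter.unusedVariables false
set_option linter.unusedSectionVars false
set_option linter.style.haveILetI false

namespace CfsgLib.Dickson

open Matrix CfsgLib.H9.SL2Cl MulAction
open CfsgLib.H9.PSL2 (pr pr_surj pr_eq_iff pr_eq_one_iff pr_zS pr_mul pr_pow pr_one)

variable {F : Type*} [Field F]

/-- Commutators of elements fixing a common point are `p`-elements. -/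
theorem comm_pow_one (p : ℕ) [Fact p.Prime] [CharP F p] (x : XF F) (g h : PSL2 F) (hg : g • x = x) (hh : h • x = x) :
    (g * h * g⁻¹ * h⁻¹) ^ p = 1 := by
  obtain ⟨φ, hφ⟩ := (isD_F (F := F) p).chi x
  let g' : stabilizer (PSL2 F) x := ⟨g, hg⟩
  let h' : stabilizer (PSL2 F) x := ⟨h, hh⟩
  have := hφ (g' * h' * g'⁻¹ * h'⁻¹)
  apply this.1
  simp only [map_mul, map_inv]
  rw [mul_comm (φ g') (φ h')]
  group

theorem odd_pow_ne {G : Type*} [Group G] (c : G) (h2 : c ^ 2 = 1) (h1 : c ≠ 1) {p : ℕ} (hp : Odd p) : c ^ p ≠ 1 := by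
  obtain ⟨k, rfl⟩ := hp
  rw [pow_succ, pow_mul, h2, one_pow, one_mul]
  exact h1

/-- The overgroups of a noncommutative subgroup with a suitable commutator. -/
theorem special_over [Finite F] (p : ℕ) [Fact p.Prime] [CharP F p] {Γ : Type*} [Group Γ] (φ : Γ →* PSL2 F)
    (hφ : Function.Injective φ) (a b u v : Γ) (ha : a ^ 2 ≠ 1) (hb : b ^ 2 ≠ 1) (hab : a * b ≠ b * a)
    (huv : (u * v * u⁻¹ * v⁻¹) ^ p ≠ 1) (H : Subgroup (PSL2 F)) (hle : φ.range ≤ H) :
    Nonempty (H ≃* alternatingGroup (Fin 4)) ∨ Nonempty (H ≃* Equiv.Perm (Fin 4)) ∨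
      Nonempty (H ≃* alternatingGroup (Fin 5)) ∨
      ∃ K : Subfield F, 3 ≤ Nat.card K ∧ (Nonempty (H ≃* PSL2 K) ∨ Nonempty (H ≃* Matrix.ProjGenLinGroup (Fin 2) K)) := by
  classical
  haveI : Finite (PSL2 F) := inferInstance
  have hm : ∀ g, φ g ∈ H := fun g => hle ⟨g, rfl⟩
  have hcomm : ∀ ρ : PSL2 F, φ a ∈ Subgroup.zpowers ρ → φ b ∈ Subgroup.zpowers ρ → False := by
    intro ρ h1 h2
    apply hab
    apply hφ
    rw [map_mul, map_mul]
    obtain ⟨i, hi⟩ := h1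
    obtain ⟨j, hj⟩ := h2
    have hi' : ρ ^ i = φ a := hi
    have hj' : ρ ^ j = φ b := hj
    rw [← hi', ← hj']
    exact ((Commute.refl ρ).zpow_zpow i j).eq
  rcases dickson p H with ⟨ρ, hρ, h1, h2⟩ | ⟨ρ, hρ, h1, h2, h3, -, -, -⟩ | ⟨x, -, hfix⟩ | ⟨-, e⟩ | ⟨-, e⟩ | ⟨-, e⟩ | ⟨K, τ, hτ, t, hK3, hmem, hK⟩
  · exfalso
    rw [h2] at hm
    exact hcomm ρ (hm a) (hm b)
  · exfalso
    have hz : ∀ c : Γ, c ^ 2 ≠ 1 → φ c ∈ Subgroup.zpowers ρ := by
      intro c hc
      by_contra hn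
      apply hc
      apply hφ
      rw [map_pow, map_one]
      exact h3 _ (hm c) hn
    exact hcomm ρ (hz a ha) (hz b hb)
  · exfalso
    apply huv
    apply hφ
    rw [map_pow, map_one]
    have := comm_pow_one p x (φ u) (φ v) (hfix _ (hm u)) (hfix _ (hm v))
    simpa using this
  · exact Or.inl e
  · exact Or.inr (Or.inl e)
  · exact Or.inr (Or.inr (Or.inl e))
  · exact Or.inr (Or.inr (Or.inr ⟨K, hK3, hK⟩))

/-- A subfield of full size forces the whole group. -/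
theorem subfield_full [Fintype F] {q : ℕ} (hF : Fintype.card F = q) (H : Subgroup (PSL2 F)) (K : Subfield F)
    (hK : Nonempty (H ≃* PSL2 K) ∨ Nonempty (H ≃* Matrix.ProjGenLinGroup (Fin 2) K)) (hc : Nat.card K = q) : H = ⊤ := by
  apply Subgroup.eq_top_of_le_card
  have hG := card_PSL2 hF
  have hd := gcd_two_pos (q - 1)
  rcases card_subfield_cases H K hK with h | h
  · rw [hc, ← hG] at h
    exact (Nat.eq_of_mul_eq_mul_right hd h).ge
  · rw [hc, ← hG] at h
    rw [h]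
    exact Nat.le_mul_of_pos_right _ hd

/-- Criterion for being a coatom. -/
theorem coatom_of {G : Type*} [Group G] (H₀ : Subgroup G) (hne : H₀ ≠ ⊤) (h : ∀ H, H₀ ≤ H → H ≠ ⊤ → H ≤ H₀) : IsCoatom H₀ := by
  refine ⟨hne, fun H hlt => ?_⟩
  by_contra hH
  exact absurd (h H hlt.le hH) (not_le_of_gt hlt)

/-- Equality from cardinalities. -/
theorem le_of_card {G : Type*} [Group G] [Finite G] (H₀ H : Subgroup G) (hle : H₀ ≤ H) (hc : Nat.card H ≤ Nat.card H₀) : H ≤ H₀ :=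
  (Subgroup.eq_of_le_of_card_ge hle hc).ge

/-- The overgroups of `A₄`. -/
theorem A4_over [Finite F] (p : ℕ) [Fact p.Prime] [CharP F p] (hp : Odd p) (φ : alternatingGroup (Fin 4) →* PSL2 F)
    (hφ : Function.Injective φ) (H : Subgroup (PSL2 F)) (hle : φ.range ≤ H) :
    Nonempty (H ≃* alternatingGroup (Fin 4)) ∨ Nonempty (H ≃* Equiv.Perm (Fin 4)) ∨
      Nonempty (H ≃* alternatingGroup (Fin 5)) ∨
      ∃ K : Subfield F, 3 ≤ Nat.card K ∧ (Nonempty (H ≃* PSL2 K) ∨ Nonempty (H ≃* Matrix.ProjGenLinGroup (Fin 2) K)) :=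
  special_over p φ hφ CfsgLib.Present.yA4 (CfsgLib.Present.xA4 * CfsgLib.Present.yA4) CfsgLib.Present.yA4 CfsgLib.Present.xA4
    (by decide +kernel) (by decide +kernel) (by decide +kernel)
    (odd_pow_ne _ (by decide +kernel) (by decide +kernel) hp) H hle

/-- The overgroups of `S₄`. -/
theorem S4_over [Finite F] (p : ℕ) [Fact p.Prime] [CharP F p] (hp : Odd p) (φ : Equiv.Perm (Fin 4) →* PSL2 F)
    (hφ : Function.Injective φ) (H : Subgroup (PSL2 F)) (hle : φ.range ≤ H) :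
    Nonempty (H ≃* alternatingGroup (Fin 4)) ∨ Nonempty (H ≃* Equiv.Perm (Fin 4)) ∨
      Nonempty (H ≃* alternatingGroup (Fin 5)) ∨
      ∃ K : Subfield F, 3 ≤ Nat.card K ∧ (Nonempty (H ≃* PSL2 K) ∨ Nonempty (H ≃* Matrix.ProjGenLinGroup (Fin 2) K)) :=
  special_over p φ hφ CfsgLib.Present.yS4 (CfsgLib.Present.xS4 * CfsgLib.Present.yS4) CfsgLib.Present.xS4 (Equiv.swap 0 2 * Equiv.swap 1 3)
    (by decide +kernel) (by decide +kernel) (by decide +kernel)
    (odd_pow_ne _ (by decide +kernel) (by decide +kernel) hp) H hle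

/-- The overgroups of `A₅`. -/
theorem A5_over [Finite F] (p : ℕ) [Fact p.Prime] [CharP F p] (hp : Odd p) (φ : alternatingGroup (Fin 5) →* PSL2 F)
    (hφ : Function.Injective φ) (H : Subgroup (PSL2 F)) (hle : φ.range ≤ H) :
    Nonempty (H ≃* alternatingGroup (Fin 4)) ∨ Nonempty (H ≃* Equiv.Perm (Fin 4)) ∨
      Nonempty (H ≃* alternatingGroup (Fin 5)) ∨
      ∃ K : Subfield F, 3 ≤ Nat.card K ∧ (Nonempty (H ≃* PSL2 K) ∨ Nonempty (H ≃* Matrix.ProjGenLinGroup (Fin 2) K)) :=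
  special_over p φ hφ CfsgLib.Present.yA5 (CfsgLib.Present.xA5 * CfsgLib.Present.yA5)
    (⟨Equiv.swap 2 3 * Equiv.swap 3 4, by
      rw [Equiv.Perm.mem_alternatingGroup, map_mul, Equiv.Perm.sign_swap (by decide), Equiv.Perm.sign_swap (by decide)]; rfl⟩) CfsgLib.Present.xA5
    (by decide +kernel) (by decide +kernel) (by decide +kernel)
    (odd_pow_ne _ (by decide +kernel) (by decide +kernel) hp) H hle

/-- The characteristic of a field of prime-power order. -/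
theorem charP_of_card [Fintype F] {p k : ℕ} (hp : p.Prime) (hk : k ≠ 0) (hF : Fintype.card F = p ^ k) : CharP F p := by
  obtain ⟨r, hr⟩ := CharP.exists F
  obtain ⟨n, hrp, hn⟩ := FiniteField.card F r
  rw [hF] at hn
  have h1 : r ∣ p ^ k := by
    rw [hn]
    exact dvd_pow_self _ n.ne_zero
  have h2 : r = p := (Nat.prime_dvd_prime_iff_eq hrp hp).1 (hrp.dvd_of_dvd_pow h1)
  rwa [h2] at hr

/-- Divisibility of the order of `PSL₂` by the order of a subgroup. -/
theorem card_dvd_num [Fintype F] {q : ℕ} (hF : Fintype.card F = q) (H : Subgroup (PSL2 F)) :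
    Nat.card H * Nat.gcd 2 (q - 1) ∣ (q + 1) * (q * (q - 1)) := by
  rw [← card_PSL2 hF]
  exact Nat.mul_dvd_mul_right (Subgroup.card_subgroup_dvd_card H) _

end CfsgLib.Dickson
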