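import Cfsg.Agent.Lib.Dickson.Over

/-! Maximality of subfield subgroups of `PSL₂`. -/

set_option autoImplicit false
set_option linter.unusedSimpArgs false
set_option linter.unusedVariables false
set_option linter.unusedSectionVars false
set_option linter.style.haveILetI false

namespace CfsgLib.Dickson

open Matrix CfsgLib.H9.SL2Cl MulAction
open CfsgLib.H9.PSL2 (pr pr_surj pr_eq_iff pr_eq_one_iff pr_zS pr_mul pr_pow pr_one)
open CfsgLib.H9.BorelChar (zS zS_00 zS_01 zS_10 zS_11 zS_central zS_sq)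

variable {F : Type*} [Field F]

theorem three_pow_mod5 (r : ℕ) (hr : r % 2 = 1) : 3 ^ r % 5 = 2 ∨ 3 ^ r % 5 = 3 := by
  have key : ∀ k, 3 ^ (2 * k + 1) % 5 = 2 ∨ 3 ^ (2 * k + 1) % 5 = 3 := by
    intro k
    induction k with
    | zero => simp
    | succ k ih =>
      have : 3 ^ (2 * (k + 1) + 1) = 3 ^ (2 * k + 1) * 9 := by ring
      rw [this]
      omega
  have h1 := key (r / 2)
  rwa [show 2 * (r / 2) + 1 = r by omega] at h1

theorem num_lt (a q : ℕ) (ha : 1 ≤ a) (h : a < q) : (a + 1) * (a * (a - 1)) < (q + 1) * (q * (q - 1)) := by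
  obtain ⟨c, rfl⟩ : ∃ c, a = c + 1 := ⟨a - 1, by omega⟩
  obtain ⟨e, rfl⟩ : ∃ e, q = e + 1 := ⟨q - 1, by omega⟩
  simp only [Nat.add_sub_cancel]
  have h1 : c < e := by omega
  calc (c + 1 + 1) * ((c + 1) * c) ≤ (e + 1 + 1) * ((e + 1) * c) := by gcongr
    _ < (e + 1 + 1) * ((e + 1) * e) := by
      apply Nat.mul_lt_mul_of_pos_left _ (by omega)
      exact Nat.mul_lt_mul_of_pos_left h1 (by omega)

/-- The subfield elements lie in the image. -/
theorem U_mem_range (K : Subfield F) (κ : F) (hκ : κ ∈ K) : pr (U κ) ∈ (thetaP K 1 one_ne_zero).range := by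
  refine ⟨pr (U (⟨κ, hκ⟩ : K)), ?_⟩
  rw [thetaP_pr, theta1_U]

theorem L_mem_range (K : Subfield F) (κ : F) (hκ : κ ∈ K) : pr (L κ) ∈ (thetaP K 1 one_ne_zero).range := by
  refine ⟨pr (L (⟨κ, hκ⟩ : K)), ?_⟩
  rw [thetaP_pr, theta1_L]

/-- `PSL₂` of a subfield of prime index is maximal. -/
theorem psl_sub_coatom [Fintype F] (p : ℕ) [Fact p.Prime] [CharP F p] (K₀ : Subfield F) (r : ℕ) (hr : r.Prime) (a : ℕ)
    (hK₀ : Nat.card K₀ = a) (ha3 : 3 ≤ a) (hF : Fintype.card F = a ^ r) (hpar : a % 2 = 1 → r % 2 = 1) :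
    IsCoatom (thetaP K₀ 1 one_ne_zero).range := by
  classical
  have hpp : p.Prime := Fact.out
  set q := a ^ r with hq
  have hr2 := hr.two_le
  have hqa : a ^ 2 ≤ q := Nat.pow_le_pow_right (by omega) hr2
  have haq : a < q := by nlinarith
  have hinj := thetaP_inj K₀ 1 one_ne_zero
  set H₀ := (thetaP K₀ 1 one_ne_zero).range with hH₀
  have hc0 : Nat.card H₀ = Nat.card (PSL2 K₀) := (Nat.card_congr (MonoidHom.ofInjective hinj).toEquiv).symm
  have hPK := card_PSL2_nat K₀
  rw [hK₀] at hPK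
  have hG := card_PSL2 hF
  have hodd_iff : a % 2 = q % 2 := by
    rw [hq, Nat.pow_mod]
    have h2 : a % 2 = 0 ∨ a % 2 = 1 := by omega
    rcases h2 with h2 | h2 <;> rw [h2] <;> simp [hr.ne_zero]
  have hd : Nat.gcd 2 (a - 1) = Nat.gcd 2 (q - 1) := by
    have h2 : a % 2 = 0 ∨ a % 2 = 1 := by omega
    rcases h2 with h2 | h2
    · rw [gcd_two_of_even a h2 (by omega), gcd_two_of_even q (by omega) (by omega)]
    · rw [gcd_two_of_odd a h2, gcd_two_of_odd q (by omega)]
  have hd0 := gcd_two_pos (a - 1)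
  apply coatom_of
  · intro e
    have h1 : Nat.card (PSL2 K₀) = Nat.card (PSL2 F) := by
      rw [← hc0, e, Subgroup.card_top]
    rw [h1, hd, hG] at hPK
    have := num_lt a q (by omega) haq
    omega
  · intro H hle hH
    have hU : ∀ κ ∈ K₀, pr (U κ) ∈ H := fun κ hκ => hle (U_mem_range K₀ κ hκ)
    have hL : pr (L (1 : F)) ∈ H := hle (L_mem_range K₀ 1 K₀.one_mem)
    have hdvd : Nat.card H₀ ∣ Nat.card H := Subgroup.card_dvd_of_le hle
    rw [hc0] at hdvd
    rcases subfield_over p H K₀ hU hL (by omega) with ⟨hp3, e⟩ | ⟨K₁, hK1, hK⟩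
    · exfalso
      subst hp3
      rw [Nat.card_congr e.some.toEquiv, card_A5'] at hdvd
      obtain ⟨n, -, hn⟩ := FiniteField.card F 3
      rw [hF] at hn
      have hq3 : q = 3 ^ (n : ℕ) := hn
      have haodd : a % 2 = 1 := by
        have : Odd q := by
          rw [hq3]
          exact Odd.pow (by decide)
        have := Nat.odd_iff.1 this
        omega
      have hrodd := hpar haodd
      have hle60 : Nat.card (PSL2 K₀) ≤ 60 := Nat.le_of_dvd (by norm_num) hdvd
      rw [gcd_two_of_odd a haodd] at hPK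
      have hadv : a ∣ 3 ^ (n : ℕ) := by
        rw [← hq3, hq]
        exact dvd_pow_self _ hr.ne_zero
      obtain ⟨j, -, hj⟩ := (Nat.dvd_prime_pow Nat.prime_three).1 hadv
      have ha3' : a = 3 := by
        rcases j with _ | _ | j
        · simp at hj
          omega
        · simpa using hj
        · exfalso
          have h9 : 9 ≤ a := by
            rw [hj, pow_succ, pow_succ]
            have : 1 ≤ 3 ^ j := Nat.one_le_pow _ _ (by norm_num)
            omega
          have : 10 * (9 * 8) ≤ (a + 1) * (a * (a - 1)) := Nat.mul_le_mul (by omega) (Nat.mul_le_mul h9 (by omega))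
          omega
      have hnum := card_dvd_num (rfl : Fintype.card F = Fintype.card F) H
      rw [Nat.card_congr e.some.toEquiv, card_A5', hF] at hnum
      have h5 : 5 ∣ (q + 1) * (q * (q - 1)) := Dvd.dvd.trans (Dvd.dvd.trans (by norm_num) (Dvd.intro _ rfl)) hnum
      have hm := three_pow_mod5 r hrodd
      rw [← ha3', ← hq] at hm
      have hp5 : Nat.Prime 5 := by norm_num
      rcases (Nat.Prime.dvd_mul hp5).1 h5 with h6 | h6
      · omega
      · rcases (Nat.Prime.dvd_mul hp5).1 h6 with h6 | h6 <;> omega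
    · obtain ⟨s, hs⟩ := exists_degree_le K₀ K₁ hK1
      obtain ⟨t, ht⟩ := exists_degree K₁
      rw [hF, ← hs, hK₀, ← pow_mul] at ht
      have hst : s * t = r := Nat.pow_right_injective (by omega) ht
      rcases (Nat.dvd_prime hr).1 (Dvd.intro _ hst) with hs1 | hs1
      · subst hs1
        rw [one_mul] at hst
        subst hst
        rw [pow_one, hK₀] at hs
        apply le_of_card _ _ hle
        rw [hc0]
        rcases card_subfield_cases H K₁ hK with h7 | h7
        · rw [← hs] at h7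
          rw [← hPK] at h7
          exact (Nat.eq_of_mul_eq_mul_right hd0 h7).le
        · rw [← hs, ← hPK] at h7
          have h2 : a % 2 = 0 ∨ a % 2 = 1 := by omega
          rcases h2 with h2 | h2
          · rw [gcd_two_of_even a h2 (by omega), mul_one] at h7
            exact h7.le
          · exfalso
            have hnum := card_dvd_num (rfl : Fintype.card F = Fintype.card F) H
            have h8 : Nat.card H = (a + 1) * (a * (a - 1)) := h7.trans hPK
            rw [h8, hF, gcd_two_of_odd q (by omega)] at hnum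
            exact pgl_parity a t h2 ha3 (hpar h2) hnum
      · exfalso
        apply hH
        have ht1 : t = 1 := by
          have : s * t = s * 1 := by rw [hst, hs1, mul_one]
          exact Nat.eq_of_mul_eq_mul_left (by rw [hs1]; exact hr.pos) this
        rw [hs1, hK₀] at hs
        exact subfield_full hF H K₁ hK (by rw [← hs])

/-- `PGL₂` of a subfield sits inside `PSL₂`, once the subfield consists of squares. -/
theorem exists_pgl_sub [Finite F] (K₀ : Subfield F) (hsq : ∀ ν : F, ν ∈ K₀ → ν ≠ 0 → ∃ t : F, t ^ 2 = ν) :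
    ∃ J : Subgroup (PSL2 F), Nonempty (J ≃* Matrix.ProjGenLinGroup (Fin 2) K₀) ∧ ∀ g : SL2 K₀, pr (theta K₀ 1 one_ne_zero g) ∈ J := by
  classical
  have h1 : (1 : F) ≠ 0 := one_ne_zero
  have hr := psi_range ⊤ K₀ 1 h1 (fun _ => trivial) (by
    intro ν hν hν0
    obtain ⟨t, ht⟩ := hsq ν hν hν0
    have ht0 : t ≠ 0 := by
      rintro rfl
      apply hν0
      rw [← ht]
      ring
    exact ⟨t, ht0, ht, trivial⟩)
  have hJ := ProjectiveSpecialLinearGroup.toPGL_injective (n := Fin 2) (R := F)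
  have hr' : (psiP K₀ 1 h1).range ≤ (ProjectiveSpecialLinearGroup.toPGL (n := Fin 2) (R := F)).range := by
    intro x hx
    obtain ⟨y, -, rfl⟩ := hr hx
    exact ⟨y, rfl⟩
  let J : Subgroup (PSL2 F) := (psiP K₀ 1 h1).range.comap (ProjectiveSpecialLinearGroup.toPGL (n := Fin 2) (R := F))
  have hmap : J.map (ProjectiveSpecialLinearGroup.toPGL (n := Fin 2) (R := F)) = (psiP K₀ 1 h1).range :=
    Subgroup.map_comap_eq_self hr'
  refine ⟨J, ⟨(Subgroup.equivMapOfInjective J _ hJ).trans
    ((MulEquiv.subgroupCongr hmap).trans (MonoidHom.ofInjective (psiP_inj K₀ 1 h1)).symm)⟩, ?_⟩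
  intro g
  show ProjectiveSpecialLinearGroup.toPGL (pr (theta K₀ 1 h1 g)) ∈ (psiP K₀ 1 h1).range
  refine ⟨Matrix.ProjGenLinGroup.mk (SpecialLinearGroup.toGL g), ?_⟩
  have e1 : psiP K₀ 1 h1 (Matrix.ProjGenLinGroup.mk (SpecialLinearGroup.toGL g)) =
      Matrix.ProjGenLinGroup.mk (Dτ 1 h1) * Matrix.ProjGenLinGroup.mk (Matrix.GeneralLinearGroup.map K₀.subtype (SpecialLinearGroup.toGL g)) * (Matrix.ProjGenLinGroup.mk (Dτ 1 h1))⁻¹ := rfl
  have e2 : Dτ (1 : F) h1 = 1 := by
    apply Units.ext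
    ext i j
    fin_cases i <;> fin_cases j <;> simp [Dτ]
  rw [e1, e2, map_one, one_mul, inv_one, mul_one]
  show _ = Matrix.ProjGenLinGroup.mk (SpecialLinearGroup.toGL (theta K₀ 1 h1 g))
  congr 1
  apply Units.ext
  ext i j
  fin_cases i <;> fin_cases j <;> simp [theta_00, theta_01, theta_10, theta_11] <;> rfl

/-- Elements of a subfield of even index are squares. -/
theorem squares_of_even [Fintype F] (K₀ : Subfield F) (a k : ℕ) (hK₀ : Nat.card K₀ = a) (ha : a % 2 = 1)
    (hF : Fintype.card F = a ^ (2 * k)) (h2 : (2 : F) ≠ 0) (ν : F) (hν : ν ∈ K₀) (hν0 : ν ≠ 0) : ∃ t : F, t ^ 2 = ν := by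
  classical
  haveI : Fintype K₀ := Fintype.ofFinite K₀
  have hK : Fintype.card K₀ = a := by rw [← Nat.card_eq_fintype_card, hK₀]
  have hchar : ringChar F ≠ 2 := by
    intro e
    apply h2
    have := ringChar.Nat.cast_ringChar (R := F)
    rw [e] at this
    exact_mod_cast this
  have hpow : ν ^ (a - 1) = 1 := by
    have h0 : (⟨ν, hν⟩ : K₀) ≠ 0 := fun e => hν0 (congrArg Subtype.val e)
    have := FiniteField.pow_card_sub_one_eq_one _ h0
    rw [hK] at this
    simpa using congrArg Subtype.val this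
  have hdiv : ∃ c, Fintype.card F / 2 = (a - 1) * c := by
    obtain ⟨b, hb⟩ : ∃ b, a + 1 = 2 * b := ⟨(a + 1) / 2, by omega⟩
    have hgeo := geom_sum_mul_add (a ^ 2 - 1) k
    have hb1 : a ^ 2 - 1 + 1 = a ^ 2 := Nat.sub_add_cancel (Nat.one_le_pow _ _ (by omega))
    rw [hb1] at hgeo
    set S := ∑ i ∈ Finset.range k, (a ^ 2) ^ i with hS
    have h3 : a ^ 2 - 1 = (a - 1) * (a + 1) := by
      obtain ⟨t, rfl⟩ : ∃ t, a = t + 1 := ⟨a - 1, by omega⟩
      simp only [Nat.add_sub_cancel]
      have : (t + 1) ^ 2 = t * (t + 1 + 1) + 1 := by ring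
      omega
    refine ⟨b * S, ?_⟩
    rw [hF, pow_mul, ← hgeo, h3, hb]
    have : S * ((a - 1) * (2 * b)) + 1 = 2 * ((a - 1) * (b * S)) + 1 := by ring
    rw [this]
    omega
  obtain ⟨c, hc⟩ := hdiv
  have := (FiniteField.isSquare_iff hchar hν0).2 (by rw [hc, pow_mul, hpow, one_pow])
  obtain ⟨t, ht⟩ := this
  exact ⟨t, by rw [ht]; ring⟩

/-- `PGL₂` of the subfield of index two is maximal. -/
theorem pgl_sub_coatom [Fintype F] (p : ℕ) [Fact p.Prime] [CharP F p] (K₀ : Subfield F) (a : ℕ)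
    (hK₀ : Nat.card K₀ = a) (ha : a % 2 = 1) (ha3 : 3 ≤ a) (hF : Fintype.card F = a ^ 2) (h2 : (2 : F) ≠ 0) :
    ∃ J : Subgroup (PSL2 F), IsCoatom J ∧ Nonempty (J ≃* Matrix.ProjGenLinGroup (Fin 2) K₀) := by
  classical
  obtain ⟨J, hJe, hJm⟩ := exists_pgl_sub K₀ (squares_of_even K₀ a 1 hK₀ ha (by rw [hF]) h2)
  refine ⟨J, ?_, hJe⟩
  have hc0 : Nat.card J = (a + 1) * (a * (a - 1)) := by
    rw [Nat.card_congr hJe.some.toEquiv, card_PGL2_nat, hK₀]
  set q := a ^ 2 with hq
  have hG := card_PSL2 hF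
  have hqodd : q % 2 = 1 := by
    rw [hq, Nat.pow_mod, ha]
  rw [gcd_two_of_odd q hqodd] at hG
  apply coatom_of
  · intro e
    rw [e, Subgroup.card_top] at hc0
    rw [hc0] at hG
    have h1 : (q + 1) * (q * (q - 1)) = a * (a ^ 2 + 1) * ((a + 1) * (a * (a - 1))) := by
      obtain ⟨t, ht⟩ : ∃ t, a = t + 1 := ⟨a - 1, by omega⟩
      have h3 : q - 1 = (t + 1 + 1) * t := by
        rw [hq, ht]
        have : (t + 1) ^ 2 = (t + 1 + 1) * t + 1 := by ring
        omega
      rw [h3, hq, ht]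
      simp only [Nat.add_sub_cancel]
      ring
    rw [h1] at hG
    have h4 : 0 < (a + 1) * (a * (a - 1)) := Nat.mul_pos (by omega) (Nat.mul_pos (by omega) (by omega))
    have h5 : 2 = a * (a ^ 2 + 1) := by
      apply Nat.eq_of_mul_eq_mul_right h4
      rw [← hG]
      ring
    have : 3 * 1 ≤ a * (a ^ 2 + 1) := Nat.mul_le_mul ha3 (by omega)
    omega
  · intro H hle hH
    have hU : ∀ κ ∈ K₀, pr (U κ) ∈ H := by
      intro κ hκ
      apply hle
      have := hJm (U (⟨κ, hκ⟩ : K₀))
      rwa [theta1_U] at this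
    have hL : pr (L (1 : F)) ∈ H := by
      apply hle
      have := hJm (L (⟨1, K₀.one_mem⟩ : K₀))
      rwa [theta1_L] at this
    have hdvd : Nat.card J ∣ Nat.card H := Subgroup.card_dvd_of_le hle
    rw [hc0] at hdvd
    rcases subfield_over p H K₀ hU hL (by omega) with ⟨hp3, e⟩ | ⟨K₁, hK1, hK⟩
    · exfalso
      rw [Nat.card_congr e.some.toEquiv, card_A5'] at hdvd
      have h3 : (a + 1) * (a * (a - 1)) ≤ 60 := Nat.le_of_dvd (by norm_num) hdvd
      have h4 : a < 5 := by
        by_contra hh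
        push Not at hh
        have : 6 * (5 * 4) ≤ (a + 1) * (a * (a - 1)) := Nat.mul_le_mul (by omega) (Nat.mul_le_mul hh (by omega))
        omega
      have h5 : a = 3 := by omega
      subst h5
      omega
    · obtain ⟨s, hs⟩ := exists_degree_le K₀ K₁ hK1
      obtain ⟨t, ht⟩ := exists_degree K₁
      rw [hF, ← hs, hK₀, ← pow_mul] at ht
      have hst : s * t = 2 := Nat.pow_right_injective (by omega) ht
      rcases (Nat.dvd_prime Nat.prime_two).1 (Dvd.intro _ hst) with hs1 | hs1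
      · rw [hs1, pow_one, hK₀] at hs
        apply le_of_card _ _ hle
        rw [hc0]
        rcases card_subfield_cases H K₁ hK with h7 | h7
        · rw [← hs] at h7
          rw [← h7]
          exact Nat.le_mul_of_pos_right _ (gcd_two_pos _)
        · rw [← hs] at h7
          exact h7.le
      · exfalso
        apply hH
        have ht1 : t = 1 := by
          rw [hs1] at hst
          omega
        rw [hs1, hK₀] at hs
        exact subfield_full hF H K₁ hK (by rw [← hs])

end CfsgLib.Dickson
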