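import Cfsg.Agent.Lib.Dickson.Main
import Cfsg.Agent.Lib.H9.PSL2Class

/-! Tori and their normalisers in `PSL₂` over a finite field. -/

set_option autoImplicit false
set_option linter.unusedSimpArgs false
set_option linter.unusedVariables false
set_option linter.unusedSectionVars false
set_option linter.style.haveILetI false

namespace CfsgLib.Dickson

open Matrix CfsgLib.H9.SL2Cl MulAction
open CfsgLib.H9.PSL2 (pr pr_surj pr_eq_iff pr_eq_one_iff pr_zS pr_mul pr_pow pr_one)
open CfsgLib.H9.BorelChar (zS zS_00 zS_01 zS_10 zS_11 zS_central zS_sq)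

section L2

variable {L : Type*} [Field L]

/-- Two-transitivity on the projective line. -/
theorem exists_T_pair_L {x y : PL L} (hxy : x ≠ y) : ∃ T : SL2 L, pr T • ptI L = x ∧ pr T • ptA (0 : L) = y := by
  rcases pt_cases x with rfl | ⟨α, rfl⟩
  · rcases pt_cases y with rfl | ⟨β, rfl⟩
    · exact absurd rfl hxy
    · refine ⟨U β, (fix_inf_iff _).2 (by simp [U]), ?_⟩
      apply smul_ptA_eq
      · simp [U]
      · simp [U]
  · rcases pt_cases y with rfl | ⟨β, rfl⟩
    · refine ⟨mk α (-1) 1 0 (by ring), ?_, ?_⟩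
      · rw [smul_ptI_iff]
        simp
      · rw [smul_ptA_inf_iff]
        simp
    · have hne : α - β ≠ 0 := by
        intro e
        apply hxy
        rw [sub_eq_zero.1 e]
      refine ⟨mk α (β / (α - β)) 1 (1 / (α - β)) (by field_simp), ?_, ?_⟩
      · rw [smul_ptI_iff]
        simp
      · apply smul_ptA_eq
        · simp [hne]
        · simp
          field_simp

/-- An element swapping two points is an involution. -/
theorem swap_inv (g : PSL2 L) {x y : PL L} (hxy : x ≠ y) (h1 : g • x = y) (h2 : g • y = x) : g ^ 2 = 1 := by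
  obtain ⟨T, hT1, hT2⟩ := exists_T_pair_L hxy
  obtain ⟨M, hM⟩ := pr_surj ((pr T)⁻¹ * g * pr T)
  have h3 : pr M • ptI L = ptA (0 : L) := by
    rw [hM, mul_smul, mul_smul, hT1, h1, ← hT2, inv_smul_smul]
  have h4 : pr M • ptA (0 : L) = ptI L := by
    rw [hM, mul_smul, mul_smul, hT2, h2, ← hT1, inv_smul_smul]
  rw [smul_ptI_iff] at h3
  rw [smul_ptA_inf_iff] at h4
  have h00 : M.1 0 0 = 0 := by simpa using h3
  have h11 : M.1 1 1 = 0 := by simpa using h4
  have hdet := det_eq M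
  rw [h00, zero_mul, zero_sub] at hdet
  have hM2 : pr M ^ 2 = 1 := by
    rw [← pr_pow, pr_eq_one_iff]
    right
    rw [pow_two]
    apply sl_ext
    · rw [mul_00, h00]
      simp
      linear_combination (-1 : L) * hdet
    · rw [mul_01, h00, h11]
      simp
    · rw [mul_10, h00, h11]
      simp
    · rw [mul_11, h11]
      simp
      linear_combination (-1 : L) * hdet
  have h5 : g = pr T * pr M * (pr T)⁻¹ := by
    rw [hM]
    group
  rw [h5, conj_pow, hM2]
  group

end L2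

variable {F : Type*} [Field F]

theorem swap_inv_F (g : PSL2 F) {x y : XF F} (hxy : x ≠ y) (h1 : g • x = y) (h2 : g • y = x) : g ^ 2 = 1 := by
  apply toPL_inj (emb F)
  rw [map_pow, map_one]
  exact swap_inv _ hxy h1 h2

/-- The stabiliser of a pair of points. -/
noncomputable def pairStab (x y : XF F) : Subgroup (PSL2 F) where
  carrier := {g | (g • x = x ∧ g • y = y) ∨ (g • x = y ∧ g • y = x)}
  one_mem' := Or.inl ⟨one_smul _ _, one_smul _ _⟩
  mul_mem' := by
    rintro a b (⟨h1, h2⟩ | ⟨h1, h2⟩) (⟨h3, h4⟩ | ⟨h3, h4⟩)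
    · exact Or.inl ⟨by rw [mul_smul, h3, h1], by rw [mul_smul, h4, h2]⟩
    · exact Or.inr ⟨by rw [mul_smul, h3, h2], by rw [mul_smul, h4, h1]⟩
    · exact Or.inr ⟨by rw [mul_smul, h3, h1], by rw [mul_smul, h4, h2]⟩
    · exact Or.inl ⟨by rw [mul_smul, h3, h2], by rw [mul_smul, h4, h1]⟩
  inv_mem' := by
    rintro a (⟨h1, h2⟩ | ⟨h1, h2⟩)
    · exact Or.inl ⟨by rw [inv_smul_eq_iff, h1], by rw [inv_smul_eq_iff, h2]⟩
    · exact Or.inr ⟨by rw [inv_smul_eq_iff, h2], by rw [inv_smul_eq_iff, h1]⟩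

theorem mem_pairStab {x y : XF F} {g : PSL2 F} : g ∈ pairStab x y ↔ (g • x = x ∧ g • y = y) ∨ (g • x = y ∧ g • y = x) := Iff.rfl

/-- The pointwise stabiliser of two points. -/
noncomputable def ptStab (x y : XF F) : Subgroup (PSL2 F) := stabilizer (PSL2 F) x ⊓ stabilizer (PSL2 F) y

theorem mem_ptStab {x y : XF F} {g : PSL2 F} : g ∈ ptStab x y ↔ g • x = x ∧ g • y = y := Iff.rfl

section main

variable (p : ℕ) [Fact p.Prime] [CharP F p] [Finite F] [Finite (PSL2 F)]

include p in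
theorem ptStab_no_p {x y : XF F} (hxy : x ≠ y) {g : PSL2 F} (hg : g ∈ ptStab x y) (h1 : g ≠ 1) : g ^ p ≠ 1 := by
  intro e
  obtain ⟨z, hz⟩ := (isD_F (F := F) p).fix1 g h1 e
  exact hxy (((hz x).1 hg.1).trans ((hz y).1 hg.2).symm)

include p in
/-- The pointwise stabiliser is cyclic. -/
theorem ptStab_gen {x y : XF F} (hxy : x ≠ y) : ∃ ρ : PSL2 F, Subgroup.zpowers ρ = ptStab x y := by
  have h₀ := isD_F (F := F) p
  obtain ⟨φ, hφ⟩ := h₀.chi x
  let i : ptStab x y →* stabilizer (PSL2 F) x :=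
    { toFun := fun g => ⟨g.1, g.2.1⟩
      map_one' := rfl
      map_mul' := fun _ _ => rfl }
  haveI : IsCyclic (ptStab x y) := by
    apply isCyclic_of_subgroup_isDomain ((Units.coeHom (AC F)).comp (φ.comp i))
    rw [injective_iff_map_eq_one]
    intro g hg
    have h1 : φ (i g) = 1 := by
      apply Units.ext
      exact hg
    have h2 := (hφ (i g)).1 h1
    by_contra hne
    exact ptStab_no_p p hxy g.2 (fun e => hne (Subtype.ext e)) h2
  obtain ⟨ρ, hρ⟩ := IsCyclic.exists_generator (α := ptStab x y)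
  refine ⟨ρ, ?_⟩
  apply le_antisymm
  · rw [Subgroup.zpowers_le]
    exact ρ.2
  · intro g hg
    obtain ⟨k, hk⟩ := hρ ⟨g, hg⟩
    refine ⟨k, ?_⟩
    have := congrArg Subtype.val hk
    simpa using this

/-- The normaliser of a torus is dihedral. -/
theorem pair_main {x y : XF F} (hxy : x ≠ y) (w : PSL2 F) (hw1 : w • x = y) (hw2 : w • y = x)
    (ρ : PSL2 F) (hρ : Subgroup.zpowers ρ = ptStab x y) :
    Nat.card (pairStab x y) = 2 * orderOf ρ ∧ Nonempty (DihedralGroup (orderOf ρ) ≃* pairStab x y) := by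
  set H := pairStab x y with hH
  have hρH : ρ ∈ H := by
    have : ρ ∈ ptStab x y := by
      rw [← hρ]
      exact Subgroup.mem_zpowers ρ
    exact Or.inl this
  have hwH : w ∈ H := Or.inr ⟨hw1, hw2⟩
  let ρ₁ : H := ⟨ρ, hρH⟩
  have hz : ∀ g : H, g ∈ Subgroup.zpowers ρ₁ ↔ (g : PSL2 F) ∈ ptStab x y := by
    intro g
    rw [← hρ]
    simp only [Subgroup.mem_zpowers_iff]
    constructor
    · rintro ⟨k, rfl⟩
      exact ⟨k, by simp [ρ₁]⟩
    · rintro ⟨k, hk⟩
      refine ⟨k, Subtype.ext ?_⟩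
      simpa [ρ₁] using hk
  have hidx : (Subgroup.zpowers ρ₁).index = 2 := by
    rw [Subgroup.index_eq_two_iff]
    refine ⟨⟨w, hwH⟩, ?_⟩
    intro b
    rw [hz, hz]
    rcases b.2 with ⟨h1, h2⟩ | ⟨h1, h2⟩
    · right
      refine ⟨⟨h1, h2⟩, ?_⟩
      rintro ⟨h3, -⟩
      have h4 : (b : PSL2 F) • (w • x) = x := by
        have := h3
        simpa [mul_smul] using this
      rw [hw1, h2] at h4
      exact hxy h4.symm
    · left
      refine ⟨⟨?_, ?_⟩, ?_⟩
      · show ((b : PSL2 F) * w) • x = x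
        rw [mul_smul, hw1, h2]
      · show ((b : PSL2 F) * w) • y = y
        rw [mul_smul, hw2, h1]
      · rintro ⟨h3, -⟩
        exact hxy (h3.symm.trans h1)
  have hout : ∀ g : H, g ∉ Subgroup.zpowers ρ₁ → g ^ 2 = 1 := by
    intro g hg
    rw [hz] at hg
    rcases g.2 with ⟨h1, h2⟩ | ⟨h1, h2⟩
    · exact absurd ⟨h1, h2⟩ hg
    · apply Subtype.ext
      exact swap_inv_F (g : PSL2 F) hxy h1 h2
  have hord : orderOf ρ₁ = orderOf ρ := Subgroup.orderOf_mk ρ hρH
  constructor
  · have h6 := (Subgroup.zpowers ρ₁).card_mul_index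
    rw [hidx, Nat.card_zpowers, hord] at h6
    rw [← h6, mul_comm]
  · have := dihedral_of ρ₁ hidx hout
    rwa [hord] at this

end main

section fin

variable [Fintype F] {q : ℕ} (hF : Fintype.card F = q)

include hF in
theorem card_PSL2 : Nat.card (PSL2 F) * Nat.gcd 2 (q - 1) = (q + 1) * (q * (q - 1)) := by
  rw [← CfsgLib.ClassGeo.card_PSL_mul hF 2 (by norm_num)]
  exact card_SL2_field F q (by rw [Nat.card_eq_fintype_card, hF])

theorem isRat_ptA (α : F) : IsRat (ptA (emb F α)) := Or.inr ⟨α, rfl⟩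

theorem isRat_ptI : IsRat (ptI (AC F)) := Or.inl rfl

theorem isRat_pt0 : IsRat (pt0 F) := Or.inr ⟨0, rfl⟩

theorem isRat_smul (T : SL2 F) {x : XF F} (hx : IsRat x) : IsRat (pr T • x) := by
  rcases hx with rfl | ⟨α, rfl⟩
  · by_cases h : T.1 1 0 = 0
    · left
      exact (fix_inf_F T).2 h
    · right
      refine ⟨T.1 0 0 / T.1 1 0, ?_⟩
      rw [pr_smul_XF, smul_ptI_iff]
      show emb F (T.1 0 0) = emb F (T.1 0 0 / T.1 1 0) * emb F (T.1 1 0)
      rw [← map_mul, div_mul_cancel₀ _ h]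
  · by_cases h : T.1 1 0 * α + T.1 1 1 = 0
    · left
      rw [pr_smul_XF, smul_ptA_inf_iff]
      show emb F (T.1 1 0) * emb F α + emb F (T.1 1 1) = 0
      rw [← map_mul, ← map_add, h, map_zero]
    · right
      refine ⟨(T.1 0 0 * α + T.1 0 1) / (T.1 1 0 * α + T.1 1 1), ?_⟩
      rw [pr_smul_XF]
      apply smul_ptA_eq
      · show emb F (T.1 1 0) * emb F α + emb F (T.1 1 1) ≠ 0
        rw [← map_mul, ← map_add]
        exact (map_ne_zero _).2 h
      · show emb F (T.1 0 0) * emb F α + emb F (T.1 0 1) = emb F ((T.1 0 0 * α + T.1 0 1) / (T.1 1 0 * α + T.1 1 1)) * (emb F (T.1 1 0) * emb F α + emb F (T.1 1 1))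
        simp only [← map_mul, ← map_add]
        rw [div_mul_cancel₀ _ h]

theorem exists_T_rat {x : XF F} (hx : IsRat x) : ∃ T : SL2 F, pr T • ptI (AC F) = x := by
  rcases hx with rfl | ⟨α, rfl⟩
  · exact ⟨1, by simp [pr_one]⟩
  · refine ⟨mk α (-1) 1 0 (by ring), ?_⟩
    rw [pr_smul_XF, smul_ptI_iff]
    show emb F α = emb F α * emb F 1
    simp

variable (p : ℕ) [Fact p.Prime] [CharP F p]

/-- A second fixed point of a rational element at a rational point is rational. -/
theorem rat_second (g : PSL2 F) (h1 : g ≠ 1) {x y : XF F} (hx : IsRat x) (hxy : x ≠ y) (h2 : g • x = x) (h3 : g • y = y) : IsRat y := by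
  obtain ⟨T, hT⟩ := exists_T_rat hx
  obtain ⟨M, hM⟩ := pr_surj ((pr T)⁻¹ * g * pr T)
  have hfix : pr M • ptI (AC F) = ptI (AC F) := by
    rw [hM, mul_smul, mul_smul, hT, h2, ← hT, inv_smul_smul]
  have h10 : M.1 1 0 = 0 := (fix_inf_F M).1 hfix
  have hy' : pr M • ((pr T)⁻¹ • y) = (pr T)⁻¹ • y := by
    rw [hM, mul_smul, mul_smul, smul_inv_smul, h3]
  have hne : (pr T)⁻¹ • y ≠ ptI (AC F) := by
    intro e
    apply hxy
    rw [← hT, ← e, smul_inv_smul]
  rcases pt_cases ((pr T)⁻¹ • y) with e | ⟨β, e⟩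
  · exact absurd e hne
  · rw [e, pr_smul_XF, fix_ptA_iff] at hy'
    have h4 : emb F (M.1 0 0) * β + emb F (M.1 0 1) = β * (emb F (M.1 1 0) * β + emb F (M.1 1 1)) := hy'
    rw [h10, map_zero, zero_mul, zero_add] at h4
    have hg : g = pr T * pr M * (pr T)⁻¹ := by
      rw [hM]
      group
    have h5 : M.1 1 1 - M.1 0 0 ≠ 0 := by
      intro e5
      have e6 : M.1 1 1 = M.1 0 0 := sub_eq_zero.1 e5
      rw [e6] at h4
      have e7 : emb F (M.1 0 1) = 0 := by linear_combination h4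
      have e8 : M.1 0 1 = 0 := (map_eq_zero _).1 e7
      apply h1
      rw [hg, pr_eq_one_of_scalar M h10 e8 e6.symm]
      group
    have h6 : β = emb F (M.1 0 1 / (M.1 1 1 - M.1 0 0)) := by
      rw [map_div₀, map_sub, eq_div_iff (by
        rw [← map_sub]
        exact (map_ne_zero _).2 h5)]
      linear_combination -h4
    have h7 : y = pr T • ptA β := by
      rw [← e, smul_inv_smul]
    rw [h7, h6]
    exact isRat_smul T (isRat_ptA _)

include p in
theorem pr_U_ne_one {α : F} (hα : α ≠ 0) : pr (U α) ≠ 1 := by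
  intro e
  have h1 : pr (U α) = pr (U (0 : F)) := by
    rw [e, U_zero]
    rfl
  exact hα (pr_U_inj h1)

theorem Qs_ptI_ne : Qs (isD_F (F := F) p) (ptI (AC F)) ≠ ⊥ := by
  intro e
  have : pr (U (1 : F)) ∈ Qs (isD_F (F := F) p) (ptI (AC F)) := ⟨U_fix_inf 1, U_pow p 1⟩
  rw [e, Subgroup.mem_bot] at this
  exact pr_U_ne_one p one_ne_zero this

theorem Qs_iff (x : XF F) : Qs (isD_F (F := F) p) x ≠ ⊥ ↔ IsRat x := by
  have h₀ := isD_F (F := F) p
  constructor
  · intro hQ
    obtain ⟨g, hg, hg1⟩ := (Subgroup.bot_or_exists_ne_one _).resolve_left hQ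
    exact rat_fix p g hg1 hg.2 x hg.1
  · intro hx
    obtain ⟨T, rfl⟩ := exists_T_rat hx
    intro e
    have h1 := ((isD_F (F := F) p).card_Qs_smul (pr T) (ptI (AC F)))
    rw [e, Subgroup.card_bot] at h1
    exact Qs_ptI_ne p (Subgroup.eq_bot_of_card_eq _ h1.symm)

theorem orbit_ptI : orbit (PSL2 F) (ptI (AC F)) = {x | IsRat x} := by
  ext x
  constructor
  · rintro ⟨g, rfl⟩
    obtain ⟨T, rfl⟩ := pr_surj g
    exact isRat_smul T isRat_ptI
  · intro hx
    obtain ⟨T, hT⟩ := exists_T_rat hx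
    exact ⟨pr T, hT⟩

include hF in
theorem card_rat : {x : XF F | IsRat x}.ncard = q + 1 := by
  classical
  let f : Option F → XF F := fun o => o.elim (ptI (AC F)) (fun α => ptA (emb F α))
  have hf : Function.Injective f := by
    rintro (_ | a) (_ | b) hab
    · rfl
    · exact absurd hab (ptI_ne _)
    · exact absurd hab.symm (ptI_ne _)
    · have : ptA (emb F a) = ptA (emb F b) := hab
      rw [ptA_inj] at this
      rw [(emb F).injective this]
  have hr : {x : XF F | IsRat x} = f '' Set.univ := by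
    ext x
    constructor
    · rintro (rfl | ⟨α, rfl⟩)
      · exact ⟨none, trivial, rfl⟩
      · exact ⟨some α, trivial, rfl⟩
    · rintro ⟨(_ | a), -, rfl⟩
      · exact isRat_ptI
      · exact isRat_ptA a
  rw [hr, Set.ncard_image_of_injective _ hf, Set.ncard_univ, Nat.card_eq_fintype_card, Fintype.card_option, hF]

include hF in
theorem index_stab_ptI : (stabilizer (PSL2 F) (ptI (AC F))).index = q + 1 := by
  rw [index_stabilizer, orbit_ptI, card_rat hF]

include hF in
theorem index_stab_rat {x : XF F} (hx : IsRat x) : (stabilizer (PSL2 F) x).index = q + 1 := by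
  obtain ⟨T, rfl⟩ := exists_T_rat hx
  rw [index_stabilizer, orbit_smul, ← index_stabilizer, index_stab_ptI hF]

include hF in
theorem card_Qs_ptI : Nat.card (Qs (isD_F (F := F) p) (ptI (AC F))) = q := by
  rw [← hF, ← Nat.card_eq_fintype_card]
  symm
  refine Nat.card_congr (Equiv.ofBijective (fun α : F => (⟨pr (U α), U_fix_inf α, U_pow p α⟩ : Qs (isD_F (F := F) p) (ptI (AC F)))) ⟨?_, ?_⟩)
  · intro a b hab
    exact pr_U_inj (congrArg Subtype.val hab)
  · rintro ⟨u, hu⟩
    obtain ⟨α, hα⟩ := Qs_form p u hu.1 hu.2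
    exact ⟨α, Subtype.ext hα.symm⟩

include hF in
/-- The order of the pointwise stabiliser of `∞, 0`. -/
theorem card_ptStab_split : Nat.card (ptStab (ptI (AC F)) (pt0 F)) * Nat.gcd 2 (q - 1) = q - 1 := by
  classical
  set C := ptStab (ptI (AC F)) (pt0 F) with hC
  have h1 : Nat.card (stabilizer (PSL2 F) (ptI (AC F))) = q * Nat.card C := by
    have hq : q = Nat.card F := by rw [Nat.card_eq_fintype_card, hF]
    rw [hq, ← Nat.card_prod]
    symm
    refine Nat.card_congr (Equiv.ofBijective (fun a : F × C => (⟨pr (U a.1) * a.2, ?_⟩ : stabilizer (PSL2 F) (ptI (AC F)))) ⟨?_, ?_⟩)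
    · show (pr (U a.1) * (a.2 : PSL2 F)) • ptI (AC F) = ptI (AC F)
      rw [mul_smul, a.2.2.1, U_fix_inf]
    · rintro ⟨a, c⟩ ⟨b, c'⟩ hab
      have h2 : pr (U a) * (c : PSL2 F) = pr (U b) * (c' : PSL2 F) := congrArg Subtype.val hab
      have h3 : (pr (U a) * (c : PSL2 F)) • pt0 F = (pr (U b) * (c' : PSL2 F)) • pt0 F := by rw [h2]
      rw [mul_smul, mul_smul, show (c : PSL2 F) • pt0 F = pt0 F from c.2.2, show (c' : PSL2 F) • pt0 F = pt0 F from c'.2.2, pt0, U_smul_ptA, U_smul_ptA, ptA_inj, add_zero, add_zero] at h3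
      have h4 : a = b := (emb F).injective h3
      subst h4
      have h5 : c = c' := Subtype.ext (mul_left_cancel h2)
      rw [h5]
    · rintro ⟨g, hg⟩
      have hg1 : g • ptI (AC F) = ptI (AC F) := hg
      obtain ⟨M, hM⟩ := pr_surj g
      have hr : IsRat (g • pt0 F) := by
        rw [← hM]
        exact isRat_smul M isRat_pt0
      rcases hr with h6 | ⟨α, h6⟩
      · exfalso
        apply (pt0_ne (F := F))
        apply MulAction.injective g
        show g • pt0 F = g • ptI (AC F)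
        rw [h6, hg1]
      · refine ⟨⟨α, ⟨(pr (U α))⁻¹ * g, ?_, ?_⟩⟩, ?_⟩
        · show ((pr (U α))⁻¹ * g) • ptI (AC F) = ptI (AC F)
          rw [mul_smul, hg1, inv_smul_eq_iff, U_fix_inf]
        · show ((pr (U α))⁻¹ * g) • pt0 F = pt0 F
          rw [mul_smul, h6, inv_smul_eq_iff, pt0, U_smul_ptA, add_zero]
        · apply Subtype.ext
          show pr (U α) * ((pr (U α))⁻¹ * g) = g
          group
  have h2 := card_PSL2 hF
  have h3 : Nat.card (stabilizer (PSL2 F) (ptI (AC F))) * (q + 1) = Nat.card (PSL2 F) := by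
    rw [← index_stab_ptI hF]
    exact (stabilizer _ _).card_mul_index
  rw [← h3, h1] at h2
  have hq : 0 < q := by
    rw [← hF]
    exact Fintype.card_pos
  have h4 : (q + 1) * q * (Nat.card C * Nat.gcd 2 (q - 1)) = (q + 1) * q * (q - 1) := by
    calc _ = q * Nat.card C * (q + 1) * Nat.gcd 2 (q - 1) := by ring
      _ = _ := by rw [h2]; ring
  exact Nat.eq_of_mul_eq_mul_left (by positivity) h4

include hF in
/-- Structure of pairs of rational points. -/
theorem rat_pair_data {x y : XF F} (hx : IsRat x) (hy : IsRat y) (hxy : x ≠ y) :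
    (∃ w : PSL2 F, w • x = y ∧ w • y = x) ∧ Nat.card (ptStab x y) * Nat.gcd 2 (q - 1) = q - 1 := by
  obtain ⟨T, hT1, hT2⟩ := exists_T_pair hx hy hxy
  constructor
  · have hx1 : (1 : F) ≠ 0 := one_ne_zero
    refine ⟨pr T * pr (Wx 1 hx1) * (pr T)⁻¹, ?_, ?_⟩
    · rw [mul_smul, mul_smul, ← hT1, inv_smul_smul, ← hT2]
      congr 1
      rw [pr_smul_XF, pt0, smul_ptI_iff]
      show emb F 0 = emb F 0 * emb F (-(1 : F)⁻¹)
      simp
    · rw [mul_smul, mul_smul, ← hT2, inv_smul_smul, ← hT1]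
      congr 1
      rw [pr_smul_XF, pt0, smul_ptA_inf_iff]
      show emb F (-(1 : F)⁻¹) * emb F 0 + emb F 0 = 0
      simp
  · have e : Nat.card (ptStab x y) = Nat.card (ptStab (ptI (AC F)) (pt0 F)) := ?_
    · rw [e]
      exact card_ptStab_split hF
    refine Nat.card_congr (Equiv.ofBijective (fun g : ptStab (ptI (AC F)) (pt0 F) => (⟨pr T * g * (pr T)⁻¹, ?_, ?_⟩ : ptStab x y)) ⟨?_, ?_⟩).symm
    · show (pr T * (g : PSL2 F) * (pr T)⁻¹) • x = x
      rw [mul_smul, mul_smul, ← hT1, inv_smul_smul, g.2.1]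
    · show (pr T * (g : PSL2 F) * (pr T)⁻¹) • y = y
      rw [mul_smul, mul_smul, ← hT2, inv_smul_smul, g.2.2]
    · intro a b hab
      have h1 : pr T * (a : PSL2 F) * (pr T)⁻¹ = pr T * (b : PSL2 F) * (pr T)⁻¹ := congrArg Subtype.val hab
      apply Subtype.ext
      exact mul_left_cancel (mul_right_cancel h1)
    · rintro ⟨g, hg⟩
      refine ⟨⟨(pr T)⁻¹ * g * pr T, ?_, ?_⟩, ?_⟩
      · show ((pr T)⁻¹ * g * pr T) • ptI (AC F) = ptI (AC F)
        rw [mul_smul, mul_smul, hT1, show g • x = x from hg.1, ← hT1, inv_smul_smul]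
      · show ((pr T)⁻¹ * g * pr T) • pt0 F = pt0 F
        rw [mul_smul, mul_smul, hT2, show g • y = y from hg.2, ← hT2, inv_smul_smul]
      · apply Subtype.ext
        show pr T * ((pr T)⁻¹ * g * pr T) * (pr T)⁻¹ = g
        group

end fin

end CfsgLib.Dickson
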