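import Cfsg.Agent.Lib.Dickson.Over

/-! Tori of `PSL₂` over a finite field: structure and maximality of their normalisers. -/

set_option autoImplicit false
set_option linter.unusedSimpArgs false
set_option linter.unusedVariables false
set_option linter.unusedSectionVars false
set_option linter.style.haveILetI false

namespace CfsgLib.Dickson

open Matrix CfsgLib.H9.SL2Cl MulAction
open CfsgLib.H9.PSL2 (pr pr_surj pr_eq_iff pr_eq_one_iff pr_zS pr_mul pr_pow pr_one)
open CfsgLib.H9.BorelChar (zS zS_00 zS_01 zS_10 zS_11 zS_central zS_sq)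

variable {F : Type*} [Field F] [Fintype F] {q : ℕ} (hF : Fintype.card F = q)
variable (p : ℕ) [Fact p.Prime] [CharP F p]

include p in
/-- The fixed points of an element fixing two points. -/
theorem fix_pair {x y : XF F} (hxy : x ≠ y) {g : PSL2 F} (h1 : g ≠ 1) (hx : g • x = x) (hy : g • y = y) (z : XF F) :
    g • z = z ↔ z = x ∨ z = y := by
  have h₀ := isD_F (F := F) p
  have hp : g ^ p ≠ 1 := ptStab_no_p p hxy ⟨hx, hy⟩ h1
  obtain ⟨u, v, huv, hz⟩ := h₀.fix2 g h1 hp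
  have hx' := (hz x).1 hx
  have hy' := (hz y).1 hy
  rw [hz]
  grind

include hF p in
/-- Index of the stabiliser of an irrational point. -/
theorem nonrat_index {x : XF F} (hx : ¬ IsRat x) (g : PSL2 F) (hg : g ≠ 1) (hgx : g • x = x) :
    (stabilizer (PSL2 F) x).index = q * (q - 1) := by
  have h₀ := isD_F (F := F) p
  have hq := two_le_q hF
  obtain ⟨hA, hB⟩ := h₀.orbit_struct (Qs_ptI_ne p)
  obtain ⟨y₁, hy₁, hQ₁, hi⟩ := hB (by rw [index_stab_ptI hF]; omega)
  have hQx : Qs h₀ x = ⊥ := by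
    by_contra hne
    exact hx ((Qs_iff p x).1 hne)
  obtain ⟨a, ha⟩ := hA y₁ x hy₁ ⟨g, hg, hgx⟩ hQ₁ hQx
  have h1 : (stabilizer (PSL2 F) x).index = (stabilizer (PSL2 F) y₁).index := by
    rw [← ha, index_stabilizer, index_stabilizer, orbit_smul]
  rw [h1, hi, index_stab_ptI hF, card_Qs_ptI hF p]
  obtain ⟨r, rfl⟩ : ∃ r, q = r + 2 := ⟨q - 2, by omega⟩
  simp only [Nat.add_sub_cancel, show r + 2 - 1 = r + 1 by omega]
  ring

include hF p in
/-- Order of the stabiliser of an irrational point. -/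
theorem card_stab_nonrat {x : XF F} (hx : ¬ IsRat x) (g : PSL2 F) (hg : g ≠ 1) (hgx : g • x = x) :
    Nat.card (stabilizer (PSL2 F) x) * Nat.gcd 2 (q - 1) = q + 1 := by
  have h1 := card_PSL2 hF
  have h2 := (stabilizer (PSL2 F) x).card_mul_index
  rw [nonrat_index hF p hx g hg hgx] at h2
  have hq := two_le_q hF
  rw [← h2] at h1
  have hpos : 0 < q * (q - 1) := Nat.mul_pos (by omega) (by omega)
  apply Nat.eq_of_mul_eq_mul_right hpos
  rw [← h1]
  ring

include p in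
/-- At an irrational point, the stabiliser is the pointwise stabiliser of the pair. -/
theorem stab_eq_ptStab {x y : XF F} (hx : ¬ IsRat x) (hxy : x ≠ y) (g : PSL2 F) (hg : g ≠ 1) (hgx : g • x = x) (hgy : g • y = y) :
    ptStab x y = stabilizer (PSL2 F) x := by
  have h₀ := isD_F (F := F) p
  have hQx : Qs h₀ x = ⊥ := by
    by_contra hne
    exact hx ((Qs_iff p x).1 hne)
  apply le_antisymm (fun a ha => ha.1)
  intro a ha
  refine ⟨ha, ?_⟩
  obtain ⟨ρ, hρ⟩ := h₀.exists_gen x hQx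
  have hcomm : a * g = g * a := by
    have h1 : a ∈ Subgroup.zpowers ρ := by rw [hρ]; exact ha
    have h2 : g ∈ Subgroup.zpowers ρ := by rw [hρ]; exact hgx
    obtain ⟨i, hi⟩ := h1
    obtain ⟨j, hj⟩ := h2
    have hi' : ρ ^ i = a := hi
    have hj' : ρ ^ j = g := hj
    rw [← hi', ← hj']
    exact ((Commute.refl ρ).zpow_zpow i j).eq
  have h1 : g • (a • y) = a • y := by
    rw [← mul_smul, ← hcomm, mul_smul, hgy]
  have ha' : a • x = x := ha
  rcases (fix_pair p hxy hg hgx hgy (a • y)).1 h1 with h2 | h2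
  · exfalso
    apply hxy
    apply MulAction.injective a
    show a • x = a • y
    rw [ha', h2]
  · exact h2

include p in
theorem nonrat_second {x y : XF F} (hx : ¬ IsRat x) (hxy : x ≠ y) (g : PSL2 F) (hg : g ≠ 1) (hgx : g • x = x) (hgy : g • y = y) :
    ¬ IsRat y := fun h => hx (rat_second g hg h hxy.symm hgy hgx)

include hF p in
/-- Structure of pairs of irrational points. -/
theorem nonrat_pair_data {x y : XF F} (hx : ¬ IsRat x) (hxy : x ≠ y) (g : PSL2 F) (hg : g ≠ 1) (hgx : g • x = x) (hgy : g • y = y) :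
    (∃ w : PSL2 F, w • x = y ∧ w • y = x) ∧ Nat.card (ptStab x y) * Nat.gcd 2 (q - 1) = q + 1 := by
  have h₀ := isD_F (F := F) p
  have hy := nonrat_second p hx hxy g hg hgx hgy
  have hQx : Qs h₀ x = ⊥ := by
    by_contra hne
    exact hx ((Qs_iff p x).1 hne)
  have hQy : Qs h₀ y = ⊥ := by
    by_contra hne
    exact hy ((Qs_iff p y).1 hne)
  have e1 := stab_eq_ptStab p hx hxy g hg hgx hgy
  have e2 := stab_eq_ptStab p hy hxy.symm g hg hgy hgx
  constructor
  · obtain ⟨hA, -⟩ := h₀.orbit_struct (Qs_ptI_ne p)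
    obtain ⟨a, ha⟩ := hA x y ⟨g, hg, hgx⟩ ⟨g, hg, hgy⟩ hQx hQy
    refine ⟨a, ha, ?_⟩
    set r := a * g * a⁻¹ with hr
    have hr1 : r ≠ 1 := by
      intro e
      apply hg
      have : g = a⁻¹ * r * a := by rw [hr]; group
      rw [this, e]
      group
    have hry : r • y = y := by
      rw [hr, ← ha]
      simp [mul_smul, hgx]
    have hrm : r ∈ ptStab y x := by
      rw [e2]
      exact hry
    have hrx : r • x = x := hrm.2
    have h3 : r • (a • y) = a • y := by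
      rw [hr]
      simp [mul_smul, hgy]
    rcases (fix_pair p hxy hr1 hrx hry (a • y)).1 h3 with h4 | h4
    · exact h4
    · exfalso
      apply hxy
      apply MulAction.injective a
      show a • x = a • y
      rw [ha, h4]
  · rw [e1]
    exact card_stab_nonrat hF p hx g hg hgx

include hF p in
/-- Existence of a pair of irrational points. -/
theorem exists_nonsplit : ∃ (x y : XF F) (g : PSL2 F), x ≠ y ∧ ¬ IsRat x ∧ g ≠ 1 ∧ g • x = x ∧ g • y = y := by
  have h₀ := isD_F (F := F) p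
  have hq := two_le_q hF
  obtain ⟨-, hB⟩ := h₀.orbit_struct (Qs_ptI_ne p)
  obtain ⟨y₁, ⟨g, hg, hgy⟩, hQ₁, -⟩ := hB (by rw [index_stab_ptI hF]; omega)
  have hnr : ¬ IsRat y₁ := fun h => (Qs_iff p y₁).2 h hQ₁
  have hgp : g ^ p ≠ 1 := fun e => hnr (rat_fix p g hg e y₁ hgy)
  obtain ⟨u, v, huv, hz⟩ := h₀.fix2 g hg hgp
  rcases (hz y₁).1 hgy with rfl | rfl
  · exact ⟨y₁, v, g, huv, hnr, hg, hgy, (hz v).2 (Or.inr rfl)⟩
  · exact ⟨y₁, u, g, huv.symm, hnr, hg, hgy, (hz u).2 (Or.inl rfl)⟩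

include hF p in
/-- The structure attached to two points fixed by a nontrivial element. -/
theorem torus_data {x y : XF F} (hxy : x ≠ y) (g : PSL2 F) (hg : g ≠ 1) (hgx : g • x = x) (hgy : g • y = y) :
    ∃ ρ w : PSL2 F, Subgroup.zpowers ρ = ptStab x y ∧ w • x = y ∧ w • y = x ∧
      (orderOf ρ * Nat.gcd 2 (q - 1) = q - 1 ∧ IsRat x ∨ orderOf ρ * Nat.gcd 2 (q - 1) = q + 1 ∧ ¬ IsRat x) := by
  obtain ⟨ρ, hρ⟩ := ptStab_gen p hxy
  have hc : Nat.card (ptStab x y) = orderOf ρ := by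
    rw [← hρ, Nat.card_zpowers]
  by_cases hx : IsRat x
  · have hy : IsRat y := rat_second g hg hx hxy hgx hgy
    obtain ⟨⟨w, h1, h2⟩, h3⟩ := rat_pair_data hF hx hy hxy
    rw [hc] at h3
    exact ⟨ρ, w, hρ, h1, h2, Or.inl ⟨h3, hx⟩⟩
  · obtain ⟨⟨w, h1, h2⟩, h3⟩ := nonrat_pair_data hF p hx hxy g hg hgx hgy
    rw [hc] at h3
    exact ⟨ρ, w, hρ, h1, h2, Or.inr ⟨h3, hx⟩⟩

/-- The swap inverts the torus. -/
theorem swap_inverts {x y : XF F} (hxy : x ≠ y) (w ρ : PSL2 F) (hw1 : w • x = y) (hw2 : w • y = x) (h1 : ρ • x = x) (h2 : ρ • y = y) :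
    w * ρ * w⁻¹ = ρ⁻¹ := by
  have h3 : (w * ρ) ^ 2 = 1 := swap_inv_F _ hxy (by rw [mul_smul, h1, hw1]) (by rw [mul_smul, h2, hw2])
  have h4 : w ^ 2 = 1 := swap_inv_F _ hxy hw1 hw2
  have h5 : w⁻¹ = w := inv_eq_of_mul_eq_one_left (by rw [← sq]; exact h4)
  rw [h5]
  rw [sq] at h3
  have : w * ρ * w * ρ = 1 := by simpa [mul_assoc] using h3
  exact eq_inv_of_mul_eq_one_left this

end CfsgLib.Dickson
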