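import Cfsg.Agent.Lib.Dickson.KBData

/-! Homomorphisms from `A₄`, `S₄`, `A₅` into arbitrary groups, from the triangle relations. -/

set_option autoImplicit false
set_option maxRecDepth 100000
set_option linter.unusedSimpArgs false
set_option linter.unusedVariables false

namespace CfsgLib.Present

open Equiv

/-- Inverse of letters. -/
def invL : Fin 3 → Fin 3 := ![0, 2, 1]

def xA4 : alternatingGroup (Fin 4) := ⟨swap 0 1 * swap 2 3, by
  rw [Equiv.Perm.mem_alternatingGroup, map_mul, Equiv.Perm.sign_swap (by decide), Equiv.Perm.sign_swap (by decide)]; rfl⟩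
def yA4 : alternatingGroup (Fin 4) := ⟨swap 1 2 * swap 2 3, by
  rw [Equiv.Perm.mem_alternatingGroup, map_mul, Equiv.Perm.sign_swap (by decide), Equiv.Perm.sign_swap (by decide)]; rfl⟩
def xS4 : Perm (Fin 4) := swap 2 3
def yS4 : Perm (Fin 4) := swap 0 1 * swap 1 2
def xA5 : alternatingGroup (Fin 5) := ⟨swap 1 2 * swap 3 4, by
  rw [Equiv.Perm.mem_alternatingGroup, map_mul, Equiv.Perm.sign_swap (by decide), Equiv.Perm.sign_swap (by decide)]; rfl⟩
def yA5 : alternatingGroup (Fin 5) := ⟨swap 0 1 * swap 1 3, by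
  rw [Equiv.Perm.mem_alternatingGroup, map_mul, Equiv.Perm.sign_swap (by decide), Equiv.Perm.sign_swap (by decide)]; rfl⟩

section

variable {G : Type*} [Group G] (x y : G)

theorem hinv_gen (hx : x ^ 2 = 1) (i : Fin 3) : ((![x, y, y⁻¹] : Fin 3 → G) i)⁻¹ = (![x, y, y⁻¹] : Fin 3 → G) (invL i) := by
  have h1 : x⁻¹ = x := inv_eq_of_mul_eq_one_left (by rw [← sq]; exact hx)
  fin_cases i <;> simp [invL, h1]

theorem valid_A4 (hx : x ^ 2 = 1) (hy : y ^ 3 = 1) (hxy : (x * y) ^ 3 = 1) : Valid (![x, y, y⁻¹] : Fin 3 → G) R0A4 := by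
  have h1 : x * x = 1 := by rw [← sq]; exact hx
  have h2 : y * y = y⁻¹ := by
    apply eq_inv_of_mul_eq_one_left
    rw [← hy]; simp [pow_succ]
  have h3 : y⁻¹ * y⁻¹ = y := by
    rw [← mul_inv_rev, h2, inv_inv]
  intro r hr
  simp only [R0A4, List.mem_cons, List.not_mem_nil, or_false] at hr
  rcases hr with rfl | rfl | rfl | rfl | rfl | rfl <;> simp [ev, h1, h2, h3]
  have := hxy
  simp only [pow_succ, pow_zero, one_mul, mul_assoc] at this
  exact this

theorem valid_S4 (hx : x ^ 2 = 1) (hy : y ^ 3 = 1) (hxy : (x * y) ^ 4 = 1) : Valid (![x, y, y⁻¹] : Fin 3 → G) R0S4 := by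
  have h1 : x * x = 1 := by rw [← sq]; exact hx
  have h2 : y * y = y⁻¹ := by
    apply eq_inv_of_mul_eq_one_left
    rw [← hy]; simp [pow_succ]
  have h3 : y⁻¹ * y⁻¹ = y := by
    rw [← mul_inv_rev, h2, inv_inv]
  intro r hr
  simp only [R0S4, List.mem_cons, List.not_mem_nil, or_false] at hr
  rcases hr with rfl | rfl | rfl | rfl | rfl | rfl <;> simp [ev, h1, h2, h3]
  have := hxy
  simp only [pow_succ, pow_zero, one_mul, mul_assoc] at this
  exact this

theorem valid_A5 (hx : x ^ 2 = 1) (hy : y ^ 3 = 1) (hxy : (x * y) ^ 5 = 1) : Valid (![x, y, y⁻¹] : Fin 3 → G) R0A5 := by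
  have h1 : x * x = 1 := by rw [← sq]; exact hx
  have h2 : y * y = y⁻¹ := by
    apply eq_inv_of_mul_eq_one_left
    rw [← hy]; simp [pow_succ]
  have h3 : y⁻¹ * y⁻¹ = y := by
    rw [← mul_inv_rev, h2, inv_inv]
  intro r hr
  simp only [R0A5, List.mem_cons, List.not_mem_nil, or_false] at hr
  rcases hr with rfl | rfl | rfl | rfl | rfl | rfl <;> simp [ev, h1, h2, h3]
  have := hxy
  simp only [pow_succ, pow_zero, one_mul, mul_assoc] at this
  exact this

end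

theorem surjA4 : ∀ γ : alternatingGroup (Fin 4), ∃ w ∈ TA4, ev (![xA4, yA4, yA4⁻¹] : Fin 3 → alternatingGroup (Fin 4)) w = γ := by
  decide +kernel

theorem surjS4 : ∀ γ : Perm (Fin 4), ∃ w ∈ TS4, ev (![xS4, yS4, yS4⁻¹] : Fin 3 → Perm (Fin 4)) w = γ := by
  decide +kernel

theorem surjA5 : ∀ γ : alternatingGroup (Fin 5), ∃ w ∈ TA5, ev (![xA5, yA5, yA5⁻¹] : Fin 3 → alternatingGroup (Fin 5)) w = γ := by
  decide +kernel

theorem relA4 : xA4 ^ 2 = 1 ∧ yA4 ^ 3 = 1 ∧ (xA4 * yA4) ^ 3 = 1 := by decide +kernel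
theorem relS4 : xS4 ^ 2 = 1 ∧ yS4 ^ 3 = 1 ∧ (xS4 * yS4) ^ 4 = 1 := by decide +kernel
theorem relA5 : xA5 ^ 2 = 1 ∧ yA5 ^ 3 = 1 ∧ (xA5 * yA5) ^ 5 = 1 := by decide +kernel

/-- `A₄` maps to any group with the `(2,3,3)` relations. -/
theorem hom_A4 {G : Type*} [Group G] (x y : G) (hx : x ^ 2 = 1) (hy : y ^ 3 = 1) (hxy : (x * y) ^ 3 = 1) :
    ∃ φ : alternatingGroup (Fin 4) →* G, φ xA4 = x ∧ φ yA4 = y := by
  obtain ⟨φ, hφ⟩ := exists_hom_of_cert (![x, y, y⁻¹] : Fin 3 → G) (![xA4, yA4, yA4⁻¹] : Fin 3 → alternatingGroup (Fin 4))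
    chkA4 (by rw [lenA4, Nat.card_eq_fintype_card]; decide) surjA4 invL (hinv_gen _ _ relA4.1) (hinv_gen _ _ hx)
    (valid_A4 _ _ relA4.1 relA4.2.1 relA4.2.2) (valid_A4 x y hx hy hxy)
  exact ⟨φ, hφ 0, hφ 1⟩

/-- `S₄` maps to any group with the `(2,3,4)` relations. -/
theorem hom_S4 {G : Type*} [Group G] (x y : G) (hx : x ^ 2 = 1) (hy : y ^ 3 = 1) (hxy : (x * y) ^ 4 = 1) :
    ∃ φ : Perm (Fin 4) →* G, φ xS4 = x ∧ φ yS4 = y := by
  obtain ⟨φ, hφ⟩ := exists_hom_of_cert (![x, y, y⁻¹] : Fin 3 → G) (![xS4, yS4, yS4⁻¹] : Fin 3 → Perm (Fin 4))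
    chkS4 (by rw [lenS4, Nat.card_eq_fintype_card, Fintype.card_perm]; decide) surjS4 invL (hinv_gen _ _ relS4.1) (hinv_gen _ _ hx)
    (valid_S4 _ _ relS4.1 relS4.2.1 relS4.2.2) (valid_S4 x y hx hy hxy)
  exact ⟨φ, hφ 0, hφ 1⟩

/-- `A₅` maps to any group with the `(2,3,5)` relations. -/
theorem hom_A5 {G : Type*} [Group G] (x y : G) (hx : x ^ 2 = 1) (hy : y ^ 3 = 1) (hxy : (x * y) ^ 5 = 1) :
    ∃ φ : alternatingGroup (Fin 5) →* G, φ xA5 = x ∧ φ yA5 = y := by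
  obtain ⟨φ, hφ⟩ := exists_hom_of_cert (![x, y, y⁻¹] : Fin 3 → G) (![xA5, yA5, yA5⁻¹] : Fin 3 → alternatingGroup (Fin 5))
    chkA5 (by rw [lenA5, Nat.card_eq_fintype_card]; decide +kernel) surjA5 invL (hinv_gen _ _ relA5.1) (hinv_gen _ _ hx)
    (valid_A5 _ _ relA5.1 relA5.2.1 relA5.2.2) (valid_A5 x y hx hy hxy)
  exact ⟨φ, hφ 0, hφ 1⟩

/-- Injectivity criteria: a homomorphism on `A₄` not killing the double transposition. -/
theorem inj_A4 {G : Type*} [Group G] (φ : alternatingGroup (Fin 4) →* G) (h : φ xA4 ≠ 1) : Function.Injective φ := by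
  rw [injective_iff_map_eq_one]
  have key : ∀ γ : alternatingGroup (Fin 4), γ ≠ 1 → ∃ a b c : alternatingGroup (Fin 4), xA4 = (a * γ * a⁻¹) * (b * γ * b⁻¹) * (c * γ * c⁻¹) := by
    decide +kernel
  intro γ hγ
  by_contra hne
  obtain ⟨a, b, c, e⟩ := key γ hne
  apply h
  rw [e]
  simp [hγ]

/-- Injectivity criteria: a homomorphism on `S₄` not killing a double transposition. -/
theorem inj_S4 {G : Type*} [Group G] (φ : Perm (Fin 4) →* G) (h : φ ((xS4 * yS4) ^ 2) ≠ 1) : Function.Injective φ := by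
  rw [injective_iff_map_eq_one]
  have key : ∀ γ : Perm (Fin 4), γ ≠ 1 → ∃ a b : Perm (Fin 4), (xS4 * yS4) ^ 2 = (a * γ * a⁻¹) * (b * γ * b⁻¹) := by
    decide +kernel
  intro γ hγ
  by_contra hne
  obtain ⟨a, b, e⟩ := key γ hne
  apply h
  rw [e]
  simp [hγ]

/-- Injectivity criteria: a homomorphism on `A₅` not killing an involution. -/
theorem inj_A5 {G : Type*} [Group G] (φ : alternatingGroup (Fin 5) →* G) (h : φ xA5 ≠ 1) : Function.Injective φ := by
  rw [injective_iff_map_eq_one]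
  intro γ hγ
  haveI := alternatingGroup.isSimpleGroup_five
  rcases (Subgroup.Normal.eq_bot_or_eq_top (φ.normal_ker)) with h0 | h0
  · have : γ ∈ φ.ker := hγ
    rw [h0] at this
    exact this
  · exfalso
    apply h
    have : xA5 ∈ φ.ker := by
      rw [h0]
      trivial
    exact this

end CfsgLib.Present
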