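import Cfsg.Agent.Lib.Dickson.Apps
import Cfsg.Agent.Lib.Dickson.Tri

/-! Triples of matrices with prescribed traces: `A₄`, `S₄`, `A₅` inside `PSL₂`. -/

set_option autoImplicit false
set_option linter.unusedSimpArgs false
set_option linter.unusedVariables false
set_option linter.unusedSectionVars false
set_option linter.style.haveILetI false

namespace CfsgLib.Dickson

open Matrix CfsgLib.H9.SL2Cl MulAction
open CfsgLib.H9.PSL2 (pr pr_surj pr_eq_iff pr_eq_one_iff pr_zS pr_mul pr_pow pr_one)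
open CfsgLib.H9.BorelChar (zS zS_00 zS_01 zS_10 zS_11 zS_central zS_sq)
open CfsgLib.Present

variable {F : Type*} [Field F]

/-- The trace. -/
def trc (A : SL2 F) : F := A.1 0 0 + A.1 1 1

/-- `A ^ n = c A + d`. -/
def LinPow (A : SL2 F) (n : ℕ) (c d : F) : Prop :=
  (A ^ n).1 0 0 = c * A.1 0 0 + d ∧ (A ^ n).1 0 1 = c * A.1 0 1 ∧ (A ^ n).1 1 0 = c * A.1 1 0 ∧ (A ^ n).1 1 1 = c * A.1 1 1 + d

theorem LinPow.first (A : SL2 F) : LinPow A 1 1 0 := by
  simp [LinPow]

theorem LinPow.next {A : SL2 F} {n : ℕ} {c d : F} (h : LinPow A n c d) : LinPow A (n + 1) (c * trc A + d) (-c) := by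
  obtain ⟨h1, h2, h3, h4⟩ := h
  have hd := det_eq A
  unfold LinPow trc
  rw [pow_succ, mul_00, mul_01, mul_10, mul_11, h1, h2, h3, h4]
  refine ⟨?_, ?_, ?_, ?_⟩
  · linear_combination (-c) * hd
  · ring
  · ring
  · linear_combination (-c) * hd

theorem LinPow.pr_one {A : SL2 F} {n : ℕ} (h : LinPow A n 0 (-1)) : pr A ^ n = 1 := by
  rw [← pr_pow, pr_eq_one_iff]
  right
  obtain ⟨h1, h2, h3, h4⟩ := h
  apply sl_ext
  · rw [h1]; simp [zS_00]
  · rw [h2]; simp [zS_01]
  · rw [h3]; simp [zS_10]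
  · rw [h4]; simp [zS_11]

theorem pow_two_of_tr0 (B : SL2 F) (h : trc B = 0) : pr B ^ 2 = 1 := by
  have := (LinPow.first B).next
  simp only [h, mul_zero, zero_add] at this
  norm_num at this
  exact LinPow.pr_one this

theorem pow_three_of_tr1 (C : SL2 F) (h : trc C = 1) : pr C ^ 3 = 1 := by
  have := (LinPow.first C).next.next
  simp only [h] at this
  norm_num at this
  exact LinPow.pr_one this

theorem pow_four_of_sq2 (A : SL2 F) (h : trc A ^ 2 = 2) : pr A ^ 4 = 1 := by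
  have := (LinPow.first A).next.next.next
  have e1 : (1 * trc A + 0) * trc A + -1 = (1 : F) := by linear_combination h
  have e2 : ((1 * trc A + 0) * trc A + -1) * trc A + -(1 * trc A + 0) = (0 : F) := by
    rw [e1]; ring
  rw [e2, e1] at this
  exact LinPow.pr_one this

theorem pow_five_of_golden (A : SL2 F) (h : trc A ^ 2 = trc A + 1) : pr A ^ 5 = 1 := by
  have := (LinPow.first A).next.next.next.next
  have e1 : (1 * trc A + 0) * trc A + -1 = trc A := by linear_combination h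
  have e2 : ((1 * trc A + 0) * trc A + -1) * trc A + -(1 * trc A + 0) = (1 : F) := by
    rw [e1]; linear_combination h
  have e3 : (((1 * trc A + 0) * trc A + -1) * trc A + -(1 * trc A + 0)) * trc A + -((1 * trc A + 0) * trc A + -1) = (0 : F) := by
    rw [e2, e1]; ring
  rw [e3, e2] at this
  exact LinPow.pr_one this

/-- The relations of a triple. -/
theorem triple_rel (A B : SL2 F) (hB : trc B = 0) :
    pr B ^ 2 = 1 ∧ pr B * pr (B * A) = pr A := by
  have h1 := pow_two_of_tr0 B hB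
  refine ⟨h1, ?_⟩
  rw [pr_mul, ← mul_assoc, ← sq, h1, one_mul]

/-- A triple with trace `1` gives `A₄`. -/
theorem A4_of_triple (A B : SL2 F) (hA : trc A = 1) (hB : trc B = 0) (hAB : trc (B * A) = 1) (hne : pr B ≠ 1) :
    ∃ φ : alternatingGroup (Fin 4) →* PSL2 F, Function.Injective φ ∧ φ xA4 = pr B ∧ φ yA4 = pr (B * A) := by
  obtain ⟨h1, h2⟩ := triple_rel A B hB
  obtain ⟨φ, h3, h4⟩ := hom_A4 (pr B) (pr (B * A)) h1 (pow_three_of_tr1 _ hAB) (by rw [h2]; exact pow_three_of_tr1 _ hA)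
  refine ⟨φ, inj_A4 φ (by rw [h3]; exact hne), h3, h4⟩

/-- A triple with trace `√2` gives `S₄`. -/
theorem S4_of_triple (A B : SL2 F) (hA : trc A ^ 2 = 2) (hB : trc B = 0) (hAB : trc (B * A) = 1) (hne : pr A ^ 2 ≠ 1) :
    ∃ φ : Equiv.Perm (Fin 4) →* PSL2 F, Function.Injective φ ∧ φ xS4 = pr B ∧ φ yS4 = pr (B * A) := by
  obtain ⟨h1, h2⟩ := triple_rel A B hB
  obtain ⟨φ, h3, h4⟩ := hom_S4 (pr B) (pr (B * A)) h1 (pow_three_of_tr1 _ hAB) (by rw [h2]; exact pow_four_of_sq2 _ hA)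
  refine ⟨φ, inj_S4 φ (by rw [map_pow, map_mul, h3, h4, h2]; exact hne), h3, h4⟩

/-- A triple with golden trace gives `A₅`. -/
theorem A5_of_triple (A B : SL2 F) (hA : trc A ^ 2 = trc A + 1) (hB : trc B = 0) (hAB : trc (B * A) = 1) (hne : pr B ≠ 1) :
    ∃ φ : alternatingGroup (Fin 5) →* PSL2 F, Function.Injective φ ∧ φ xA5 = pr B ∧ φ yA5 = pr (B * A) := by
  obtain ⟨h1, h2⟩ := triple_rel A B hB
  obtain ⟨φ, h3, h4⟩ := hom_A5 (pr B) (pr (B * A)) h1 (pow_three_of_tr1 _ hAB) (by rw [h2]; exact pow_five_of_golden _ hA)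
  refine ⟨φ, inj_A5 φ (by rw [h3]; exact hne), h3, h4⟩

theorem pr_ne_one_of_tr0 (B : SL2 F) (h2 : (2 : F) ≠ 0) (hB : trc B = 0) : pr B ≠ 1 := by
  intro h
  rcases (pr_eq_one_iff B).1 h with rfl | rfl
  · apply h2
    have : trc (1 : SL2 F) = 2 := by
      simp [trc]
      norm_num
    rw [← this, hB]
  · apply h2
    have : trc (zS F) = -2 := by
      simp [trc, zS_00, zS_11]
      norm_num
    have h3 : -(2 : F) = 0 := by rw [← this, hB]
    simpa using h3

/-- Existence of triples over a finite field of odd order. -/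
theorem exists_triple_odd [Fintype F] (hodd : Fintype.card F % 2 = 1) (τ : F) :
    ∃ A B : SL2 F, trc A = τ ∧ trc B = 0 ∧ trc (B * A) = 1 := by
  classical
  have hf : (-Polynomial.X ^ 2 + Polynomial.C τ * Polynomial.X : Polynomial F).degree = 2 := by
    compute_degree!
  have hg : (-Polynomial.X ^ 2 - Polynomial.X - 1 : Polynomial F).degree = 2 := by
    compute_degree!
  obtain ⟨a, b, hab⟩ := FiniteField.exists_root_sum_quadratic hf hg hodd
  simp at hab
  refine ⟨mk a b (b + 1) (τ - a) (by linear_combination hab), W, ?_, ?_, ?_⟩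
  · simp [trc]
  · simp [trc, W]
  · simp [trc, W, mul_00, mul_11]

theorem sq2_ne_one (A : SL2 F) (h2 : (2 : F) ≠ 0) (hA : trc A ^ 2 = 2) : pr A ^ 2 ≠ 1 := by
  have hσ : trc A ≠ 0 := by
    intro e
    rw [e] at hA
    apply h2
    rw [← hA]
    ring
  obtain ⟨l1, l2, l3, l4⟩ := (LinPow.first A).next
  simp only [one_mul, add_zero] at l1 l2 l3 l4
  intro h
  rw [← pr_pow, pr_eq_one_iff] at h
  have hc : A ^ (1 + 1) = A ^ 2 := rfl
  rw [hc] at l1 l2 l3 l4
  have key : ∃ ε : F, ε ^ 2 = 1 ∧ (A ^ 2).1 0 0 = ε ∧ (A ^ 2).1 0 1 = 0 ∧ (A ^ 2).1 1 0 = 0 ∧ (A ^ 2).1 1 1 = ε := by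
    rcases h with h | h
    · refine ⟨1, by ring, ?_, ?_, ?_, ?_⟩ <;> rw [h] <;> simp
    · refine ⟨-1, by ring, ?_, ?_, ?_, ?_⟩ <;> rw [h] <;> simp [zS_00, zS_01, zS_10, zS_11]
  obtain ⟨ε, hε, k1, k2, k3, k4⟩ := key
  rw [k1] at l1
  rw [k2] at l2
  rw [k3] at l3
  rw [k4] at l4
  have a01 : A.1 0 1 = 0 := (mul_eq_zero.1 l2.symm).resolve_left hσ
  have a10 : A.1 1 0 = 0 := (mul_eq_zero.1 l3.symm).resolve_left hσ
  have hdet := det_eq A
  rw [a01, a10] at hdet
  have hq : A.1 0 0 = A.1 1 1 := by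
    have : trc A * (A.1 0 0 - A.1 1 1) = 0 := by linear_combination l4 - l1
    exact sub_eq_zero.1 ((mul_eq_zero.1 this).resolve_left hσ)
  have htr : trc A = 2 * A.1 1 1 := by
    unfold trc
    rw [hq]
    ring
  apply h2
  have h3 : (2 : F) * 2 = 2 * 1 * 2 * 1 := by ring
  have h4 : (A.1 1 1) ^ 2 = 1 := by
    rw [hq] at hdet
    linear_combination hdet
  have h5 : (2 : F) = 4 := by
    rw [← hA, htr]
    linear_combination 4 * h4
  linear_combination -h5 / 1

/-- `A₄` inside `PSL₂` over a finite field of odd order. -/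
theorem exists_A4_odd [Fintype F] (hodd : Fintype.card F % 2 = 1) (h2 : (2 : F) ≠ 0) :
    ∃ φ : alternatingGroup (Fin 4) →* PSL2 F, Function.Injective φ := by
  obtain ⟨A, B, h1, h3, h4⟩ := exists_triple_odd hodd (1 : F)
  obtain ⟨φ, hφ, -⟩ := A4_of_triple A B h1 h3 h4 (pr_ne_one_of_tr0 B h2 h3)
  exact ⟨φ, hφ⟩

/-- `S₄` inside `PSL₂`, when `2` is a square and the order is odd. -/
theorem exists_S4_odd [Fintype F] (hodd : Fintype.card F % 2 = 1) (h2 : (2 : F) ≠ 0) (σ : F) (hσ : σ ^ 2 = 2) :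
    ∃ φ : Equiv.Perm (Fin 4) →* PSL2 F, Function.Injective φ := by
  obtain ⟨A, B, h1, h3, h4⟩ := exists_triple_odd hodd σ
  obtain ⟨φ, hφ, -⟩ := S4_of_triple A B (by rw [h1, hσ]) h3 h4 (sq2_ne_one A h2 (by rw [h1, hσ]))
  exact ⟨φ, hφ⟩

/-- `A₅` inside `PSL₂`, when the golden ratio exists and the order is odd. -/
theorem exists_A5_odd [Fintype F] (hodd : Fintype.card F % 2 = 1) (h2 : (2 : F) ≠ 0) (τ : F) (hτ : τ ^ 2 = τ + 1) :
    ∃ φ : alternatingGroup (Fin 5) →* PSL2 F, Function.Injective φ := by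
  obtain ⟨A, B, h1, h3, h4⟩ := exists_triple_odd hodd τ
  obtain ⟨φ, hφ, -⟩ := A5_of_triple A B (by rw [h1, hτ]) h3 h4 (pr_ne_one_of_tr0 B h2 h3)
  exact ⟨φ, hφ⟩

/-- `A₄` inside `PSL₂` in characteristic two, given a primitive cube root of unity. -/
theorem exists_A4_even (h2 : (2 : F) = 0) (ω : F) (hω : ω ^ 2 + ω + 1 = 0) :
    ∃ φ : alternatingGroup (Fin 4) →* PSL2 F, Function.Injective φ := by
  have h0 : ω ≠ 0 := by
    rintro rfl
    simp at hω
  have hinv : ω⁻¹ = ω + 1 := by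
    field_simp
    linear_combination -hω + h2
  obtain ⟨φ, hφ, -⟩ := A4_of_triple (D ω h0) (U 1)
    (by simp [trc, D, hinv]; linear_combination ω * h2)
    (by simp [trc, U]; linear_combination h2)
    (by simp [trc, D, U, mul_00, mul_11, hinv]; linear_combination ω * h2)
    (by
      intro e
      rcases (pr_eq_one_iff _).1 e with e | e
      · have := congrArg (fun M : SL2 F => M.1 0 1) e
        simp [U] at this
      · have := congrArg (fun M : SL2 F => M.1 0 1) e
        simp [U, zS_01] at this)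
  exact ⟨φ, hφ⟩

/-- `A₅` inside `PSL₂` in characteristic two, given a primitive cube root of unity. -/
theorem exists_A5_even (h2 : (2 : F) = 0) (ω : F) (hω : ω ^ 2 + ω + 1 = 0) :
    ∃ φ : alternatingGroup (Fin 5) →* PSL2 F, Function.Injective φ := by
  have hω2 : ω ^ 2 = ω + 1 := by linear_combination hω - (ω + 1) * h2
  have h3 : ω ^ 3 = 1 := by linear_combination (ω - 1) * hω
  obtain ⟨φ, hφ, -⟩ := A5_of_triple (CfsgLib.H9.SL2Cl.mk 0 ω (ω ^ 2) ω (by linear_combination -h3 - h2)) (U 1)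
    (by simp [trc, CfsgLib.H9.SL2Cl.mk]; exact hω2)
    (by simp [trc, U]; linear_combination h2)
    (by simp [trc, U, mul_00, mul_11]; linear_combination hω - h2)
    (by
      intro e
      rcases (pr_eq_one_iff _).1 e with e | e
      · have := congrArg (fun M : SL2 F => M.1 0 1) e
        simp [U] at this
      · have := congrArg (fun M : SL2 F => M.1 0 1) e
        simp [U, zS_01] at this)
  exact ⟨φ, hφ⟩

local instance fact5' : Fact (Nat.Prime 5) := ⟨by norm_num⟩

theorem qc5 (a : ZMod 5) (h : a = 0 ∨ a = 1 ∨ a = 4) : quadraticChar (ZMod 5) a ≠ -1 := by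
  revert a
  decide

/-- The golden ratio exists when `5 ∣ q (q² - 1)`, for odd `q`. -/
theorem exists_golden_odd [Fintype F] (hodd : Fintype.card F % 2 = 1) (h2 : (2 : F) ≠ 0)
    (h5 : 5 ∣ Fintype.card F * (Fintype.card F ^ 2 - 1)) : ∃ τ : F, τ ^ 2 = τ + 1 := by
  classical
  have hchar : ringChar F ≠ 2 := by
    intro e
    apply h2
    have := ringChar.Nat.cast_ringChar (R := F)
    rw [e] at this
    exact_mod_cast this
  have hsq : IsSquare ((5 : ℕ) : F) := by
    rw [FiniteField.isSquare_odd_prime_iff hchar (by norm_num)]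
    have h4 : ZMod.χ₄ (Fintype.card F : ZMod 4) = 1 ∨ ZMod.χ₄ (Fintype.card F : ZMod 4) = -1 := by
      have h1 : Fintype.card F % 4 = 1 ∨ Fintype.card F % 4 = 3 := by omega
      rcases h1 with h1 | h1
      · exact Or.inl (ZMod.χ₄_nat_one_mod_four h1)
      · exact Or.inr (ZMod.χ₄_nat_three_mod_four h1)
    have h6 : Fintype.card F % 5 = 0 ∨ Fintype.card F % 5 = 1 ∨ Fintype.card F % 5 = 4 := by
      have hc : Fintype.card F ≠ 0 := Fintype.card_ne_zero
      have h7 : 5 ∣ Fintype.card F ∨ 5 ∣ Fintype.card F ^ 2 - 1 := (Nat.Prime.dvd_mul (by norm_num)).1 h5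
      rcases h7 with h7 | h7
      · left
        omega
      · right
        have h8 : (Fintype.card F ^ 2) % 5 = 1 := by
          have hpos : 1 ≤ Fintype.card F ^ 2 := Nat.one_le_pow _ _ (Nat.pos_of_ne_zero hc)
          omega
        have h9 : Fintype.card F % 5 < 5 := Nat.mod_lt _ (by norm_num)
        rw [Nat.pow_mod] at h8
        generalize Fintype.card F % 5 = r at h8 h9
        interval_cases r <;> simp_all
    have h10 : ((Fintype.card F : ℕ) : ZMod 5) = ((Fintype.card F % 5 : ℕ) : ZMod 5) := by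
      rw [ZMod.natCast_mod]
    rw [h10]
    rcases h4 with h4 | h4 <;> rw [h4] <;> rcases h6 with h6 | h6 | h6 <;> rw [h6] <;> apply qc5 <;> decide
  obtain ⟨s, hs⟩ := hsq
  have h20 : (2 : F) ≠ 0 := h2
  refine ⟨(1 + s) / 2, ?_⟩
  have hs' : s * s = 5 := by
    rw [← hs]
    norm_num
  field_simp
  linear_combination hs'

/-- Primitive cube roots of unity. -/
theorem exists_omega [Fintype F] (h3 : 3 ∣ Fintype.card F - 1) : ∃ ω : F, ω ^ 2 + ω + 1 = 0 := by
  classical
  haveI : Fact (Nat.Prime 3) := ⟨by norm_num⟩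
  have hu : Fintype.card Fˣ = Fintype.card F - 1 := Fintype.card_units F
  obtain ⟨g, hg⟩ := exists_prime_orderOf_dvd_card 3 (by rw [hu]; exact h3)
  have h1 : (g : F) ^ 3 = 1 := by
    rw [← hg]
    rw [← Units.val_pow_eq_pow_val, pow_orderOf_eq_one, Units.val_one]
  have h4 : (g : F) ≠ 1 := by
    intro e
    have : g = 1 := Units.ext e
    rw [this, orderOf_one] at hg
    omega
  refine ⟨g, ?_⟩
  have h5 : ((g : F) - 1) * ((g : F) ^ 2 + g + 1) = 0 := by linear_combination h1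
  exact (mul_eq_zero.1 h5).resolve_left (sub_ne_zero.2 h4)

end CfsgLib.Dickson
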